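import Mathlib
import Cfsg.Agent.S33.Defs
import Cfsg.Agent.SF6.A2
import Cfsg.Agent.SF6.A3

/-! Case A: the configuration and the conjugates of `t` commuting with `t`. -/

set_option autoImplicit false
set_option linter.unusedSectionVars false
set_option maxRecDepth 100000
set_option synthInstance.maxSize 100000
set_option synthInstance.maxHeartbeats 1000000

namespace Cfsg.Agent.S33

open Cfsg Cfsg.Agent.Rec Cfsg.Agent.Spor Cfsg.Agent.Loc.Mss Cfsg.Agent.SF6 Subgroup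

variable {G : Type*} [Group G] [Finite G]

/-- Case A: `t y` is not conjugate to `t` and `α` exchanges `t` and `t x1`. -/
structure Ca (G : Type*) [Group G] extends Co G where
  α : G
  hy : t * y ∉ toPre.D
  kp : toPre.Kp α

namespace Ca

variable (s : Ca G)

theorem K1_conj {p : G} (hp : p ∈ s.K1) : ∃ g ∈ s.L, g * s.x1 * g⁻¹ = p := hp

theorem x1_L : s.x1 ∈ s.L := s.V6_le (A3Aux.x1V s.toCfg).1

theorem K1_L {p : G} (hp : p ∈ s.K1) : p ∈ s.L := by
  obtain ⟨g, hg, rfl⟩ := s.K1_conj hp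
  exact mul_mem (mul_mem hg s.x1_L) (inv_mem hg)

theorem K1_cj {p g : G} (hg : g ∈ s.L) (hp : p ∈ s.K1) : g * p * g⁻¹ ∈ s.K1 := conj_mem_cls hg hp

theorem x1_K1 : s.x1 ∈ s.K1 := self_mem_cls _ _

theorem αt : s.α * s.t * s.α⁻¹ = s.t * s.x1 := s.kp.t

theorem αs : s.α * (s.t * s.x1) * s.α⁻¹ = s.t := A3Aux.tx1 s.toCfg s.kp

theorem sD : s.t * s.x1 ∈ s.D := s.αt ▸ s.D_conj s.tD s.α

theorem K1_D {p : G} (hp : p ∈ s.K1) : s.t * p ∈ s.D := by
  obtain ⟨g, hg, rfl⟩ := s.K1_conj hp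
  exact s.D_L hg s.sD

/-- Conjugation by an element of `L` on `t x`. -/
theorem cjL {g : G} (hg : g ∈ s.L) (x : G) : g * (s.t * x) * g⁻¹ = s.t * (g * x * g⁻¹) := by
  rw [← mul_assoc, s.t_comm hg]; group

/-- The conjugates of `t` commuting with `t`. -/
theorem Dc {d : G} (hd : d ∈ s.D) (h : d * s.t = s.t * d) : d = s.t ∨ ∃ p ∈ s.K1, d = s.t * p := by
  have e : s.t * (s.t * d) = d := s.tmul d
  rcases s.kp_cen s.hy s.kp (u := s.t * d) (e.symm ▸ hd) (by rw [mul_assoc, h]) with k | k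
  · left; rw [← e, k, mul_one]
  · exact Or.inr ⟨_, k, e.symm⟩

/-- `G` is transitive on ordered pairs of distinct commuting conjugates of `t`. -/
theorem pair {d e : G} (hd : d ∈ s.D) (he : e ∈ s.D) (hne : d ≠ e) (h : d * e = e * d) :
    ∃ g, g * s.t * g⁻¹ = d ∧ g * (s.t * s.x1) * g⁻¹ = e := by
  obtain ⟨g, rfl⟩ := isConj_iff.1 hd
  have h1 : g⁻¹ * e * g⁻¹⁻¹ ∈ s.D := s.D_conj he g⁻¹
  have h2 : g⁻¹ * e * g⁻¹⁻¹ * s.t = s.t * (g⁻¹ * e * g⁻¹⁻¹) := by
    calc _ = g⁻¹ * (e * (g * s.t * g⁻¹)) * g := by group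
      _ = _ := by rw [← h]; group
  rcases s.Dc h1 h2 with k | ⟨p, hp, k⟩
  · exact (hne (by rw [← k]; group)).elim
  · obtain ⟨l, hl, rfl⟩ := s.K1_conj hp
    refine ⟨g * l, ?_, ?_⟩
    · rw [mul_assoc g l, s.t_comm hl]; group
    · rw [← s.cjL hl] at k
      calc _ = g * (l * (s.t * s.x1) * l⁻¹) * g⁻¹ := by group
        _ = _ := by rw [← k]; group

end Ca

end Cfsg.Agent.S33
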