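import Mathlib
import Cfsg.Agent.S33.ADefs

/-! Case A: fusion in the centralisers of `x1` and `t y`. -/

set_option autoImplicit false
set_option linter.unusedSectionVars false
set_option maxRecDepth 100000
set_option synthInstance.maxSize 100000
set_option synthInstance.maxHeartbeats 1000000

namespace Cfsg.Agent.S33

open Cfsg Cfsg.Agent.Rec Cfsg.Agent.Spor Cfsg.Agent.Loc.Mss Cfsg.Agent.SF6 Subgroup

variable {G : Type*} [Group G] [Finite G]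

namespace Ca

variable (s : Ca G)

theorem WT : s.W ≤ s.T := s.les.2.2.2.2.2.2.1

theorem VW : s.V6 ≤ s.W := s.les.2.2.2.2.2.1

theorem sylP {z : G} (hz : ∀ u ∈ s.T, u * z = z * u) : Syl 2 s.T (centralizer {s.t} ⊓ centralizer {z}) :=
  s.sylT.mono (fun u hu => ⟨mem_centralizer_singleton_iff.2 (s.T_comm hu), mem_centralizer_singleton_iff.2 (hz u hu)⟩)
    inf_le_left

theorem pg_inv {d : G} (h : d * d = 1) : IsPGroup 2 (zpowers d) :=
  Cfg.pg_sq fun g hg => by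
    obtain ⟨k, rfl⟩ := mem_zpowers_iff.1 hg
    rw [← (Commute.refl d).mul_zpow k, h, one_zpow]

/-- Fusion of `t` in the centraliser of an element `z` centralised by `T` is controlled by `N(W)`. -/
theorem fusZ {z g : G} (hz : ∀ u ∈ s.T, u * z = z * u) (hg : g * z = z * g)
    (h : g * s.t * g⁻¹ * s.t = s.t * (g * s.t * g⁻¹)) :
    ∃ k g', k * s.t = s.t * k ∧ k * z = z * k ∧ g' ∈ 𝐍[s.W] ∧ g' * z = z * g' ∧
      k * (g * s.t * g⁻¹) * k⁻¹ = g' * s.t * g'⁻¹ := by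
  have hS := s.sylP hz
  have tz : Commute s.t z := hz _ (s.WT s.tW)
  have hg' : Commute g z := hg
  have hd := s.D_conj s.tD g
  obtain ⟨k, hk, h1⟩ := hS.conj_le (pg_inv (s.D_sq hd)) (zpowers_le.2 ⟨mem_centralizer_singleton_iff.2 h,
    mem_centralizer_singleton_iff.2 ((hg'.mul_left tz).mul_left hg'.inv_left)⟩)
  have kt : k * s.t = s.t * k := mem_centralizer_singleton_iff.1 hk.1
  have kz : Commute k z := mem_centralizer_singleton_iff.1 hk.2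
  have h2 : k * (g * s.t * g⁻¹) * k⁻¹ ∈ s.W :=
    s.kp_mem s.hy s.kp (s.D_conj hd k) (s.T_norm (h1 (conj_mem_cj (mem_zpowers _))))
  have g1 : Commute (k * g) z := kz.mul_left hg'
  obtain ⟨k2, hk2, h3⟩ := hS.conj_le (pg_cj (Cfg.pg_sq fun _ => s.W_sq) (k * g)⁻¹) (cj_le_iff.2 fun w hw =>
    ⟨mem_centralizer_singleton_iff.2 (by
      calc _ = (k * g)⁻¹ * (w * (k * (g * s.t * g⁻¹) * k⁻¹)) * (k * g) := by group
        _ = _ := by rw [s.W_comm hw h2]; group),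
      mem_centralizer_singleton_iff.2
        ((g1.inv_left.mul_left (show Commute w z from hz w (s.WT hw))).mul_left g1.inv_left.inv_left)⟩)
  rw [cj_cj] at h3
  have k2t : k2 * s.t = s.t * k2 := mem_centralizer_singleton_iff.1 hk2.1
  have k2z : Commute k2 z := mem_centralizer_singleton_iff.1 hk2.2
  refine ⟨k, (k2 * (k * g)⁻¹)⁻¹, kt, kz, inv_mem (s.normW_of_le h3), (k2z.mul_left g1.inv_left).inv_left, ?_⟩
  calc _ = k * g * (k2⁻¹ * (k2 * s.t)) * (k * g)⁻¹ := by group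
    _ = _ := by rw [k2t]; group

/-- The action of `N(W)` on `W`. -/
theorem nw {g : G} (hg : g ∈ 𝐍[s.W]) : g * s.t * g⁻¹ = s.t ∨ ∃ l ∈ s.L3, ∃ k ∈ s.L3,
    g * s.t * g⁻¹ = s.t * (l * s.x1 * l⁻¹) ∧ ∀ w ∈ s.W, g * w * g⁻¹ = l * (s.α * (k * w * k⁻¹) * s.α⁻¹) * l⁻¹ := by
  refine (s.kp_D s.hy s.kp _ (conj_mem_of_norm hg s.tW) (s.D_conj s.tD g)).imp id ?_
  rintro ⟨p, hp, e⟩
  obtain ⟨-, l, hl, rfl⟩ := s.pt_eq hp
  have hlN : l ∈ 𝐍[s.W] := s.P3_norm.2.1 (s.les.2.2.1 hl)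
  have hα : s.α ∈ 𝐍[s.W] := (A3Aux.mem_Tr s.toCfg s.kp).1
  have e1 : l * s.α * s.t * (l * s.α)⁻¹ = g * s.t * g⁻¹ := by
    rw [e, ← s.cjL (s.L3_le hl), ← s.αt]; group
  obtain ⟨w, hw, k, hk, e2⟩ := s.normW (g := (l * s.α)⁻¹ * g) (mul_mem (inv_mem (mul_mem hlN hα)) hg) (by
    calc _ = (l * s.α)⁻¹ * (g * s.t * g⁻¹) * g := by group
      _ = _ := by rw [← e1]; group)
  refine ⟨l, hl, k, hk, e, fun u hu => ?_⟩
  have h1 : k * u * k⁻¹ ∈ s.W := conj_mem_of_norm (s.P3_norm.2.1 (s.les.2.2.1 hk)) hu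
  calc _ = l * s.α * ((l * s.α)⁻¹ * g) * u * ((l * s.α)⁻¹ * g)⁻¹ * (l * s.α)⁻¹ := by group
    _ = l * s.α * (w * (k * u * k⁻¹)) * w⁻¹ * (l * s.α)⁻¹ := by rw [e2]; group
    _ = _ := by rw [s.W_comm hw h1]; group

theorem T_x1 : ∀ u ∈ s.T, u * s.x1 = s.x1 * u := s.hL.decide s.rep (by decide +kernel)

theorem cb0 {g : G} (hg : g * s.x1 = s.x1 * g) (h : g * s.t * g⁻¹ * s.t = s.t * (g * s.t * g⁻¹)) :
    g * s.t * g⁻¹ = s.t ∨ g * s.t * g⁻¹ = s.t * s.x1 := by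
  obtain ⟨k, g', kt, kz, hN, gz, e⟩ := s.fusZ s.T_x1 hg h
  have key : g' * s.t * g'⁻¹ = s.t ∨ g' * s.t * g'⁻¹ = s.t * s.x1 := by
    refine (s.nw hN).imp id ?_
    rintro ⟨l, hl, k, hk, e1, e2⟩
    have f : (∀ k ∈ s.L3, k * s.x1 * k⁻¹ ∈ s.Pts ∧ k⁻¹ * s.x1 * k ∈ s.Pts) ∧
        ∀ q ∈ s.Pts, q ∈ s.V6 ∧ (∀ u ∈ s.A3, q * u ∈ s.Pts → u = 1) ∧ (q ∈ s.A3 ∨ s.x1 * q ∈ s.A3 → q = s.x1) :=
      s.hL.decide s.rep (by decide +kernel)
    obtain ⟨q1, q2, q3⟩ := f.2 _ (f.1 k hk).1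
    obtain ⟨u, hu, e3, e4⟩ := A3Aux.actV s.toCfg s.kp q1
    have e5 := e2 _ (s.VW (A3Aux.x1V s.toCfg).1)
    rw [gz, mul_inv_cancel_right, e3] at e5
    have e6 : u = 1 := q2 u hu (by
      have e7 : l⁻¹ * s.x1 * l = l⁻¹ * (l * (k * s.x1 * k⁻¹ * u) * l⁻¹) * l := by rw [← e5]
      rw [show k * s.x1 * k⁻¹ * u = l⁻¹ * s.x1 * l by rw [e7]; group]; exact (f.1 l hl).2)
    rw [q3 (e4 e6), e6, mul_one] at e5
    rw [e1, ← e5]
  rw [← e] at key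
  have kt' : Commute k s.t := kt
  have kz' : Commute k s.x1 := kz
  refine key.imp (fun e => ?_) fun e => ?_
  · calc _ = k⁻¹ * (k * (g * s.t * g⁻¹) * k⁻¹) * k := by group
      _ = _ := by rw [e, kt'.inv_left.eq]; group
  · calc _ = k⁻¹ * (k * (g * s.t * g⁻¹) * k⁻¹) * k := by group
      _ = _ := by rw [e, (kt'.mul_right kz').inv_left.eq]; group

theorem cy0 {g : G} (hg : g * (s.t * s.y) = s.t * s.y * g) (h : g * s.t * g⁻¹ * s.t = s.t * (g * s.t * g⁻¹)) :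
    g * s.t * g⁻¹ = s.t := by
  have f : (∀ u ∈ s.T, u * (s.t * s.y) = s.t * s.y * u) ∧ s.t * s.y ∈ s.W ∧
      (∀ k ∈ s.L3, k * s.y * k⁻¹ ∈ s.A3) ∧ ∀ l ∈ s.L3, ∀ u ∈ s.A3, s.y ≠ l * (s.x1 * u) * l⁻¹ :=
    s.hL.decide s.rep (by decide +kernel)
  obtain ⟨k, g', kt, -, hN, gz, e⟩ := s.fusZ f.1 hg h
  have key : g' * s.t * g'⁻¹ = s.t := by
    refine (s.nw hN).resolve_right ?_
    rintro ⟨l, hl, k, hk, -, e2⟩
    have e5 := e2 _ f.2.1
    rw [gz, mul_inv_cancel_right, s.cjL (s.L3_le hk),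
      A3Aux.cm s.αt (A3Aux.fixA s.toCfg s.kp (f.2.2.1 k hk)), mul_assoc s.t, s.cjL (s.L3_le hl)] at e5
    exact f.2.2.2 l hl _ (f.2.2.1 k hk) (mul_left_cancel e5)
  have kt' : Commute k s.t := kt
  calc _ = k⁻¹ * (k * (g * s.t * g⁻¹) * k⁻¹) * k := by group
    _ = _ := by rw [e, key, kt'.inv_left.eq]; group

theorem noswap {d : G} (hd : d ∈ s.D) : d * s.t * d⁻¹ ≠ s.t * s.x1 := fun h => by
  have d2 := s.D_sq hd
  have di : d⁻¹ = d := inv_eq_of_mul_eq_one_right d2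
  have tx : Commute s.t s.x1 := (s.t_comm s.x1_L).symm
  have h1 : d * (s.t * s.x1) * d⁻¹ = s.t := by
    rw [← h, di]
    calc _ = d * d * s.t * (d * d) := by group
      _ = _ := by rw [d2]; group
  have h2 : d * s.x1 * d⁻¹ = s.x1 := by
    calc _ = d * s.t * d⁻¹ * (d * (s.t * s.x1) * d⁻¹) := by rw [conj_mul, s.tmul]
      _ = _ := by rw [h, h1, tx.eq, mul_assoc, s.tt, mul_one]
  set P := centralizer {s.t} ⊓ centralizer {s.x1} with hP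
  have dN : d ∈ 𝐍[P] := mem_norm_of_cj_le (cj_le_iff.2 fun u hu => by
    have u1 : Commute u s.t := mem_centralizer_singleton_iff.1 hu.1
    have u2 : Commute u s.x1 := mem_centralizer_singleton_iff.1 hu.2
    refine ⟨mem_centralizer_singleton_iff.2 ?_, mem_centralizer_singleton_iff.2 ?_⟩
    · conv_lhs => rw [← h1]
      conv_rhs => rw [← h1]
      rw [conj_mul, conj_mul, (u1.mul_right u2).eq]
    · conv_lhs => rw [← h2]
      conv_rhs => rw [← h2]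
      rw [conj_mul, conj_mul, u2.eq])
  obtain ⟨S, hS, hS'⟩ := Syl.exists_ge (L := P ⊔ zpowers d) (pg_inv d2) le_sup_right
  have h3 : S ≤ 𝐍[P] := hS'.le.trans (sup_le le_normalizer (zpowers_le.2 dN))
  obtain ⟨k, hk, e⟩ := (hS'.inf le_sup_left h3).conj_eq (s.sylP s.T_x1)
  have h4 : k * d * k⁻¹ ∈ 𝐍[s.T] := by
    rw [← e, ← cj_norm]
    exact conj_mem_cj (norm_inf (X := zpowers d) (hS.trans le_normalizer) (zpowers_le.2 dN) (mem_zpowers d))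
  have h5 := s.W_comm (s.kp_mem s.hy s.kp (s.D_conj hd k) (s.normT_le h4)) s.tW
  have kt : Commute k s.t := mem_centralizer_singleton_iff.1 hk.1
  have h6 : d * s.t = s.t * d := by
    calc _ = k⁻¹ * (k * d * k⁻¹ * s.t) * k := by rw [mul_assoc _ k⁻¹, kt.inv_left.eq]; group
      _ = _ := by rw [h5, ← mul_assoc, ← mul_assoc, ← mul_assoc, kt.inv_left.eq]; group
  rw [h6, mul_inv_cancel_right, left_eq_mul] at h
  exact (A3Aux.x1V s.toCfg).2 (h ▸ one_mem _)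

end Ca

end Cfsg.Agent.S33
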