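import Mathlib
import Cfsg.Agent.S33.AKit
import Cfsg.Agent.Blk.ZStar
import Cfsg.Agent.GT.FourGroup
import Cfsg.Agent.Cl.PlnRigid

/-! Case A: the centralisers of `x1` and `t y`. -/

set_option autoImplicit false
set_option linter.unusedSectionVars false
set_option maxRecDepth 100000
set_option synthInstance.maxSize 100000
set_option synthInstance.maxHeartbeats 1000000

namespace Cfsg.Agent.S33

open Cfsg Cfsg.Agent.Rec Cfsg.Agent.Spor Cfsg.Agent.Loc.Mss Cfsg.Agent.SF6 Subgroup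

variable {G : Type*} [Group G] [Finite G]

namespace AZ

theorem zs4 {Q : Type*} [Group Q] [Finite Q] {Y : Subgroup Q} {s t : Q}
    (hs : IsIsolatedInvolution s) (ht : orderOf t = 2) (hne : s ≠ t) (hc : Commute s t)
    (h1 : ∀ x, x * s = s * x → x ∈ Y) (h2 : ∀ x, x * t = t * x → x ∈ Y)
    (h3 : ∀ x, x * (s * t) = s * t * x → x ∈ Y) (x : Q) : x ∈ Y := by
  obtain ⟨k, hk, c, hc', rfl⟩ := hs.exists_oddCore_mul_commute x
  refine mul_mem (GT.le_of_four_group hs.1 ht hne hc (le_normalizer_of_normal (mem_top _))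
    (le_normalizer_of_normal (mem_top _)) (Nat.two_dvd_ne_zero.mpr (Nat.odd_iff.mp GT.odd_card_oddCore))
    (fun y hy => h1 y ?_) (fun y hy => h2 y ?_) (fun y hy => h3 y ?_) hk) (h1 c hc')
  all_goals exact mem_centralizer_singleton_iff.mp hy.2

theorem facts (s : Ca G) : s.x1 * s.x1 = 1 ∧ s.x1 ≠ 1 ∧ s.t ≠ 1 ∧ s.t ≠ s.x1 ∧ s.t * s.x1 = s.x1 * s.t ∧
    s.t * (s.t * s.y) = s.t * s.y * s.t ∧ s.x1 * (s.t * s.y) = s.t * s.y * s.x1 :=
  s.hL.decide s.rep (by decide +kernel)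

theorem core (s : Ca G) : GT.pPrimeCoreOf 2 (centralizer {s.x1}) = ⊥ := by
  obtain ⟨f1, f2, -⟩ := facts s
  have ho : Odd (Nat.card (GT.pPrimeCoreOf 2 (centralizer {s.x1}))) :=
    Nat.coprime_two_right.1 (GT.coprime_card_pPrimeCoreOf 2 _)
  refine s.balC (Y := closure {s.x1}) ((closure_le _).2 (Set.singleton_subset_iff.2 (s.L_le s.x1_L))) ?_
    (fun u hu => ⟨?_, ?_⟩) ho ?_
  · rw [← zpowers_eq_closure]
    exact IsPGroup.of_card (n := 1) (by rw [Nat.card_zpowers, orderOf_eq_prime (by rw [sq, f1]) f2, pow_one])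
  · obtain ⟨k, hk⟩ := ho
    have h1 : u ^ (2 * k + 1) = 1 := hk ▸ congrArg Subtype.val (pow_card_eq_one' (x := (⟨u, hu⟩ : GT.pPrimeCoreOf 2 _)))
    have h2 := s.sq_X (u ^ (k + 1))
    rwa [← pow_add, show k + 1 + (k + 1) = 2 * k + 1 + 1 by ring, pow_succ, h1, one_mul] at h2
  · rw [centralizer_closure]
    exact GT.pPrimeCoreOf_le _ hu
  · rw [centralizer_closure]
    exact inf_le_right.trans (GT.le_normalizer_pPrimeCoreOf _)

theorem sH (s : Ca G) {H : Subgroup G} (hH : ∀ g, g * s.t = s.t * g → g ∈ H) (hα : s.α ∈ H) {g : G}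
    (hg : g * (s.t * s.x1) = s.t * s.x1 * g) : g ∈ H := by
  have h := hH (s.α⁻¹ * g * s.α) (by
    calc _ = s.α⁻¹ * (g * (s.α * s.t * s.α⁻¹)) * s.α := by group
      _ = s.α⁻¹ * (s.α * s.t * s.α⁻¹ * g) * s.α := by rw [s.αt, hg]
      _ = _ := by group)
  exact (mul_mem_cancel_left (inv_mem hα)).1 ((mul_mem_cancel_right hα).1 h)

end AZ

namespace Ca

variable (s : Ca G)

open AZ

theorem cb {g : G} (hg : g * s.x1 = s.x1 * g) : g * s.t * g⁻¹ = s.t ∨ g * s.t * g⁻¹ = s.t * s.x1 := by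
  obtain ⟨f1, f2, f3, f4, f5, -⟩ := facts s
  have m : ∀ {a : G}, a ∈ centralizer {s.x1} ↔ a * s.x1 = s.x1 * a := mem_centralizer_singleton_iff
  have Z := Cl.Pln.zstar_mod_inv (K := centralizer {s.x1}) (e := ⟨s.x1, m.2 rfl⟩) (z := ⟨s.t, m.2 f5⟩)
    (Subtype.ext f1) (fun a => Subtype.ext (m.1 a.2)) (Subtype.ext s.tt) (fun h => f3 (congrArg Subtype.val h))
    (fun h => f4 (congrArg Subtype.val h))
    (fun a h => (s.cb0 (m.1 a.2) (congrArg Subtype.val h).symm).imp Subtype.ext fun k => Subtype.ext (k.trans f5))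
    (fun a h => s.noswap (s.D_conj s.tD a) (by
      have h' : s.t * (a * s.t * a.1⁻¹) * s.t = s.x1 * (a * s.t * a.1⁻¹) := congrArg Subtype.val h
      rw [← s.tmul (a * s.t * a.1⁻¹ * s.t), ← mul_assoc s.t _ s.t, h']
      group)) ⟨g, m.2 hg⟩
  have h1 : (s.t * g * s.t⁻¹ * g⁻¹) ^ 2 ∈ GT.pPrimeCoreOf 2 (centralizer {s.x1}) := ⟨_, Z, rfl⟩
  rw [core, mem_bot, inv_eq_of_mul_eq_one_right s.tt, sq, mul_assoc s.t g, mul_assoc s.t] at h1
  refine s.cb0 hg ?_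
  rw [← inv_eq_of_mul_eq_one_right h1, mul_inv_rev, inv_eq_of_mul_eq_one_right s.tt,
    inv_eq_of_mul_eq_one_right (s.D_sq (s.D_conj s.tD g))]

theorem cbH {H : Subgroup G} (hH : ∀ g, g * s.t = s.t * g → g ∈ H) (hα : s.α ∈ H) {g : G}
    (hg : g * s.x1 = s.x1 * g) : g ∈ H := by
  rcases s.cb hg with h | h
  · exact hH g (mul_inv_eq_iff_eq_mul.1 h)
  · refine (mul_mem_cancel_left (inv_mem hα)).1 (hH _ ?_)
    calc _ = s.α⁻¹ * (g * s.t * g⁻¹) * g := by group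
      _ = _ := by rw [h, ← s.αt]; group

theorem cyH {H : Subgroup G} (hH : ∀ g, g * s.t = s.t * g → g ∈ H) (hα : s.α ∈ H) {g : G}
    (hg : g * (s.t * s.y) = s.t * s.y * g) : g ∈ H := by
  obtain ⟨f1, f2, f3, f4, f5, f6, f7⟩ := facts s
  have m : ∀ {a : G}, a ∈ centralizer {s.t * s.y} ↔ a * (s.t * s.y) = s.t * s.y * a := mem_centralizer_singleton_iff
  exact zs4 (Q := centralizer {s.t * s.y}) (Y := H.subgroupOf _) (s := ⟨s.t, m.2 f6⟩) (t := ⟨s.x1, m.2 f7⟩)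
    ⟨orderOf_eq_prime (Subtype.ext (by rw [sq]; exact s.tt)) fun h => f3 (congrArg Subtype.val h),
      fun a h => Subtype.ext (s.cy0 (m.1 a.2) (congrArg Subtype.val h).symm)⟩
    (orderOf_eq_prime (Subtype.ext (by rw [sq]; exact f1)) fun h => f2 (congrArg Subtype.val h))
    (fun h => f4 (congrArg Subtype.val h)) (Subtype.ext f5) (fun a h => hH a (congrArg Subtype.val h))
    (fun a h => s.cbH hH hα (congrArg Subtype.val h)) (fun a h => sH s hH hα (congrArg Subtype.val h)) ⟨g, m.2 hg⟩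

end Ca

end Cfsg.Agent.S33
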