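import Mathlib
import Cfsg.Agent.S33.AZ

/-! Case A: the dihedral argument. -/

set_option autoImplicit false
set_option linter.unusedSectionVars false
set_option maxRecDepth 100000
set_option synthInstance.maxSize 100000
set_option synthInstance.maxHeartbeats 1000000

namespace Cfsg.Agent.S33

open Cfsg Cfsg.Agent.Rec Cfsg.Agent.Spor Cfsg.Agent.Loc.Mss Cfsg.Agent.SF6 Subgroup

variable {G : Type*} [Group G] [Finite G]

namespace ADih

theorem inv_pow_l {b e : G} (hb : b * b = 1) (he : e * e = 1) (n : ℕ) : b * (b * e) ^ n = ((b * e) ^ n)⁻¹ * b := by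
  have h : b * (b * e) * b⁻¹ = (b * e)⁻¹ := by
    rw [← mul_assoc, hb, one_mul, mul_inv_rev, inv_eq_of_mul_eq_one_right he]
  rw [← inv_pow, ← h, conj_pow, inv_mul_cancel_right]

theorem inv_pow_r {b e : G} (hb : b * b = 1) (he : e * e = 1) (n : ℕ) : e * (b * e) ^ n = ((b * e) ^ n)⁻¹ * e := by
  have h : e * (b * e) * e⁻¹ = (b * e)⁻¹ := by
    rw [mul_inv_rev, inv_eq_of_mul_eq_one_right he, inv_eq_of_mul_eq_one_right hb, mul_assoc, mul_assoc, he, mul_one]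
  rw [← inv_pow, ← h, conj_pow, inv_mul_cancel_right]

theorem odd_pow {b e : G} (hb : b * b = 1) (he : e * e = 1) (j : ℕ) :
    b * (b * e) ^ (2 * j + 1) = ((b * e) ^ j)⁻¹ * e * ((b * e) ^ j)⁻¹⁻¹ := by
  calc b * (b * e) ^ (2 * j + 1) = b * (b * e) ^ j * (b * e) * (b * e) ^ j := by
        rw [show 2 * j + 1 = j + 1 + j by ring, pow_add, pow_succ]; simp only [mul_assoc]
    _ = ((b * e) ^ j)⁻¹ * (b * b) * e * (b * e) ^ j := by rw [inv_pow_l hb he]; simp only [mul_assoc]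
    _ = _ := by rw [hb, mul_one, inv_inv]

theorem k3 (s : Pre G) : s.x1 * s.x1 = 1 ∧ ∀ p ∈ s.K1, p * s.x1 = s.x1 * p → p = s.x1 ∨ s.x1 * p ∈ s.K3 :=
  s.hL.decide s.rep (by decide +kernel)

end ADih

namespace Ca

variable (s : Ca G)

theorem dih {H : Subgroup G} (hH : ∀ g, g * s.t = s.t * g → g ∈ H) (hα : s.α ∈ H) {e : G} (he : e ∈ s.D) :
    e * s.x1 * e⁻¹ ∈ H := by
  have hbt : s.x1 * s.t = s.t * s.x1 := s.t_comm s.x1_L
  have hbH : s.x1 ∈ H := hH _ hbt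
  by_cases heH : e ∈ H
  · exact mul_mem (mul_mem heH hbH) (inv_mem heH)
  obtain ⟨bb, hk3⟩ := ADih.k3 s.toPre
  have ee : e * e = 1 := s.D_sq he
  have hρ : s.x1 * e ∉ s.X := fun h => s.D_nX he ((mul_mem_cancel_left (s.L_le s.x1_L)).1 h)
  have hpos := orderOf_pos (s.x1 * e)
  obtain ⟨k, hk | hk⟩ := Nat.even_or_odd' (orderOf (s.x1 * e))
  swap
  · refine (hρ ?_).elim
    have : s.x1 * e = (s.x1 * e) ^ (k + 1) * (s.x1 * e) ^ (k + 1) := by
      rw [← pow_add, show k + 1 + (k + 1) = 2 * k + 1 + 1 by ring, ← hk, pow_succ, pow_orderOf_eq_one, one_mul]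
    rw [this]
    exact s.sq_X _
  have ii : (s.x1 * e) ^ k * (s.x1 * e) ^ k = 1 := by rw [← pow_add, ← two_mul, ← hk, pow_orderOf_eq_one]
  have i1 : (s.x1 * e) ^ k ≠ 1 := pow_ne_one_of_lt_orderOf (by omega) (by omega)
  have bi := ADih.inv_pow_l bb ee k
  have ei := ADih.inv_pow_r bb ee k
  rw [inv_eq_of_mul_eq_one_right ii] at bi ei
  have hD : ∀ j, s.x1 * (s.x1 * e) ^ (2 * j + 1) ∈ s.D := fun j => by
    rw [ADih.odd_pow bb ee]
    exact s.D_conj he _
  obtain ⟨j, rfl | rfl⟩ := Nat.even_or_odd' k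
  · have h1 := hD j
    have e1 : s.x1 * (s.x1 * e) ^ (2 * j + 1) = e * (s.x1 * e) ^ (2 * j) := by
      rw [pow_succ', ← mul_assoc, ← mul_assoc, bb, one_mul]
    rw [e1] at h1
    generalize (s.x1 * e) ^ (2 * j) = i at ii i1 bi ei h1
    obtain ⟨g, g1, g2⟩ := s.pair he h1 (fun h => i1 (by simpa using h.symm)) (by rw [mul_assoc, ← ei])
    have g3 : g * s.x1 * g⁻¹ = i := by
      apply mul_left_cancel (a := e)
      rw [← g2, ← g1]; group
    have g4 : g⁻¹ * s.x1 * g * s.x1 = s.x1 * (g⁻¹ * s.x1 * g) := by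
      calc g⁻¹ * s.x1 * g * s.x1 = g⁻¹ * (s.x1 * (g * s.x1 * g⁻¹)) * g := by group
        _ = g⁻¹ * (g * s.x1 * g⁻¹ * s.x1) * g := by rw [g3, bi]
        _ = _ := by group
    have g5 : s.x1 * e * s.x1⁻¹ = g * (g⁻¹ * s.x1 * g * s.t * (g⁻¹ * s.x1 * g)⁻¹) * g⁻¹ := by rw [← g1]; group
    rcases s.cb g4 with h | h <;> rw [h] at g5
    · rw [g1, mul_inv_eq_iff_eq_mul] at g5
      exact (heH (s.cbH hH hα g5.symm)).elim
    · rw [g2] at g5
      have : e * s.x1 * e⁻¹ = i * s.x1 := by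
        calc e * s.x1 * e⁻¹ = e * (s.x1 * e * s.x1⁻¹) * s.x1 := by rw [inv_eq_of_mul_eq_one_right ee]; group
          _ = (e * e) * i * s.x1 := by rw [g5]; group
          _ = _ := by rw [ee, one_mul]
      rw [this]
      exact mul_mem (s.cbH hH hα bi.symm) hbH
  · exfalso
    have h1 := hD j
    generalize (s.x1 * e) ^ (2 * j + 1) = i at ii i1 bi ei h1
    have fin : ∀ u ∈ H, ∀ z, (∀ g, g * z = z * g → g ∈ H) → i = u * z * u⁻¹ → False := fun u hu z hz h => by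
      refine heH ?_
      have : u⁻¹ * e * u ∈ H := hz _ (by
        calc u⁻¹ * e * u * z = u⁻¹ * (e * (u * z * u⁻¹)) * u := by group
          _ = u⁻¹ * (u * z * u⁻¹ * e) * u := by rw [← h, ei]
          _ = _ := by group)
      exact (mul_mem_cancel_left (inv_mem hu)).1 ((mul_mem_cancel_right hu).1 this)
    have d1 : s.x1 * i * s.x1 = s.x1 * (s.x1 * i) := by rw [mul_assoc, ← bi]
    have d2 : s.x1 * i * s.t = s.t * (s.x1 * i) :=
      mul_inv_eq_iff_eq_mul.1 ((s.cb d1).resolve_right (s.noswap h1))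
    have d3 : i = s.x1 * (s.x1 * i) := by rw [← mul_assoc, bb, one_mul]
    rcases s.Dc h1 d2 with h | ⟨p, hp, h⟩
    · exact fin s.α hα s.t hH (by rw [s.αt, d3, h, hbt])
    rw [h] at d1 d3
    have d4 : p * s.x1 = s.x1 * p := by
      apply mul_left_cancel (a := s.t)
      rw [← mul_assoc, d1, ← mul_assoc, hbt, mul_assoc]
    rcases hk3 p hp d4 with rfl | ⟨l, hl, h3⟩
    · exact fin 1 (one_mem _) s.t hH (by rw [d3, ← hbt, ← mul_assoc, bb]; group)
    · have hl' : l ∈ s.L := hl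
      refine fin (l * s.α) (mul_mem (hH _ (s.t_comm hl')) hα) (s.t * s.y) (fun g hg => s.cyH hH hα hg) ?_
      calc i = s.t * (l * (s.x1 * s.y) * l⁻¹) := by rw [d3, h3, ← mul_assoc, hbt, mul_assoc]
        _ = l * ((s.α * s.t * s.α⁻¹) * (s.α * s.y * s.α⁻¹)) * l⁻¹ := by
          rw [← s.cjL hl', s.αt, s.kp.y, mul_assoc s.t]
        _ = _ := by group

end Ca

end Cfsg.Agent.S33
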