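import Mathlib
import Cfsg.Agent.S33.ADih

/-! Case A: `C(t)` and `α` generate the group. -/

set_option autoImplicit false
set_option linter.unusedSectionVars false
set_option maxRecDepth 100000
set_option synthInstance.maxSize 100000
set_option synthInstance.maxHeartbeats 1000000

namespace Cfsg.Agent.S33

open Cfsg Cfsg.Agent.Rec Cfsg.Agent.Spor Cfsg.Agent.Loc.Mss Cfsg.Agent.SF6 Subgroup

variable {G : Type*} [Group G] [Finite G]

namespace Ca

variable (s : Ca G)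

theorem AGen_X {N : Subgroup G} [N.Normal] (h : s.x1 ∈ N) : s.X ≤ N := by
  have := s.simple
  have x1 : s.x1 ≠ 1 := s.hL.decide s.rep (by decide +kernel)
  rcases (inferInstance : (N.subgroupOf s.X).Normal).eq_bot_or_eq_top with e | e
  · have h1 : (⟨s.x1, s.L_le s.x1_L⟩ : s.X) ∈ N.subgroupOf s.X := h
    rw [e, mem_bot] at h1
    exact absurd (congrArg Subtype.val h1) x1
  · exact subgroupOf_eq_top.1 e

theorem AGen_top {N : Subgroup G} (h : s.X ≤ N) (ht : s.t ∈ N) : N = ⊤ :=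
  eq_top_iff.2 fun g _ => (s.memX g).elim (fun e => h e) fun e => (mul_mem_cancel_left ht).1 (h e)

theorem AGen_norm {S : Set G} {g : G} (h : ∀ y ∈ S, g * y * g⁻¹ ∈ closure S) : g ∈ 𝐍[closure S] := by
  refine cj_eq_iff.1 (eq_of_le_of_card_ge ?_ (card_cj _ _).ge)
  rw [cj_le_iff_le_inv, closure_le]
  intro y hy
  rw [SetLike.mem_coe, mem_cj, inv_inv]
  exact h y hy

theorem closure_D : closure s.D = ⊤ := by
  have : (closure s.D).Normal := normal_of_top fun g _ => AGen_norm fun y hy => subset_closure (s.D_conj hy g)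
  have ht : s.t ∈ closure s.D := subset_closure s.tD
  exact s.AGen_top (s.AGen_X ((mul_mem_cancel_left ht).1 (subset_closure s.sD))) ht

theorem gen {H : Subgroup G} (hH : ∀ g, g * s.t = s.t * g → g ∈ H) (hα : s.α ∈ H) : H = ⊤ := by
  let H0 := closure ({g | g * s.t = s.t * g} ∪ {s.α})
  have c0 : ∀ g, g * s.t = s.t * g → g ∈ H0 := fun g hg => subset_closure (Or.inl hg)
  have a0 : s.α ∈ H0 := subset_closure (Or.inr rfl)
  have le : H0 ≤ H := (closure_le _).2 fun g hg => hg.elim (hH g) fun e => e ▸ hα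
  let Y := closure {y | ∃ k ∈ H0, y = k * s.x1 * k⁻¹}
  have nY : H0 ≤ 𝐍[Y] := fun g hg => AGen_norm (by
    rintro _ ⟨k, hk, rfl⟩
    exact subset_closure ⟨g * k, mul_mem hg hk, by group⟩)
  have L0 : s.L ≤ H0 := fun g hg => c0 g (s.t_comm hg)
  have KY : ∀ p ∈ s.K1, p ∈ Y := fun p hp => by
    obtain ⟨g, hg, rfl⟩ := s.K1_conj hp
    exact subset_closure ⟨g, L0 hg, rfl⟩
  have LY : s.L ≤ Y := by
    have k : s.x3 ∈ s.K1 ∧ s.w3 ∈ s.K1 ∧ (∃ p ∈ s.K1, ∃ q ∈ s.K1, p * q * s.r ∈ s.K1) ∧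
        (∃ p ∈ s.K1, ∃ q ∈ s.K1, p * q * s.n ∈ s.K1) ∧ (∃ p ∈ s.K1, ∃ q ∈ s.K1, p * q * s.d ∈ s.K1) ∧
        ∃ p ∈ s.K1, ∃ q ∈ s.K1, p * q * s.m ∈ s.K1 := s.hL.decide s.rep (by decide +kernel)
    have e : ∀ {a : G}, (∃ p ∈ s.K1, ∃ q ∈ s.K1, p * q * a ∈ s.K1) → a ∈ Y := fun ⟨p, hp, q, hq, h⟩ =>
      (mul_mem_cancel_left (mul_mem (KY p hp) (KY q hq))).1 (KY _ h)
    refine clos_le.2 ?_
    simp only [List.forall_mem_cons, List.not_mem_nil, false_imp_iff, implies_true, and_true]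
    exact ⟨KY _ k.1, KY _ k.2.1, e k.2.2.1, e k.2.2.2.1, e k.2.2.2.2.1, e k.2.2.2.2.2⟩
  have tY : ∀ a ∈ Y, s.t * a * s.t⁻¹ ∈ Y := fun a ha => conj_mem_of_norm (nY (c0 _ rfl)) ha
  let Z : Subgroup G :=
    { carrier := {g | g ∈ Y ∨ s.t * g ∈ Y}
      one_mem' := Or.inl (one_mem _)
      mul_mem' := by
        rintro a b (ha | ha) (hb | hb)
        · exact Or.inl (mul_mem ha hb)
        · exact Or.inr (by simpa only [mul_assoc, inv_mul_cancel_left] using mul_mem (tY a ha) hb)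
        · exact Or.inr (by simpa only [mul_assoc] using mul_mem ha hb)
        · exact Or.inl (by simpa only [mul_assoc, inv_mul_cancel_left, s.tmul] using mul_mem (tY _ ha) hb)
      inv_mem' := by
        rintro a (ha | ha)
        · exact Or.inl (inv_mem ha)
        · refine Or.inr ?_
          have := tY _ (inv_mem ha)
          rwa [mul_inv_rev, mul_assoc, mul_assoc, ← mul_inv_rev, s.tt, inv_one, mul_one] at this }
  have cZ : ∀ g, g * s.t = s.t * g → g ∈ Z := fun g hg => (s.cent g hg).imp (fun e => LY e) fun e => LY e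
  have aZ : s.α ∈ Z := by
    have k : s.r * s.n * s.r * s.x1 * (s.r * s.n * s.r)⁻¹ = s.x2 ∧ s.x1 * (s.x2 * s.y) = s.x12 ∧
        s.n * s.x12 * s.n⁻¹ = s.x1 := s.hL.decide s.rep (by decide +kernel)
    have hr : s.r ∈ s.L := mem_clos (by simp)
    have hn : s.n ∈ s.L := mem_clos (by simp)
    have hs := mul_mem (mul_mem hr hn) hr
    have h1 := s.cjL hs s.x1
    have h2 := s.cjL hn s.x12
    rw [k.1] at h1
    rw [k.2.2] at h2
    generalize s.r * s.n * s.r = g at hs h1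
    have h3 : s.α * (s.t * s.x2) * s.α⁻¹ = s.t * s.x12 := by
      rw [← k.2.1, ← s.kp.x2, ← mul_assoc s.t, ← s.αt]; group
    have y0 : s.n * (s.α * g * s.α⁻¹) ∈ Y := mul_mem (LY hn) (conj_mem_of_norm (nY a0) (LY hs))
    have h4 : s.n * (s.α * g * s.α⁻¹) * s.t * (s.n * (s.α * g * s.α⁻¹))⁻¹ = s.α * s.t * s.α⁻¹ := by
      rw [s.αt, ← h2, ← h3, ← h1]
      conv_lhs => rw [← s.αs]
      group
    generalize s.n * (s.α * g * s.α⁻¹) = y at y0 h4
    have h5 : s.α⁻¹ * y ∈ Z := cZ _ (by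
      calc _ = s.α⁻¹ * (y * s.t * y⁻¹) * y := by group
        _ = _ := by rw [h4]; group)
    exact Z.inv_mem_iff.1 ((mul_mem_cancel_right (show y ∈ Z from Or.inl y0)).1 h5)
  have YX : Y ≤ s.X := (closure_le _).2 (by
    rintro _ ⟨k, -, rfl⟩
    exact s.conj_X.2 (s.L_le s.x1_L))
  have Y0 : Y ≤ H0 := (closure_le _).2 (by
    rintro _ ⟨k, hk, rfl⟩
    exact mul_mem (mul_mem hk (L0 s.x1_L)) (inv_mem hk))
  have HZ : H0 ≤ Z := (closure_le _).2 fun g hg => hg.elim (cZ g) fun e => e ▸ aZ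
  have HX : ∀ g ∈ H0, g ∈ s.X → g ∈ Y := fun g hg hx =>
    (HZ hg).resolve_right fun e => s.tX ((mul_mem_cancel_right hx).1 (YX e))
  have : Y.Normal := normal_of_top (s.closure_D ▸ (closure_le _).2 fun e he => AGen_norm (by
    rintro _ ⟨k, hk, rfl⟩
    refine HX _ ?_ (s.conj_X.2 (s.conj_X.2 (s.L_le s.x1_L)))
    rw [show e * (k * s.x1 * k⁻¹) * e⁻¹ = k * (k⁻¹ * e * k⁻¹⁻¹ * s.x1 * (k⁻¹ * e * k⁻¹⁻¹)⁻¹) * k⁻¹ by group]
    exact mul_mem (mul_mem hk (s.dih c0 a0 (s.D_conj he k⁻¹))) (inv_mem hk)))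
  exact s.AGen_top ((s.AGen_X (LY s.x1_L)).trans (Y0.trans le)) (hH _ rfl)

end Ca

end Cfsg.Agent.S33
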