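import Mathlib
import Cfsg.Agent.Spor.FFin

/-! Primitive 3-transposition groups that are locally `Sp₆(2)`. -/

set_option autoImplicit false

namespace Cfsg.Agent.S33

open Cfsg Cfsg.Agent.Spor.TT Subgroup QuadraticMap

namespace AId

theorem sw_ne {α : Type*} [DecidableEq α] {a b c d : α} (hab : a ≠ b) (hcd : c ≠ d)
    (h : Commute (Equiv.swap a b) (Equiv.swap c d)) (hne : Equiv.swap a b ≠ Equiv.swap c d) : c ≠ a := by
  rintro rfl
  have hbd : b ≠ d := fun e => hne (e ▸ rfl)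
  have := congrArg (fun σ : Equiv.Perm α => σ b) h.eq
  simp only [Equiv.Perm.mul_apply, Equiv.swap_apply_right, Equiv.swap_apply_left,
    Equiv.swap_apply_of_ne_of_ne hab.symm hbd] at this
  exact hcd this

theorem sw_disj {α : Type*} [DecidableEq α] {a b c d : α} (hab : a ≠ b) (hcd : c ≠ d)
    (h : Commute (Equiv.swap a b) (Equiv.swap c d)) (hne : Equiv.swap a b ≠ Equiv.swap c d) :
    c ≠ a ∧ c ≠ b :=
  ⟨sw_ne hab hcd h hne, sw_ne hab.symm hcd (by rwa [Equiv.swap_comm b]) (by rwa [Equiv.swap_comm b])⟩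

variable {G : Type*} [Group G] {D : Set G} (v : Fin 7 → G) (hi : Function.Injective v) (hv : ∀ i, v i ∈ D)
  (hvc : ∀ i j, Commute (v i) (v j))
  (dep : ∀ e ∈ D, Commute (v 0) e → Commute (v 1) e → Commute (v 2) e → Commute (v 3) e)
include hi hv hvc dep

theorem not_sym {n : ℕ} (h : IsSym D n) : False := by
  obtain ⟨ρ, q⟩ := h.qiso
  have k : ∀ i, ∃ a b : Fin n, a ≠ b ∧ ρ (Equiv.swap a b) = v i := fun i => by
    obtain ⟨_, ⟨a, b, hab, rfl⟩, e⟩ := q.surj (hv i)
    exact ⟨a, b, hab, e⟩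
  choose a b hab e using k
  have m : ∀ i, Equiv.swap (a i) (b i) ∈ {σ : Equiv.Perm (Fin n) | σ.IsSwap} := fun i => ⟨_, _, hab i, rfl⟩
  have dj : ∀ i j, i ≠ j → a j ≠ a i ∧ a j ≠ b i := fun i j hij =>
    sw_disj (hab i) (hab j) ((q.commute_iff (m i) (m j)).1 (by rw [e, e]; exact hvc i j)) fun k =>
      hij (hi (by rw [← e, ← e, k]))
  have me : Equiv.swap (a 3) (a 4) ∈ {σ : Equiv.Perm (Fin n) | σ.IsSwap} := ⟨_, _, (dj 4 3 (by decide)).1, rfl⟩
  have cm : ∀ i, i ≠ 3 → i ≠ 4 → Commute (v i) (ρ (Equiv.swap (a 3) (a 4))) := fun i h3 h4 => by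
    rw [← e, q.commute_iff (m i) me, ← cj_eq_self_iff, cj_swap,
      Equiv.swap_apply_of_ne_of_ne (dj i 3 h3).1 (dj i 3 h3).2, Equiv.swap_apply_of_ne_of_ne (dj i 4 h4).1 (dj i 4 h4).2]
  have := dep _ (q.mem me) (cm 0 (by decide) (by decide)) (cm 1 (by decide) (by decide)) (cm 2 (by decide) (by decide))
  rw [← e, q.commute_iff (m 3) me] at this
  refine sw_ne (hab 3) (dj 4 3 (by decide)).1 this (fun k => ?_) rfl
  have k1 := congrArg (fun σ : Equiv.Perm (Fin n) => σ (a 3)) k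
  simp only [Equiv.swap_apply_left] at k1
  exact (dj 3 4 (by decide)).2 k1.symm

theorem not_three {n : ℕ} (h : IsO (ZMod 3) D n) : False := by
  obtain ⟨Q, ρ, R⟩ := h
  choose w hw e using fun i => R.surj _ (hv i)
  have p0 : ∀ i j, i ≠ j → polar Q (w i) (w j) = 0 := fun i j hij =>
    R.zero_of_commute (hw i) (hw j) (by rw [e, e]; exact hvc i j) fun k => hij (hi (by rw [← e, ← e, k]))
  have p2 : ∀ i, polar Q (w i) (w i) = 2 := fun i => by rw [polar_self, hw, two_smul, one_add_one_eq_two]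
  have hq : Q (w 3 + w 4 + w 5 + w 6) = 1 := by
    simp only [QuadraticMap.map_add Q, polar_add_left, hw, p0 3 4 (by decide), p0 3 5 (by decide), p0 3 6 (by decide),
      p0 4 5 (by decide), p0 4 6 (by decide), p0 5 6 (by decide)]
    decide
  have cm : ∀ i, i ≠ 3 → i ≠ 4 → i ≠ 5 → i ≠ 6 → Commute (v i) (ρ (w 3 + w 4 + w 5 + w 6)) := fun i h3 h4 h5 h6 => by
    rw [← e]
    refine R.commute_of_zero (hw i) hq ?_
    simp only [polar_add_right, p0 i _ h3, p0 i _ h4, p0 i _ h5, p0 i _ h6, add_zero]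
  have := dep _ (R.mem _ hq) (cm 0 (by decide) (by decide) (by decide) (by decide))
    (cm 1 (by decide) (by decide) (by decide) (by decide)) (cm 2 (by decide) (by decide) (by decide) (by decide))
  rw [← e, R.commute_iff (hw 3) hq] at this
  refine this.elim (fun k => ?_) (ne_of_polar (Q := Q) (r := w 4) (p0 4 3 (by decide)) fun k => ?_)
  · simp only [polar_add_right, p2, p0 3 4 (by decide), p0 3 5 (by decide), p0 3 6 (by decide), add_zero] at k
    exact absurd k (by decide)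
  · simp only [polar_add_right, p2, p0 4 3 (by decide), p0 4 5 (by decide), p0 4 6 (by decide), add_zero,
      zero_add] at k
    exact absurd k (by decide)

omit hi hv hvc dep

theorem dim_le [Finite G] {n : ℕ} {Q : QuadraticForm (ZMod 2) (Fin n → ZMod 2)} {ρ : (Fin n → ZMod 2) → G}
    (R : ORep D Q ρ) {t : G} (ht : t ∈ D) (h63 : (Dx D t).ncard = 63) : 7 ≤ n ∧ n ≤ 8 := by
  obtain ⟨u, hu, rfl⟩ := R.surj t ht
  have z2 : ∀ x : ZMod 2, x = 0 ∨ x = 1 := by decide
  have pu : polar Q u u = 0 := by rw [polar_self, two_smul]; exact CharTwo.add_self_eq_zero _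
  let A : Set (Fin n → ZMod 2) := {w | Q w = 1 ∧ polar Q u w = 0}
  have hA : A.ncard = 64 := by
    have h1 : ρ '' A = Perp D (ρ u) := by
      ext x
      constructor
      · rintro ⟨w, hw, rfl⟩
        exact ⟨R.mem w hw.1, (R.commute_iff_two hu hw.1).2 hw.2⟩
      · rintro ⟨h1, h2⟩
        obtain ⟨w, hw, rfl⟩ := R.surj x h1
        exact ⟨w, ⟨hw, (R.commute_iff_two hu hw).1 h2⟩, rfl⟩
    rw [← Set.InjOn.ncard_image (f := ρ) fun a ha b hb k => (R.inj_two ha.1 hb.1).1 k, h1, ncard_Perp ht, h63]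
  have qa : ∀ w, polar Q u w = 0 → Q (w + u) = Q w + 1 := fun w hw => by
    rw [QuadraticMap.map_add Q, hu, polar_comm, hw, add_zero]
  let f : (Fin n → ZMod 2) →ₗ[ZMod 2] ZMod 2 := polarBilin Q u
  have hK : (LinearMap.ker f : Set (Fin n → ZMod 2)) = A ∪ (fun w => w + u) '' A := by
    ext w
    constructor
    · intro hw
      have hw' : polar Q u w = 0 := hw
      rcases z2 (Q w) with k | k
      · refine Or.inr ⟨w + u, ⟨by rw [qa w hw', k, zero_add], by rw [polar_add_right, hw', pu, add_zero]⟩, ?_⟩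
        show w + u + u = w
        rw [add_assoc, ZModModule.add_self, add_zero]
      · exact Or.inl ⟨k, hw'⟩
    · rintro (hw | ⟨w, hw, rfl⟩)
      · exact hw.2
      · show polar Q u (w + u) = 0
        rw [polar_add_right, hw.2, pu, add_zero]
  have hd : Disjoint A ((fun w => w + u) '' A) := Set.disjoint_left.2 (by
    rintro _ h1 ⟨w, hw, rfl⟩
    have := h1.1
    rw [qa w hw.2, hw.1] at this
    exact absurd this (by decide))
  have hc : Nat.card (LinearMap.ker f) = 128 := by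
    rw [← SetLike.coe_sort_coe, Nat.card_coe_set_eq, hK, Set.ncard_union_eq hd,
      Set.ncard_image_of_injective _ (add_left_injective u), hA]
  rw [Module.natCard_eq_pow_finrank (K := ZMod 2), Nat.card_zmod] at hc
  have h7 : Module.finrank (ZMod 2) (LinearMap.ker f) = 7 :=
    Nat.pow_right_injective le_rfl (hc.trans (by norm_num))
  have h1 := f.finrank_range_add_finrank_ker
  have h2 := (LinearMap.range f).finrank_le
  rw [Module.finrank_self] at h2
  rw [Module.finrank_fin_fun] at h1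
  omega

end AId

theorem id_o8 {G : Type*} [Group G] [Finite G] {D : Set G} (hD : IsThreeTranspositionClass D) (hZ : center G = ⊥)
    (hs : IsSimpleGroup (commutator G)) (hc : ∃ x y : commutator G, x * y ≠ y * x) {t : G} (ht : t ∈ D)
    (h63 : (Dx D t).ncard = 63)
    (sep : ∀ a ∈ Dx D t, ∀ b ∈ Dx D t, a ≠ b → ∃ r ∈ Dx D t, r ≠ a ∧ Commute a r ∧ ¬ Commute b r)
    (v : Fin 7 → G) (hi : Function.Injective v) (hv : ∀ i, v i ∈ D) (hvc : ∀ i j, Commute (v i) (v j))
    (dep : ∀ e ∈ D, Commute (v 0) e → Commute (v 1) e → Commute (v 2) e → Commute (v 3) e) :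
    Nonempty (G ≃* isometryGroup (ZMod 2) (quadFormPlus 4 (ZMod 2))) ∨
      Nonempty (G ≃* isometryGroup (ZMod 2) (quadFormMinus 3 (ZMod 2) 1 1)) := by
  have fs := (fis_of_simple_commutator hD hs hc).fs
  have r0 : Red (Dx D t) := by
    refine fs.red_Dx ht (fun a ha b hb k => ?_) fun a ha b hb k => ?_
    · by_contra hne
      obtain ⟨r, h1, -, h3, h4⟩ := sep a ha b hb hne
      exact h4 ((k r h1).1 h3)
    · by_contra hne
      obtain ⟨r, h1, h2, h3, h4⟩ := sep a ha b hb hne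
      have : r ∈ Dx (Dx D t) b := (k : Dx (Dx D t) a = Dx (Dx D t) b) ▸ (⟨h1, h2, h3⟩ : r ∈ Dx (Dx D t) a)
      exact h4 this.2.2
  have c63 : ∀ d ∈ D, (Dx D d).ncard = 63 := fun d hd => (fs.toRed.ncard_Dx hd ht).trans h63
  rcases fs.clB (fun d hd => by
    obtain ⟨g, q⟩ := fs.toRed.qiso_Dx ht hd
    exact q.red (fs.tt.dx d) r0) with ⟨n, -, h⟩ | ⟨n, -, Q, ρ, k⟩ | ⟨n, -, h⟩ | h | h | h
  · exact (AId.not_sym v hi hv hvc dep h).elim
  · obtain ⟨h7, h8⟩ := AId.dim_le k ht h63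
    obtain ⟨m, hm⟩ := Cl.sp_even_finrank k.nondeg fun v => by
      rw [polarBilin_apply_apply, polar_self, two_smul]
      exact CharTwo.add_self_eq_zero _
    rw [← two_mul] at hm
    have hm' : n = 2 * m := by simpa using hm
    obtain rfl : m = 4 := by omega
    rcases Cl.quad_classify_even k.nondeg hm with ⟨g, hg⟩ | ⟨-, hg⟩
    · obtain ⟨e, -⟩ := k.exists_equiv_std (P := Cl.quad_plus 4 (ZMod 2)) hD.group hZ g hg
        (by simp) ⟨Pi.single (.inl 0) 1, by simp, by simp [Cl.quad_plus_apply]⟩ (S1629.result 4 (by omega))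
      exact .inl ⟨e⟩
    · obtain ⟨g, hg⟩ := hg 1 1 (by decide)
      obtain ⟨e, -⟩ := k.exists_equiv_std (P := Cl.quad_minus 3 (ZMod 2) 1 1) hD.group hZ g hg
        (by simp) ⟨Pi.single (.inl (.inl 0)) 1, by simp, by simp [Cl.quad_minus_apply]⟩ (S1630.result 3 (by omega))
      exact .inr ⟨e⟩
  · exact (AId.not_three v hi hv hvc dep h).elim
  · exact absurd ((h.ncard.2 t ht).symm.trans h63) (by decide)
  · exact absurd ((h.ncard.2 t ht).symm.trans h63) (by decide)
  · exact absurd ((h.loc t ht).ncard.1.symm.trans h63) (by decide)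

end Cfsg.Agent.S33
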