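import Mathlib
import Cfsg.Agent.S33.AGen
import Cfsg.Prelude.Def_FischerSpaces

/-! Case A: the conjugates of `t` are 3-transpositions. -/

set_option autoImplicit false
set_option linter.unusedSectionVars false
set_option maxRecDepth 100000
set_option synthInstance.maxSize 100000
set_option synthInstance.maxHeartbeats 1000000

namespace Cfsg.Agent.S33

open Cfsg Cfsg.Agent.Rec Cfsg.Agent.Spor Cfsg.Agent.Loc.Mss Cfsg.Agent.SF6 Subgroup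

variable {G : Type*} [Group G] [Finite G]

namespace Ca

variable (s : Ca G)

/-- Some conjugate of `t` commutes with both elements. -/
def ATT_R (d e : G) : Prop := ∃ u ∈ s.D, Commute u d ∧ Commute u e

theorem ATT_cj {a b : G} (h : Commute a b) (g : G) : Commute (g * a * g⁻¹) (g * b * g⁻¹) :=
  h.map (MulAut.conj g)

theorem ATT_cj' {a b g : G} (h : Commute (g * a * g⁻¹) (g * b * g⁻¹)) : Commute a b :=
  Commute.of_map (f := MulAut.conj g) (MulAut.conj g).injective h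

theorem ATT_Rcj {d e : G} (h : s.ATT_R d e) (g : G) : s.ATT_R (g * d * g⁻¹) (g * e * g⁻¹) := by
  obtain ⟨u, hu, h1, h2⟩ := h
  exact ⟨_, s.D_conj hu g, ATT_cj h1 g, ATT_cj h2 g⟩

theorem ATT_mul {p : G} (hp : p ∈ s.K1) (q : G) : s.t * p * (s.t * q) = p * q := by
  rw [← s.t_comm (s.K1_L hp), mul_assoc, s.tmul]

theorem ATT_ct {p q : G} (hp : p ∈ s.K1) (hq : q ∈ s.K1) (h : p * q = q * p) : Commute (s.t * p) (s.t * q) :=
  (s.ATT_mul hp q).trans (h.trans (s.ATT_mul hq p).symm)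

theorem ATT_K : s.x2 ∈ s.K1 ∧ s.x12 ∈ s.K1 ∧ s.w2 ∈ s.K1 ∧ s.x1 * (s.x2 * s.y) = s.x12 ∧
    s.x1 * (s.x1 * (s.x2 * s.y) * s.y) = s.x2 ∧ s.x2 * s.w2 * s.x2 * s.x1 * (s.x2 * s.w2 * s.x2)⁻¹ = s.x1 ∧
    ∀ p ∈ s.K1, p * s.x1 = s.x1 * p ∨ p * s.x12 = s.x12 * p ∨ p * s.x2 = s.x2 * p :=
  s.hL.decide s.rep (by decide +kernel)

theorem ATT_i0 {e : G} (he : e ∈ s.D) (h1 : Commute e (s.t * s.x1)) (h2 : ¬ Commute e s.t) :
    Commute e (s.t * s.x2) ∨ Commute e (s.t * s.x12) := by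
  obtain ⟨k2, k12, -, e1, e2, -, k⟩ := s.ATT_K
  have a2 : s.α * (s.t * s.x2) * s.α⁻¹ = s.t * s.x12 := by
    rw [← conj_mul, s.αt, s.kp.x2, mul_assoc, e1]
  have a12 : s.α * (s.t * s.x12) * s.α⁻¹ = s.t * s.x2 := by
    rw [← e1, ← conj_mul, ← conj_mul, ← conj_mul, s.αt, s.kp.x1, s.kp.x2, s.kp.y, mul_assoc, ← mul_assoc s.x1 _ s.y,
      e2]
  have c := ATT_cj h1 s.α
  rw [s.αs] at c
  have n : ¬ Commute (s.α * e * s.α⁻¹) (s.t * s.x1) := fun h => h2 (ATT_cj' (g := s.α) (s.αt ▸ h))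
  rcases s.Dc (s.D_conj he s.α) c with h | ⟨p, hp, h⟩
  · exact (n (by rw [h]; exact (Commute.refl _).mul_right (s.t_comm s.x1_L).symm)).elim
  · rcases k p hp with r | r | r
    · exact (n (h ▸ s.ATT_ct hp s.x1_K1 r)).elim
    · exact Or.inl (ATT_cj' (g := s.α) (by rw [h, a2]; exact s.ATT_ct hp k12 r))
    · exact Or.inr (ATT_cj' (g := s.α) (by rw [h, a12]; exact s.ATT_ct hp k2 r))

theorem ATT_i2 {e p q r : G} (hp : p ∈ s.K1) (hq : q ∈ s.K1) (hr : r ∈ s.K1) (h1 : Commute e (s.t * q))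
    (h2 : Commute e (s.t * r)) (h : p * q = q * p ∨ p * r = r * p ∨ p * (q * r * q⁻¹) = q * r * q⁻¹ * p) :
    s.ATT_R (s.t * p) e := by
  rcases h with h | h | h
  · exact ⟨_, s.K1_D hq, s.ATT_ct hq hp h.symm, h1.symm⟩
  · exact ⟨_, s.K1_D hr, s.ATT_ct hr hp h.symm, h2.symm⟩
  · have hk := s.K1_cj (s.K1_L hq) hr
    refine ⟨_, s.K1_D hk, s.ATT_ct hk hp h.symm, Commute.symm ?_⟩
    have : s.t * (q * r * q⁻¹) = s.t * q * (s.t * r) * (s.t * q)⁻¹ := by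
      rw [s.ATT_mul hq, ← s.t_comm (s.K1_L hk), mul_inv_rev, inv_eq_of_mul_eq_one_right s.tt, mul_assoc (q * r)]
    rw [this]
    exact (h1.mul_right h2).mul_right h1.inv_right

theorem ATT_i1 {e p : G} (he : e ∈ s.D) (h1 : Commute e (s.t * s.x1)) (h2 : ¬ Commute e s.t) (hp : p ∈ s.K1) :
    s.ATT_R (s.t * p) e := by
  obtain ⟨k2, k12, kw, -, -, e1, -⟩ := s.ATT_K
  have k : ∀ p ∈ s.K1, ∀ q ∈ s.K1, ∀ r ∈ s.K1, q = s.x2 ∨ q = s.x12 →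
      r = s.x2 * s.w2 * s.x2 * s.x2 * (s.x2 * s.w2 * s.x2)⁻¹ ∨
        r = s.x2 * s.w2 * s.x2 * s.x12 * (s.x2 * s.w2 * s.x2)⁻¹ →
      p * q = q * p ∨ p * r = r * p ∨ p * (q * r * q⁻¹) = q * r * q⁻¹ * p := by
    have : ∀ q ∈ s.K1, q = s.x2 ∨ q = s.x12 → ∀ r ∈ s.K1,
        r = s.x2 * s.w2 * s.x2 * s.x2 * (s.x2 * s.w2 * s.x2)⁻¹ ∨
          r = s.x2 * s.w2 * s.x2 * s.x12 * (s.x2 * s.w2 * s.x2)⁻¹ → ∀ p ∈ s.K1,
        p * q = q * p ∨ p * r = r * p ∨ p * (q * r * q⁻¹) = q * r * q⁻¹ * p :=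
      s.hL.decide s.rep (by decide +kernel)
    exact fun p hp q hq r hr a b => this q hq a r hr b p hp
  obtain ⟨g, hg⟩ : ∃ g, g = s.x2 * s.w2 * s.x2 := ⟨_, rfl⟩
  have gL : g ∈ s.L := hg ▸ mul_mem (mul_mem (s.K1_L k2) (s.K1_L kw)) (s.K1_L k2)
  rw [← hg] at e1 k
  have ee : g * (g⁻¹ * e * g⁻¹⁻¹) * g⁻¹ = e := by group
  have h3 := s.ATT_i0 (s.D_conj he g⁻¹) (ATT_cj' (g := g) (by rwa [ee, s.cjL gL, e1])) fun h => h2 (by
    have := ATT_cj h g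
    rwa [ee, s.t_comm gL, mul_inv_cancel_right] at this)
  have f : ∀ x, Commute (g⁻¹ * e * g⁻¹⁻¹) (s.t * x) → Commute e (s.t * (g * x * g⁻¹)) := fun x h => by
    have := ATT_cj h g
    rwa [ee, s.cjL gL] at this
  have r2 := s.K1_cj gL k2
  have r12 := s.K1_cj gL k12
  rcases s.ATT_i0 he h1 h2 with a | a <;> rcases h3 with b | b
  · exact s.ATT_i2 hp k2 r2 a (f _ b) (k p hp _ k2 _ r2 (Or.inl rfl) (Or.inl rfl))
  · exact s.ATT_i2 hp k2 r12 a (f _ b) (k p hp _ k2 _ r12 (Or.inl rfl) (Or.inr rfl))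
  · exact s.ATT_i2 hp k12 r2 a (f _ b) (k p hp _ k12 _ r2 (Or.inr rfl) (Or.inl rfl))
  · exact s.ATT_i2 hp k12 r12 a (f _ b) (k p hp _ k12 _ r12 (Or.inr rfl) (Or.inr rfl))

theorem ATT_step {d d' e : G} (hd : d ∈ s.D) (hd' : d' ∈ s.D) (he : e ∈ s.D) (h : s.ATT_R d e)
    (c : Commute d d') : s.ATT_R d' e := by
  by_cases h0 : Commute d e
  · exact ⟨d, hd, c, h0⟩
  obtain ⟨u, hu, h1, h2⟩ := id h
  obtain ⟨g, rfl, rfl⟩ := s.pair hd hu (fun k => h0 (k ▸ h2)) h1.symm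
  have ee : ∀ x, g * (g⁻¹ * x * g⁻¹⁻¹) * g⁻¹ = x := fun x => by group
  rcases s.Dc (s.D_conj hd' g⁻¹) (ATT_cj' (g := g) (by rw [ee]; exact c.symm)) with k | ⟨p, hp, k⟩
  · rwa [← ee d', k]
  · have := s.ATT_Rcj (s.ATT_i1 (s.D_conj he g⁻¹) (ATT_cj' (g := g) (by rw [ee]; exact h2.symm))
      (fun r => h0 (by simpa only [ee] using (ATT_cj r g).symm)) hp) g
    rwa [← k, ee, ee] at this

/-- The elements that keep the relation with `t`. -/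
def ATT_H : Subgroup G where
  carrier := {g | ∀ e ∈ s.D, s.ATT_R s.t e ↔ s.ATT_R s.t (g * e * g⁻¹)}
  one_mem' e _ := by rw [one_mul, inv_one, mul_one]
  mul_mem' {a b} ha hb e he := by
    rw [hb e he, ha _ (s.D_conj he b), show a * b * e * (a * b)⁻¹ = a * (b * e * b⁻¹) * a⁻¹ by group]
  inv_mem' {a} ha e he := by
    rw [ha _ (s.D_conj he a⁻¹), show a * (a⁻¹ * e * a⁻¹⁻¹) * a⁻¹ = e by group]

theorem ATT_iff {d e : G} (g : G) : s.ATT_R d e ↔ s.ATT_R (g * d * g⁻¹) (g * e * g⁻¹) :=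
  ⟨fun h => s.ATT_Rcj h g, fun h => by simpa [mul_assoc] using s.ATT_Rcj h g⁻¹⟩

theorem ATT_all {d e : G} (hd : d ∈ s.D) (he : e ∈ s.D) : s.ATT_R d e := by
  have c : Commute s.t (s.t * s.x1) := (Commute.refl _).mul_right (s.t_comm s.x1_L).symm
  have hH : s.ATT_H = ⊤ := s.gen (fun g hg e _ => by
    have := s.ATT_iff (d := s.t) (e := e) g
    rwa [hg, mul_inv_cancel_right] at this) fun e he => by
    rw [s.ATT_iff s.α, s.αt]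
    exact ⟨fun h => s.ATT_step s.sD s.tD (s.D_conj he _) h c.symm, fun h => s.ATT_step s.tD s.sD (s.D_conj he _) h c⟩
  obtain ⟨g, rfl⟩ := isConj_iff.1 hd
  obtain ⟨k, rfl⟩ := isConj_iff.1 he
  have m : g⁻¹ * k ∈ s.ATT_H := hH ▸ mem_top _
  have := s.ATT_Rcj ((m _ s.tD).1 ⟨_, s.tD, Commute.refl _, Commute.refl _⟩) g
  rwa [show g * (g⁻¹ * k * s.t * (g⁻¹ * k)⁻¹) * g⁻¹ = k * s.t * k⁻¹ by group] at this

theorem tt3 : IsThreeTranspositionClass s.D := by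
  refine ⟨⟨fun d hd => orderOf_eq_prime (by rw [pow_two, s.D_sq hd]) fun e => s.D_nX hd (e ▸ one_mem _),
    fun d hd e he => ?_⟩, ⟨s.t, s.tD, rfl⟩, s.closure_D⟩
  obtain ⟨u, hu, h1, h2⟩ := s.ATT_all hd he
  obtain ⟨g, rfl⟩ := isConj_iff.1 hu
  have ee : ∀ x, g * (g⁻¹ * x * g⁻¹⁻¹) * g⁻¹ = x := fun x => by group
  have k : ∀ p ∈ s.K1, p ^ 2 = 1 ∧ ∀ q ∈ s.K1, (p * q) ^ 2 = 1 ∨ (p * q) ^ 3 = 1 :=
    s.hL.decide s.rep (by decide +kernel)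
  have key : (g⁻¹ * d * g⁻¹⁻¹ * (g⁻¹ * e * g⁻¹⁻¹)) ^ 2 = 1 ∨ (g⁻¹ * d * g⁻¹⁻¹ * (g⁻¹ * e * g⁻¹⁻¹)) ^ 3 = 1 := by
    rcases s.Dc (s.D_conj hd g⁻¹) (ATT_cj' (g := g) (by rw [ee]; exact h1.symm)) with a | ⟨p, hp, a⟩ <;>
      rcases s.Dc (s.D_conj he g⁻¹) (ATT_cj' (g := g) (by rw [ee]; exact h2.symm)) with b | ⟨q, hq, b⟩ <;> rw [a, b]
    · exact Or.inl (by rw [s.tt, one_pow])
    · exact Or.inl (by rw [s.tmul, (k q hq).1])
    · exact Or.inl (by rw [mul_assoc, s.t_comm (s.K1_L hp), s.tmul, (k p hp).1])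
    · rw [s.ATT_mul hp]; exact (k p hp).2 q hq
  simpa only [conj_mul, conj_pow, conj_eq_one_iff] using key

end Ca

end Cfsg.Agent.S33
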