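import Mathlib
import Cfsg.Agent.S33.AKit
import Cfsg.Agent.S33.ATT
import Cfsg.Agent.S33.AId
import Cfsg.Agent.Cl.Transport

/-! Case A: orthogonal groups. -/

set_option autoImplicit false
set_option linter.unusedSectionVars false
set_option maxRecDepth 100000
set_option synthInstance.maxSize 100000
set_option synthInstance.maxHeartbeats 1000000

namespace Cfsg.Agent.S33

open Cfsg Cfsg.Agent.Rec Cfsg.Agent.Spor Cfsg.Agent.Loc.Mss Cfsg.Agent.SF6 Subgroup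

variable {G : Type*} [Group G] [Finite G]

theorem pomega_of_equiv {ι : Type} [Fintype ι] [DecidableEq ι] {Q : (ι → ZMod 2) → ZMod 2}
    (e : G ≃* isometryGroup (ZMod 2) Q) (hs : IsSimpleGroup (commutator G))
    (hc : ∃ x y : commutator G, x * y ≠ y * x) : Nonempty (commutator G ≃* POmega (ZMod 2) Q) := by
  have h1 : (commutator G).map e.toMonoidHom = Omega (ZMod 2) Q := by
    rw [Omega, commutator_def, commutator_def, map_commutator, map_top_of_surjective _ e.surjective]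
  let f : commutator G ≃* Omega (ZMod 2) Q := (e.subgroupMap (commutator G)).trans (MulEquiv.subgroupCongr h1)
  have hs' : IsSimpleGroup (Omega (ZMod 2) Q) := f.symm.isSimpleGroup
  have h2 : center (Omega (ZMod 2) Q) = ⊥ := by
    refine (hs'.eq_bot_or_eq_top_of_normal _ inferInstance).resolve_right fun h => ?_
    obtain ⟨x, y, k⟩ := hc
    refine k (f.injective ?_)
    rw [map_mul, map_mul]
    exact mem_center_iff.1 (h ▸ mem_top (f y)) (f x)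
  exact ⟨f.trans ((QuotientGroup.quotientBot).symm.trans (QuotientGroup.quotientMulEquivOfEq h2.symm))⟩

namespace Ca

variable (s : Ca G)

theorem x1_ne : s.x1 ≠ 1 := fun h => (A3Aux.x1V s.toCfg).2 (h ▸ one_mem _)

include s in
theorem center_eq : center G = ⊥ := by
  have f : ∀ v ∈ s.V6, v * s.w3 = s.w3 * v → v * s.n = s.n * v → v * s.m = s.m * v → v = 1 :=
    s.hL.decide s.rep (by decide +kernel)
  have m : ∀ g ∈ s.gL, g ∈ s.L := fun g hg => mem_clos hg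
  have key : ∀ l ∈ s.L, (∀ u ∈ s.L, l * u = u * l) → l = 1 := fun l hl h =>
    f l (s.cent_V6 hl fun u hu => h u (s.V6_le hu)) (h _ (m _ (by simp))) (h _ (m _ (by simp))) (h _ (m _ (by simp)))
  refine eq_bot_iff.2 fun z hz => ?_
  have hz' := mem_center_iff.1 hz
  rcases s.cent z (hz' _).symm with k | k
  · exact key z k fun u _ => (hz' u).symm
  · have e := key _ k fun u hu => by rw [mul_assoc, ← hz' u, ← mul_assoc, ← s.t_comm hu, mul_assoc]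
    have e2 : z = s.t := by rw [← s.tmul z, e, mul_one]
    have e3 := s.αt
    rw [← e2, hz', mul_inv_cancel_right, left_eq_mul] at e3
    exact (s.x1_ne e3).elim

theorem commutator_eq : commutator G = s.X := by
  refine le_antisymm (commutator_le.2 fun a _ b _ => s.comm_X a b) ?_
  have := s.simple
  have h1 : s.x1 ∈ commutator G := by
    have h2 : s.α * s.t * s.α⁻¹ * s.t⁻¹ ∈ commutator G := commutator_mem_commutator (mem_top _) (mem_top _)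
    rwa [s.αt, ← s.t_comm s.x1_L, mul_inv_cancel_right] at h2
  rcases this.eq_bot_or_eq_top_of_normal ((commutator G).subgroupOf s.X) inferInstance with h | h
  · have h3 : (⟨s.x1, s.L_le s.x1_L⟩ : s.X) ∈ (commutator G).subgroupOf s.X := h1
    rw [h] at h3
    exact (s.x1_ne (congrArg Subtype.val (mem_bot.1 h3))).elim
  · exact subgroupOf_eq_top.1 h

theorem mem_Dx {a : G} : a ∈ TT.Dx s.D s.t ↔ ∃ p ∈ s.K1, a = s.t * p := by
  have f : ∀ p ∈ s.K1, p ≠ 1 := s.hL.decide s.rep (by decide +kernel)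
  refine ⟨fun h => (s.Dc h.1 h.2.2.eq.symm).resolve_left h.2.1, ?_⟩
  rintro ⟨p, hp, rfl⟩
  exact ⟨s.K1_D hp, fun h => f p hp (mul_eq_left.1 h),
    (Commute.refl _).mul_right (show Commute p s.t from s.t_comm (s.K1_L hp)).symm⟩

theorem comm_iff {p q : G} (hp : p ∈ s.L) (hq : q ∈ s.L) : Commute (s.t * p) (s.t * q) ↔ p * q = q * p := by
  have e : ∀ {p q : G}, p ∈ s.L → s.t * p * (s.t * q) = p * q := fun {p q} hp => by
    rw [← s.t_comm hp, mul_assoc, s.tmul]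
  rw [Commute, SemiconjBy, e hp, e hq]

include s in
theorem comm_simple : IsSimpleGroup (commutator G) ∧ ∃ x y : commutator G, x * y ≠ y * x := by
  rw [s.commutator_eq]
  have f : s.x3 * s.w3 ≠ s.w3 * s.x3 := s.hL.decide s.rep (by decide +kernel)
  have m : ∀ g ∈ s.gL, g ∈ s.L := fun g hg => mem_clos hg
  exact ⟨s.simple, ⟨s.x3, s.L_le (m _ (by simp))⟩, ⟨s.w3, s.L_le (m _ (by simp))⟩, fun h => f (congrArg Subtype.val h)⟩

include s in
theorem ident : Nonempty (G ≃* isometryGroup (ZMod 2) (quadFormPlus 4 (ZMod 2))) ∨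
    Nonempty (G ≃* isometryGroup (ZMod 2) (quadFormMinus 3 (ZMod 2) 1 1)) := by
  have f1 : ∀ p ∈ s.K1, ∀ q ∈ s.K1, p ≠ q → ∃ r ∈ s.K1, r ≠ p ∧ p * r = r * p ∧ q * r ≠ r * q :=
    s.hL.decide s.rep (by decide +kernel)
  have f2 : ∀ p ∈ s.K1, s.x1 * p = p * s.x1 → s.x2 * p = p * s.x2 → s.x12 * p = p * s.x12 :=
    s.hL.decide s.rep (by decide +kernel)
  have f3 : (∀ p ∈ s.Pts, p ∈ s.K1 ∧ p ∈ s.V6 ∧ p ≠ 1) ∧ s.x1 ≠ s.x2 ∧ s.x1 ≠ s.x12 ∧ s.x1 ≠ s.x3 ∧ s.x1 ≠ s.x13 ∧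
      s.x1 ≠ s.x23 ∧ s.x2 ≠ s.x12 ∧ s.x2 ≠ s.x3 ∧ s.x2 ≠ s.x13 ∧ s.x2 ≠ s.x23 ∧ s.x12 ≠ s.x3 ∧ s.x12 ≠ s.x13 ∧
      s.x12 ≠ s.x23 ∧ s.x3 ≠ s.x13 ∧ s.x3 ≠ s.x23 ∧ s.x13 ≠ s.x23 := s.hL.decide s.rep (by decide +kernel)
  obtain ⟨f3, f4⟩ := f3
  have p1 := f3 s.x1 (by simp [Pre.Pts])
  have p2 := f3 s.x2 (by simp [Pre.Pts])
  have p3 := f3 s.x12 (by simp [Pre.Pts])
  have p4 := f3 s.x3 (by simp [Pre.Pts])
  have p5 := f3 s.x13 (by simp [Pre.Pts])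
  have p6 := f3 s.x23 (by simp [Pre.Pts])
  let u : Fin 7 → G := ![1, s.x1, s.x2, s.x12, s.x3, s.x13, s.x23]
  have hu : ∀ i, u i ∈ s.V6 ∧ s.t * u i ∈ s.D := fun i => by
    fin_cases i
    · exact ⟨one_mem _, (mul_one s.t).symm ▸ s.tD⟩
    exacts [⟨p1.2.1, s.K1_D p1.1⟩, ⟨p2.2.1, s.K1_D p2.1⟩, ⟨p3.2.1, s.K1_D p3.1⟩, ⟨p4.2.1, s.K1_D p4.1⟩,
      ⟨p5.2.1, s.K1_D p5.1⟩, ⟨p6.2.1, s.K1_D p6.1⟩]
  have hi : Function.Injective u := by
    have : List.Nodup [1, s.x1, s.x2, s.x12, s.x3, s.x13, s.x23] := by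
      simp only [List.nodup_cons, List.mem_cons, List.not_mem_nil, or_false, not_or, not_false_eq_true,
        List.nodup_nil, and_true]
      obtain ⟨a1, a2, a3, a4, a5, a6, a7, a8, a9, a10, a11, a12, a13, a14, a15⟩ := f4
      exact ⟨⟨p1.2.2.symm, p2.2.2.symm, p3.2.2.symm, p4.2.2.symm, p5.2.2.symm, p6.2.2.symm⟩, ⟨a1, a2, a3, a4, a5⟩,
        ⟨a6, a7, a8, a9⟩, ⟨a10, a11, a12⟩, ⟨a13, a14⟩, a15⟩
    exact List.nodup_ofFn.1 this
  refine id_o8 s.tt3 s.center_eq s.comm_simple.1 s.comm_simple.2 s.tD ?_ ?_ (fun i => s.t * u i)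
    (fun i j h => hi (mul_left_cancel h)) (fun i => (hu i).2)
    (fun i j => (s.comm_iff (s.V6_le (hu i).1) (s.V6_le (hu j).1)).2 (s.W_comm (s.VW (hu i).1) (s.VW (hu j).1))) ?_
  · rw [← s.gK1.2, ← Set.ncard_image_of_injective s.K1 (mul_right_injective s.t)]
    congr 1
    ext a
    rw [s.mem_Dx]
    exact ⟨fun ⟨p, hp, e⟩ => ⟨p, hp, e.symm⟩, fun ⟨p, hp, e⟩ => ⟨p, hp, e.symm⟩⟩
  · intro a ha b hb hne
    obtain ⟨p, hp, rfl⟩ := s.mem_Dx.1 ha
    obtain ⟨q, hq, rfl⟩ := s.mem_Dx.1 hb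
    obtain ⟨r, hr, k1, k2, k3⟩ := f1 p hp q hq fun h => hne (by rw [h])
    exact ⟨s.t * r, s.mem_Dx.2 ⟨r, hr, rfl⟩, fun h => k1 (mul_left_cancel h),
      (s.comm_iff (s.K1_L hp) (s.K1_L hr)).2 k2, fun h => k3 ((s.comm_iff (s.K1_L hq) (s.K1_L hr)).1 h)⟩
  · intro e he h0 h1 h2
    have h0' : Commute (s.t * 1) e := h0
    rw [mul_one] at h0'
    show Commute (s.t * s.x12) e
    rcases s.Dc he h0'.eq.symm with rfl | ⟨p, hp, rfl⟩
    · exact (Commute.refl _).mul_left (s.t_comm (s.K1_L p3.1))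
    · exact (s.comm_iff (s.K1_L p3.1) (s.K1_L hp)).2 (f2 p hp ((s.comm_iff s.x1_L (s.K1_L hp)).1 h1)
        ((s.comm_iff (s.K1_L p2.1) (s.K1_L hp)).1 h2))

end Ca

theorem Co.caseA (s : Co G) {F : Type*} [Field F] [Fintype F] (hF : Fintype.card F = 2) (hy : s.t * s.y ∉ s.D)
    {α : G} (h : s.Kp α) : Concl F s.X := by
  let s' : Ca G := ⟨s, α, hy, h⟩
  have e0 : commutator G = s.X := s'.commutator_eq
  let σ : ZMod 2 ≃+* F := FiniteField.ringEquivOfCardEq (by rw [hF, ZMod.card])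
  rw [← e0]
  rcases s'.ident with ⟨⟨e⟩⟩ | ⟨⟨e⟩⟩
  · obtain ⟨f⟩ := pomega_of_equiv e s'.comm_simple.1 s'.comm_simple.2
    exact Or.inl ⟨f.trans (Cl.pomegaMapEquiv σ fun v => by simp [quadFormPlus])⟩
  · obtain ⟨f⟩ := pomega_of_equiv e s'.comm_simple.1 s'.comm_simple.2
    refine Or.inr (Or.inl ⟨1, 1, fun z₁ z₂ k => ?_, ⟨f.trans (Cl.pomegaMapEquiv σ fun v => by
      simp only [quadFormMinus, Function.comp, map_add, map_mul, map_pow, map_sum, map_one])⟩⟩)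
    obtain ⟨z₁, rfl⟩ := σ.surjective z₁
    obtain ⟨z₂, rfl⟩ := σ.surjective z₂
    have k' : z₁ ^ 2 + 1 * z₁ * z₂ + 1 * z₂ ^ 2 = 0 := σ.injective (by
      simpa only [map_add, map_mul, map_pow, map_one, map_zero] using k)
    have : ∀ a b : ZMod 2, a ^ 2 + 1 * a * b + 1 * b ^ 2 = 0 → a = 0 ∧ b = 0 := by decide
    obtain ⟨rfl, rfl⟩ := this _ _ k'
    exact ⟨map_zero σ, map_zero σ⟩

end Cfsg.Agent.S33
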