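import Mathlib
import Cfsg.Agent.S33.XDefs
import Cfsg.Agent.Rec.Orb
import Cfsg.Agent.Rec.Sim
import Cfsg.Agent.Rec.SylTools

/-! Vectors over the field with two elements coded by numbers, one bit per coordinate. -/

set_option autoImplicit false

namespace Cfsg.Agent.S33

open Cfsg.Agent.Rec Cfsg.Agent.Spor Cfsg.Agent.Spor.NM Matrix Finset

/-- Bit `s` of `M`. -/
def bt (M s : ℕ) : ℕ := Nat.land (Nat.shiftRight M s) 1

theorem bt_eq (M s : ℕ) : bt M s = fld 1 M s := by
  show M >>> s &&& 1 = _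
  rw [Nat.and_one_is_mod, Nat.shiftRight_eq_div_pow, fld, one_mul, pow_one]

theorem bt_lt (M s : ℕ) : bt M s < 2 := bt_eq M s ▸ fld_lt 1 M s

/-- Bit `s` of `M` is set. -/
def hs (M s : ℕ) : Bool := Nat.beq (bt M s) 1

theorem hs_iff (M s : ℕ) : hs M s = true ↔ M.testBit s = true := by
  rw [hs, nbeq_iff, bt_eq, fld, one_mul, pow_one, Nat.testBit_eq_decide_div_mod_eq, decide_eq_true_eq]

/-- The vector with code `s`. -/
def vd (m s : ℕ) : Vec m := fun i => (fld 1 s i : ℕ)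
/-- The matrix with code `a`. -/
def md (m a : ℕ) : Mat m := Matrix.of fun i j => (fld 1 a (m * i + j) : ℕ)

variable {m : ℕ}

theorem vd_xor (s t : ℕ) : vd m (Nat.xor s t) = vd m s + vd m t := by
  funext i
  show ((fld 1 (s ^^^ t) i : ℕ) : ZMod 2) = (fld 1 s i : ℕ) + (fld 1 t i : ℕ)
  rw [fld_xor, cast_xor (fld_lt 1 _ _) (fld_lt 1 _ _)]

theorem vd_zero : vd m 0 = 0 := by funext i; simp [vd, fld]

theorem cast_inj2 {a b : ℕ} (ha : a < 2) (hb : b < 2) : (a : ZMod 2) = b ↔ a = b := by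
  interval_cases a <;> interval_cases b <;> simp

theorem vd_inj {s t : ℕ} (hs : s < 2 ^ m) (ht : t < 2 ^ m) : vd m s = vd m t ↔ s = t := by
  refine ⟨fun h => eq_of_fld (w := 1) (N := m) one_pos (by simpa using hs) (by simpa using ht) fun i hi => ?_,
    fun h => h ▸ rfl⟩
  exact (cast_inj2 (fld_lt 1 _ _) (fld_lt 1 _ _)).1 (congrFun h ⟨i, hi⟩)

theorem vd_onto (v : Vec m) : ∃ s < 2 ^ m, vd m s = v := by
  have h : ∀ t < m, (if h : t < m then (v ⟨t, h⟩).val else 0) < 2 ^ 1 := fun t ht => by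
    rw [dif_pos ht]; exact ZMod.val_lt _
  refine ⟨pk 1 (fun t => if h : t < m then (v ⟨t, h⟩).val else 0) m, by simpa using pk_lt h, funext fun i => ?_⟩
  rw [vd, fld_pk h i.2, dif_pos i.2, ZMod.natCast_zmod_val]

theorem vd_eq_zero {s : ℕ} (hs : s < 2 ^ m) : vd m s = 0 ↔ s = 0 := by
  rw [← vd_zero, vd_inj hs (by positivity)]

theorem vd_pow (j : Fin m) : vd m (2 ^ (j : ℕ)) = Pi.single j 1 := by
  funext i
  rw [vd, ← bt_eq]
  have h := hs_iff (2 ^ (j : ℕ)) i
  rw [hs, nbeq_iff, Nat.testBit_two_pow, decide_eq_true_eq] at h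
  by_cases e : i = j
  · subst e; rw [h.2 rfl]; simp
  · have h1 := bt_lt (2 ^ (j : ℕ)) i
    have h2 : bt (2 ^ (j : ℕ)) i ≠ 1 := fun k => e (Fin.ext (h.1 k).symm)
    rw [show bt (2 ^ (j : ℕ)) i = 0 by omega, Pi.single_eq_of_ne e, Nat.cast_zero]

theorem all_vec {P : Vec m → Prop} (h : ∀ s < 2 ^ m, P (vd m s)) (v : Vec m) : P v := by
  obtain ⟨s, hs, rfl⟩ := vd_onto v
  exact h s hs

/-- The code of the transposed matrix. -/
noncomputable def trC (m a : ℕ) : ℕ :=
  sumF (Nat.mul m m) fun t => Nat.shiftLeft (bt a (Nat.add (Nat.mul m (Nat.mod t m)) (Nat.div t m))) t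

theorem md_trC (a : ℕ) : md m (trC m a) = (md m a)ᵀ := by
  have e : trC m a = pk 1 (fun t => fld 1 a (m * (t % m) + t / m)) (m * m) := by
    rw [trC, sumF_eq, pk]
    refine sum_congr rfl fun t _ => ?_
    rw [bt_eq, one_mul]
    exact Nat.shiftLeft_eq _ _
  ext i j
  rw [e, md, Matrix.of_apply, fld_pk (fun t _ => fld_lt 1 _ _) (idx_lt i.2 j.2), idx_div j.2, idx_mod j.2]
  rfl

/-- The sum of the rows of `b` selected by the first `k` bits of `s`; `R = 2 ^ m - 1`. -/
noncomputable def rvk (m R b s k : ℕ) : ℕ :=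
  Nat.rec 0 (fun j ih => force ih fun r =>
    Nat.xor r (Nat.mul (bt s j) (Nat.land (Nat.shiftRight b (Nat.mul m j)) R))) k

/-- The row vector `s` times the matrix `b`. -/
noncomputable def rv (m b s : ℕ) : ℕ := force (Nat.pred (Nat.shiftLeft 1 m)) fun R => rvk m R b s m

theorem rvk_spec (b s k : ℕ) : rvk m (2 ^ m - 1) b s k < 2 ^ m ∧ ∀ i : Fin m, vd m (rvk m (2 ^ m - 1) b s k) i =
    ∑ j ∈ range k, ((fld 1 s j : ℕ) : ZMod 2) * (fld 1 b (m * j + i) : ℕ) := by
  induction k with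
  | zero => exact ⟨show 0 < 2 ^ m by positivity, fun i => (congrFun vd_zero i).trans (by simp)⟩
  | succ k ih =>
    have e : rvk m (2 ^ m - 1) b s (k + 1) =
      Nat.xor (rvk m (2 ^ m - 1) b s k) (bt s k * (b >>> (m * k) &&& (2 ^ m - 1))) := rfl
    have h1 : b >>> (m * k) &&& (2 ^ m - 1) < 2 ^ m := land_lt_right _ (Nat.sub_lt (by positivity) one_pos)
    have h2 := bt_lt s k
    have h3 : ∀ i : Fin m, fld 1 (b >>> (m * k) &&& (2 ^ m - 1)) i = fld 1 b (m * k + i) := fun i => by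
      have h4 := fld_shiftRight 1 b (m * k) i
      rw [one_mul] at h4
      rw [fld_land, h4, add_comm, ← bt_eq (2 ^ m - 1), (nbeq_iff _ _).1 ((hs_iff _ _).2 (by simp)),
        Nat.and_one_is_mod]
      exact Nat.mod_eq_of_lt (fld_lt 1 _ _)
    rw [e]
    refine ⟨Nat.xor_lt_two_pow ih.1 (by nlinarith), fun i => ?_⟩
    rw [vd_xor, Pi.add_apply, ih.2, sum_range_succ, ← bt_eq s k, ← h3]
    congr 1
    obtain h | h : bt s k = 0 ∨ bt s k = 1 := by omega
    · rw [h]; simp [vd, fld]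
    · rw [h]; simp [vd]

theorem rv_eq (b s : ℕ) : rv m b s = rvk m (2 ^ m - 1) b s m := by
  rw [rv, force_eq, show Nat.shiftLeft 1 m = 2 ^ m from Nat.one_shiftLeft m]; rfl

theorem rv_lt (b s : ℕ) : rv m b s < 2 ^ m := rv_eq (m := m) b s ▸ (rvk_spec b s m).1

theorem vd_rv (a s : ℕ) : vd m (rv m (trC m a) s) = md m a *ᵥ vd m s := by
  funext i
  rw [rv_eq, (rvk_spec _ s m).2, sum_range, mulVec, dotProduct]
  refine sum_congr rfl fun j _ => ?_
  rw [mul_comm]
  exact congrArg (· * _) (congrFun (congrFun (md_trC (m := m) a) j) i)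

/-- Growing a set of numbers along a list of checked steps. -/
noncomputable def grow (ok : ℕ → ℕ → Bool) (val : ℕ → ℕ) (l : List ℕ) : ℕ → ℕ :=
  List.rec (fun M => M) (fun a _ ih M =>
    force (Bool.rec M (Nat.lor M (Nat.shiftLeft 1 (val a))) (ok M a)) ih) l

theorem grow_sound {ok : ℕ → ℕ → Bool} {val : ℕ → ℕ} {P : ℕ → Prop}
    (h : ∀ M a, (∀ s, hs M s = true → P s) → ok M a = true → P (val a)) (l : List ℕ) {M : ℕ}
    (hM : ∀ s, hs M s = true → P s) : ∀ s, hs (grow ok val l M) s = true → P s := by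
  induction l generalizing M with
  | nil => exact hM
  | cons a l ih =>
    refine ih (M := Bool.rec M (Nat.lor M (Nat.shiftLeft 1 (val a))) (ok M a)) ?_
    cases e : ok M a with
    | false => exact hM
    | true =>
      intro s h1
      have h2 : (M ||| 1 <<< val a).testBit s = true := (hs_iff _ _).1 h1
      rw [Nat.testBit_lor, Bool.or_eq_true, Nat.one_shiftLeft, Nat.testBit_two_pow, decide_eq_true_eq] at h2
      rcases h2 with h2 | rfl
      · exact hM s ((hs_iff _ _).2 h2)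
      · exact h M a hM e

theorem hs_zero (s : ℕ) : ¬ hs 0 s = true := by rw [hs_iff]; simp

/-- The set of the members of a list. -/
noncomputable def seeds (l : List ℕ) : ℕ := List.rec 0 (fun a _ ih => Nat.lor ih (Nat.shiftLeft 1 a)) l

theorem seeds_sound {l : List ℕ} {s : ℕ} (h : hs (seeds l) s = true) : s ∈ l := by
  induction l with
  | nil => exact absurd h (hs_zero s)
  | cons a l ih =>
    have h2 : (seeds l ||| 1 <<< a).testBit s = true := (hs_iff _ _).1 h
    rw [Nat.testBit_lor, Bool.or_eq_true, Nat.one_shiftLeft, Nat.testBit_two_pow, decide_eq_true_eq] at h2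
    rcases h2 with h2 | rfl
    · exact List.mem_cons_of_mem _ (ih ((hs_iff _ _).2 h2))
    · exact List.mem_cons_self

/-- The number of `i < n` with `f i`. -/
noncomputable def cntLt (n : ℕ) (f : ℕ → Bool) : ℕ := sumF n fun i => Bool.rec 0 1 (f i)

theorem ncard_vec {P : Vec m → Prop} {f : ℕ → Bool} (h : ∀ s < 2 ^ m, f s = true ↔ P (vd m s)) :
    {x | P x}.ncard = cntLt (2 ^ m) f := by
  have e : {x | P x} = vd m '' ((range (2 ^ m)).filter fun s => f s = true : Finset ℕ) := by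
    ext x
    obtain ⟨s, h1, rfl⟩ := vd_onto x
    simp only [Set.mem_ofPred_eq, coe_filter, mem_range, Set.mem_image]
    exact ⟨fun k => ⟨s, ⟨h1, (h s h1).2 k⟩, rfl⟩, fun ⟨t, ⟨h2, h3⟩, h4⟩ => h4 ▸ (h t h2).1 h3⟩
  rw [e, Set.InjOn.ncard_image, Set.ncard_coe_finset, card_filter, cntLt, sumF_eq]
  · refine sum_congr rfl fun i _ => ?_
    cases f i <;> rfl
  · intro a ha b hb k
    exact (vd_inj (mem_range.1 (mem_filter.1 ha).1) (mem_range.1 (mem_filter.1 hb).1)).1 k

end Cfsg.Agent.S33
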