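import Mathlib
import Cfsg.Agent.S33.LVec

/-! Checks on coded vectors and matrices. -/

set_option autoImplicit false

namespace Cfsg.Agent.S33

open Cfsg Cfsg.Agent.Rec Cfsg.Agent.Spor Cfsg.Agent.Spor.NM Cfsg.Agent.Loc.Mss Matrix Subgroup

variable {m : ℕ}

theorem ap_mul (g h : Gl m) (v : Vec m) : ap (g * h) v = ap g (ap h v) := by simp [ap]
theorem ap_one (v : Vec m) : ap 1 v = v := by simp [ap]
theorem ap_add (g : Gl m) (u v : Vec m) : ap g (u + v) = ap g u + ap g v := mulVec_add _ _ _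
theorem ap_zero (g : Gl m) : ap g 0 = 0 := mulVec_zero _
theorem ap_inv (g : Gl m) (v : Vec m) : ap g⁻¹ (ap g v) = v := by rw [← ap_mul, inv_mul_cancel, ap_one]
theorem ap_inv' (g : Gl m) (v : Vec m) : ap g (ap g⁻¹ v) = v := by rw [← ap_mul, mul_inv_cancel, ap_one]
theorem ap_inj {g : Gl m} {u v : Vec m} : ap g u = ap g v ↔ u = v :=
  ⟨fun h => by rw [← ap_inv g u, h, ap_inv], fun h => h ▸ rfl⟩
theorem vec_add_self (v : Vec m) : v + v = 0 := by
  funext i; exact CharTwo.add_self_eq_zero (v i)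
theorem ap_inv_fix {g : Gl m} {v : Vec m} (h : ap g v = v) : ap g⁻¹ v = v := by rw [← h, ap_inv, h]

theorem mat_ext {P R : Mat m} (h : ∀ j, P *ᵥ Pi.single j 1 = R *ᵥ Pi.single j 1) : P = R := by
  ext i j
  simpa using congrFun (h j) i

theorem fix_clos {xs : List (Gl m)} {v : Vec m} (h : ∀ g ∈ xs, ap g v = v) : ∀ g ∈ clos xs, ap g v = v := by
  intro g hg
  induction hg using closure_induction with
  | mem x hx => exact h x hx
  | one => exact ap_one v
  | mul a b _ _ ha hb => rw [ap_mul, hb, ha]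
  | inv a _ ha => exact ap_inv_fix ha

theorem comm_clos {xs : List (Gl m)} {Ω : Mat m} (h : ∀ g ∈ xs, (g : Mat m) * Ω = Ω * g) :
    ∀ g ∈ clos xs, (g : Mat m) * Ω = Ω * g := by
  intro g hg
  induction hg using closure_induction with
  | mem x hx => exact h x hx
  | one => simp
  | mul a b _ _ ha hb => rw [Units.val_mul, mul_assoc, hb, ← mul_assoc, ha, mul_assoc]
  | inv a _ ha => rw [Units.inv_mul_eq_iff_eq_mul, ← mul_assoc, ha, Units.mul_inv_cancel_right]

theorem near_clos {xs : List (Gl m)} {x w : Vec m} (hw : ∀ g ∈ clos xs, ap g w = w)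
    (h : ∀ g ∈ xs, ap g x = x ∨ ap g x = x + w) : ∀ g ∈ clos xs, ap g x = x ∨ ap g x = x + w := by
  intro g hg
  induction hg using closure_induction with
  | mem x hx => exact h x hx
  | one => exact .inl (ap_one x)
  | mul a b h1 _ ha hb =>
    rw [ap_mul]
    rcases hb with hb | hb <;> rw [hb]
    · exact ha
    · rw [ap_add, hw a h1]
      exact ha.symm.imp (fun k => by rw [k, add_assoc, vec_add_self, add_zero]) fun k => by rw [k]
  | inv a h1 ha =>
    refine ha.imp ap_inv_fix fun k => ?_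
    rw [← ap_inj (g := a), ap_inv', ap_add, k, hw a h1, add_assoc, vec_add_self, add_zero]

theorem pol_comm (q : Vec m → ZMod 2) (u v : Vec m) : pol q u v = pol q v u := by
  rw [pol, pol, add_comm u v, add_right_comm]

theorem IsQ.bil' {q : Vec m → ZMod 2} (h : IsQ q) (u v w : Vec m) : pol q u (v + w) = pol q u v + pol q u w := by
  rw [pol_comm, h.bil, pol_comm q v, pol_comm q w]

theorem add_ind {P : Vec m → Prop} (h0 : P 0) (h1 : ∀ j, P (Pi.single j 1)) (h2 : ∀ u v, P u → P v → P (u + v))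
    (v : Vec m) : P v := by
  rw [← Finset.univ_sum_single v]
  refine Finset.sum_induction _ P h2 h0 fun j _ => ?_
  have h : ∀ a : ZMod 2, a = 0 ∨ a = 1 := by decide
  rcases h (v j) with e | e <;> rw [e]
  · rwa [Pi.single_zero]
  · exact h1 j

theorem IsQ.pol0 {q : Vec m → ZMod 2} (h : IsQ q) (v : Vec m) : pol q 0 v = 0 := by
  rw [pol, zero_add, h.zero, add_zero, CharTwo.add_self_eq_zero]

theorem adj_of_basis {q : Vec m → ZMod 2} (h : IsQ q) {Ω : Mat m} (hb : ∀ i j, pol q (Ω *ᵥ Pi.single i 1) (Pi.single j 1) =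
    pol q (Pi.single i 1) (Ω *ᵥ Pi.single j 1) + pol q (Pi.single i 1) (Pi.single j 1)) (u v : Vec m) :
    pol q (Ω *ᵥ u) v = pol q u (Ω *ᵥ v) + pol q u v := by
  induction u using add_ind with
  | h0 => simp [h.pol0]
  | h2 a b ha hb => rw [mulVec_add, h.bil, h.bil, h.bil, ha, hb]; ring
  | h1 i =>
    induction v using add_ind with
    | h0 => simp [pol_comm q _ 0, h.pol0]
    | h2 a b ha hb => rw [mulVec_add, h.bil', h.bil', h.bil', ha, hb]; ring
    | h1 j => exact hb i j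

/-- `t` is the code of the transpose of `P`. -/
def Act (m t : ℕ) (P : Mat m) : Prop := ∀ s, vd m (rv m t s) = P *ᵥ vd m s
/-- The same for lists. -/
def ActL (m : ℕ) (ts : List ℕ) (xs : List (Gl m)) : Prop := List.Forall₂ (fun t (g : Gl m) => Act m t g) ts xs
/-- The codes name the matrices bit by bit. -/
def Bits {A : Ar} (C : Cod A (Gl m)) : Prop := ∀ a g, C.Rep a g → (g : Mat m) = md m a
/-- The table of values of `q`. -/
def Tab (q : Vec m → ZMod 2) (Q : ℕ) : Prop := ∀ s < 2 ^ m, q (vd m s) = (bt Q s : ℕ)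

theorem bits8 : Bits B8.C := fun _ _ h => h.2 ▸ B8.spec.coe_elt (Equiv.refl _) h.1
theorem bits10 : Bits B10.C := fun _ _ h => h.2 ▸ B10.spec.coe_elt (Equiv.refl _) h.1

theorem act_md {a t : ℕ} {P : Mat m} (h : P = md m a) (ht : Nat.beq (trC m a) t = true) : Act m t P := fun s => by
  rw [← (nbeq_iff _ _).1 ht, h, vd_rv]

section

variable {A : Ar} {C : Cod A (Gl m)}

theorem Bits.act (hC : Bits C) {a : ℕ} {g : Gl m} (h : C.Rep a g) : Act m (trC m a) g :=
  act_md (hC a g h) ((nbeq_iff _ _).2 rfl)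

theorem Bits.actL (hC : Bits C) {c ts : List ℕ} {e : List (Gl m)} (h : C.RepL c e)
    (ht : beqL (c.map (trC m)) ts = true) : ActL m ts e := by
  rw [← eq_of_beqL ht]
  clear ht
  induction h with
  | nil => exact .nil
  | cons h _ ih => exact .cons (hC.act h) ih

end

theorem ActL.left {ts : List ℕ} {xs : List (Gl m)} (h : ActL m ts xs) {t : ℕ} (ht : t ∈ ts) :
    ∃ g ∈ xs, Act m t g := by
  induction h with
  | nil => simp at ht
  | cons h _ ih =>
    rcases List.mem_cons.1 ht with rfl | ht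
    · exact ⟨_, List.mem_cons_self, h⟩
    · obtain ⟨g, h1, h2⟩ := ih ht
      exact ⟨g, List.mem_cons_of_mem _ h1, h2⟩

theorem ActL.right {ts : List ℕ} {xs : List (Gl m)} (h : ActL m ts xs) {g : Gl m} (hg : g ∈ xs) :
    ∃ t ∈ ts, Act m t g := by
  induction h with
  | nil => simp at hg
  | cons h _ ih =>
    rcases List.mem_cons.1 hg with rfl | hg
    · exact ⟨_, List.mem_cons_self, h⟩
    · obtain ⟨t, h1, h2⟩ := ih hg
      exact ⟨t, List.mem_cons_of_mem _ h1, h2⟩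

theorem Act.eq {t s u : ℕ} {P : Mat m} (h : Act m t P) (e : Nat.beq (rv m t s) u = true) :
    P *ᵥ vd m s = vd m u := by rw [← h, (nbeq_iff _ _).1 e]

theorem Act.iff {t u : ℕ} {P : Mat m} (h : Act m t P) (s : ℕ) (hu : u < 2 ^ m) :
    rv m t s = u ↔ P *ᵥ vd m s = vd m u := by rw [← h, vd_inj (rv_lt _ _) hu]

theorem ActL.fix {ts : List ℕ} {xs : List (Gl m)} (h : ActL m ts xs) {y : ℕ}
    (hc : allL ts (fun t => Nat.beq (rv m t y) y) = true) : ∀ g ∈ clos xs, ap g (vd m y) = vd m y :=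
  fix_clos fun g hg => by
    obtain ⟨t, h1, h2⟩ := h.right hg
    exact h2.eq ((allL_iff _ _).1 hc t h1)

/-- A loop over the codes of the basis vectors. -/
noncomputable def allB (m : ℕ) (f : ℕ → Bool) : Bool := allLt m fun j => force (Nat.shiftLeft 1 j) f

theorem allB_sound {f : ℕ → Bool} (h : allB m f = true) (j : Fin m) :
    ∃ s < 2 ^ m, vd m s = Pi.single j 1 ∧ f s = true :=
  ⟨2 ^ (j : ℕ), Nat.pow_lt_pow_right one_lt_two j.2, vd_pow j, by
    have h1 := (allLt_iff _ _).1 h j j.2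
    rwa [force_eq, show Nat.shiftLeft 1 j = 2 ^ (j : ℕ) from Nat.one_shiftLeft j] at h1⟩

theorem ActL.comm {ts : List ℕ} {xs : List (Gl m)} (h : ActL m ts xs) {o : ℕ} {Ω : Mat m} (ho : Act m o Ω)
    (hc : allL ts (fun t => allB m fun s => Nat.beq (rv m t (rv m o s)) (rv m o (rv m t s))) = true) :
    ∀ g ∈ clos xs, (g : Mat m) * Ω = Ω * g :=
  comm_clos fun g hg => mat_ext fun j => by
    obtain ⟨t, h1, h2⟩ := h.right hg
    obtain ⟨s, -, h3, h4⟩ := allB_sound ((allL_iff _ _).1 hc t h1) j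
    rw [← h3, ← mulVec_mulVec, ← mulVec_mulVec, ← ho, h2.eq h4, ho, h2]

theorem Act.twist {t o : ℕ} {T Ω : Mat m} (h : Act m t T) (ho : Act m o Ω)
    (hc : allB m (fun s => Nat.beq (rv m t (rv m o s)) (Nat.xor (rv m o (rv m t s)) (rv m t s))) = true) :
    T * Ω = (Ω + 1) * T := mat_ext fun j => by
  obtain ⟨s, -, h3, h4⟩ := allB_sound hc j
  rw [← h3, ← mulVec_mulVec, ← mulVec_mulVec, ← ho, h.eq h4, vd_xor, ho, h, add_mulVec, one_mulVec]

theorem Act.idem {o : ℕ} {Ω : Mat m} (ho : Act m o Ω)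
    (hc : allB m (fun s => Nat.beq (rv m o (rv m o s)) (rv m o s)) = true) : Ω * Ω = Ω := mat_ext fun j => by
  obtain ⟨s, -, h3, h4⟩ := allB_sound hc j
  rw [← h3, ← mulVec_mulVec, ← ho, ho.eq h4]

/-- The polar form on codes. -/
def pl (Q s t : ℕ) : ℕ := Nat.xor (Nat.xor (bt Q (Nat.xor s t)) (bt Q s)) (bt Q t)

theorem xor_lt2 {a b : ℕ} (ha : a < 2) (hb : b < 2) : Nat.xor a b < 2 := Nat.xor_lt_two_pow (n := 1) ha hb

theorem pl_lt (Q s t : ℕ) : pl Q s t < 2 := xor_lt2 (xor_lt2 (bt_lt _ _) (bt_lt _ _)) (bt_lt _ _)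

theorem xor_lt {s t : ℕ} (hs : s < 2 ^ m) (ht : t < 2 ^ m) : Nat.xor s t < 2 ^ m := Nat.xor_lt_two_pow hs ht

section

variable {q : Vec m → ZMod 2} {Q : ℕ} (hQ : Tab q Q)
include hQ

theorem Tab.pol {s t : ℕ} (hs : s < 2 ^ m) (ht : t < 2 ^ m) : pol q (vd m s) (vd m t) = (pl Q s t : ℕ) := by
  rw [S33.pol, ← vd_xor, hQ _ (xor_lt hs ht), hQ s hs, hQ t ht, ← cast_xor (bt_lt _ _) (bt_lt _ _)]
  exact (cast_xor (xor_lt2 (bt_lt _ _) (bt_lt _ _)) (bt_lt _ _)).symm

theorem Tab.q0 {s : ℕ} (hs : s < 2 ^ m) : q (vd m s) = 0 ↔ bt Q s = 0 := by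
  rw [hQ s hs, ← cast_inj2 (bt_lt Q s) two_pos, Nat.cast_zero]

theorem Tab.q1 {s : ℕ} (hs : s < 2 ^ m) : q (vd m s) = 1 ↔ bt Q s = 1 := by
  rw [hQ s hs, ← cast_inj2 (bt_lt Q s) one_lt_two, Nat.cast_one]

theorem Tab.p0 {s t : ℕ} (hs : s < 2 ^ m) (ht : t < 2 ^ m) : S33.pol q (vd m s) (vd m t) = 0 ↔ pl Q s t = 0 := by
  rw [hQ.pol hs ht, ← cast_inj2 (pl_lt Q s t) two_pos, Nat.cast_zero]

theorem Tab.p1 {s t : ℕ} (hs : s < 2 ^ m) (ht : t < 2 ^ m) : S33.pol q (vd m s) (vd m t) = 1 ↔ pl Q s t = 1 := by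
  rw [hQ.pol hs ht, ← cast_inj2 (pl_lt Q s t) one_lt_two, Nat.cast_one]

theorem Tab.adj (h : IsQ q) {o : ℕ} {Ω : Mat m} (ho : Act m o Ω) (hc : allB m (fun s => allB m fun t =>
    Nat.beq (pl Q (rv m o s) t) (Nat.xor (pl Q s (rv m o t)) (pl Q s t))) = true) (u v : Vec m) :
    S33.pol q (Ω *ᵥ u) v = S33.pol q u (Ω *ᵥ v) + S33.pol q u v := by
  refine adj_of_basis h (fun i j => ?_) u v
  obtain ⟨s, h1, h2, h3⟩ := allB_sound hc i
  obtain ⟨t, h4, h5, h6⟩ := allB_sound h3 j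
  rw [← h2, ← h5, ← ho, ← ho, hQ.pol (rv_lt _ _) h4, hQ.pol h1 (rv_lt _ _), hQ.pol h1 h4, (nbeq_iff _ _).1 h6,
    ← cast_xor (pl_lt _ _ _) (pl_lt _ _ _)]
  rfl

end

/-- Add the images of `s`. -/
noncomputable def addL (m : ℕ) (ts : List ℕ) (s : ℕ) : ℕ → ℕ :=
  List.rec (fun M => M) (fun t _ ih M => force (Nat.lor M (Nat.shiftLeft 1 (rv m t s))) ih) ts
/-- Add the images of the members below `n`. -/
noncomputable def sweep (m : ℕ) (ts : List ℕ) (n : ℕ) : ℕ → ℕ :=
  Nat.rec (fun M => M) (fun s ih M => force (Bool.rec M (addL m ts s M) (hs M s)) ih) n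
/-- `d` sweeps. -/
noncomputable def orbM (m : ℕ) (ts : List ℕ) (d : ℕ) : ℕ → ℕ :=
  Nat.rec (fun M => M) (fun _ ih M => force (sweep m ts (Nat.shiftLeft 1 m) M) ih) d

theorem hs_lor {M a s : ℕ} (h : hs (Nat.lor M (Nat.shiftLeft 1 a)) s = true) : hs M s = true ∨ a = s := by
  have h2 : (M ||| 1 <<< a).testBit s = true := (hs_iff _ _).1 h
  rwa [Nat.testBit_lor, Bool.or_eq_true, Nat.one_shiftLeft, Nat.testBit_two_pow, decide_eq_true_eq, ← hs_iff] at h2

theorem ActL.orb {ts : List ℕ} {xs : List (Gl m)} (h : ActL m ts xs) {P : Vec m → Prop}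
    (hP : ∀ g ∈ xs, ∀ v, P v → P (ap g v)) (d : ℕ) {l : List ℕ} (hl : ∀ s ∈ l, P (vd m s)) :
    ∀ s, hs (orbM m ts d (seeds l)) s = true → P (vd m s) := by
  have h1 : ∀ s, P (vd m s) → ∀ M, (∀ u, hs M u = true → P (vd m u)) →
      ∀ u, hs (addL m ts s M) u = true → P (vd m u) := fun s h0 => by
    have k : ∀ t ∈ ts, P (vd m (rv m t s)) := fun t ht => by
      obtain ⟨g, h2, h3⟩ := h.left ht
      rw [h3]
      exact hP g h2 _ h0
    clear h
    induction ts with
    | nil => exact fun M hM => hM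
    | cons t ts ih =>
      refine fun M hM => ih (fun u hu => k u (List.mem_cons_of_mem _ hu)) _ fun u hu => ?_
      rcases hs_lor hu with h2 | rfl
      · exact hM u h2
      · exact k t List.mem_cons_self
  have h2 : ∀ n M, (∀ u, hs M u = true → P (vd m u)) → ∀ u, hs (sweep m ts n M) u = true → P (vd m u) := by
    intro n
    induction n with
    | zero => exact fun M hM => hM
    | succ n ih =>
      intro M hM
      have e0 : sweep m ts (n + 1) M = sweep m ts n (Bool.rec M (addL m ts n M) (hs M n)) := rfl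
      rw [e0]
      refine ih _ ?_
      cases e : hs M n with
      | false => exact hM
      | true => exact h1 n (hM n e) M hM
  have h3 : ∀ M, (∀ u, hs M u = true → P (vd m u)) → ∀ u, hs (orbM m ts d M) u = true → P (vd m u) := by
    induction d with
    | zero => exact fun M hM => hM
    | succ d ih => exact fun M hM => ih _ (h2 _ M hM)
  exact h3 _ fun u hu => hl u (seeds_sound hu)

/-- A loop over the codes of all vectors. -/
noncomputable def allV (m : ℕ) (f : ℕ → Bool) : Bool := allLt (Nat.shiftLeft 1 m) f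

theorem allV_iff {f : ℕ → Bool} : allV m f = true ↔ ∀ s < 2 ^ m, f s = true := by
  rw [allV, allLt_iff, show Nat.shiftLeft 1 m = 2 ^ m from Nat.one_shiftLeft m]

end Cfsg.Agent.S33
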