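import Mathlib
import Cfsg.Agent.S33.LChk
import Cfsg.Agent.Rec.Lin

/-! The checks for the facts `LS`, `LU`, `LF`. -/

set_option autoImplicit false

namespace Cfsg.Agent.S33

open Cfsg Cfsg.Agent.Rec Cfsg.Agent.Spor Cfsg.Agent.Spor.NM Cfsg.Agent.Loc.Mss Matrix Subgroup

variable {m : ℕ} {q : Vec m → ZMod 2} {Q o y t : ℕ} {Ω : Mat m} {ts ss : List ℕ} {xs zs : List (Gl m)} {T : Gl m}

theorem bt_cases (Q s : ℕ) : bt Q s = 0 ∨ bt Q s = 1 := by have := bt_lt Q s; omega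
theorem pl_cases (Q s u : ℕ) : pl Q s u = 0 ∨ pl Q s u = 1 := by have := pl_lt Q s u; omega

/-- The number of vectors moved by at most `w`. -/
noncomputable def nearC (m : ℕ) (ss : List ℕ) (w : ℕ) : ℕ := cntLt (Nat.shiftLeft 1 m) fun x =>
  allL ss fun t => force (rv m t x) fun u => bor (Nat.beq u x) (Nat.beq u (Nat.xor x w))

theorem ActL.near (h : ActL m ss zs) {w : ℕ} (hw : w < 2 ^ m) (hf : ∀ g ∈ clos zs, ap g (vd m w) = vd m w) :
    {x | ∀ s ∈ clos zs, ap s x = x ∨ ap s x = x + vd m w}.ncard = nearC m ss w := by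
  rw [nearC, show Nat.shiftLeft 1 m = 2 ^ m from Nat.one_shiftLeft m]
  refine ncard_vec fun x hx => ?_
  simp only [allL_iff, force_eq, bor_iff, nbeq_iff]
  refine ⟨fun k => near_clos hf fun g hg => ?_, fun k a ha => ?_⟩
  · obtain ⟨a, h1, h2⟩ := h.right hg
    have h3 := k a h1
    rwa [h2.iff x hx, h2.iff x (xor_lt hx hw), vd_xor] at h3
  · obtain ⟨g, h1, h2⟩ := h.left ha
    rw [h2.iff x hx, h2.iff x (xor_lt hx hw), vd_xor]
    exact k g (mem_clos h1)

/-- All nonzero singular vectors lie in `M`. -/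
noncomputable def covS (m Q M : ℕ) : Bool := allV m fun s => bor (Nat.beq s 0) (bor (Nat.beq (bt Q s) 1) (hs M s))

theorem Tab.cov (hQ : Tab q Q) {M : ℕ} (h : covS m Q M = true) {P : Vec m → Prop}
    (hM : ∀ s, hs M s = true → P (vd m s)) : ∀ v, v ≠ 0 → q v = 0 → P v := all_vec fun s h1 h2 h3 => by
  have h4 := allV_iff.1 h s h1
  rw [bor_iff, bor_iff, nbeq_iff, nbeq_iff] at h4
  rw [hQ.q0 h1] at h3
  exact hM s ((h4.resolve_left fun k => h2 ((vd_eq_zero h1).2 k)).resolve_left (by omega))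

/-- The check for `LS`. -/
noncomputable def lsOK (m Q o y d : ℕ) (ts ss : List ℕ) : Bool := force (rv m o y) fun z =>
  band (allB m fun s => Nat.beq (rv m o (rv m o s)) (rv m o s))
    (band (allV m fun s => force (rv m o s) fun u =>
        bor (Nat.beq (bt Q s) 0) (band (bneg (Nat.beq u 0)) (bneg (Nat.beq u s))))
      (band (force (orbM m ts d (seeds [y, z, Nat.xor z y])) (covS m Q))
        (force (nearC m ss y) fun n => band (bneg (Nat.beq n (nearC m ss z)))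
          (bneg (Nat.beq n (nearC m ss (Nat.xor z y)))))))

theorem ls_of (hQ : Tab q Q) (ho : Act m o Ω) (hx : ActL m ts xs) (hz : ActL m ss zs) (hy : y < 2 ^ m)
    (hf : ∀ g ∈ clos zs, ap g (vd m y) = vd m y) (hc : ∀ g ∈ clos zs, (g : Mat m) * Ω = Ω * g) {d : ℕ}
    (h : lsOK m Q o y d ts ss = true) : LS q (clos xs) (clos zs) Ω (vd m y) := by
  simp only [lsOK, force_eq, band_iff, bneg_iff, nbeq_iff] at h
  obtain ⟨h1, h2, h3, h4, h5⟩ := h
  have f1 : ∀ g ∈ clos zs, ap g (vd m (rv m o y)) = vd m (rv m o y) := fun g hg => by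
    rw [ho, ap, mulVec_mulVec, hc g hg, ← mulVec_mulVec]
    exact congrArg _ (hf g hg)
  have f2 : ∀ g ∈ clos zs, ap g (vd m (Nat.xor (rv m o y) y)) = vd m (Nat.xor (rv m o y) y) := fun g hg => by
    rw [vd_xor, ap_add, f1 g hg, hf g hg]
  refine ⟨ho.idem h1, all_vec fun s k1 k2 => ?_, hQ.cov h3 (hx.orb (P := fun v => ∃ h ∈ clos xs,
    ap h (vd m y) = v ∨ ap h (Ω *ᵥ vd m y) = v ∨ ap h (Ω *ᵥ vd m y + vd m y) = v) ?_ d ?_), ?_⟩
  · have k3 := allV_iff.1 h2 s k1
    simp only [bor_iff, band_iff, bneg_iff, nbeq_iff] at k3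
    rw [ho.iff s (by positivity), ho.iff s k1, vd_zero] at k3
    rw [hQ.q0 k1]
    tauto
  · rintro g hg v ⟨a, ha, k⟩
    refine ⟨g * a, mul_mem (mem_clos hg) ha, ?_⟩
    simp only [ap_mul, ap_inj]
    exact k
  · simp only [List.forall_mem_cons, List.not_mem_nil, false_imp_iff, implies_true, and_true, vd_xor, ho y]
    exact ⟨⟨1, one_mem _, .inl (ap_one _)⟩, ⟨1, one_mem _, .inr (.inl (ap_one _))⟩,
      ⟨1, one_mem _, .inr (.inr (ap_one _))⟩⟩
  · rw [hz.near hy hf]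
    rintro w (rfl | rfl)
    · rw [← ho, hz.near (rv_lt _ _) f1]; exact h4
    · rw [← ho, ← vd_xor, hz.near (xor_lt (rv_lt _ _) hy) f2]; exact h5

/-- A step `x + 2 ^ m z` adds `x + z`. -/
noncomputable def linkS (m Q M a : ℕ) : Bool :=
  force (Nat.mod a (Nat.shiftLeft 1 m)) fun x => force (Nat.shiftRight a m) fun z =>
    band (hs M x) (band (blt z (Nat.shiftLeft 1 m)) (bor (hs M z)
      (band (bneg (Nat.beq x 0)) (band (Nat.beq (bt Q z) 0) (Nat.beq (bt Q (Nat.xor x z)) 0)))))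

/-- The check for `LU.link`. -/
noncomputable def linkOK (m Q y : ℕ) (l : List ℕ) : Bool :=
  force (grow (linkS m Q) (fun a => Nat.xor (Nat.mod a (Nat.shiftLeft 1 m)) (Nat.shiftRight a m)) l (seeds [y]))
    fun M => allB m (hs M)

theorem link_of (hQ : Tab q Q) (h0 : q (vd m y) = 0) {l : List ℕ} (h : linkOK m Q y l = true) (δ : Mat m)
    (hδ : ∀ x, q x = 0 → δ *ᵥ x = 0 ∨ δ *ᵥ x = x) : δ = 0 ∨ δ = 1 := by
  have key : ∀ ε : Mat m, (∀ x, q x = 0 → ε *ᵥ x = 0 ∨ ε *ᵥ x = x) → ε *ᵥ vd m y = 0 → ε = 0 := by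
    intro ε h1 h2
    rw [linkOK, force_eq] at h
    have h3 := grow_sound (ok := linkS m Q) (val := fun a => Nat.xor (Nat.mod a (Nat.shiftLeft 1 m))
      (Nat.shiftRight a m)) (P := fun s => ε *ᵥ vd m s = 0) (fun M a hM hk => by
        simp only [linkS, force_eq, band_iff, bor_iff, bneg_iff, nbeq_iff, blt_iff] at hk
        obtain ⟨k1, k2, k3⟩ := hk
        have e : Nat.shiftLeft 1 m = 2 ^ m := Nat.one_shiftLeft m
        rw [e] at k1 k2 k3 ⊢
        have k4 : Nat.mod a (2 ^ m) < 2 ^ m := Nat.mod_lt _ (by positivity)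
        generalize Nat.mod a (2 ^ m) = x at *
        generalize Nat.shiftRight a m = z at *
        have k5 := hM x k1
        rw [vd_xor, mulVec_add, k5, zero_add]
        refine k3.elim (hM z) fun ⟨k6, k7, k8⟩ => (h1 _ ((hQ.q0 k2).2 k7)).elim id fun k9 => ?_
        have k10 := h1 _ ((hQ.q0 (xor_lt k4 k2)).2 k8)
        rw [vd_xor, mulVec_add, k5, zero_add] at k10
        refine k10.resolve_right fun k11 => k6 ((vd_eq_zero k4).1 ?_)
        rw [k9] at k11
        exact (add_eq_right.1 k11.symm)) l (M := seeds [y]) fun s k => by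
          rw [List.mem_singleton.1 (seeds_sound k)]; exact h2
    refine mat_ext fun j => ?_
    obtain ⟨s, -, k1, k2⟩ := allB_sound h j
    rw [← k1, h3 s k2, zero_mulVec]
  refine (hδ _ h0).imp (key δ hδ) fun k => ?_
  have h4 := key (δ + 1) (fun x hx => (hδ x hx).symm.imp (fun e => by rw [add_mulVec, e, one_mulVec, vec_add_self])
    fun e => by rw [add_mulVec, e, one_mulVec, zero_add]) (by rw [add_mulVec, k, one_mulVec, vec_add_self])
  ext i j
  have h5 := congrFun (congrFun h4 i) j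
  rw [Matrix.add_apply, Matrix.zero_apply, add_eq_zero_iff_eq_neg, CharTwo.neg_eq] at h5
  exact h5

theorem exists_finset (f : ℕ → Bool) : ∃ B : Finset (Vec m), B.card = cntLt (Nat.shiftLeft 1 m) f ∧
    ∀ s < 2 ^ m, (vd m s ∈ B ↔ f s = true) := by
  have h : ∀ s < 2 ^ m, f s = true ↔ ∃ u < 2 ^ m, vd m u = vd m s ∧ f u = true := fun s h1 =>
    ⟨fun k => ⟨s, h1, rfl, k⟩, fun ⟨u, h2, h3, k⟩ => (vd_inj h2 h1).1 h3 ▸ k⟩
  refine ⟨(Set.toFinite {x | ∃ u < 2 ^ m, vd m u = x ∧ f u = true}).toFinset, ?_, fun s h1 => ?_⟩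
  · rw [← Set.ncard_eq_toFinset_card, show Nat.shiftLeft 1 m = 2 ^ m from Nat.one_shiftLeft m]
    exact ncard_vec h
  · rw [Set.Finite.mem_toFinset, h s h1]; rfl

/-- The check for `LU`: `ss` acts as generators fixing `y`, `l1` and `x0` are representatives, `g` moves `Ω y` to `y`. -/
noncomputable def luOK (m Q o y t g d x0 : ℕ) (ts ss l1 l3 : List ℕ) : Bool := force (rv m o y) fun z =>
  band (force (orbM m ts d (seeds [y])) (covS m Q)) (band (linkOK m Q y l3)
    (band (allL (t :: ss) fun g => Nat.beq (rv m g y) y) (band (allL l1 fun s => Nat.beq (rv m t s) s)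
      (band (Nat.beq (rv m g z) y)
      (force (orbM m ss d (seeds l1)) fun M1 => force (orbM m (t :: ss) d (seeds [x0])) fun M2 =>
        force (cntLt (Nat.shiftLeft 1 m) fun v => band (hs M2 v) (hs M2 (rv m g v))) fun n => allV m fun x =>
        bor (hs M1 x) (bor (Nat.beq (bt Q x) 1) (bor (Nat.beq (pl Q x y) 1) (bor (hs (seeds [z, Nat.xor z y]) x)
          (band (hs M2 x) (band (Nat.beq (pl Q x z) 0) (force (rv m o x) fun u => blt (cntLt (Nat.shiftLeft 1 m)
            fun w => band (bneg (hs M1 w)) (allL [y, z, x, u] fun p => Nat.beq (pl Q w p) 0)) n)))))))))))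

theorem lu_of (hQ : Tab q Q) (ho : Act m o Ω) (ht : Act m t T) (hx : ActL m ts xs) (hz : ActL m ss zs)
    (hy : y < 2 ^ m) (h0 : q (vd m y) = 0) (hle : clos zs ≤ clos xs) {g d x0 : ℕ} {l1 l3 : List ℕ} {γ : Gl m}
    (hγ : γ ∈ clos xs) (hg : Act m g γ) (h : luOK m Q o y t g d x0 ts ss l1 l3 = true) :
    LU q T (clos xs) Ω (vd m y) := by
  simp only [luOK, force_eq, band_iff] at h
  obtain ⟨k1, k2, k3, k4, k0, k5⟩ := h
  have hz' : ActL m (t :: ss) (T :: zs) := .cons ht hz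
  have hf' := hz'.fix k3
  have hf : ∀ a ∈ zs, ap a (vd m y) = vd m y := fun a ha => hf' a (mem_clos (List.mem_cons_of_mem _ ha))
  have m1 := hz.orb (P := fun v => ∃ h ∈ clos xs, ap h (vd m y) = vd m y ∧ ap T (ap h v) = ap h v) (by
      rintro a ha v ⟨b, hb, e1, e2⟩
      exact ⟨b * a⁻¹, mul_mem hb (inv_mem (hle (mem_clos ha))), by
        rw [ap_mul, ap_inv_fix (hf a ha), e1], by rwa [ap_mul, ap_inv]⟩) d (l := l1)
    fun s hs => ⟨1, one_mem _, ap_one _, by rw [ap_one]; exact ht.eq ((allL_iff _ _).1 k4 s hs)⟩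
  have m2 := hz'.orb (P := fun v => ∃ h ∈ clos xs ⊔ zpowers T, ap h (vd m y) = vd m y ∧ ap h (vd m x0) = v) (by
      rintro a ha v ⟨b, hb, e1, rfl⟩
      exact ⟨a * b, mul_mem ((List.mem_cons.1 ha).elim (fun e => e ▸ mem_sup_right (mem_zpowers _))
        fun e => mem_sup_left (hle (mem_clos e))) hb, by rw [ap_mul, e1, hf' a (mem_clos ha)], ap_mul _ _ _⟩) d
    (l := [x0]) fun s hs => ⟨1, one_mem _, ap_one _, List.mem_singleton.1 hs ▸ ap_one _⟩
  refine ⟨hQ.cov k1 (hx.orb (P := fun v => ∃ h ∈ clos xs, ap h (vd m y) = v) ?_ d ?_),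
    all_vec fun x h1 a1 a2 a3 a4 a5 a6 => ?_, link_of hQ h0 k2⟩
  · rintro g hg v ⟨a, ha, rfl⟩
    exact ⟨g * a, mul_mem (mem_clos hg) ha, ap_mul _ _ _⟩
  · intro s hs
    exact ⟨1, one_mem _, List.mem_singleton.1 hs ▸ ap_one _⟩
  · have k6 := allV_iff.1 k5 x h1
    simp only [bor_iff, band_iff, nbeq_iff, blt_iff] at k6
    rw [hQ.q0 h1] at a5
    rw [hQ.p0 h1 hy] at a6
    rcases k6 with k6 | k6 | k6 | k6 | ⟨k6, k7, k8⟩
    · exact .inl (m1 x k6)
    · omega
    · omega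
    · have k7 := seeds_sound k6
      simp only [List.mem_cons, List.not_mem_nil, or_false] at k7
      rcases k7 with rfl | rfl
      · exact absurd (ho y) a3
      · exact absurd (by rw [vd_xor, ho]) a4
    · obtain ⟨A, a7, a8⟩ := exists_finset (m := m) fun v => band (hs (orbM m (t :: ss) d (seeds [x0])) v)
        (hs (orbM m (t :: ss) d (seeds [x0])) (rv m g v))
      obtain ⟨B, a9, a10⟩ := exists_finset (m := m) fun w => band (bneg (hs (orbM m ss d (seeds l1)) w))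
        (allL [y, rv m o y, x, rv m o x] fun p => Nat.beq (pl Q w p) 0)
      obtain ⟨b, hb, e1, e2⟩ := m2 x k6
      refine .inr ⟨by rw [← ho, hQ.p0 h1 (rv_lt _ _), k7], A, B, by rw [a7, a9]; exact k8,
        all_vec fun v hv k9 => ?_, all_vec fun w hw k9 => ?_⟩
      · obtain ⟨k10, k11⟩ := (band_iff _ _).1 ((a8 v hv).1 k9)
        obtain ⟨c, hc, e3, e4⟩ := m2 _ k10
        obtain ⟨c', hc', e5, e6⟩ := m2 _ k11
        simp only [List.forall_mem_cons, List.not_mem_nil, false_imp_iff, implies_true, and_true]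
        refine ⟨⟨c * b⁻¹, mul_mem hc (inv_mem hb), by rw [ap_mul, ap_inv_fix e1, e3], by
          rw [ap_mul, ← e2, ap_inv, e4]⟩, γ⁻¹ * (c' * b⁻¹), mul_mem (inv_mem (mem_sup_left hγ)) (mul_mem hc' (inv_mem hb)),
          ?_, ?_⟩
        · rw [ap_mul, ap_mul, ap_inv_fix e1, e5, ← ho, ← ap_inj (g := γ), ap_inv']
          exact (hg.eq k0).symm
        · rw [ap_mul, ap_mul, ← e2, ap_inv, e6, hg]
          exact ap_inv γ _
      · refine (em _).symm.imp (fun k10 => (a10 w hw).2 ((band_iff _ _).2 ⟨(bneg_iff _).2 k10, ?_⟩)) (m1 w)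
        simp only [List.forall_mem_cons, List.not_mem_nil, false_imp_iff, implies_true, and_true, ← ho y, ← ho x,
          hQ.p0 hw hy, hQ.p0 hw h1, hQ.p0 hw (rv_lt _ _)] at k9
        simpa only [allL_iff, List.forall_mem_cons, List.not_mem_nil, false_imp_iff, implies_true, and_true,
          nbeq_iff] using k9

section

variable {A : Ar} {C : Cod A (Gl m)}

/-- The check for `LF.out`. -/
noncomputable def outOK (A : Ar) (m Q a t : ℕ) (D E : Dom) : Bool := D.all fun s => force (A.mul a s) fun b =>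
  bor (bneg (Nat.beq (A.mul b b) A.one)) (bor (E.has b)
    (band (allV m fun v => Nat.beq (bt Q (Nat.xor v (rv m t v))) 0)
      (force (trC m b) fun g => bneg (allV m fun v => Nat.beq (bt Q (Nat.xor v (rv m g v))) 0))))

theorem out_of (hC : Bits C) (hQ : Tab q Q) {a : ℕ} (ha : C.Rep a T) (ht : Act m t T) {D E : Dom}
    (hD : C.Lists D (clos zs)) (hE : C.Lists E (cls zs T)) (h : outOK A m Q a t D E = true) :
    ∀ s ∈ clos zs, T * s * (T * s) = 1 → (∃ u ∈ clos zs, u * T * u⁻¹ = T * s) ∨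
      ((∀ v, q (v + ap T v) = 0) ∧ ∃ v, q (v + ap (T * s) v) = 1) := by
  intro s h1 h2
  obtain ⟨b, hb⟩ := hD.cov s h1
  have h3 := (hD.all _).1 h b hb.1 (hb.2 ▸ h1)
  have h4 := ha.mul hb
  simp only [force_eq, bor_iff, band_iff, bneg_iff, nbeq_iff, allV_iff] at h3
  rcases h3 with h3 | h3 | ⟨h3, h5⟩
  · exact absurd (((h4.mul h4).eq_iff Cod.rep_one).2 h2) h3
  · have h5 := (hE.has _ h4.1).1 h3
    rw [h4.2] at h5
    exact .inl h5
  · refine .inr ⟨all_vec fun v hv => ?_, ?_⟩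
    · rw [ap, ← ht, ← vd_xor, hQ.q0 (xor_lt hv (rv_lt _ _))]
      exact h3 v hv
    · push Not at h5
      obtain ⟨v, hv, h6⟩ := h5
      refine ⟨vd m v, ?_⟩
      rw [ap, ← hC.act h4, ← vd_xor, hQ.q1 (xor_lt hv (rv_lt _ _))]
      exact (bt_cases _ _).resolve_left h6

/-- The check for the remaining fields of `LF`. -/
noncomputable def lfOK (A : Ar) (m Q o y a t : ℕ) (ts ss cs : List ℕ) (D : ST) : Bool := force (rv m o y) fun z =>
  band (Nat.beq (A.mul a a) A.one) (band (allL cs fun s => force (A.mul (A.mul a s) a) D.has)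
    (band (Nat.beq (D.count fun s => Nat.beq (A.mul s a) (A.mul a s)) 16)
      (band (allL ts fun t => allB m fun s => Nat.beq (rv m t (rv m o s)) (rv m o (rv m t s)))
        (band (allB m fun s => Nat.beq (rv m t (rv m o s)) (Nat.xor (rv m o (rv m t s)) (rv m t s)))
          (band (allB m fun s => allB m fun t => Nat.beq (pl Q (rv m o s) t) (Nat.xor (pl Q s (rv m o t)) (pl Q s t)))
            (band (Nat.beq (rv m t y) y) (band (allL ss fun t => Nat.beq (rv m t y) y)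
              (band (Nat.beq (bt Q y) 0) (band (Nat.beq (bt Q z) 0) (band (Nat.beq (pl Q z y) 0)
                (band (bneg (Nat.beq y 0)) (band (bneg (Nat.beq z 0)) (bneg (Nat.beq z y))))))))))))))

theorem lf_of (hC : Bits C) (hq : IsQ q) (hQ : Tab q Q) (ho : Act m o Ω) {a : ℕ} (ha : C.Rep a T) (ht : Act m t T)
    (hx : ActL m ts xs) (hz : ActL m ss zs) {cs : List ℕ} (hc : C.RepL cs zs) (hy : y < 2 ^ m) (hle : clos zs ≤ clos xs)
    {D E : ST} {k N : ℕ} (hD : genOK A cs D (2 ^ k) = true) (hE : orbOK A cs a E N = true)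
    (h : lfOK A m Q o y a t ts ss cs D = true) (h' : outOK A m Q a t D.dom E.dom = true)
    (hk : q (vd m y) = 0 → (∀ g ∈ clos zs, ap g (vd m y) = vd m y) → (∀ g ∈ clos zs, (g : Mat m) * Ω = Ω * g) →
      LS q (clos xs) (clos zs) Ω (vd m y) ∨ LU q T (clos xs) Ω (vd m y)) :
    LF q T (clos xs) (clos zs) Ω (vd m y) k := by
  simp only [lfOK, force_eq, band_iff, bneg_iff] at h
  obtain ⟨k1, k2, k3, k4, k5, k6, k7, k8, k9, k10, k11, k12, k13, k14⟩ := h
  have hL := hc.gen hD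
  have T2 : T * T = 1 := ((ha.mul ha).eq_iff Cod.rep_one).1 ((nbeq_iff _ _).1 k1)
  have c1 := hx.comm ho k4
  have c2 := hz.fix k8
  have c3 := (hQ.q0 hy).2 ((nbeq_iff _ _).1 k9)
  refine ⟨T2, hle, hL.2, mem_normalizer_fintype (conj_clos_mem fun s h1 => ?_), ?_,
    out_of hC hQ ha ht hL.1 (hc.orb ha hE).1 h', c1, ht.twist ho k5, hQ.adj hq ho k6, ht.eq k7, c2, ⟨c3, ?_, ?_, ?_, ?_, ?_⟩,
    hk c3 c2 fun g hg => c1 g (hle hg)⟩
  · obtain ⟨b, h2, h3⟩ := hc.exists_right h1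
    have h4 := (ha.mul h3).mul ha
    have h5 := (hL.1.has _ h4.1).1 ((allL_iff _ _).1 k2 b h2)
    rw [h4.2] at h5
    rwa [inv_eq_of_mul_eq_one_right T2]
  · have h1 := Cod.listsL_nil.count (ha.cons Cod.repL_nil) hc hD (fun x => x * T = T * x) k3
    have h2 : Nat.card (clos zs ⊓ centralizer {T} : Subgroup (Gl m)) = 16 := by
      rw [← h1, ← Nat.card_coe_set_eq]
      exact Nat.card_congr (Equiv.subtypeEquivRight fun x => and_congr_right fun _ => mem_centralizer_singleton_iff)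
    rw [h2]
  · rw [← ho, hQ.q0 (rv_lt _ _)]; exact (nbeq_iff _ _).1 k10
  · rw [← ho, hQ.p0 (rv_lt _ _) hy]; exact (nbeq_iff _ _).1 k11
  · exact fun e => k12 ((nbeq_iff _ _).2 ((vd_eq_zero hy).1 e))
  · exact fun e => k13 ((nbeq_iff _ _).2 ((ho.iff y (by positivity)).2 (e.trans vd_zero.symm)))
  · exact fun e => k14 ((nbeq_iff _ _).2 ((ho.iff y hy).2 e))

end

end Cfsg.Agent.S33
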