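import Mathlib
import Cfsg.Agent.S33.XDefs

/-! The Sylow 2-subgroup of `N`. -/

set_option autoImplicit false
set_option linter.unusedSectionVars false

namespace Cfsg.Agent.S33

open Cfsg Cfsg.Agent.Rec Cfsg.Agent.Spor Cfsg.Agent.Loc.Mss Cfsg.Agent.SF6 Subgroup Matrix

namespace LG1

variable {G : Type*} [Group G] [Finite G]

theorem le_of_syl {S K H : Subgroup G} (h : Syl 2 S K) (hS : S ≤ H)
    (hH : ∀ a ∈ K, ∀ b ∈ K, a ∉ H → b ∉ H → a * b ∈ H) : K ≤ H := by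
  intro d hd
  by_contra hn
  have h2 : H.relIndex K = 2 := relIndex_eq_two_iff_exists_notMem_and'.2
    ⟨d, hd, hn, fun b hb => (em (b ∈ H)).elim Or.inr fun hb' => Or.inl (hH d hd b hb hn hb')⟩
  exact h.nd (h2 ▸ relIndex_dvd_of_le_left K hS)

omit [Finite G] in
theorem mem_zp {T x : G} (hT : T * T = 1) (hx : x ∈ zpowers T) : x = 1 ∨ x = T := by
  obtain ⟨n, rfl⟩ := mem_zpowers_iff.1 hx
  have h2 : T ^ (2 : ℤ) = 1 := by rw [zpow_two, hT]
  rcases Int.even_or_odd' n with ⟨j, rfl | rfl⟩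
  · left; rw [_root_.zpow_mul, h2, _root_.one_zpow]
  · right; rw [_root_.zpow_add, _root_.zpow_mul, h2, _root_.one_zpow, one_mul, zpow_one]

omit [Finite G] in
theorem mem_S {S0 : Subgroup G} {T x : G} (hT : T * T = 1) (hn : T ∈ 𝐍[S0]) :
    x ∈ zpowers T ⊔ S0 ↔ x ∈ S0 ∨ T * x ∈ S0 := by
  constructor
  · intro hx
    obtain ⟨a, ha, s, hs, rfl⟩ := (mem_sup_norm' (zpowers_le.2 hn)).1 hx
    rcases mem_zp hT ha with rfl | rfl
    · left; rwa [one_mul]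
    · right; rwa [← mul_assoc, hT, one_mul]
  · rintro (hx | hx)
    · exact mem_sup_right hx
    · have : x = T * (T * x) := by rw [← mul_assoc, hT, one_mul]
      rw [this]
      exact mul_mem (mem_sup_left (mem_zpowers T)) (mem_sup_right hx)

theorem main {N N0 C S0 : Subgroup G} {T : G} (le : N0 ≤ N) (mem : T ∈ N) (nmem : T ∉ N0)
    (idx : ∀ a ∈ N, ∀ b ∈ N, a * b ∈ N0 ↔ (a ∈ N0 ↔ b ∈ N0))
    (cent : ∀ g ∈ N0, g * T = T * g → g ∈ C) (hC : ¬ 32 ∣ Nat.card C) (hT : T * T = 1)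
    (hS : S0 ≤ N0) (pg : IsPGroup 2 S0) (nS : T ∈ 𝐍[S0])
    (cS : 16 ∣ Nat.card (S0 ⊓ centralizer {T} : Subgroup G))
    (out : ∀ p ∈ N, ∀ s ∈ S0, p * T * p⁻¹ = T * s → ∃ u ∈ S0, u * T * u⁻¹ = T * s) :
    Syl 2 S0 N0 ∧ ∀ K ≤ N, S0 ≤ K → ∀ d ∈ K, d ∉ N0 → T ∈ 𝐍[K] → T ∈ K := by
  have pgT : IsPGroup 2 (zpowers T) := pg_iff.2 fun x hx => ⟨1, by
    rcases mem_zp hT hx with rfl | rfl
    · simp
    · rw [pow_one, sq, hT]⟩
  have pgS : IsPGroup 2 ↥(zpowers T ⊔ S0) := pg_sup pgT pg (zpowers_le.2 nS)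
  have hSN : zpowers T ⊔ S0 ≤ N := sup_le (zpowers_le.2 mem) (hS.trans le)
  have hTT : ∀ x : G, T * (T * x) = x := fun x => by rw [← mul_assoc, hT, one_mul]
  have hconj : ∀ p ∈ N, ∀ x ∈ N, p * x * p⁻¹ ∈ N0 ↔ x ∈ N0 := fun p hp x hx => by
    rw [idx _ (N.mul_mem hp hx) _ (N.inv_mem hp), idx _ hp _ hx, N0.inv_mem_iff]
    tauto
  have syl : Syl 2 (zpowers T ⊔ S0) N := by
    refine Syl.of_norm pgS hSN fun P hP hSP hPN hn p hp => ?_
    have hd : p * T * p⁻¹ ∈ zpowers T ⊔ S0 :=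
      conj_mem_of_norm (hn hp) (mem_sup_left (mem_zpowers T))
    have hd0 : p * T * p⁻¹ ∉ N0 := fun h => nmem ((hconj p (hPN hp) T mem).1 h)
    have hs := ((mem_S hT nS).1 hd).resolve_left fun h => hd0 (hS h)
    obtain ⟨u, hu, e⟩ := out p (hPN hp) _ hs (hTT _).symm
    rw [hTT] at e
    have hS0P : S0 ≤ P := le_sup_right.trans hSP
    have hTP : T ∈ P := hSP (mem_sup_left (mem_zpowers T))
    have hp' : u⁻¹ * p ∈ P := P.mul_mem (P.inv_mem (hS0P hu)) hp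
    have hc : (u⁻¹ * p) * T = T * (u⁻¹ * p) := by
      calc u⁻¹ * p * T = u⁻¹ * (p * T * p⁻¹) * p := by group
        _ = T * (u⁻¹ * p) := by rw [← e]; group
    have hD : P ⊓ N0 ⊓ centralizer {T} ≤ S0 ⊓ centralizer {T} := by
      have h1 : S0 ⊓ centralizer {T} ≤ P ⊓ N0 ⊓ centralizer {T} :=
        inf_le_inf_right _ (le_inf hS0P hS)
      have h2 : P ⊓ N0 ⊓ centralizer {T} ≤ C := fun g hg =>
        cent g hg.1.2 (mem_centralizer_singleton_iff.1 hg.2)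
      obtain ⟨j, hj⟩ := (hP.to_inf_left.to_inf_left :
        IsPGroup 2 ↥(P ⊓ N0 ⊓ centralizer {T})).exists_card_eq
      have h3 : j ≤ 4 := by
        by_contra h4
        refine hC (Dvd.dvd.trans ?_ (card_dvd_of_le h2))
        rw [hj]
        exact pow_dvd_pow 2 (show 5 ≤ j by omega)
      refine (eq_of_le_of_card_ge h1 ?_).ge
      rw [hj]
      exact (Nat.pow_le_pow_right two_pos h3).trans (Nat.le_of_dvd Nat.card_pos cS)
    have h5 : u⁻¹ * p ∈ zpowers T ⊔ S0 := by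
      rw [mem_S hT nS]
      by_cases h0 : u⁻¹ * p ∈ N0
      · exact Or.inl (hD ⟨⟨hp', h0⟩, mem_centralizer_singleton_iff.2 hc⟩).1
      · refine Or.inr (hD ⟨⟨P.mul_mem hTP hp', (idx _ mem _ (hPN hp')).2 (by tauto)⟩,
          mem_centralizer_singleton_iff.2 ?_⟩).1
        rw [mul_assoc, hc]
    have : p = u * (u⁻¹ * p) := by group
    rw [this]
    exact mul_mem (mem_sup_right hu) h5
  have hinf : ∀ K : Subgroup G, S0 ≤ K → T ∉ K → (zpowers T ⊔ S0) ⊓ K = S0 := fun K hK hTK => by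
    refine le_antisymm (fun x hx => ((mem_S hT nS).1 hx.1).resolve_right fun h => hTK ?_)
      (le_inf le_sup_right hK)
    exact (K.mul_mem_cancel_right hx.2).1 (hK h)
  refine ⟨?_, fun K hK hSK d hd hd0 hn => ?_⟩
  · have := syl.inf le (hSN.trans (norm_of_forall_cj_le fun g hg =>
      cj_le_iff.2 fun a ha => (hconj g hg a (le ha)).2 ha))
    rwa [hinf N0 hS nmem] at this
  · by_contra hTK
    have := syl.inf hK (sup_le (zpowers_le.2 hn) (norm_of_le hSK))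
    rw [hinf K hSK hTK] at this
    exact hd0 (le_of_syl this hS (fun a ha b hb h1 h2 => (idx a (hK ha) b (hK hb)).2 (by tauto)) hd)

end LG1

variable {m : ℕ} {q : Vec m → ZMod 2} {N N0 C M S0 : Subgroup (Gl m)} {T : Gl m} {Ω : Mat m} {y : Vec m} {k : ℕ}

theorem lg_syl (i : LI q N N0 T C) (hC : ¬ 32 ∣ Nat.card C) (f : LF q T M S0 Ω y k) (hM : M ≤ N0) :
    Syl 2 S0 N0 ∧ ∀ K ≤ N, S0 ≤ K → ∀ d ∈ K, d ∉ N0 → T ∈ 𝐍[K] → T ∈ K := by
  refine LG1.main i.le i.mem i.nmem i.idx i.cent hC f.T2 (f.le.trans hM) (IsPGroup.of_card f.card)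
    f.nS f.cS fun p hp s hs e => ?_
  have h1 : T * s * (T * s) = 1 := by
    rw [← e]
    calc p * T * p⁻¹ * (p * T * p⁻¹) = p * (T * T) * p⁻¹ := by group
      _ = 1 := by rw [f.T2]; group
  refine (f.out s hs h1).resolve_right fun ⟨h2, v, hv⟩ => ?_
  have h3 : v + ap (T * s) v = ap p (ap p⁻¹ v + ap T (ap p⁻¹ v)) := by
    rw [← e]
    simp only [ap, mulVec_add, mulVec_mulVec, Units.val_mul, Units.mul_inv, one_mulVec, mul_assoc]
  rw [h3, i.iso p hp, h2] at hv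
  exact zero_ne_one hv

theorem lg_par (i : LI q N N0 T C) (f : LF q T M S0 Ω y k) (hS : Syl 2 S0 N0)
    (h : ∀ g ∈ N, (g : Mat m) * Ω = Ω * g ∨ (g : Mat m) * Ω = (Ω + 1) * g) : ∀ g ∈ N0, (g : Mat m) * Ω = Ω * g := by
  let H : Subgroup (Gl m) :=
    { carrier := {g | Commute (g : Mat m) Ω}
      mul_mem' := fun ha hb => Commute.mul_left ha hb
      one_mem' := Commute.one_left Ω
      inv_mem' := fun ha => Commute.units_inv_left ha }
  have := LG1.le_of_syl (H := H) hS (fun s hs => f.ΩM s (f.le hs)) fun a ha b hb h1 h2 => by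
    have h3 := (h a (i.le ha)).resolve_left h1
    have h4 := (h b (i.le hb)).resolve_left h2
    have h5 : (a : Mat m) + a = 0 := by
      ext r c
      exact CharTwo.add_self_eq_zero _
    show ((a * b : Gl m) : Mat m) * Ω = Ω * (a * b : Gl m)
    rw [Units.val_mul, mul_assoc, h4, ← mul_assoc, mul_add, h3, mul_one, add_mul Ω, one_mul, add_assoc,
      h5, add_zero, mul_assoc]
  exact fun g hg => this hg

end Cfsg.Agent.S33
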