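import Mathlib
import Cfsg.Agent.S33.XDefs

/-! The linear case: `N` permutes the two totally singular submodules. -/

set_option autoImplicit false
set_option linter.unusedSectionVars false
set_option maxRecDepth 100000
set_option synthInstance.maxSize 100000
set_option synthInstance.maxHeartbeats 1000000

namespace Cfsg.Agent.S33

open Cfsg Cfsg.Agent.Rec Cfsg.Agent.Spor Cfsg.Agent.Loc.Mss Cfsg.Agent.SF6 Subgroup Matrix

variable {m : ℕ} {q : Vec m → ZMod 2} {N N0 C M S0 : Subgroup (Gl m)} {T : Gl m} {Ω : Mat m} {y : Vec m} {k : ℕ}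

theorem LG2_mul (g h : Gl m) (v : Vec m) : ap (g * h) v = ap g (ap h v) := by
  simp only [ap, Units.val_mul, mulVec_mulVec]

theorem LG2_inv (g : Gl m) (v : Vec m) : ap g⁻¹ (ap g v) = v := by
  rw [← LG2_mul, inv_mul_cancel]; exact one_mulVec v

theorem LG2_inv' (g : Gl m) (v : Vec m) : ap g (ap g⁻¹ v) = v := by simpa using LG2_inv g⁻¹ v

theorem LG2_inj (g : Gl m) : Function.Injective (ap g) := Function.LeftInverse.injective (LG2_inv g)

theorem LG2_self (v : Vec m) : v + v = 0 := funext fun _ => CharTwo.add_self_eq_zero _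

theorem LG2_Ω (f : LF q T M S0 Ω y k) {h : Gl m} (hh : h ∈ M) (v : Vec m) : Ω *ᵥ ap h v = ap h (Ω *ᵥ v) := by
  simp only [ap, mulVec_mulVec, f.ΩM h hh]

/-- The stabiliser of a vector. -/
def LG2_st (w : Vec m) : Subgroup (Gl m) where
  carrier := {g | ap g w = w}
  one_mem' := one_mulVec w
  mul_mem' := fun {a b} ha hb => by
    show ap (a * b) w = w
    rw [LG2_mul, hb, ha]
  inv_mem' := fun {a} ha => by
    show ap a⁻¹ w = w
    nth_rw 1 [← (ha : ap a w = w)]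
    exact LG2_inv a w

theorem LG2_one (i : LI q N N0 T C) (f : LF q T M S0 Ω y k) (hS : Syl 2 S0 N0) (l : LS q M S0 Ω y) {g : Gl m}
    (hg : g ∈ N) {w : Vec m} (hw : w = Ω *ᵥ y ∨ w = Ω *ᵥ y + y) : ap g y ≠ w := fun e => by
  have hn : g ∈ 𝐍[N0] := mem_norm_of_cj_le (cj_le_iff.2 fun a ha => by
    have := i.idx _ (mul_mem hg (i.le ha)) _ (inv_mem hg)
    rw [i.idx _ hg _ (i.le ha), inv_mem_iff] at this
    tauto)
  have h1 : S0 ≤ N0 ⊓ LG2_st w := le_inf hS.le fun s hs => by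
    have k : ap s (Ω *ᵥ y) = Ω *ᵥ y := by rw [← LG2_Ω f (f.le hs), f.Sy s hs]
    show ap s w = w
    rcases hw with rfl | rfl
    exacts [k, by rw [ap, mulVec_add]; exact congrArg₂ _ k (f.Sy s hs)]
  have h2 : cj(g, S0) ≤ N0 ⊓ LG2_st w := le_inf (hS.cj_norm hn).le (cj_le_iff.2 fun s hs => by
    show ap (g * s * g⁻¹) w = w
    rw [← e, LG2_mul, LG2_mul, LG2_inv, f.Sy s hs])
  obtain ⟨c, hc, ec⟩ := ((hS.cj_norm hn).mono h2 inf_le_left).conj_eq (hS.mono h1 inf_le_left)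
  rw [cj_cj, cj_eq_iff] at ec
  have e' : ap (c * g) y = w := by rw [LG2_mul, e]; exact (mem_inf.1 hc).2
  generalize c * g = n at ec e'
  refine l.cnt w hw ?_
  rw [← Set.ncard_image_of_injective _ (LG2_inj n)]
  congr 1
  ext x
  constructor
  · rintro ⟨x, hx, rfl⟩ s hs
    have k : ap s (ap n x) = ap n (ap (n⁻¹ * s * n) x) := by rw [LG2_mul, LG2_mul, LG2_inv']
    rw [k, ← e']
    rcases hx _ (conj_mem_of_norm' ec hs) with h | h <;> rw [h]
    exacts [Or.inl rfl, Or.inr (mulVec_add _ _ _)]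
  · intro hx
    refine ⟨ap n⁻¹ x, fun s hs => ?_, LG2_inv' n x⟩
    have k : ap s (ap n⁻¹ x) = ap n⁻¹ (ap (n * s * n⁻¹) x) := by rw [LG2_mul, LG2_mul, LG2_inv]
    rw [k, ← LG2_inv n y, e']
    rcases hx _ (conj_mem_of_norm ec hs) with h | h <;> rw [h]
    exacts [Or.inl rfl, Or.inr (mulVec_add _ _ _)]

theorem LG2_two (i : LI q N N0 T C) (f : LF q T M S0 Ω y k) (hM : M ≤ N0) (hS : Syl 2 S0 N0) (l : LS q M S0 Ω y)
    {g : Gl m} (hg : g ∈ N) {x : Vec m} (hx : Ω *ᵥ x = 0 ∨ Ω *ᵥ x = x) :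
    Ω *ᵥ ap g x = 0 ∨ Ω *ᵥ ap g x = ap g x := by
  by_cases x0 : x = 0
  · left; rw [x0, ap, mulVec_zero, mulVec_zero]
  obtain ⟨h, hh, e⟩ := l.orb x x0 (l.sing x hx)
  have k1 : ∃ w, (w = Ω *ᵥ y ∨ w = Ω *ᵥ y + y) ∧ ap h w = x := by
    rcases e with rfl | e | e
    · rw [LG2_Ω f hh] at hx
      rcases hx with hx | hx
      · exact (f.qy.2.2.2.2.1 (LG2_inj h (hx.trans (mulVec_zero _).symm))).elim
      · exact (f.qy.2.2.2.2.2 (LG2_inj h hx)).elim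
    exacts [⟨_, Or.inl rfl, e⟩, ⟨_, Or.inr rfl, e⟩]
  obtain ⟨w, hw, rfl⟩ := k1
  have id : Ω *ᵥ (Ω *ᵥ y) = Ω *ᵥ y := by rw [mulVec_mulVec, l.idem]
  obtain ⟨h', hh', e'⟩ := l.orb (ap g (ap h w)) (fun e => x0 (LG2_inj g (e.trans (mulVec_zero _).symm)))
    ((i.iso g hg _).trans (l.sing _ hx))
  rcases e' with e' | e' | e'
  · refine (LG2_one i f hS l (g := h⁻¹ * g⁻¹ * h') (mul_mem (mul_mem (inv_mem (i.le (hM hh))) (inv_mem hg))
      (i.le (hM hh'))) hw ?_).elim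
    rw [LG2_mul, LG2_mul, e', LG2_inv, LG2_inv]
  · right; rw [← e', LG2_Ω f hh', id]
  · left; rw [← e', LG2_Ω f hh', mulVec_add, id, LG2_self, ap, mulVec_zero]

theorem LG2_un {g : Gl m} {p : Vec m → Prop} (hp : ∀ a b, p a → p b → p (a + b))
    (h : ∀ x, p x → Ω *ᵥ ap g x = 0 ∨ Ω *ᵥ ap g x = ap g x) :
    (∀ x, p x → Ω *ᵥ ap g x = 0) ∨ ∀ x, p x → Ω *ᵥ ap g x = ap g x := by
  by_contra hc
  push Not at hc
  obtain ⟨⟨a, ha, a1⟩, b, hb, b1⟩ := hc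
  have a2 := (h a ha).resolve_left a1
  have b2 := (h b hb).resolve_right b1
  have := h _ (hp a b ha hb)
  rw [ap, mulVec_add, mulVec_add, b2, add_zero] at this
  rcases this with e | e
  · exact a1 e
  · rw [a2, left_eq_add] at e
    exact b1 (b2.trans e.symm)

theorem lg_split (i : LI q N N0 T C) (f : LF q T M S0 Ω y k) (hM : M ≤ N0) (hS : Syl 2 S0 N0) (l : LS q M S0 Ω y) :
    ∀ g ∈ N, (g : Mat m) * Ω = Ω * g ∨ (g : Mat m) * Ω = (Ω + 1) * g := by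
  intro g hg
  have id : ∀ x, Ω *ᵥ (Ω *ᵥ x) = Ω *ᵥ x := fun x => by rw [mulVec_mulVec, l.idem]
  have id' : ∀ x, Ω *ᵥ (Ω *ᵥ x + x) = 0 := fun x => by rw [mulVec_add, id, LG2_self]
  have sp : ∀ x, ap g x = ap g (Ω *ᵥ x) + ap g (Ω *ᵥ x + x) := fun x => by
    rw [ap, ap, ap, ← mulVec_add, ← add_assoc, LG2_self, zero_add]
  have h1 := LG2_un (g := g) (p := fun x => Ω *ᵥ x = 0) (fun a b ha hb => by rw [mulVec_add, ha, hb, add_zero])
    fun x hx => LG2_two i f hM hS l hg (Or.inl hx)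
  have h2 := LG2_un (g := g) (p := fun x => Ω *ᵥ x = x) (fun a b ha hb => by rw [mulVec_add, ha, hb])
    fun x hx => LG2_two i f hM hS l hg (Or.inr hx)
  rcases h1 with h1 | h1 <;> rcases h2 with h2 | h2
  · refine (f.qy.2.2.2.2.1 ?_).elim
    rw [← LG2_inv' g y, sp, mulVec_add, h1 _ (id' _), h2 _ (id _), add_zero]
  · refine Or.inl (ext_iff_mulVec.2 fun x => ?_)
    rw [← mulVec_mulVec, ← mulVec_mulVec]
    show ap g (Ω *ᵥ x) = Ω *ᵥ ap g x
    rw [sp x, mulVec_add, h1 _ (id' _), h2 _ (id _), add_zero]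
  · refine Or.inr (ext_iff_mulVec.2 fun x => ?_)
    rw [← mulVec_mulVec, ← mulVec_mulVec, add_mulVec, one_mulVec]
    show ap g (Ω *ᵥ x) = Ω *ᵥ ap g x + ap g x
    rw [sp x, mulVec_add, h1 _ (id' _), h2 _ (id _), zero_add, add_left_comm, LG2_self, add_zero]
  · refine (f.qy.2.2.2.2.2 ?_).elim
    rw [← LG2_inv' g y, sp, mulVec_add, h1 _ (id' _), h2 _ (id _)]

end Cfsg.Agent.S33
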