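import Mathlib
import Cfsg.Agent.S33.XDefs

/-! The unitary case: `N` is semilinear. -/

set_option autoImplicit false
set_option linter.unusedSectionVars false
set_option maxRecDepth 100000
set_option synthInstance.maxSize 100000
set_option synthInstance.maxHeartbeats 1000000

namespace Cfsg.Agent.S33

open Cfsg Cfsg.Agent.Rec Cfsg.Agent.Spor Cfsg.Agent.Loc.Mss Cfsg.Agent.SF6 Subgroup Matrix

variable {m : ℕ} {q : Vec m → ZMod 2} {N N0 C M S0 : Subgroup (Gl m)} {T : Gl m} {Ω : Mat m} {y : Vec m} {k : ℕ}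

namespace LG3

theorem ap_mul (g h : Gl m) (v : Vec m) : ap (g * h) v = ap g (ap h v) := by
  rw [ap, Units.val_mul, ← mulVec_mulVec]

theorem ap_one (v : Vec m) : ap (1 : Gl m) v = v := by rw [ap, Units.val_one, one_mulVec]

theorem inv_ap (g : Gl m) (v : Vec m) : ap g⁻¹ (ap g v) = v := by rw [← ap_mul, inv_mul_cancel, ap_one]

theorem ap_inv (g : Gl m) (v : Vec m) : ap g (ap g⁻¹ v) = v := by rw [← ap_mul, mul_inv_cancel, ap_one]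

theorem ap_add (g : Gl m) (u v : Vec m) : ap g (u + v) = ap g u + ap g v := mulVec_add _ _ _

theorem ap_inj (g : Gl m) : Function.Injective (ap g) := fun u v e => by
  rw [← inv_ap g u, e, inv_ap]

theorem ap_zero (g : Gl m) : ap g 0 = 0 := mulVec_zero _

theorem inv_of {g : Gl m} {u v : Vec m} (e : ap g u = v) : ap g⁻¹ v = u := by rw [← e, inv_ap]

theorem vv (v : Vec m) : v + v = 0 := by
  ext j
  exact CharTwo.add_self_eq_zero (v j)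

theorem mm (A : Mat m) : A + A = 0 := by
  ext i j
  exact CharTwo.add_self_eq_zero (A i j)

theorem ap_Ω {g : Gl m} (h : (g : Mat m) * Ω = Ω * g) (v : Vec m) : ap g (Ω *ᵥ v) = Ω *ᵥ ap g v := by
  rw [ap, ap, mulVec_mulVec, mulVec_mulVec, h]

theorem pol_comm (u v : Vec m) : pol q u v = pol q v u := by
  rw [pol, pol, add_comm u v, add_right_comm]

theorem pol_self (hq : IsQ q) (v : Vec m) : pol q v v = 0 := by
  rw [pol, vv, hq.zero, zero_add, CharTwo.add_self_eq_zero]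

theorem pol_ap (i : LI q N N0 T C) {g : Gl m} (hg : g ∈ N) (u v : Vec m) :
    pol q (ap g u) (ap g v) = pol q u v := by
  rw [pol, pol, ← ap_add, i.iso g hg, i.iso g hg, i.iso g hg]

/-- The stabiliser of two vectors. -/
def St (N : Subgroup (Gl m)) (u v : Vec m) : Subgroup (Gl m) where
  carrier := {g | g ∈ N ∧ ap g u = u ∧ ap g v = v}
  one_mem' := ⟨one_mem _, ap_one _, ap_one _⟩
  mul_mem' := fun ha hb => ⟨mul_mem ha.1 hb.1, by rw [ap_mul, hb.2.1, ha.2.1],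
    by rw [ap_mul, hb.2.2, ha.2.2]⟩
  inv_mem' := fun ha => ⟨inv_mem ha.1, inv_of ha.2.1, inv_of ha.2.2⟩

/-- An element of `N` moves the pair `y`, `Ω y` to the pair `u`, `v`. -/
def Rel (N : Subgroup (Gl m)) (Ω : Mat m) (y u v : Vec m) : Prop :=
  ∃ g ∈ N, ap g y = u ∧ ap g (Ω *ᵥ y) = v

theorem one (i : LI q N N0 T C) (f : LF q T M S0 Ω y k) (hM : M ≤ N0)
    (hK : ∀ K ≤ N, S0 ≤ K → ∀ d ∈ K, d ∉ N0 → T ∈ 𝐍[K] → T ∈ K) {w : Vec m} (r : Rel N Ω y y w)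
    (h : ∃ h ∈ M, ap h y = y ∧ ap T (ap h w) = ap h w) : False := by
  obtain ⟨g, hg, g1, g2⟩ := r
  obtain ⟨h, hh, h1, h2⟩ := h
  have aN : h * g ∈ N := mul_mem (i.le (hM hh)) hg
  have a1 : ap (h * g) y = y := by rw [ap_mul, g1, h1]
  have a2 : ap (h * g) (Ω *ᵥ y) = ap h w := by rw [ap_mul, g2]
  generalize h * g = a at aN a1 a2
  have Tω : ap T (Ω *ᵥ y) = Ω *ᵥ y + y := by
    rw [ap, mulVec_mulVec, f.ΩT, ← mulVec_mulVec, add_mulVec, one_mulVec]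
    exact congrArg (fun v => Ω *ᵥ v + v) f.Ty
  have Ti : T⁻¹ = T := inv_eq_of_mul_eq_one_right f.T2
  have key : ∀ g ∈ St N y (Ω *ᵥ y), T * g * T⁻¹ ∈ St N y (Ω *ᵥ y) := fun g hg =>
    ⟨mul_mem (mul_mem i.mem hg.1) (inv_mem i.mem), by rw [Ti, ap_mul, ap_mul, f.Ty, hg.2.1, f.Ty], by
      rw [Ti, ap_mul, ap_mul, Tω, ap_add, hg.2.1, hg.2.2, ap_add, Tω, f.Ty, add_assoc, vv, add_zero]⟩
  have := hK (St N y (Ω *ᵥ y)) (fun _ h => h.1)
    (fun s hs => ⟨i.le (hM (f.le hs)), f.Sy s hs, by rw [ap_Ω (f.ΩM s (f.le hs)), f.Sy s hs]⟩)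
    (a⁻¹ * T * a) ⟨mul_mem (mul_mem (inv_mem aN) i.mem) aN, by
      rw [ap_mul, ap_mul, a1, f.Ty, inv_of a1], by rw [ap_mul, ap_mul, a2, h2, inv_of a2]⟩
    (by
      rw [i.idx _ (mul_mem (inv_mem aN) i.mem) _ aN, i.idx _ (inv_mem aN) _ i.mem, inv_mem_iff]
      have := i.nmem
      tauto)
    (mem_norm_of_cj_le (cj_le_iff.2 key))
  exact f.qy.2.2.2.1 (add_eq_left.1 (Tω.symm.trans this.2.2))

theorem cases (i : LI q N N0 T C) (f : LF q T M S0 Ω y k) (hM : M ≤ N0)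
    (hK : ∀ K ≤ N, S0 ≤ K → ∀ d ∈ K, d ∉ N0 → T ∈ 𝐍[K] → T ∈ K) (l : LU q T M Ω y) {x : Vec m}
    (r : Rel N Ω y y x) : x = Ω *ᵥ y ∨ x = Ω *ᵥ y + y ∨
      (pol q x (Ω *ᵥ y) = 0 ∧ ∃ A B : Finset (Vec m), B.card < A.card ∧
        (∀ v ∈ A, ∀ u ∈ [y, Ω *ᵥ y], ∃ h ∈ M ⊔ zpowers T, ap h y = u ∧ ap h x = v) ∧
        ∀ w, (∀ p ∈ [y, Ω *ᵥ y, x, Ω *ᵥ x], pol q w p = 0) →
          w ∈ B ∨ ∃ h ∈ M, ap h y = y ∧ ap T (ap h w) = ap h w) := by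
  by_cases h1 : x = Ω *ᵥ y
  · exact .inl h1
  by_cases h2 : x = Ω *ᵥ y + y
  · exact .inr (.inl h2)
  obtain ⟨g, hg, g1, g2⟩ := id r
  refine .inr (.inr ((l.two x (fun e => f.qy.2.2.2.2.1 (ap_inj g ?_))
    (fun e => f.qy.2.2.2.2.2 (ap_inj g ?_)) h1 h2 ?_ ?_).resolve_left (one i f hM hK r)))
  · rw [g2, e, ap_zero]
  · rw [g2, e, g1]
  · rw [← g2, i.iso g hg, f.qy.2.1]
  · rw [← f.qy.2.2.1, ← pol_ap i hg (Ω *ᵥ y), g1, g2]

theorem two (hq : IsQ q) (i : LI q N N0 T C) (f : LF q T M S0 Ω y k) (hM : M ≤ N0)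
    (hK : ∀ K ≤ N, S0 ≤ K → ∀ d ∈ K, d ∉ N0 → T ∈ 𝐍[K] → T ∈ K) (l : LU q T M Ω y) {u v : Vec m}
    (r : Rel N Ω y u v) : pol q v u = 0 ∧ pol q v (Ω *ᵥ u) = 0 := by
  obtain ⟨g, hg, rfl, rfl⟩ := r
  refine ⟨by rw [pol_ap i hg, f.qy.2.2.1], ?_⟩
  obtain ⟨h, hh, e⟩ := l.orb (ap g y) (fun e => f.qy.2.2.2.1 (ap_inj g (by rw [e, ap_zero])))
    (by rw [i.iso g hg, f.qy.1])
  have hN := i.le (hM hh)
  rw [← e, ← ap_Ω (f.ΩM h hh), ← ap_inv h (ap g (Ω *ᵥ y)), pol_ap i hN, ← ap_mul]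
  rcases cases i f hM hK l ⟨h⁻¹ * g, mul_mem (inv_mem hN) hg, by rw [ap_mul, inv_of e], rfl⟩ with
    e | e | e
  · rw [e, pol_self hq]
  · rw [e, hq.bil, pol_self hq, pol_comm, f.qy.2.2.1, add_zero]
  · exact e.1

theorem three (hq : IsQ q) (i : LI q N N0 T C) (f : LF q T M S0 Ω y k) (hM : M ≤ N0)
    (hK : ∀ K ≤ N, S0 ≤ K → ∀ d ∈ K, d ∉ N0 → T ∈ 𝐍[K] → T ∈ K) (l : LU q T M Ω y) {x : Vec m}
    (r : Rel N Ω y y x) : x = Ω *ᵥ y ∨ x = Ω *ᵥ y + y := by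
  rcases cases i f hM hK l r with e | e | ⟨-, A, B, hc, hA, hB⟩
  · exact .inl e
  · exact .inr e
  exfalso
  obtain ⟨g, hg, g1, g2⟩ := r
  have hN : M ⊔ zpowers T ≤ N := sup_le (hM.trans i.le) (zpowers_le.2 i.mem)
  refine hc.not_ge (Finset.card_le_card_of_injOn (ap g) (fun v hv => ?_) (ap_inj g).injOn)
  obtain ⟨h, hh, h1, h2⟩ := hA v hv y (by simp)
  obtain ⟨h', hh', h1', h2'⟩ := hA v hv (Ω *ᵥ y) (by simp)
  have r1 : Rel N Ω y y (ap g v) := ⟨g * h * g, mul_mem (mul_mem hg (hN hh)) hg,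
    by rw [ap_mul, ap_mul, g1, h1, g1], by rw [ap_mul, ap_mul, g2, h2]⟩
  have r2 : Rel N Ω y x (ap g v) := ⟨g * h' * g, mul_mem (mul_mem hg (hN hh')) hg,
    by rw [ap_mul, ap_mul, g1, h1', g2], by rw [ap_mul, ap_mul, g2, h2']⟩
  refine (hB _ fun p hp => ?_).resolve_right (one i f hM hK r1)
  simp only [List.mem_cons, List.not_mem_nil, or_false] at hp
  rcases hp with rfl | rfl | rfl | rfl
  exacts [(two hq i f hM hK l r1).1, (two hq i f hM hK l r1).2, (two hq i f hM hK l r2).1,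
    (two hq i f hM hK l r2).2]

end LG3

open LG3 in
theorem lg_field (hq : IsQ q) (i : LI q N N0 T C) (f : LF q T M S0 Ω y k) (hM : M ≤ N0)
    (hK : ∀ K ≤ N, S0 ≤ K → ∀ d ∈ K, d ∉ N0 → T ∈ 𝐍[K] → T ∈ K) (l : LU q T M Ω y) :
    ∀ g ∈ N, (g : Mat m) * Ω = Ω * g ∨ (g : Mat m) * Ω = (Ω + 1) * g := by
  intro g hg
  have key : ∀ x, q x = 0 → ap g (Ω *ᵥ x) = Ω *ᵥ ap g x ∨ ap g (Ω *ᵥ x) = Ω *ᵥ ap g x + ap g x := by
    intro x hx
    by_cases x0 : x = 0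
    · left
      rw [x0, mulVec_zero, ap_zero, mulVec_zero]
    obtain ⟨h, hh, rfl⟩ := l.orb x x0 hx
    obtain ⟨h', hh', e⟩ := l.orb (ap g (ap h y)) (fun e => x0 (ap_inj g (by rw [e, ap_zero])))
      (by rw [i.iso g hg, hx])
    rw [← e, ← ap_Ω (f.ΩM h hh), ← ap_Ω (f.ΩM h' hh'), ← ap_add]
    refine (three hq i f hM hK l ⟨h'⁻¹ * g * h,
      mul_mem (mul_mem (inv_mem (i.le (hM hh'))) hg) (i.le (hM hh)),
      by rw [ap_mul, ap_mul, inv_of e], rfl⟩).imp (fun e' => ?_) fun e' => ?_ <;>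
    exact (ap_inv h' _).symm.trans (congrArg (ap h') (by rw [← ap_mul, ← ap_mul]; exact e'))
  have gδ : (g : Mat m) * (((g⁻¹ : Gl m) : Mat m) * Ω * g + Ω) = Ω * g + g * Ω := by
    rw [mul_add, ← mul_assoc, ← mul_assoc, ← Units.val_mul, mul_inv_cancel, Units.val_one, one_mul]
  rcases l.link (((g⁻¹ : Gl m) : Mat m) * Ω * g + Ω) (fun x hx => by
    have e : ap g ((((g⁻¹ : Gl m) : Mat m) * Ω * (g : Mat m) + Ω) *ᵥ x) = Ω *ᵥ ap g x + ap g (Ω *ᵥ x) := by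
      rw [ap, mulVec_mulVec, gδ, add_mulVec, ← mulVec_mulVec, ← mulVec_mulVec]
    refine (key x hx).imp (fun e' => ap_inj g ?_) fun e' => ap_inj g ?_
    · rw [e, e', vv, ap_zero]
    · rw [e, e', ← add_assoc, vv, zero_add]) with e | e
  · left
    rw [e, mul_zero] at gδ
    rw [← zero_add ((g : Mat m) * Ω), gδ, add_assoc, mm, add_zero]
  · right
    rw [e, mul_one] at gδ
    rw [add_mul, one_mul]
    nth_rw 3 [gδ]
    rw [← add_assoc, mm, zero_add]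

end Cfsg.Agent.S33
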