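import Mathlib
import Cfsg.Agent.S33.P1Defs

/-! Fusion kit for an involution with centraliser `⟨t⟩ × Sp₆(2) × O`. -/

set_option autoImplicit false
set_option linter.unusedSectionVars false
set_option maxRecDepth 100000
set_option synthInstance.maxSize 100000
set_option synthInstance.maxHeartbeats 1000000

namespace Cfsg.Agent.S33

open Cfsg Cfsg.Agent.Rec Cfsg.Agent.Spor Cfsg.Agent.Loc.Mss Cfsg.Agent.SF6 Subgroup
open scoped commutatorElement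

universe u

variable {G : Type*} [Group G] [Finite G]

namespace Cf1

variable (s : Cf1 G)

theorem tmul (g : G) : s.t * (s.t * g) = g := by rw [← mul_assoc, s.tt, one_mul]
theorem opow {o : G} (ho : o ∈ s.O) : o ^ Nat.card s.O = 1 :=
  congrArg Subtype.val (pow_card_eq_one' (x := (⟨o, ho⟩ : s.O)))
theorem key {A : Subgroup G} {x o : G} (hx : ∃ k : ℕ, x ^ 2 ^ k = 1) (ho : o ∈ s.O) (c : o * x = x * o)
    (h : o * x ∈ A) : x ∈ A := by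
  obtain ⟨k, hk⟩ := hx
  have h1 := pow_mem h (Nat.card s.O)
  rw [(show Commute o x from c).mul_pow, s.opow ho, one_mul] at h1
  refine zpowers_le.2 h1 (mem_zpowers_pow_iff.2 ?_)
  exact Nat.Coprime.coprime_dvd_right (orderOf_dvd_of_pow_eq_one hk) ((Nat.coprime_two_right.2 s.odd).pow_right k)
theorem keyL {x o : G} (hx : ∃ k : ℕ, x ^ 2 ^ k = 1) (ho : o ∈ s.O) (h : o * x ∈ s.L) : x ∈ s.L :=
  s.key hx ho (mul_left_cancel (a := o) (by rw [s.OL o ho _ h, mul_assoc])) h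
theorem tL' {o : G} (ho : o ∈ s.O) : o * s.t ∉ s.L := fun h =>
  s.tL (s.keyL ⟨1, by rw [pow_one, pow_two, s.tt]⟩ ho h)
/-- A 2-element of `C(t)` lies in `⟨t⟩ L`. -/
theorem two {g : G} (h : g * s.t = s.t * g) (hg : ∃ k : ℕ, g ^ 2 ^ k = 1) : g ∈ s.L ∨ s.t * g ∈ s.L := by
  obtain ⟨o, ho, k | k⟩ := s.cent g h
  · exact .inl (s.keyL hg ho k)
  · obtain ⟨n, hn⟩ := hg
    rw [← mul_assoc, ← s.Ot o ho, mul_assoc] at k
    refine .inr (s.keyL ⟨n + 1, ?_⟩ ho k)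
    rw [(show Commute s.t g from h.symm).mul_pow, pow_succ' 2 n, pow_mul, pow_two, s.tt, one_pow, one_mul, mul_comm,
      pow_mul, hn, one_pow]
theorem inv2 {g : G} (h : g * s.t = s.t * g) (hg : g * g = 1) : g ∈ s.L ∨ s.t * g ∈ s.L :=
  s.two h ⟨1, by rw [pow_one, pow_two, hg]⟩
theorem tC : s.t ∈ 𝐂[s.O] := mem_cent.2 s.Ot
theorem LC : s.L ≤ 𝐂[s.O] := fun l hl => mem_cent.2 fun o ho => s.OL o ho l hl
theorem centM {g : G} (h : g * s.t = s.t * g) : g ∈ 𝐍[s.O] := by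
  obtain ⟨o, ho, k | k⟩ := s.cent g h
  · exact (mul_mem_cancel_left (le_normalizer ho)).1 (cent_le_norm _ (s.LC k))
  · exact (mul_mem_cancel_left (le_normalizer ho)).1
      ((mul_mem_cancel_left (cent_le_norm _ s.tC)).1 (cent_le_norm _ (s.LC k)))
theorem TC : s.T ≤ 𝐂[s.O] := fun _ hg => (s.memT.1 hg).elim (fun k => s.LC (s.U_le k))
  fun k => (mul_mem_cancel_left s.tC).1 (s.LC (s.U_le k))
theorem WC : s.W ≤ 𝐂[s.O] := s.les.2.2.2.2.2.2.1.trans s.TC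
theorem T_comm {g : G} (hg : g ∈ s.T) : g * s.t = s.t * g := by
  rcases s.memT.1 hg with h | h
  · exact s.t_comm (s.U_le h)
  · have := s.t_comm (s.U_le h)
    rwa [mul_assoc, mul_right_inj] at this
theorem sylT : Syl 2 s.T (centralizer {s.t}) := by
  refine Syl.of_maximal s.pgT (fun g hg => mem_centralizer_singleton_iff.2 (s.T_comm hg)) fun P hP h1 h2 g hg => ?_
  have h3 : P ⊓ s.L ≤ s.U :=
    s.sylU.ge_of_le (hP.to_le inf_le_left) (le_inf (s.les.2.2.2.2.2.2.2.1.trans h1) s.U_le) inf_le_right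
  exact s.memT.2 ((s.two (mem_centralizer_singleton_iff.1 (h2 hg)) (pg_iff.1 hP g hg)).imp (fun k => h3 ⟨hg, k⟩)
    fun k => h3 ⟨mul_mem (h1 (s.les.2.2.2.2.2.2.1 s.tW)) hg, k⟩)
theorem tD : s.t ∈ s.D := IsConj.refl _
theorem D_conj {d : G} (hd : d ∈ s.D) (g : G) : g * d * g⁻¹ ∈ s.D := IsConj.trans hd (isConj_iff.2 ⟨g, rfl⟩)
theorem D_sq {d : G} (hd : d ∈ s.D) : d * d = 1 := by
  obtain ⟨g, rfl⟩ := isConj_iff.1 hd
  rw [conj_mul, s.tt]; group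
theorem D_L {v g : G} (hg : g ∈ s.L) (h : s.t * v ∈ s.D) : s.t * (g * v * g⁻¹) ∈ s.D := by
  have := s.D_conj h g
  rwa [← mul_assoc, s.t_comm hg, mul_assoc s.t, mul_assoc s.t] at this
theorem toT {d : G} (hd : d ∈ s.D) {P : Subgroup G} (hP : IsPGroup 2 P) (h : ∀ g ∈ P, g * d = d * g) :
    ∃ g, g * d * g⁻¹ = s.t ∧ cj(g, P) ≤ s.T := by
  obtain ⟨g, e⟩ := isConj_iff.1 (IsConj.symm hd)
  obtain ⟨m, hm, h2⟩ := s.sylT.conj_le (pg_cj hP g) (cj_le_iff.2 fun a ha =>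
    mem_centralizer_singleton_iff.2 (by rw [← e, conj_mul, conj_mul, h a ha]))
  refine ⟨m * g, ?_, by rwa [cj_cj] at h2⟩
  calc _ = m * (g * d * g⁻¹) * m⁻¹ := by group
    _ = _ := by rw [e, mem_centralizer_singleton_iff.1 hm, mul_inv_cancel_right]
theorem rank {d : G} (hd : d ∈ s.D) {A : Subgroup G} (hA : ∀ g ∈ A, g * d = d * g) (h2 : ∀ g ∈ A, g * g = 1) :
    Nat.card A ≤ 128 := by
  obtain ⟨g, -, h1⟩ := s.toT hd (Cfg.pg_sq h2) hA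
  by_contra h
  have := s.elemT h1 (Cfg.cj_sq h2 g) (by rw [card_cj]; omega)
  rw [← card_cj A g, this, s.gW.2] at h
  omega
theorem normW_of_le {g : G} (h : cj(g, s.W) ≤ s.T) : g ∈ 𝐍[s.W] :=
  cj_eq_iff.1 (s.elemT h (Cfg.cj_sq (fun _ => s.W_sq) g) (by rw [card_cj, s.gW.2]))
theorem normT_le : 𝐍[s.T] ≤ 𝐍[s.W] := fun _ hg => s.normW_of_le (cj_le_of_norm s.les.2.2.2.2.2.2.1 hg)
theorem fusW {d : G} (hd : d ∈ s.D) (hw : d ∈ s.W) : ∃ g ∈ 𝐍[s.W], g * s.t * g⁻¹ = d := by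
  obtain ⟨g, e, h1⟩ := s.toT hd (Cfg.pg_sq fun _ => s.W_sq) fun g hg => s.W_comm hg hw
  exact ⟨g⁻¹, inv_mem (s.normW_of_le h1), by rw [← e]; group⟩
theorem normW {g : G} (hg : g ∈ 𝐍[s.W]) (h : g * s.t = s.t * g) :
    ∃ o ∈ s.O, ∃ w ∈ s.W, ∃ l ∈ s.L3, g = o * (w * l) := by
  have key : ∀ g ∈ s.L, g ∈ 𝐍[s.W] → ∃ w ∈ s.W, ∃ l ∈ s.L3, g = w * l := fun g hL hg => by
    obtain ⟨v, hv, l, hl, e⟩ := s.P3_eq (s.norm_V6 hL (mem_norm_of_cj_le (cj_le_iff.2 fun u hu =>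
      (s.memW.1 (conj_mem_of_norm hg (s.les.2.2.2.2.2.1 hu))).resolve_right fun k => s.tL
        ((mul_mem_cancel_right (mul_mem (mul_mem hL (s.V6_le hu)) (inv_mem hL))).1 (s.V6_le k)))))
    exact ⟨v, s.les.2.2.2.2.2.1 hv, l, hl, e⟩
  obtain ⟨o, ho, k⟩ := s.cent g h
  have h1 : o * g ∈ 𝐍[s.W] :=
    mul_mem (cent_le_norm _ (mem_cent.2 fun w hw => (mem_cent.1 (s.WC hw) o ho).symm)) hg
  refine ⟨o⁻¹, inv_mem ho, ?_⟩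
  rcases k with k | k
  · obtain ⟨w, hw, l, hl, e⟩ := key _ k h1
    exact ⟨w, hw, l, hl, by rw [← e, inv_mul_cancel_left]⟩
  · obtain ⟨w, hw, l, hl, e⟩ := key _ k (mul_mem (le_normalizer s.tW) h1)
    exact ⟨s.t * w, mul_mem s.tW hw, l, hl, by rw [mul_assoc, ← e, s.tmul, inv_mul_cancel_left]⟩
theorem centW {g : G} (hg : ∀ u ∈ s.V6, g * u = u * g) (h : g * s.t = s.t * g) : ∃ o ∈ s.O, o * g ∈ s.W := by
  obtain ⟨o, ho, k⟩ := s.cent g h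
  have h1 : ∀ u ∈ s.V6, o * g * u = u * (o * g) := fun u hu => by
    rw [mul_assoc, hg u hu, ← mul_assoc, s.OL o ho u (s.V6_le hu), mul_assoc]
  exact ⟨o, ho, s.memW.2 (k.imp (fun k => s.cent_V6 k h1) fun k => s.cent_V6 k fun u hu => by
    rw [mul_assoc, h1 u hu, ← mul_assoc, ← s.t_comm (s.V6_le hu), mul_assoc])⟩
/-- `g` normalises `O` if `O` centralises `W^g`. -/
theorem mem_M {g : G} (h : cj(g, s.W) ≤ 𝐂[s.O]) : g ∈ 𝐍[s.O] := by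
  refine (inv_mem_iff (H := 𝐍[s.O])).1 (mem_norm_of_cj_le (cj_le_iff.2 fun x hx => ?_))
  have c : ∀ w ∈ s.W, g⁻¹ * x * g⁻¹⁻¹ * w = w * (g⁻¹ * x * g⁻¹⁻¹) := fun w hw => by
    calc _ = g⁻¹ * (x * (g * w * g⁻¹)) * g := by group
      _ = _ := by rw [mem_cent.1 (h (conj_mem_cj hw)) x hx]; group
  obtain ⟨o, ho, k⟩ := s.centW (fun u hu => c u (s.les.2.2.2.2.2.1 hu)) (c _ s.tW)
  have h1 : o * (g⁻¹ * x * g⁻¹⁻¹) = g⁻¹ * x * g⁻¹⁻¹ * o :=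
    mul_left_cancel (a := o) (by rw [mem_cent.1 (s.WC k) o ho, mul_assoc])
  have h2 : (o * (g⁻¹ * x * g⁻¹⁻¹)) ^ Nat.card s.O = 1 := by
    rw [(show Commute o _ from h1).mul_pow, s.opow ho, conj_pow, s.opow hx]; group
  obtain ⟨n, hn⟩ := s.odd
  rw [hn, pow_succ, pow_mul, pow_two, s.W_sq k, one_pow, one_mul] at h2
  rw [eq_inv_of_mul_eq_one_right h2]
  exact inv_mem ho
theorem normW_M : 𝐍[s.W] ≤ 𝐍[s.O] := fun _ hg => s.mem_M ((cj_le_of_norm le_rfl hg).trans s.WC)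
/-- `L O`. -/
def LO : Subgroup G where
  carrier := {g | ∃ o ∈ s.O, o * g ∈ s.L}
  one_mem' := ⟨1, one_mem _, by rw [mul_one]; exact one_mem _⟩
  mul_mem' := by
    rintro a b ⟨o, ho, k⟩ ⟨o', ho', k'⟩
    refine ⟨o' * o, mul_mem ho' ho, ?_⟩
    rw [mul_assoc, ← mul_assoc o, ← mul_assoc, s.OL o' ho' _ k, mul_assoc]
    exact mul_mem k k'
  inv_mem' := by
    rintro a ⟨o, ho, k⟩
    refine ⟨o⁻¹, inv_mem ho, ?_⟩
    rw [← mul_inv_rev, ← mul_left_cancel (a := o) (show o * (o * a) = o * (a * o) by rw [s.OL o ho _ k, mul_assoc])]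
    exact inv_mem k
theorem act {g : G} (h : g * s.t = s.t * g) : ∃ l ∈ s.LO, l * s.t = s.t * l ∧
    ∀ x, x * s.t = s.t * x → g * x * g⁻¹ = l * x * l⁻¹ := by
  obtain ⟨o, ho, k | k⟩ := s.cent g h
  · exact ⟨g, ⟨o, ho, k⟩, h, fun _ _ => rfl⟩
  · refine ⟨s.t * g, ⟨o, ho, by rwa [← mul_assoc, s.Ot o ho, mul_assoc]⟩, by rw [mul_assoc, h], fun x hx => ?_⟩
    rw [← h]
    calc _ = g * (x * s.t) * s.t⁻¹ * g⁻¹ := by group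
      _ = _ := by rw [hx]; group
theorem comm_L {g h : G} (hg : g * s.t = s.t * g) (hh : h * s.t = s.t * h) : g * h * g⁻¹ * h⁻¹ ∈ s.LO := by
  obtain ⟨l, hl, c, e⟩ := s.act hg
  obtain ⟨k, hk, -, e'⟩ := s.act hh
  rw [e h hh, show l * h * l⁻¹ * h⁻¹ = l * (h * l⁻¹ * h⁻¹) by group, e' _ (show Commute l s.t from c).inv_left]
  exact mul_mem hl (mul_mem (mul_mem hk (inv_mem hl)) (inv_mem hk))
theorem not_comm {d g h : G} (hd : d ∈ s.D) (hg : g * d = d * g) (hh : h * d = d * h) : g * h * g⁻¹ * h⁻¹ ≠ d := by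
  obtain ⟨k, e⟩ := isConj_iff.1 (IsConj.symm hd)
  intro h1
  have := s.comm_L (g := k * g * k⁻¹) (h := k * h * k⁻¹) (by rw [← e, conj_mul, conj_mul, hg])
    (by rw [← e, conj_mul, conj_mul, hh])
  rw [show k * g * k⁻¹ * (k * h * k⁻¹) * (k * g * k⁻¹)⁻¹ * (k * h * k⁻¹)⁻¹ = k * (g * h * g⁻¹ * h⁻¹) * k⁻¹ by group,
    h1, e] at this
  obtain ⟨o, ho, k⟩ := this
  exact s.tL' ho k
theorem K_nD {g : G} (hg : g ∈ s.K1 ∨ g ∈ s.K2 ∨ g ∈ s.K3) : g ∉ s.D := fun hd => by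
  have k : ∀ {z l : G}, l * z * l⁻¹ = g → z ∈ s.D := fun {z l} e => by
    have := s.D_conj hd l⁻¹
    rwa [← e, show l⁻¹ * (l * z * l⁻¹) * l⁻¹⁻¹ = z by group] at this
  rcases hg with ⟨l, -, e⟩ | ⟨l, -, e⟩ | ⟨l, -, e⟩
  · refine s.not_comm (g := s.x3 * s.y * s.d * s.r) (h := s.x2 * s.a) (k e) ?_ ?_ ?_ <;>
      exact s.hL.decide s.rep (by decide +kernel)
  · refine s.not_comm (g := s.a) (h := s.d) (k e) ?_ ?_ ?_ <;> exact s.hL.decide s.rep (by decide +kernel)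
  · refine s.not_comm (g := s.x2) (h := s.r) (k e) ?_ ?_ ?_ <;> exact s.hL.decide s.rep (by decide +kernel)
theorem T_act {g : G} (hg : g ∈ s.T) : ∃ l ∈ s.D8, ∀ w ∈ s.W, w * g * w⁻¹ * g⁻¹ = w * l * w⁻¹ * l⁻¹ := by
  have k : (∀ g ∈ s.T, ∃ l ∈ s.D8, g * l⁻¹ ∈ s.W) ∧ s.D8 ≤ s.T := s.hL.decide s.rep (by decide +kernel)
  obtain ⟨l, hl, h⟩ := k.1 g hg
  refine ⟨l, hl, fun w hw => ?_⟩
  calc _ = w * (g * l⁻¹ * (l * w⁻¹ * l⁻¹)) * (g * l⁻¹)⁻¹ := by group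
    _ = _ := by rw [s.W_comm h (conj_mem_of_norm (s.T_norm (k.2 hl)) (inv_mem hw))]; group
theorem normT {z : G} (hz : z ∈ s.ZU) (h : s.t * z ∈ s.D) : ∃ α ∈ 𝐍[s.T], α ∈ 𝐍[s.W] ∧ α * s.t * α⁻¹ = s.t * z ∧
    α * s.y * α⁻¹ = s.y ∧ (α * (s.x1 * s.a) * α⁻¹ = s.x1 * s.a ∨ α * (s.x1 * s.a) * α⁻¹ = s.x1 * s.a * s.y) := by
  have k0 : (∀ z ∈ s.ZU, ∀ g ∈ s.T, g * (s.t * z) = s.t * z * g) ∧
      (∀ w ∈ s.W, ∀ g ∈ s.D8, w * g * w⁻¹ * g⁻¹ ∈ s.V6 ∧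
        (w * g * w⁻¹ * g⁻¹ ∈ s.V5 ∨ s.x2 * s.b * (w * g * w⁻¹ * g⁻¹) ∈ s.V5)) ∧
      (∀ u ∈ s.V6, (u ∈ s.V5 ∨ s.x2 * s.b * u ∈ s.V5) → ∀ g ∈ s.D8, u * g * u⁻¹ * g⁻¹ = 1 ∨ u * g * u⁻¹ * g⁻¹ = s.y ∨
        u * g * u⁻¹ * g⁻¹ = s.x1 * s.a ∨ u * g * u⁻¹ * g⁻¹ = s.x1 * s.a * s.y) ∧
      (∀ u ∈ s.V6, (u = 1 ∨ u = s.y ∨ u = s.x1 * s.a ∨ u = s.x1 * s.a * s.y) → ∀ g ∈ s.D8,
        u * g * u⁻¹ * g⁻¹ = 1 ∨ u * g * u⁻¹ * g⁻¹ = s.y) ∧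
      s.x3 ∈ s.W ∧ s.d ∈ s.T ∧ s.d * s.r ∈ s.T ∧ s.x1 * s.a ∈ s.V6 ∧ s.y ∈ s.V6 ∧ s.y ≠ 1 ∧ s.x1 * s.a ≠ 1 ∧
      s.x1 * s.a ≠ s.y ∧ s.x1 * s.a * s.d * (s.x1 * s.a)⁻¹ * s.d⁻¹ = s.y ∧
      s.x3 * s.d * s.x3⁻¹ * s.d⁻¹ * (s.d * s.r) * (s.x3 * s.d * s.x3⁻¹ * s.d⁻¹)⁻¹ * (s.d * s.r)⁻¹ = s.x1 * s.a :=
    s.hL.decide s.rep (by decide +kernel)
  obtain ⟨k1, k2, k3, k4, m1, m2, m3, m4, m5, n1, n2, n3, e1, e2⟩ := k0
  obtain ⟨g, e, h1⟩ := s.toT h s.pgT (k1 z hz)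
  have h2 : g⁻¹ ∈ 𝐍[s.T] := inv_mem (mem_norm_of_cj_le h1)
  have h3 := s.normT_le h2
  have ht : g⁻¹ * s.t * g⁻¹⁻¹ = s.t * z := by
    calc _ = g⁻¹ * (g * (s.t * z) * g⁻¹) * g⁻¹⁻¹ := by rw [e]
      _ = _ := by group
  generalize g⁻¹ = α at h2 h3 ht
  have VW := s.les.2.2.2.2.2.1
  obtain ⟨l1, b1, c1⟩ := s.T_act (conj_mem_of_norm h2 m2)
  obtain ⟨l2, b2, c2⟩ := s.T_act (conj_mem_of_norm h2 m3)
  obtain ⟨a1, a2⟩ := k2 _ (conj_mem_of_norm h3 m1) _ b1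
  rw [← c1 _ (conj_mem_of_norm h3 m1)] at a1 a2
  have a3 := k3 _ a1 a2 _ b2
  rw [← c2 _ (VW a1)] at a3
  have cm : ∀ u v : G, α * u * α⁻¹ * (α * v * α⁻¹) * (α * u * α⁻¹)⁻¹ * (α * v * α⁻¹)⁻¹ =
      α * (u * v * u⁻¹ * v⁻¹) * α⁻¹ := fun u v => by group
  rw [cm, cm, e2] at a3
  have a0 : α * (s.x1 * s.a) * α⁻¹ ∈ s.V6 := by
    rcases a3 with a | a | a | a <;> rw [a]
    exacts [one_mem _, m5, m4, mul_mem m4 m5]
  have a4 := k4 _ a0 a3 _ b1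
  rw [← c1 _ (VW a0), cm, e1] at a4
  have a5 := a4.resolve_left fun a => n1 (conj_eq_one_iff.1 a)
  refine ⟨α, h2, h3, ht, a5, ?_⟩
  rcases a3 with a | a | a
  · exact (n2 (conj_eq_one_iff.1 a)).elim
  · rw [← a5, mul_left_inj, mul_right_inj] at a
    exact (n3 a).elim
  · exact a
theorem A3_D {v : G} (hv : v ∈ s.A3) (h1 : v ≠ 1) : s.t * v ∈ s.D ↔ s.t * s.y ∈ s.D := by
  obtain ⟨l, hl, rfl⟩ := s.A3_eq hv h1
  refine ⟨fun h => ?_, s.D_L (s.L3_le hl)⟩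
  have := s.D_L (inv_mem (s.L3_le hl)) h
  rwa [show l⁻¹ * (l * s.y * l⁻¹) * l⁻¹⁻¹ = s.y by group] at this
theorem noII (hy : s.t * s.y ∉ s.D) : s.t * (s.x1 * s.y) ∉ s.D := fun h => by
  have k0 : s.x1 * s.y ∈ s.ZU ∧ s.d * s.m * s.d ∈ s.L3 ∧
      s.d * s.m * s.d * (s.x1 * s.y) * (s.d * s.m * s.d)⁻¹ = s.x1 * s.a ∧
      s.x1 * s.y * (s.x1 * s.a) ∈ s.A3 ∧ s.x1 * s.y * (s.x1 * s.a) ≠ 1 ∧
      s.x1 * s.y * (s.x1 * s.a * s.y) ∈ s.A3 ∧ s.x1 * s.y * (s.x1 * s.a * s.y) ≠ 1 :=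
    s.hL.decide s.rep (by decide +kernel)
  obtain ⟨k1, k2, k3, k4, k5, k6, k7⟩ := k0
  obtain ⟨α, -, -, e1, -, e2⟩ := s.normT k1 h
  have h1 := s.D_L (s.L3_le k2) h
  rw [k3] at h1
  have h2 := s.D_conj h1 α
  rw [← conj_mul, e1] at h2
  rcases e2 with e | e <;> rw [e, mul_assoc] at h2
  exacts [hy ((s.A3_D k4 k5).1 h2), hy ((s.A3_D k6 k7).1 h2)]
theorem noI (hp : s.t ∈ commutator G) (hy : s.t * s.y ∉ s.D) : s.t * s.x1 ∈ s.D := by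
  by_contra hx
  have k0 : (∀ u ∈ s.T, u * s.x3 = s.x3 * u → u * s.r = s.r * u → u * s.d = s.d * u → u * s.x2 = s.x2 * u →
      u = s.t ∨ u = s.t * s.x1 ∨ u = s.t * s.y ∨ u = s.t * (s.x1 * s.y) ∨ u = 1 ∨ u ∈ s.K1 ∨ u ∈ s.K2 ∨ u ∈ s.K3) ∧
      s.x3 ∈ s.T ∧ s.r ∈ s.T ∧ s.d ∈ s.T ∧ s.x2 ∈ s.T ∧ s.t ∈ s.T ∧ s.t ≠ 1 := s.hL.decide s.rep (by decide +kernel)
  obtain ⟨k1, k2, k3, k4, k5, k6, k7⟩ := k0
  have fix : ∀ p ∈ 𝐍[s.T], p * s.t * p⁻¹ = s.t := fun p hp => by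
    have c : ∀ u ∈ s.T, p * s.t * p⁻¹ * u = u * (p * s.t * p⁻¹) := fun u hu => by
      calc _ = p * (s.t * (p⁻¹ * u * p)) * p⁻¹ := by group
        _ = _ := by rw [← s.T_comm (conj_mem_of_norm' hp hu)]; group
    have hd := s.D_conj s.tD p
    rcases k1 _ (conj_mem_of_norm hp k6) (c _ k2) (c _ k3) (c _ k4) (c _ k5) with h | h | h | h | h | h
    · exact h
    · exact (hx (h ▸ hd)).elim
    · exact (hy (h ▸ hd)).elim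
    · exact (s.noII hy (h ▸ hd)).elim
    · exact (k7 (conj_eq_one_iff.1 h)).elim
    · exact (s.K_nD h hd).elim
  have h1 : Syl 2 s.T ⊤ := Syl.of_norm s.pgT le_top fun P hP h2 _ h3 => s.sylT.ge_of_le hP h2 fun p hp =>
    mem_centralizer_singleton_iff.2 (mul_inv_eq_iff_eq_mul.1 (fix p (h3 hp)))
  have h2 : (s.U.subgroupOf s.T).index = 2 := by
    have := Inv.Fz.card_mul_relIndex s.les.2.2.2.2.2.2.2.1
    rw [s.gT.2, s.gU.2] at this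
    change s.U.relIndex s.T = 2
    omega
  have := normal_of_index_eq_two h2
  obtain ⟨g, h3, -, h4⟩ := GT.Tr.thompson_transfer_of_isCyclic (H := s.T) (by simpa using h1.nd) (T := s.U)
    (isCyclic_of_prime_card (p := 2) h2) (by rw [pow_two, s.tt]) hp s.pgT fun _ => s.T_comm
  rw [fix g (mem_norm_of_cj_le (cj_le_iff.2 h4))] at h3
  exact s.tL (s.U_le h3)

/-- A conjugate of `t` commuting with `t` is conjugate to `t` in `N(O)`. -/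
theorem fusM {d : G} (hd : d ∈ s.D) (h : d * s.t = s.t * d) : ∃ m ∈ 𝐍[s.O], m * s.t * m⁻¹ = d := by
  have k0 : s.x1 ∈ s.W ∧ s.y ∈ s.W ∧ s.x1 * s.y ∈ s.W ∧ s.x1 * s.x2 * s.x3 ∈ s.W :=
    s.hL.decide s.rep (by decide +kernel)
  have k1 : ∀ u ∈ s.L, u * u = 1 → ∃ l ∈ s.L, ∃ w ∈ s.W, l * w * l⁻¹ = u := fun u hu u2 => by
    rcases s.invol hu u2 with rfl | ⟨l, hl, e⟩ | ⟨l, hl, e⟩ | ⟨l, hl, e⟩ | ⟨l, hl, e⟩
    exacts [⟨1, one_mem _, 1, one_mem _, by group⟩, ⟨l, hl, _, k0.1, e⟩, ⟨l, hl, _, k0.2.1, e⟩,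
      ⟨l, hl, _, k0.2.2.1, e⟩, ⟨l, hl, _, k0.2.2.2, e⟩]
  obtain ⟨l, hl, w, hw, e⟩ : ∃ l ∈ s.L, ∃ w ∈ s.W, l * w * l⁻¹ = d := by
    rcases s.inv2 h (s.D_sq hd) with k | k
    · exact k1 d k (s.D_sq hd)
    · obtain ⟨l, hl, w, hw, e⟩ := k1 _ k (by rw [mul_assoc, ← mul_assoc d, h, mul_assoc, s.D_sq hd, mul_one, s.tt])
      refine ⟨l, hl, s.t * w, mul_mem s.tW hw, ?_⟩
      rw [← mul_assoc, s.t_comm hl, mul_assoc, mul_assoc, ← mul_assoc l, e, s.tmul]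
  have h1 := s.D_conj hd l⁻¹
  rw [← e, show l⁻¹ * (l * w * l⁻¹) * l⁻¹⁻¹ = w by group] at h1
  obtain ⟨g, hg, e'⟩ := s.fusW h1 hw
  exact ⟨l * g, mul_mem (cent_le_norm _ (s.LC hl)) (s.normW_M hg), by rw [← e, ← e']; group⟩
/-- An elementary abelian 2-group normalised by `t` lies in `N(O)`. -/
theorem leM {B : Subgroup G} (h2 : ∀ e ∈ B, e * e = 1) (ht : s.t ∈ 𝐍[B]) : B ≤ 𝐍[s.O] := fun x hx => by
  have ti : s.t⁻¹ = s.t := inv_eq_of_mul_eq_one_right s.tt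
  have h1 := comm_of_sq2 h2 hx (conj_mem_of_norm ht hx)
  rw [ti] at h1
  obtain ⟨m, hm, e⟩ := s.fusM (s.D_conj s.tD x) (by
    rw [inv_eq_of_mul_eq_one_right (h2 x hx)]
    calc _ = x * (s.t * x * s.t) := by group
      _ = _ := by rw [h1]; group)
  refine (mul_mem_cancel_left (inv_mem hm)).1 (s.centM ?_)
  calc _ = m⁻¹ * (x * s.t * x⁻¹) * x := by group
    _ = _ := by rw [← e]; group
theorem big_cent {A B : Subgroup G} (h : s.Big A B) {e : G} (he : e ∈ B) : e * s.t = s.t * e ↔ e ∈ s.V6 := by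
  refine ⟨fun k => ?_, fun k => s.t_comm (s.V6_le k)⟩
  have c : ∀ u ∈ s.V6, e * u = u * e := fun u hu => comm_of_sq2 h.sq he (h.le hu)
  rcases s.inv2 k (h.sq e he) with k1 | k1
  · exact s.cent_V6 k1 c
  · refine absurd ((mul_mem_cancel_right he).1 (h.le (s.cent_V6 k1 fun u hu => ?_))) h.tB
    rw [mul_assoc, c u hu, ← mul_assoc, ← s.t_comm (s.V6_le hu), mul_assoc]
theorem big_T {A B : Subgroup G} (h : s.Big A B) (hA : A ≤ s.V6) : s.T ≤ 𝐍[B] := by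
  have ht : s.t ∈ 𝐍[B] := mem_norm_of_cj_le (cj_le_iff.2 fun e he => by
    obtain ⟨v, hv, k⟩ := h.tau e he
    rw [inv_eq_of_mul_eq_one_right s.tt, mul_assoc, mul_inv_eq_iff_eq_mul.1 k.2, mul_assoc, s.tmul]
    exact mul_mem (h.le (hA hv)) he)
  intro g hg
  rcases s.memT.1 hg with k | k
  · exact h.norm (s.les.2.1 k)
  · exact (mul_mem_cancel_left ht).1 (h.norm (s.les.2.1 k))
theorem big_nD {A B : Subgroup G} (h : s.Big A B) (hA : s.A3 ≤ A) {e : G} (he : e ∈ B) (g : G) :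
    g * e * g⁻¹ ∉ s.D := by
  intro hd
  have h1 := s.D_conj hd g⁻¹
  rw [show g⁻¹ * (g * e * g⁻¹) * g⁻¹⁻¹ = e by group] at h1
  have h2 := s.rank h1 (fun _ hx => comm_of_sq2 h.sq hx he) h.sq
  have h3 := card_le_of_le hA
  rw [s.gA3.2] at h3
  rw [h.card] at h2
  omega

end Cf1

end Cfsg.Agent.S33
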