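import Mathlib
import Cfsg.Agent.S33.P1Kit
import Cfsg.Agent.SF6.A2

/-! The conjugates of `t` in `W`, and the conjugates of `W` normalising `W` (with an odd factor). -/

set_option autoImplicit false
set_option linter.unusedSectionVars false
set_option maxRecDepth 100000
set_option synthInstance.maxSize 100000
set_option synthInstance.maxHeartbeats 1000000

namespace Cfsg.Agent.S33

open Cfsg Cfsg.Agent.Rec Cfsg.Agent.Spor Cfsg.Agent.Loc.Mss Cfsg.Agent.SF6 Subgroup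
open scoped commutatorElement

universe u

variable {G : Type*} [Group G] [Finite G]

namespace P1A

open SF6.A2Aux (cm ch)

variable (s : Cf1 G)

theorem one_nD : (1 : G) ∉ s.D := fun h => s.tL (by rw [isConj_one_left.1 h]; exact one_mem _)

theorem K1_le {u : G} (h : u ∈ s.K1) : u ∈ s.L := by
  obtain ⟨g, hg, rfl⟩ := h
  have hg' : g ∈ s.L := hg
  have h1 : s.x1 ∈ s.V6 := s.hL.decide s.rep (by decide +kernel)
  exact mul_mem (mul_mem hg' (s.V6_le h1)) (inv_mem hg')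

theorem V6_nD {α : G} (h : s.Kp α) {v : G} (hv : v ∈ s.V6) : v ∉ s.D := fun hD => by
  have k1 : ∀ v ∈ s.V6, v = 1 ∨ (v ∈ s.K1 ∨ v ∈ s.K2 ∨ v ∈ s.K3) ∨ ∃ l ∈ s.L3, l * v * l⁻¹ = s.x1 * s.x3 * s.x123 :=
    s.hL.decide s.rep (by decide +kernel)
  rcases k1 v hv with rfl | h1 | ⟨l, -, h1⟩
  · exact one_nD s hD
  · exact s.K_nD h1 hD
  have k2 : ∀ x, α * s.d * x * (α * s.d)⁻¹ = α * (s.d * x * s.d⁻¹) * α⁻¹ := fun x => by group
  have e1 : α * (s.d * s.x3 * s.d⁻¹) * α⁻¹ = s.x1 * s.x3 * s.x123 * s.x3 :=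
    ch (cm (cm h.b h.x2) h.x3) (s.hL.decide s.rep (by decide +kernel))
  have e2 : α * (s.d * (s.x1 * s.x3 * s.x123) * s.d⁻¹) * α⁻¹ = s.x1 * s.x3 * s.x123 :=
    ch (cm (cm h.b h.x2) h.a) (s.hL.decide s.rep (by decide +kernel))
  refine s.not_comm (h1 ▸ s.D_conj hD l) (g := α * s.d) (h := s.x3) (mul_inv_eq_iff_eq_mul.1 ((k2 _).trans e2))
    (s.hL.decide s.rep (by decide +kernel)) ?_
  rw [k2, e1, mul_inv_cancel_right]

theorem pt_D {α : G} (h : s.Kp α) {p : G} (hp : p ∈ s.Pts) : s.t * p ∈ s.D := by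
  obtain ⟨-, l, hl, rfl⟩ := s.pt_eq hp
  exact s.D_L (s.L3_le hl) (h.t ▸ s.D_conj s.tD α)

theorem kp_D (hy : s.t * s.y ∉ s.D) {α : G} (h : s.Kp α) : ∀ w ∈ s.W, w ∈ s.D → w = s.t ∨ ∃ p ∈ s.Pts, w = s.t * p := by
  intro w hw hD
  have h1 := (s.memW.1 hw).resolve_left fun h1 => V6_nD s h h1 hD
  have e : s.t * (s.t * w) = w := by rw [← mul_assoc, s.tt, one_mul]
  have k1 : ∀ v ∈ s.V6, v = 1 ∨ v ∈ s.Pts ∨ ∃ l ∈ s.L3, l * v * l⁻¹ = s.y ∨ l * v * l⁻¹ = s.x1 * s.y ∨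
      l * v * l⁻¹ = s.x1 * s.b := s.hL.decide s.rep (by decide +kernel)
  rcases k1 _ h1 with h2 | h2 | ⟨l, hl, h2⟩
  · exact Or.inl (by rw [← e, h2, mul_one])
  · exact Or.inr ⟨_, h2, e.symm⟩
  have h3 := s.D_L (s.L3_le hl) (e.symm ▸ hD)
  rcases h2 with h2 | h2 | h2 <;> rw [h2] at h3
  · exact absurd h3 hy
  · exact absurd h3 (s.noII hy)
  have h4 := s.D_conj h3 α⁻¹
  rw [← mul_assoc s.t, ← cm h.t h.b, show α⁻¹ * (α * (s.t * s.b) * α⁻¹) * α⁻¹⁻¹ = s.t * s.b by group] at h4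
  have k2 : ∃ l ∈ s.L3, l * s.b * l⁻¹ = s.y := s.hL.decide s.rep (by decide +kernel)
  obtain ⟨l', hl', e'⟩ := k2
  exact absurd (e' ▸ s.D_L (s.L3_le hl') h4) hy

/-- The conjugates of `t` commuting with `t`. -/
theorem kp_cen (hy : s.t * s.y ∉ s.D) {α : G} (h : s.Kp α) {u : G} (hD : s.t * u ∈ s.D) (hc : u * s.t = s.t * u) :
    u = 1 ∨ u ∈ s.K1 := by
  have e : ∀ w, s.t * (s.t * w) = w := fun w => by rw [← mul_assoc, s.tt, one_mul]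
  have k1 : s.x1 * s.x2 * s.x3 ∈ s.V6 ∧ s.t * (s.x1 * s.x2 * s.x3) ∈ s.W ∧ s.x1 * s.x2 * s.x3 ≠ 1 ∧
      s.x1 * s.x2 * s.x3 ∉ s.Pts := s.hL.decide s.rep (by decide +kernel)
  have k2 : ∀ g x : G, g⁻¹ * (g * x * g⁻¹) * g⁻¹⁻¹ = x := fun g x => by group
  have h2 := s.D_sq hD
  rw [mul_assoc, ← mul_assoc u, hc, mul_assoc, e] at h2
  rcases s.inv2 hc h2 with h1 | h1
  · rcases s.invol h1 h2 with h3 | h3 | ⟨g, hg, rfl⟩ | ⟨g, hg, rfl⟩ | ⟨g, hg, rfl⟩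
    · exact Or.inl h3
    · exact Or.inr h3
    all_goals have h4 := s.D_L (inv_mem (show g ∈ s.L from hg)) hD
    all_goals rw [k2] at h4
    · exact absurd h4 hy
    · exact absurd h4 (s.noII hy)
    · rcases kp_D s hy h _ k1.2.1 h4 with h5 | ⟨p, hp, h5⟩
      · exact absurd (by simpa using h5) k1.2.2.1
      · exact absurd (mul_left_cancel h5 ▸ hp) k1.2.2.2
  · rcases s.invol h1 (s.D_sq hD) with h3 | h3 | h3 | h3 | ⟨g, -, h3⟩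
    · exact absurd (h3 ▸ hD) (one_nD s)
    · exact absurd hD (s.K_nD (Or.inl h3))
    · exact absurd hD (s.K_nD (Or.inr (Or.inl h3)))
    · exact absurd hD (s.K_nD (Or.inr (Or.inr h3)))
    · have h4 := s.D_conj (h3 ▸ hD) g⁻¹
      rw [k2] at h4
      exact absurd h4 (V6_nD s h k1.1)

theorem kp_mem (hy : s.t * s.y ∉ s.D) {α : G} (h : s.Kp α) {d : G} (hD : d ∈ s.D) (hn : d ∈ 𝐍[s.W]) : d ∈ s.W := by
  have e : ∀ w, s.t * (s.t * w) = w := fun w => by rw [← mul_assoc, s.tt, one_mul]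
  have hV : s.V6 ≤ s.W := s.les.2.2.2.2.2.1
  have d2 := s.D_sq hD
  have di : d⁻¹ = d := inv_eq_of_mul_eq_one_right d2
  by_cases h1 : ∃ o ∈ s.W, o ∈ s.D ∧ d * o = o * d
  · obtain ⟨o, ho, hoD, h1⟩ := h1
    obtain ⟨g, hg, rfl⟩ := s.fusW hoD ho
    have h2 : g⁻¹ * d * g * s.t = s.t * (g⁻¹ * d * g) :=
      calc _ = g⁻¹ * (d * (g * s.t * g⁻¹)) * g := by group
        _ = _ := by rw [h1]; group
    have h3 : g⁻¹ * d * g ∈ s.W := by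
      have h4 : g⁻¹ * d * g ∈ s.D := by simpa using s.D_conj hD g⁻¹
      have h5 : g⁻¹ * d * g ∈ 𝐍[s.W] := mul_mem (mul_mem (inv_mem hg) hn) hg
      generalize g⁻¹ * d * g = x at h2 h4 h5
      have k1 : ∀ u ∈ s.K1, ∀ l ∈ s.L3, u * l⁻¹ ∈ s.W → u ∈ s.W := s.hL.decide s.rep (by decide +kernel)
      refine (mul_mem_cancel_left s.tW).1 ?_
      rcases kp_cen s hy h (u := s.t * x) ((e x).symm ▸ h4) (by rw [mul_assoc, h2]) with h6 | h6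
      · exact h6 ▸ one_mem _
      · have h7 : s.t * x ∈ s.L := K1_le s h6
        have h8 : s.t * x ∈ 𝐍[s.W] := mul_mem (le_normalizer s.tW) h5
        obtain ⟨v, hv, l, hl, h9⟩ := s.P3_eq (s.norm_V6 h7 (GT.mem_normalizer_iff_of_finite.2 fun v hv =>
          (s.memW.1 (conj_mem_of_norm h8 (hV hv))).resolve_right fun h' => s.tL
            ((mul_mem_cancel_right (mul_mem (mul_mem h7 (s.V6_le hv)) (inv_mem h7))).1 (s.V6_le h'))))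
        exact k1 _ h6 l hl (by rw [h9, mul_inv_cancel_right]; exact hV hv)
    simpa [mul_assoc] using conj_mem_of_norm hg h3
  exfalso
  have h2 : ∀ o ∈ s.W, o ∈ s.D → d * o * d⁻¹ ≠ o := fun o ho hoD h2 => h1 ⟨o, ho, hoD, mul_inv_eq_iff_eq_mul.1 h2⟩
  obtain ⟨p, hp, e1⟩ := (kp_D s hy h _ (conj_mem_of_norm hn s.tW) (s.D_conj s.tD d)).resolve_left (h2 _ s.tW s.tD)
  have k1 : ∀ p ∈ s.Pts, p ≠ 1 ∧ (∃ q ∈ s.Pts, q ≠ p) ∧ ∀ q ∈ s.Pts, (q ≠ p → p * q ≠ 1) ∧ ∀ q' ∈ s.Pts, p * (q * q') ≠ 1 :=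
    s.hL.decide s.rep (by decide +kernel)
  obtain ⟨q, hq, hqp⟩ := (k1 p hp).2.1
  have pW := hV (s.pt_eq hp).1
  have qW := hV (s.pt_eq hq).1
  have oW := mul_mem s.tW qW
  have oD := pt_D s h hq
  obtain ⟨q', hq', e2⟩ := (kp_D s hy h _ (conj_mem_of_norm hn oW) (s.D_conj oD d)).resolve_left fun h3 =>
    hqp (mul_left_cancel (a := s.t) (calc
      _ = d⁻¹ * (d * (s.t * q) * d⁻¹) * d := by group
      _ = d * s.t * d⁻¹ := by rw [h3, di]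
      _ = _ := e1))
  have q'W := hV (s.pt_eq hq').1
  have k2 : ∀ o ∈ s.W, ∀ w, d * o * d⁻¹ * o = w → d * w = o * d * o⁻¹ ∧ d * w = w * d := fun o ho w e3 => by
    have h3 : d * w = o * d * o⁻¹ := by
      rw [← e3, di, inv_eq_of_mul_eq_one_right (s.W_sq ho), ← mul_assoc, ← mul_assoc, ← mul_assoc, d2, one_mul]
    have h4 := inv_eq_of_mul_eq_one_right (s.W_sq (e3 ▸ mul_mem (conj_mem_of_norm hn ho) ho))
    refine ⟨h3, ?_⟩
    rw [h3, ← h4, ← e3, inv_eq_of_mul_eq_one_right (s.W_sq ho)]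
    conv_lhs => rw [← inv_eq_of_mul_eq_one_right (s.W_sq ho)]
    group
  obtain ⟨a1, a2⟩ := k2 _ s.tW p (by rw [e1, mul_assoc, s.W_comm pW s.tW, e])
  obtain ⟨b1, b2⟩ := k2 _ oW (q' * q) (by rw [e2, mul_assoc, ← mul_assoc q', s.W_comm q'W s.tW, mul_assoc, e])
  obtain ⟨c, hc⟩ := isConj_iff.1 hD
  have key : ∀ w, w ≠ 1 → d * w ∈ s.D → d * w = w * d → c⁻¹ * w * c ∈ s.K1 := fun w h3 h4 h5 => by
    have h6 : s.t * (c⁻¹ * w * c) = c⁻¹ * (d * w) * c⁻¹⁻¹ := by rw [← hc]; group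
    refine (kp_cen s hy h (h6 ▸ s.D_conj h4 _) ?_).resolve_left fun h7 => h3 (conj_eq_one_iff.1 (show c⁻¹ * w * c⁻¹⁻¹ = 1 by rwa [inv_inv]))
    rw [h6, h5, ← hc]
    group
  have k3 : ∀ u ∈ s.K1, ∀ v ∈ s.K1, u * v ∉ s.K1 := s.hL.decide s.rep (by decide +kernel)
  refine k3 _ (key p (k1 p hp).1 (a1 ▸ s.D_conj hD _) a2) _ (key (q' * q) (((k1 q' hq').2.2 q hq).1 fun h3 =>
    h2 _ oW oD (by rw [e2, h3])) (b1 ▸ s.D_conj hD _) b2) ?_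
  rw [show c⁻¹ * p * c * (c⁻¹ * (q' * q) * c) = c⁻¹ * (p * (q' * q)) * c by group]
  refine key _ (((k1 p hp).2.2 q' hq').2 q hq) ?_ (by rw [← mul_assoc, a2, mul_assoc, b2, ← mul_assoc])
  have h3 := s.D_conj (s.D_conj hD (s.t * q)) s.t
  rwa [← b1, ← conj_mul, ← a1, s.W_comm s.tW (mul_mem q'W qW), mul_inv_cancel_right, mul_assoc] at h3

end P1A

open P1A

theorem Cf1.kp_can (s : Cf1 G) (hy : s.t * s.y ∉ s.D) {α : G} (h : s.Kp α) :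
    ∀ g, cj(g, s.W) ≤ 𝐍[s.W] → g ∈ 𝐍[s.W] := by
  intro g hg
  have h1 : ∀ w ∈ s.W, w ∈ s.D → w ∈ cj(g⁻¹, s.W) := fun w hw hD => by
    rw [mem_cj, inv_inv]
    exact kp_mem s hy h (s.D_conj hD g) (hg (conj_mem_cj hw))
  have h2 := h1 _ s.tW s.tD
  have h3 : ∀ p ∈ s.Pts, p ∈ cj(g⁻¹, s.W) := fun p hp =>
    (mul_mem_cancel_left h2).1 (h1 _ (mul_mem s.tW (s.les.2.2.2.2.2.1 (s.pt_eq hp).1)) (pt_D s h hp))
  have k1 : ∀ w ∈ s.V6, w ∈ s.Pts ∨ ∃ p ∈ s.Pts, ∃ q ∈ s.Pts, w = p * q ∨ ∃ q' ∈ s.Pts, w = p * q * q' :=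
    s.hL.decide s.rep (by decide +kernel)
  have h4 : s.V6 ≤ cj(g⁻¹, s.W) := fun w hw => by
    rcases k1 w hw with h5 | ⟨p, hp, q, hq, rfl | ⟨q', hq', rfl⟩⟩
    exacts [h3 w h5, mul_mem (h3 p hp) (h3 q hq), mul_mem (mul_mem (h3 p hp) (h3 q hq)) (h3 q' hq')]
  exact mem_norm_of_cj_le (cj_le_iff_le_inv.2 fun w hw =>
    (s.memW.1 hw).elim (fun h5 => h4 h5) fun h5 => (mul_mem_cancel_left h2).1 (h4 h5))

end Cfsg.Agent.S33
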