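import Mathlib
import Cfsg.Agent.S33.P1Kit

set_option autoImplicit false
set_option linter.unusedSectionVars false
set_option maxRecDepth 100000
set_option synthInstance.maxSize 100000
set_option synthInstance.maxHeartbeats 1000000

namespace Cfsg.Agent.S33

open Cfsg Cfsg.Agent.Rec Cfsg.Agent.Spor Cfsg.Agent.Loc.Mss Cfsg.Agent.SF6 Subgroup
open scoped commutatorElement

universe u

variable {G K : Type u} [Group G] [Finite G] [Group K] [Finite K]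

namespace Qd

variable {s : Cf1 G} (Q : Qd s K) {k : K}

theorem api_clos {l : List G} (h : clos l ≤ 𝐂[s.O]) : k ∈ clos (l.map Q.f) ↔ ∃ v ∈ clos l, Q.f v = k := by
  replace h := h.trans (cent_le_norm _)
  refine ⟨fun hk => ?_, ?_⟩
  · induction hk using closure_induction with
    | mem x hx =>
      obtain ⟨v, hv, e⟩ := List.mem_map.1 hx
      exact ⟨v, mem_clos hv, e⟩
    | one => exact ⟨1, one_mem _, Q.one⟩
    | mul a b _ _ iha ihb =>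
      obtain ⟨x, hx, rfl⟩ := iha
      obtain ⟨y, hy, rfl⟩ := ihb
      exact ⟨_, mul_mem hx hy, Q.mul (h hx) (h hy)⟩
    | inv a _ iha =>
      obtain ⟨x, hx, rfl⟩ := iha
      exact ⟨_, inv_mem hx, Q.inv (h hx)⟩
  · rintro ⟨x, hx, rfl⟩
    induction hx using closure_induction with
    | mem x hx => exact mem_clos (List.mem_map_of_mem hx)
    | one => exact Q.one ▸ one_mem _
    | mul a b ha hb iha ihb => exact Q.mul (h ha) (h hb) ▸ mul_mem iha ihb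
    | inv a ha iha => exact Q.inv (h ha) ▸ inv_mem iha
theorem mem_V6 : k ∈ Q.q.V6 ↔ ∃ v ∈ s.V6, Q.f v = k := by
  refine Iff.trans ?_ (Q.api_clos (s.V6_le.trans s.LC))
  simp only [Pre.V6, Q.letters, List.map_cons, List.map_nil]
theorem mem_A3 : k ∈ Q.q.A3 ↔ ∃ v ∈ s.A3, Q.f v = k := by
  refine Iff.trans ?_ (Q.api_clos ((s.les.2.2.2.1.trans s.V6_le).trans s.LC))
  simp only [Pre.A3, Q.letters, List.map_cons, List.map_nil]
theorem mem_W : k ∈ Q.q.W ↔ ∃ v ∈ s.W, Q.f v = k := by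
  refine Iff.trans ?_ (Q.api_clos (s.WC))
  simp only [Pre.W, Q.letters, List.map_cons, List.map_nil]
theorem mem_T : k ∈ Q.q.T ↔ ∃ v ∈ s.T, Q.f v = k := by
  refine Iff.trans ?_ (Q.api_clos (s.TC))
  simp only [Pre.T, Q.letters, List.map_cons, List.map_nil]
theorem mem_L3 : k ∈ Q.q.L3 ↔ ∃ v ∈ s.L3, Q.f v = k := by
  refine Iff.trans ?_ (Q.api_clos (s.L3_le.trans s.LC))
  simp only [Pre.L3, Q.letters, List.map_cons, List.map_nil]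
theorem mem_P3 : k ∈ Q.q.P3 ↔ ∃ v ∈ s.P3, Q.f v = k := by
  refine Iff.trans ?_ (Q.api_clos (s.P3_le.trans s.LC))
  simp only [Pre.P3, Q.letters, List.map_cons, List.map_nil]
theorem mem_L : k ∈ Q.q.L ↔ ∃ v ∈ s.L, Q.f v = k := by
  refine Iff.trans ?_ (Q.api_clos (s.LC))
  simp only [Pre.L, Q.letters, List.map_cons, List.map_nil, Pre.gL]
theorem mem_Pts : k ∈ Q.q.Pts ↔ ∃ v ∈ s.Pts, Q.f v = k := by
  refine Iff.trans ?_ List.mem_map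
  simp only [Pre.Pts, Q.letters, List.map_cons, List.map_nil, Set.mem_ofPred_eq]
/-- An involution with image in the image of `T`. -/
theorem eq_T {x w : G} (hx : x ∈ 𝐍[s.O]) (x2 : ∃ k : ℕ, x ^ 2 ^ k = 1) (hw : w ∈ s.T) (h : Q.f x = Q.f w) : x = w := by
  have h1 := (Q.eq_iff hx (cent_le_norm _ (s.TC hw))).1 h
  have h2 : Commute x⁻¹ w := mul_right_cancel ((mem_cent.1 (s.TC hw) _ h1).trans (mul_assoc ..).symm)
  obtain ⟨i, hi⟩ := x2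
  obtain ⟨j, hj⟩ := s.pgT ⟨w, hw⟩
  replace hj : w ^ 2 ^ j = 1 := congrArg Subtype.val hj
  refine inv_mul_eq_one.1 (orderOf_eq_one_iff.1 (Nat.eq_one_of_dvd_coprimes (s.odd.coprime_two_left.pow_left (i + j))
    (orderOf_dvd_of_pow_eq_one ?_) (s.O.orderOf_dvd_natCard h1)))
  rw [h2.mul_pow, inv_pow, pow_add, pow_mul, hi, mul_comm, pow_mul, hj, one_pow, one_pow, inv_one, one_mul]
theorem api_W {w : G} (hw : w ∈ s.W) : w ∈ 𝐍[s.O] := cent_le_norm _ (s.WC hw)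
theorem api_V {w : G} (hw : w ∈ s.V6) : w ∈ s.W := s.les.2.2.2.2.2.1 hw
theorem api_cj {g u w : G} (hg : g ∈ 𝐍[s.O]) (hu : u ∈ s.W) (hw : w ∈ s.W)
    (h : Q.f g * Q.f u * (Q.f g)⁻¹ = Q.f w) : g * u * g⁻¹ = w :=
  Q.eq_T (mul_mem (mul_mem hg (api_W hu)) (inv_mem hg)) ⟨1, by rw [pow_one, conj_pow, pow_two, s.W_sq hu]; simp⟩
    (s.les.2.2.2.2.2.2.1 hw) ((Q.conj hg (api_W hu)).trans h)
theorem D_of {w : G} (hw : w ∈ 𝐍[s.O]) (w2 : w * w = 1) (h : Q.f w ∈ Q.q.D) : w ∈ s.D := by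
  obtain ⟨k, e⟩ := isConj_iff.1 h
  obtain ⟨n, -, -, e⟩ := Q.lift1 (api_W s.tW) hw s.tt w2 (Q.et ▸ e)
  exact isConj_iff.2 ⟨n, e⟩
theorem D_to {w : G} (hw : w * s.t = s.t * w) (h : w ∈ s.D) : Q.f w ∈ Q.q.D := by
  obtain ⟨m, hm, rfl⟩ := s.fusM h hw
  exact isConj_iff.2 ⟨_, Q.et ▸ (Q.conj hm (api_W s.tW)).symm⟩
theorem D_W {v : G} (hv : v ∈ s.W) : Q.q.t * Q.f v ∈ Q.q.D ↔ s.t * v ∈ s.D := by
  have h := mul_mem s.tW hv
  rw [Q.et, ← Q.mul (api_W s.tW) (api_W hv)]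
  exact ⟨Q.D_of (api_W h) (s.W_sq h), Q.D_to (s.W_comm h s.tW)⟩
theorem normW_to {g : G} (hg : g ∈ 𝐍[s.W]) : Q.f g ∈ 𝐍[Q.q.W] :=
  mem_norm_of_cj_le (cj_le_iff.2 fun k hk => by
    obtain ⟨w, hw, rfl⟩ := Q.mem_W.1 hk
    exact Q.mem_W.2 ⟨_, conj_mem_of_norm hg hw, Q.conj (s.normW_M hg) (api_W hw)⟩)
theorem normW_of {g : G} (hg : g ∈ 𝐍[s.O]) (h : Q.f g ∈ 𝐍[Q.q.W]) : g ∈ 𝐍[s.W] :=
  mem_norm_of_cj_le (cj_le_iff.2 fun w hw => by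
    obtain ⟨w', hw', e⟩ := Q.mem_W.1 (conj_mem_of_norm h (Q.mem_W.2 ⟨w, hw, rfl⟩))
    exact Q.api_cj hg hw hw' e.symm ▸ hw')
theorem Φ_to {e v : G} (he : e ∈ s.Φ v) (hv : v ∈ s.V6) : e ∈ 𝐍[s.O] ∧ Q.f e ∈ Q.q.Φ (Q.f v) := by
  have h1 : ∀ u ∈ s.V6, e * u * e⁻¹ ∈ s.W := fun u hu => by rw [he.1 u hu, mul_inv_cancel_right]; exact api_V hu
  have h2 : e ∈ 𝐍[s.O] := s.normW_M (mem_norm_of_cj_le (cj_le_iff.2 fun w hw => (s.memW.1 hw).elim (h1 w) fun k =>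
    (mul_mem_cancel_left (he.2 ▸ mul_mem s.tW (api_V hv) : e * s.t * e⁻¹ ∈ s.W)).1 (by rw [conj_mul]; exact h1 _ k)))
  refine ⟨h2, fun k hk => ?_, ?_⟩
  · obtain ⟨u, hu, rfl⟩ := Q.mem_V6.1 hk
    exact Q.comm h2 (api_W (api_V hu)) (he.1 u hu)
  · rw [Q.et, ← Q.conj h2 (api_W s.tW), he.2, Q.mul (api_W s.tW) (api_W (api_V hv))]
theorem Φ_of {e v : G} (he : e ∈ 𝐍[s.O]) (hv : v ∈ s.V6) (h : Q.f e ∈ Q.q.Φ (Q.f v)) : e ∈ s.Φ v :=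
  ⟨fun u hu => mul_inv_eq_iff_eq_mul.1 (Q.api_cj he (api_V hu) (api_V hu)
    (mul_inv_eq_iff_eq_mul.2 (h.1 _ (Q.mem_V6.2 ⟨u, hu, rfl⟩)))), Q.api_cj he s.tW (mul_mem s.tW (api_V hv))
    (by rw [Q.mul (api_W s.tW) (api_W (api_V hv)), ← Q.et, h.2])⟩
theorem kp_of {β : K} (h : Q.q.Kp β) : ∃ α, s.Kp α := by
  obtain ⟨α, hα, rfl⟩ := Q.surj β
  obtain ⟨h1, h2, h3, h4, h5, h6, h7⟩ := h
  simp only [Q.letters] at h1 h2 h3 h4 h5 h6 h7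
  have w1 : s.x1 ∈ s.W := mem_clos (by simp)
  have w2 : s.x2 ∈ s.W := mem_clos (by simp)
  have w3 : s.x3 ∈ s.W := mem_clos (by simp)
  have wy : s.y ∈ s.W := mem_clos (by simp)
  have wa : s.a ∈ s.W := mem_clos (by simp)
  have wb : s.b ∈ s.W := mem_clos (by simp)
  exact ⟨α, Q.api_cj hα s.tW (mul_mem s.tW w1) (h1.trans (Q.mul (api_W s.tW) (api_W w1)).symm), Q.api_cj hα w1 w1 h2,
    Q.api_cj hα w2 (mul_mem w2 wy) (h3.trans (Q.mul (api_W w2) (api_W wy)).symm),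
    Q.api_cj hα w3 (mul_mem w3 wa) (h4.trans (Q.mul (api_W w3) (api_W wa)).symm), Q.api_cj hα wy wy h5,
    Q.api_cj hα wa wa h6, Q.api_cj hα wb wb h7⟩
/-- `t` is not in the commutator subgroup of `N(O)`. -/
theorem comm_to {H : Subgroup G} (hH : H ≤ 𝐍[s.O]) (h : s.t ∈ ⁅H, H⁆) : Q.q.t ∈ commutator K := by
  obtain ⟨x, hx, e⟩ := (commutator_le (H₃ := ((commutator K).comap Q.c.φ).map Q.c.M.subtype)).2 (fun a ha b hb =>
    ⟨⁅(⟨a, Q.mem (hH ha)⟩ : Q.c.M), ⟨b, Q.mem (hH hb)⟩⁆, mem_comap.2 (map_commutatorElement Q.c.φ _ _ ▸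
      commutator_mem_commutator (mem_top _) (mem_top _)), rfl⟩) h
  rw [Q.et, ← e]
  exact hx

end Qd

end Cfsg.Agent.S33
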