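import Mathlib
import Cfsg.Agent.S33.P1Api
import Cfsg.Agent.SF6.Phi
import Cfsg.Agent.Wr.Quot
import Cfsg.Agent.GT.Conj

/-! The 2-subgroup of `C(O)` over a subgroup of `E`. -/

set_option autoImplicit false
set_option linter.unusedSectionVars false
set_option maxRecDepth 100000
set_option synthInstance.maxSize 100000
set_option synthInstance.maxHeartbeats 1000000

namespace Cfsg.Agent.S33

open Cfsg Cfsg.Agent.Rec Cfsg.Agent.Spor Cfsg.Agent.Loc.Mss Cfsg.Agent.SF6 Subgroup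
open scoped commutatorElement

universe u

variable {G K : Type u} [Group G] [Finite G] [Group K] [Finite K]

namespace Qd

variable {s : Cf1 G} (Q : Qd s K) {P : Subgroup G} {R : Subgroup K}

theorem _root_.Cfsg.Agent.S33.P1Up.seven (s : Pre G) : ∃ σ ∈ s.L3, ∀ v ∈ s.V6,
    v * σ * (v * σ) * (v * σ) * (v * σ) * (v * σ) * (v * σ) * (v * σ) = 1 :=
  s.hL.decide s.rep (by decide +kernel)

/-- Every element of `E` has a preimage centralising `O`. -/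
theorem _root_.Cfsg.Agent.S33.P1Up.E_C {k : K} (hk : k ∈ Q.q.E) : k ∈ Q.c.img 𝐂[s.O] := by
  have hC : ∀ x ∈ 𝐂[s.O], Q.f x ∈ Q.c.img 𝐂[s.O] := fun x hx =>
    Q.c.mem_img.2 ⟨x, hx, Q.mem (centralizer_le_normalizer _ hx), rfl⟩
  have : (Q.c.img 𝐂[s.O]).Normal := ⟨fun k hk g => by
    obtain ⟨x, hx, hx', rfl⟩ := Q.c.mem_img.1 hk
    obtain ⟨g, hg, rfl⟩ := Q.surj g
    exact Q.conj hg (Q.mem' hx') ▸ hC _ (Gold.R2.conj_mem (Gold.R2.norm_cent le_rfl hg) hx)⟩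
  have hW : ∀ w ∈ Q.q.W, QuotientGroup.mk' (Q.c.img 𝐂[s.O]) w = 1 := fun w hw => by
    obtain ⟨v, hv, rfl⟩ := Q.mem_W.1 hw
    exact (QuotientGroup.eq_one_iff _).2 (hC v (s.WC hv))
  obtain ⟨σ, hσ, h7⟩ := P1Up.seven Q.q.toPre
  obtain ⟨v, hv, hΦ⟩ := Q.q.E_Φ hk
  have hσ1 : QuotientGroup.mk' (Q.c.img 𝐂[s.O]) σ = 1 := by
    obtain ⟨v, hv, rfl⟩ := Q.mem_L3.1 hσ
    exact (QuotientGroup.eq_one_iff _).2 (hC v (s.LC (s.L3_le hv)))
  have hP := Q.q.les.2.2.1 hσ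
  have key : ∀ n : ℕ, (k * σ) ^ n * (σ ^ n)⁻¹ ∈ Q.q.Φ ((v * σ) ^ n * (σ ^ n)⁻¹) ∧
      (v * σ) ^ n * (σ ^ n)⁻¹ ∈ Q.q.V6 := fun n => by
    induction n with
    | zero => simpa using Q.q.Φ_one.2 (one_mem _)
    | succ n ih =>
      have e : ∀ a : K, (a * σ) ^ (n + 1) * (σ ^ (n + 1))⁻¹ = a * (σ * ((a * σ) ^ n * (σ ^ n)⁻¹) * σ⁻¹) := fun a => by
        rw [pow_succ' (a * σ), pow_succ' σ, mul_inv_rev]
        simp only [mul_assoc]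
      have h1 := Gold.R2.conj_mem (Q.q.P3_norm.1 hP) ih.2
      rw [e, e]
      exact ⟨Q.q.Φ_mul hΦ (Q.q.Φ_conj ih.1 hP) h1, mul_mem hv h1⟩
  have p7 : ∀ a : K, a ^ 7 = a * a * a * a * a * a * a := fun a => by simp only [pow_succ, pow_zero, one_mul]
  have h1 := (key 7).1
  have h2 : σ ^ 7 = 1 := by simpa only [one_mul, p7] using h7 1 (one_mem _)
  rw [p7 (v * σ), h7 v hv, h2, inv_one, mul_one, mul_one, Q.q.Φ_one] at h1
  have h3 := hW _ h1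
  have h4 := hW _ (Q.q.les.2.2.2.2.2.1 (Q.q.E_sq hk))
  rw [map_pow, map_mul, hσ1, mul_one, show 7 = 2 * 3 + 1 from rfl, pow_succ, pow_mul, pow_two, ← map_mul, h4, one_pow,
    one_mul] at h3
  exact (QuotientGroup.eq_one_iff _).1 h3

theorem exists_up (hE : R ≤ Q.q.E) : ∃ P, Q.Up P R := by
  have hR : IsPGroup 2 R := fun k => ⟨2, Subtype.ext (by
    have := Q.q.W_sq (Q.q.les.2.2.2.2.2.1 (Q.q.E_sq (hE k.2)))
    simpa only [pow_succ, pow_zero, one_mul, coe_mul, coe_one, mul_assoc, mul_one, Nat.reduceMul, Nat.reducePow]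
      using this)⟩
  obtain ⟨P, hP, -, ho⟩ := Wr.Qt.exists_lift Q.c hR (P := ⊥) IsPGroup.of_bot bot_le
  have hM : ∀ p ∈ P, p ∈ 𝐍[s.O] ∧ Q.f p ∈ R := fun p hp =>
    let h := (Wr.Qt.mem_pre Q.c).1 (hP.le hp)
    ⟨Q.mem' h.1, h.2⟩
  have hC : P ≤ 𝐂[s.O] := fun p hp => by
    obtain ⟨x, hx, hx', e⟩ := Q.c.mem_img.1 (P1Up.E_C Q (hE (hM p hp).2))
    have h1 := (Q.eq_iff (Q.mem' hx') (hM p hp).1).1 e
    have h2 : Commute x (x⁻¹ * p) := (mem_centralizer_iff.1 hx _ h1).symm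
    have h3 : p ^ Nat.card s.O ∈ 𝐂[s.O] := by
      have : (x⁻¹ * p) ^ Nat.card s.O = 1 := congrArg Subtype.val (pow_card_eq_one' (x := (⟨_, h1⟩ : s.O)))
      rw [← mul_inv_cancel_left x p, h2.mul_pow, this, mul_one]
      exact pow_mem hx _
    obtain ⟨n, hn⟩ := hP.isPGroup ⟨p, hp⟩
    have h4 : (Nat.card s.O).Coprime (orderOf p) := Nat.Coprime.coprime_dvd_right
      (orderOf_dvd_of_pow_eq_one (congrArg Subtype.val hn)) (Nat.Coprime.pow_right _ (Nat.coprime_two_right.2 s.odd))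
    obtain ⟨m, hm⟩ := exists_pow_eq_self_of_coprime h4
    exact hm ▸ pow_mem h3 m
  refine ⟨P, hP.isPGroup, hC, fun p hp => (hM p hp).2, ho, fun x hx ⟨n, hn⟩ h => ?_⟩
  obtain ⟨p, hp, e⟩ := ho _ h
  have h1 := (Q.eq_iff (hM p hp).1 hx).1 e
  have h2 : Commute p (p⁻¹ * x) := (mem_centralizer_iff.1 (hC hp) _ h1).symm
  have h3 : Commute p⁻¹ x := by simpa using ((Commute.refl p).mul_right h2).inv_left
  obtain ⟨m, hm⟩ := hP.isPGroup ⟨p, hp⟩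
  have h4 : (p⁻¹ * x) ^ 2 ^ (m + n) = 1 := by
    have : p ^ 2 ^ m = 1 := congrArg Subtype.val hm
    rw [h3.mul_pow, inv_pow, pow_add, pow_mul, this, mul_comm (2 ^ m), pow_mul, hn, one_pow, one_pow, inv_one, mul_one]
  have h5 : p⁻¹ * x = 1 := orderOf_eq_one_iff.1 (Nat.Coprime.eq_one_of_dvd
    (Nat.Coprime.pow_right _ (Nat.coprime_two_right.2 (Gold.R2.odd_orderOf s.odd h1))) (orderOf_dvd_of_pow_eq_one h4))
  exact inv_mul_eq_one.1 h5 ▸ hp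

theorem Up.le (h : Q.Up P R) : P ≤ 𝐍[s.O] := h.cen.trans (centralizer_le_normalizer _)

theorem Up.card (h : Q.Up P R) : Nat.card P = Nat.card R :=
  Nat.card_congr (Equiv.ofBijective (fun p => ⟨Q.f p, h.map _ p.2⟩)
    ⟨fun x y e => Subtype.ext (Q.inj h.pg (Up.le Q h) x.2 y.2 (congrArg Subtype.val e)),
    fun k => let ⟨p, hp, e⟩ := h.onto k k.2; ⟨⟨p, hp⟩, Subtype.ext e⟩⟩)

theorem Up.norm (h : Q.Up P R) {g : G} (hg : g ∈ 𝐍[s.O]) (hn : Q.f g ∈ 𝐍[R]) : g ∈ 𝐍[P] := by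
  refine GT.mem_normalizer_iff_of_finite.2 fun p hp => ?_
  have h1 := Up.le Q h hp
  obtain ⟨n, e⟩ := h.pg ⟨p, hp⟩
  refine h.all _ (mul_mem (mul_mem hg h1) (inv_mem hg)) ⟨n, ?_⟩ (Q.conj hg h1 ▸ Gold.R2.conj_mem hn (h.map p hp))
  rw [conj_pow, show p ^ 2 ^ n = 1 from congrArg Subtype.val e, mul_one, mul_inv_cancel]

theorem Up.norm_to (h : Q.Up P R) {g : G} (hg : g ∈ 𝐍[s.O]) (hn : g ∈ 𝐍[P]) : Q.f g ∈ 𝐍[R] := by
  refine GT.mem_normalizer_iff_of_finite.2 fun k hk => ?_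
  obtain ⟨p, hp, rfl⟩ := h.onto k hk
  exact Q.conj hg (Up.le Q h hp) ▸ h.map _ (Gold.R2.conj_mem hn hp)

theorem Up.cent_to (h : Q.Up P R) {g : G} (hg : g ∈ 𝐍[s.O]) (hn : g ∈ 𝐂[P]) : Q.f g ∈ 𝐂[R] := by
  refine mem_centralizer_iff.2 fun k hk => ?_
  obtain ⟨p, hp, rfl⟩ := h.onto k hk
  exact Q.comm (Up.le Q h hp) hg (mem_centralizer_iff.1 hn p hp)

theorem Up.cent (h : Q.Up P R) {g : G} (hg : g ∈ 𝐍[s.O]) (hn : Q.f g ∈ 𝐂[R]) : g ∈ 𝐂[P] := by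
  refine mem_centralizer_iff.2 fun p hp => ?_
  have h1 := Gold.R2.conj_mem (Up.norm Q h hg (centralizer_le_normalizer _ hn)) hp
  refine (mul_inv_eq_iff_eq_mul.1 (Q.inj h.pg (Up.le Q h) h1 hp ?_)).symm
  rw [Q.conj hg (Up.le Q h hp), ← mem_centralizer_iff.1 hn _ (h.map p hp), mul_inv_cancel_right]

end Qd

end Cfsg.Agent.S33
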