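import Mathlib
import Cfsg.Agent.S33.P1Up
import Cfsg.Agent.SF6.Phi

set_option autoImplicit false
set_option linter.unusedSectionVars false
set_option maxRecDepth 100000
set_option synthInstance.maxSize 100000
set_option synthInstance.maxHeartbeats 1000000

namespace Cfsg.Agent.S33

open Cfsg Cfsg.Agent.Rec Cfsg.Agent.Spor Cfsg.Agent.Loc.Mss Cfsg.Agent.SF6 Subgroup
open scoped commutatorElement

universe u

variable {G K : Type u} [Group G] [Finite G] [Group K] [Finite K]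

namespace Qd

variable {s : Cf1 G} (Q : Qd s K) {A B : Subgroup G} {A' B' : Subgroup K}

theorem big_card (hp : IsPGroup 2 A) (hA : A ≤ 𝐍[s.O]) (hA' : ∀ k, k ∈ A' ↔ ∃ v ∈ A, Q.f v = k) :
    Nat.card A' = Nat.card A :=
  (Nat.card_congr (Equiv.ofBijective (fun v : A => (⟨Q.f v, (hA' _).2 ⟨v, v.2, rfl⟩⟩ : A'))
    ⟨fun v w e => Subtype.ext (Q.inj hp hA v.2 w.2 (congrArg Subtype.val e)), fun k => by
      obtain ⟨v, hv, e⟩ := (hA' k).1 k.2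
      exact ⟨⟨v, hv⟩, Subtype.ext e⟩⟩)).symm

theorem big (hA : A ≤ s.V6) (hA' : ∀ k, k ∈ A' ↔ ∃ v ∈ A, Q.f v = k) (h : Q.q.Big A' B') :
    ∃ B, Q.Up B B' ∧ s.Big A B := by
  have VW : s.V6 ≤ s.W := s.les.2.2.2.2.2.1
  have VN : s.V6 ≤ 𝐍[s.O] := VW.trans (s.WC.trans (centralizer_le_normalizer _))
  have Vsq : ∀ v ∈ s.V6, v * v = 1 := fun v hv => s.W_sq (VW hv)
  have p2 : ∀ {G : Type u} [Group G] {v : G}, v * v = 1 → ∃ k : ℕ, v ^ 2 ^ k = 1 := fun e => ⟨1, by rw [pow_one, pow_two, e]⟩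
  have AV : A' ≤ Q.q.V6 := fun k hk => by
    obtain ⟨v, hv, e⟩ := (hA' k).1 hk
    exact Q.mem_V6.2 ⟨v, hA hv, e⟩
  obtain ⟨B, up⟩ := Q.exists_up (R := B') fun e he => by
    obtain ⟨v, hv, k⟩ := h.tau e he
    exact Q.q.Φ_E k (AV hv)
  have bl := Up.le Q up
  refine ⟨B, up, fun v hv => up.all v (VN hv) (p2 (Vsq v hv)) (h.le (Q.mem_V6.2 ⟨v, hv, rfl⟩)), fun e he => ?_,
    fun k => h.tB (Q.et ▸ up.map _ k), fun e he => ?_, fun v hv => ?_, fun v hv v1 e he e2 => ?_, ?_, fun g hg => ?_⟩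
  · exact Q.inj up.pg bl (mul_mem he he) (one_mem _) (by rw [Q.mul (bl he) (bl he), h.sq _ (up.map e he), Q.one])
  · obtain ⟨v', hv', k⟩ := h.tau _ (up.map e he)
    obtain ⟨v, hv, rfl⟩ := (hA' v').1 hv'
    exact ⟨v, hv, Q.Φ_of (bl he) (hA hv) k⟩
  · obtain ⟨e', he', k⟩ := h.onto _ ((hA' _).2 ⟨v, hv, rfl⟩)
    obtain ⟨e, he, rfl⟩ := up.onto e' he'
    exact ⟨e, he, Q.Φ_of (bl he) (hA hv) k⟩
  · obtain ⟨k1, k2⟩ := Q.Φ_to he (hA hv)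
    exact up.all e k1 (p2 e2) (h.max _ ((hA' _).2 ⟨v, hv, rfl⟩)
      (Q.c.ne_one (Q.mem (VN (hA hv))) (Vsq v (hA hv)) v1) _ k2 (Q.sq k1 e2))
  · rw [Up.card Q up, h.card, Q.big_card (Phi.pg_of_sq fun v hv => Vsq v (hA hv)) (hA.trans VN) hA']
  · exact Up.norm Q up (centralizer_le_normalizer _ (s.LC (s.P3_le hg))) (h.norm (Q.mem_P3.2 ⟨g, hg, rfl⟩))

theorem can (hA : s.A3 ≤ A) (hB : s.Big A B) (up : Q.Up B B')
    (h : ∀ Y : Subgroup K, (∀ e ∈ Y, e * e = 1) → Nat.card Y = Nat.card B' → Q.q.W ≤ 𝐍[Y] → (∀ e ∈ Y, e ∉ Q.q.D) →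
      Y ≤ B') : ∀ g, cj(g, s.W) ≤ 𝐍[B] → g ∈ 𝐍[B] := fun g hg => by
  have sq : ∀ e ∈ cj(g⁻¹, B), e * e = 1 := by
    rintro _ ⟨e, he, rfl⟩
    rw [← map_mul, hB.sq e he, map_one]
  have wn : s.W ≤ 𝐍[cj(g⁻¹, B)] := by
    rw [← cj_norm]
    exact cj_le_iff_le_inv.1 hg
  have le : cj(g⁻¹, B) ≤ 𝐍[s.O] := s.leM sq (wn s.tW)
  have mi : ∀ k, k ∈ Q.c.img cj(g⁻¹, B) ↔ ∃ v ∈ cj(g⁻¹, B), Q.f v = k := fun k =>
    Q.c.mem_img.trans ⟨fun ⟨x, h1, _, h2⟩ => ⟨x, h1, h2⟩, fun ⟨x, h1, h2⟩ => ⟨x, h1, Q.mem (le h1), h2⟩⟩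
  have hY := h (Q.c.img cj(g⁻¹, B)) (fun e he => by
      obtain ⟨v, hv, rfl⟩ := (mi e).1 he
      exact Q.sq (le hv) (sq v hv))
    (by rw [Q.big_card (Phi.pg_of_sq sq) le mi, card_cj, Up.card Q up])
    (fun k hk => mem_norm_of_cj_le (cj_le_iff.2 fun e he => by
      obtain ⟨v, hv, rfl⟩ := (mi e).1 he
      obtain ⟨w, hw, rfl⟩ := Q.mem_W.1 hk
      exact (mi _).2 ⟨_, conj_mem_of_norm (wn hw) hv, Q.conj (centralizer_le_normalizer _ (s.WC hw)) (le hv)⟩))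
    (fun e he hd => by
      obtain ⟨v, hv, rfl⟩ := (mi e).1 he
      have := Q.D_of (le hv) (sq v hv) hd
      obtain ⟨b, hb, rfl⟩ := hv
      exact s.big_nD hB hA hb _ this)
  exact (inv_mem_iff (H := 𝐍[B])).1 (mem_norm_of_cj_le fun v hv =>
    up.all v (le hv) ⟨1, by rw [pow_one, pow_two, sq v hv]⟩ (hY ((mi _).2 ⟨v, hv, rfl⟩)))

end Qd

end Cfsg.Agent.S33
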