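import Mathlib
import Cfsg.Agent.S33.P1Kit
import Cfsg.Agent.SF6.L32
import Cfsg.Agent.GT.TransferCocycle

/-! The final transfer with an odd factor in the centraliser. -/

set_option autoImplicit false
set_option linter.unusedSectionVars false
set_option maxRecDepth 100000
set_option synthInstance.maxSize 100000
set_option synthInstance.maxHeartbeats 1000000

namespace Cfsg.Agent.S33

open Cfsg Cfsg.Agent.Rec Cfsg.Agent.Spor Cfsg.Agent.Loc.Mss Cfsg.Agent.SF6 Subgroup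
open scoped commutatorElement

universe u

variable {G : Type*} [Group G] [Finite G]

namespace Cf1

variable (s : Cf1 G)

theorem tl (hp : s.t ∈ commutator G) {H : Subgroup G} (hT : s.T ≤ H) (hcan : ∀ g, cj(g, s.W) ≤ H → g ∈ H) : s.t ∈ ⁅H, H⁆ := by
  have hWT : s.W ≤ s.T := s.les.2.2.2.2.2.2.1
  have tH : s.t ∈ H := hT (hWT s.tW)
  obtain ⟨S, hTS, hS⟩ := Syl.exists_ge s.pgT hT
  have hS' : Syl 2 S ⊤ := Syl.of_norm hS.pg le_top fun P hP h1 _ h2 =>
    hS.ge_of_le hP h1 fun g hg => hcan g ((cj_le_of_norm (hWT.trans hTS) (h2 hg)).trans hS.le)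
  have odd : ¬ 2 ∣ H.index := fun h =>
    hS'.nd (by rw [relIndex_top_right]; exact h.trans (index_dvd_of_le hS.le))
  by_contra hn
  have h1 : Abelianization.of (⟨s.t, tH⟩ : H) ≠ 1 := fun h => hn (by
    rw [← map_subtype_commutator]
    exact ⟨⟨s.t, tH⟩, (QuotientGroup.eq_one_iff _).1 h, rfl⟩)
  have : NeZero ((Monoid.exponent (Abelianization H) : ℕ) : ℂ) :=
    ⟨Nat.cast_ne_zero.2 Monoid.exponent_ne_zero_of_finite⟩
  obtain ⟨φ, hφ⟩ := CommGroup.exists_apply_ne_one_of_hasEnoughRootsOfUnity (Abelianization H) ℂ h1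
  obtain ⟨g, h2, h3, h4⟩ := GT.Tr.thompson_transfer (φ.comp Abelianization.of) odd
    (fun a b ha hb a1 b1 => by
      have key : ∀ c : ℂˣ, c ^ 2 = 1 → c ≠ 1 → c = -1 := fun c hc c1 => by
        have : (c : ℂ) ^ 2 = 1 := by rw [← Units.val_pow_eq_pow_val, hc, Units.val_one]
        rcases sq_eq_one_iff.1 this with h | h
        · exact absurd (Units.ext h) c1
        · exact Units.ext h
      rw [key a ha a1, key b hb b1])
    (y := s.t) (by rw [pow_two, s.tt]) (Abelianization.commutator_subset_ker _ hp) s.pgT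
    fun x hx => mem_centralizer_singleton_iff.1 (s.sylT.le hx)
  have hg : g⁻¹ ∈ H := hcan _ (cj_le_iff.2 fun a ha => by rw [inv_inv]; exact h4 a (hWT ha))
  refine hφ ?_
  have e : (⟨g⁻¹ * s.t * g, h2⟩ : H) = ⟨g⁻¹, hg⟩ * ⟨s.t, tH⟩ * (⟨g⁻¹, hg⟩ : H)⁻¹ :=
    Subtype.ext (by simp)
  rw [e, map_mul, map_mul, map_inv, mul_inv_cancel_comm] at h3
  exact h3

theorem fin (hp : s.t ∈ commutator G) {H C : Subgroup G} (hT : s.T ≤ H) (hP : s.P3 ≤ H) (hC : C ≤ H) (hn : H ≤ 𝐍[C])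
    (hc : ∀ c ∈ C, c ∈ s.T → c ∈ s.V6) (hV : s.V6 ≤ C)
    (hfus : ∀ g ∈ H, s.t * (g * s.t * g⁻¹) ∈ C → ∃ c ∈ C, g * s.t * g⁻¹ = c * s.t * c⁻¹)
    (hcan : ∀ g, cj(g, s.W) ≤ H → g ∈ H) : False := by
  have k0 : (∀ x ∈ s.T, ∃ l ∈ s.D8, x * l⁻¹ ∈ s.V6 ∨ x * l⁻¹ * s.t ∈ s.V6) ∧
      (∀ x ∈ s.D8, x ∈ s.T ∧ x ∈ s.L3 ∧ (x ∈ s.V6 → x = 1) ∧
        (x * x = 1 → x ≠ 1 → ∃ l ∈ s.L3, l * x * l⁻¹ = s.r * s.d * (s.r * s.d))) ∧
      s.r * s.d * (s.r * s.d) * (s.r * s.d * (s.r * s.d)) = 1 ∧ s.r * s.d * (s.r * s.d) ≠ 1 ∧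
      s.r * s.r = 1 ∧ s.r * (s.r * s.d) * s.r⁻¹ = (s.r * s.d)⁻¹ :=
    s.hL.decide s.rep (by decide +kernel)
  obtain ⟨k1, k2, k3, k4, k5, k6⟩ := k0
  have tT : s.t ∈ s.T := s.les.2.2.2.2.2.2.1 s.tW
  have tH : s.t ∈ H := hT tT
  have rD : s.r ∈ s.D8 := mem_clos (by simp)
  have dD : s.d ∈ s.D8 := mem_clos (by simp)
  have DH : s.D8 ≤ H := fun x hx => hT (k2 x hx).1
  have ct : ∀ x ∈ s.L3, x * s.t = s.t * x := fun x hx => s.t_comm (s.L3_le hx)
  have : (C.subgroupOf H).Normal := normal_subgroupOf_of_le_normalizer hn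
  let π : H →* H ⧸ C.subgroupOf H := QuotientGroup.mk' _
  have ker : ∀ x : H, π x = 1 ↔ (x : G) ∈ C := fun x =>
    (QuotientGroup.eq_one_iff x).trans mem_subgroupOf
  have inj : ∀ x : H, (x : G) ∈ s.D8 → π x = 1 → x = 1 := fun x hx h =>
    Subtype.ext ((k2 _ hx).2.2.1 (hc _ ((ker x).1 h) (k2 _ hx).1))
  let t' : H := ⟨s.t, tH⟩
  let r' : H := ⟨s.r, DH rD⟩
  let d' : H := ⟨s.d, DH dD⟩
  have tt : t' * t' = 1 := Subtype.ext s.tt
  have nt : ∀ x : H, (x : G) ∈ s.D8 → π x ≠ π t' := fun x hx h => by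
    have h1 : (x : G)⁻¹ * s.t ∈ C := (ker (x⁻¹ * t')).1 (by rw [map_mul, map_inv, h, inv_mul_cancel])
    have h2 := s.V6_le (hc _ h1 (mul_mem (inv_mem (k2 _ hx).1) tT))
    exact s.tL ((mul_mem_cancel_left (inv_mem (s.L3_le (k2 _ hx).2.1))).1 h2)
  have s2 : π (r' * d') * π (r' * d') ≠ 1 := fun h => by
    rw [← map_mul] at h
    exact k4 (congrArg Subtype.val (inj _ (mul_mem (mul_mem rD dD) (mul_mem rD dD)) h))
  have rel : π r' * π (r' * d') * (π r')⁻¹ = (π (r' * d'))⁻¹ := by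
    rw [← map_inv, ← map_inv, ← map_mul, ← map_mul]
    exact congrArg π (Subtype.ext k6)
  have eD : closure {π (r' * d'), π r'} = (s.D8.subgroupOf H).map π := by
    refine le_antisymm ((closure_le _).2 ?_) (map_le_iff_le_comap.2 fun x hx => ?_)
    · rintro _ (rfl | rfl)
      exacts [mem_map_of_mem π (mul_mem rD dD), mem_map_of_mem π rD]
    · have h1 : s.D8 ≤ ((closure {π (r' * d'), π r'}).comap π).map H.subtype := clos_le.2 (by
        simp only [List.forall_mem_cons, List.not_mem_nil, false_imp_iff, implies_true, and_true]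
        have a1 : π r' ∈ closure {π (r' * d'), π r'} := subset_closure (Or.inr rfl)
        have a2 : π (r' * d') ∈ closure {π (r' * d'), π r'} := subset_closure (Or.inl rfl)
        refine ⟨⟨r', a1, rfl⟩, ⟨d', ?_, rfl⟩⟩
        rw [map_mul] at a2
        exact (mul_mem_cancel_left a1).1 a2)
      obtain ⟨y, hy, e⟩ := h1 hx
      rwa [← (Subtype.ext e : y = x)]
  have cm : ∀ x : H, (x : G) * s.t = s.t * x → π x ∈ centralizer {π t'} := fun x h => by
    rw [mem_centralizer_singleton_iff, ← map_mul, ← map_mul]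
    exact congrArg π (Subtype.ext h)
  have eT : (s.T.subgroupOf H).map π = (s.D8.subgroupOf H).map π ⊔ zpowers (π t') := by
    refine le_antisymm ?_ (sup_le (map_mono fun x hx => (k2 _ hx).1)
      (zpowers_le.2 (mem_map_of_mem π tT)))
    rintro _ ⟨x, hx, rfl⟩
    obtain ⟨l, hl, h | h⟩ := k1 _ hx
    · have h1 := (ker (x * (⟨l, DH hl⟩ : H)⁻¹)).2 (hV h)
      rw [map_mul, map_inv, mul_inv_eq_one] at h1
      rw [h1]
      exact mem_sup_left (mem_map_of_mem π hl)
    · have h1 := (ker (x * (⟨l, DH hl⟩ : H)⁻¹ * t')).2 (hV h)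
      rw [map_mul, map_mul, map_inv, mul_eq_one_iff_eq_inv, mul_inv_eq_iff_eq_mul] at h1
      rw [h1]
      exact mul_mem (inv_mem (mem_sup_right (mem_zpowers _))) (mem_sup_left (mem_map_of_mem π hl))
  have eC : ((centralizer {s.t} ⊓ H).subgroupOf H).map π = centralizer {π t'} := by
    refine le_antisymm ?_ fun x hx => ?_
    · rintro _ ⟨x, hx, rfl⟩
      exact cm x (mem_centralizer_singleton_iff.1 hx.1)
    · obtain ⟨g, rfl⟩ := QuotientGroup.mk'_surjective _ x
      have h1 : π g * π t' = π t' * π g := mem_centralizer_singleton_iff.1 hx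
      obtain ⟨c, hc', e⟩ := hfus g g.2 ((ker (t' * (g * t' * g⁻¹))).1 (by
        rw [map_mul, map_mul, map_mul, h1, map_inv, mul_inv_cancel_right, ← map_mul, tt, map_one]))
      refine ⟨(⟨c, hC hc'⟩ : H)⁻¹ * g, ⟨mem_centralizer_singleton_iff.2 ?_,
        H.mul_mem (H.inv_mem (hC hc')) g.2⟩, ?_⟩
      · change c⁻¹ * g * s.t = s.t * (c⁻¹ * g)
        calc c⁻¹ * g * s.t = c⁻¹ * (g * s.t * (g : G)⁻¹) * g := by group
          _ = _ := by rw [e]; group
      · rw [map_mul, map_inv, (ker ⟨c, hC hc'⟩).2 hc', inv_one, one_mul]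
  have sy := ((s.sylT.mono (le_inf s.sylT.le hT) inf_le_left).subgroupOf inf_le_right).map π
  rw [eT, eC] at sy
  have hd : L32.HD (π t') ((s.D8.subgroupOf H).map π) (π (r' * d')) (π r') 1 :=
    { ht := orderOf_eq_prime (by rw [pow_two, ← map_mul, tt, map_one])
        fun h => nt 1 (one_mem _) (by rw [h, map_one])
      dd :=
        { ord := orderOf_eq_prime_pow (by rw [pow_one, pow_two]; exact s2) (by
            rw [show 2 ^ (1 + 1) = 2 + 2 from rfl, pow_add, pow_two, ← map_mul, ← map_mul, ← map_one π]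
            exact congrArg π (Subtype.ext k3))
          sq := by rw [← map_mul, ← map_one π]; exact congrArg π (Subtype.ext k5)
          rel := rel
          notMem := fun h => s2 (by
            obtain ⟨i, hi⟩ := mem_zpowers_iff.1 h
            rw [← hi, ← (Commute.refl _).zpow_right i, mul_inv_cancel_right] at rel
            exact mul_eq_one_iff_eq_inv.2 rel)
          eq := eD }
      hk := le_rfl
      notMem := fun ⟨x, hx, e⟩ => nt x hx e
      comm := by
        rintro _ ⟨x, hx, rfl⟩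
        exact mem_centralizer_singleton_iff.1 (cm x (ct _ (k2 _ hx).2.1))
      syl := Inv.Fz.isSylIn_of_not_dvd sy.le sy.pg sy.nd
      conj := by
        rintro _ ⟨x, hx, rfl⟩ ho
        have h1 : x * x = 1 := inj _ (mul_mem hx hx) (by
          rw [map_mul, ← pow_two, ← ho, pow_orderOf_eq_one])
        have h2 : (x : G) ≠ 1 := fun h => by
          rw [(Subtype.ext h : x = 1), map_one, orderOf_one] at ho
          omega
        obtain ⟨l, hl, e⟩ := (k2 _ hx).2.2.2 (congrArg Subtype.val h1) h2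
        refine ⟨π ⟨l, hP (s.les.2.2.1 hl)⟩, cm _ (ct l hl), ?_⟩
        rw [pow_one, pow_two, ← map_inv, ← map_mul, ← map_mul, ← map_mul]
        exact congrArg π (Subtype.ext e) }
  refine hd.false ?_
  have h1 := s.tl hp hT hcan
  rw [← map_subtype_commutator] at h1
  obtain ⟨x, hx, e⟩ := h1
  rw [← (Subtype.ext e : x = t')]
  have h2 := mem_map_of_mem π hx
  rw [map_commutator_eq] at h2
  exact commutator_mono le_top le_top h2

end Cf1

end Cfsg.Agent.S33
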