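import Mathlib
import Cfsg.Agent.S33.P1Defs

set_option autoImplicit false
set_option linter.unusedSectionVars false
set_option maxRecDepth 100000
set_option synthInstance.maxSize 100000
set_option synthInstance.maxHeartbeats 1000000

namespace Cfsg.Agent.S33

open Cfsg Cfsg.Agent.Rec Cfsg.Agent.Spor Cfsg.Agent.Loc.Mss Cfsg.Agent.SF6 Subgroup
open scoped commutatorElement

universe u

variable {G : Type*} [Group G] [Finite G]

theorem Bal.mono {X Y : Subgroup G} (h : Bal Y) (hX : X ≤ Y) [X.Normal] : Bal X := fun P hP h2 O hO ho hn =>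
  le_bot_iff.1 ((GT.le_pPrimeCoreOf hO hn (Nat.coprime_two_right.2 ho)).trans (h P (hP.trans hX) h2 _
    ((GT.pPrimeCoreOf_le _).trans (inf_le_inf_right _ hX))
    (Nat.coprime_two_right.1 (GT.coprime_card_pPrimeCoreOf 2 _))
    ((norm_inf (norm_normal _ _) (norm_norm inf_le_right)).trans (GT.normalizer_le_normalizer_pPrimeCoreOf _))).le)

theorem Bal.subgroupOf {X Γ : Subgroup G} (h : Bal X) (hX : X ≤ Γ) : Bal (X.subgroupOf Γ) := fun P hP h2 O hO ho hn => by
  rw [← map_eq_bot_iff_of_injective _ Γ.subtype_injective]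
  refine h (P.map Γ.subtype) (map_le_iff_le_comap.2 hP) (h2.map _) _
    (le_inf (map_le_iff_le_comap.2 (hO.trans inf_le_left)) (map_norm_le _ (hO.trans inf_le_right)))
    (by rwa [card_map_of_injective Γ.subtype_injective]) fun g hg => ?_
  obtain ⟨g', h1, rfl⟩ : g ∈ (𝐍[P]).map Γ.subtype := by
    rw [map_subtype_norm]
    exact ⟨hX hg.1, hg.2⟩
  exact map_norm_le _ hn (mem_map_of_mem _ ⟨hg.1, h1⟩)

theorem bal_quot (hU : ∀ X : Subgroup ↥(commutator G), IsPGroup 2 ↥X →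
      (Cfsg.oddCore ↥(Subgroup.normalizer (X : Set ↥(commutator G)))).map
        (Subgroup.normalizer (X : Set ↥(commutator G))).subtype ≤ Cfsg.oddCore ↥(commutator G)) :
    Bal (commutator (G ⧸ oddCore G)) := fun P hP h2 O hO ho hn => by
  set π := QuotientGroup.mk' (oddCore G) with hπ
  have hs : Function.Surjective π := QuotientGroup.mk'_surjective _
  have hc : (commutator G).map π = commutator (G ⧸ oddCore G) := by
    rw [commutator_def, map_commutator, map_top_of_surjective _ hs, commutator_def]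
  obtain ⟨Y, hY⟩ := Syl.exists 2 (commutator G ⊓ P.comap π)
  have hY1 : Y ≤ commutator G := hY.le.trans inf_le_left
  have hm : Y.map π = P := by
    have h1 : (commutator G ⊓ P.comap π).map π = P := by
      refine le_antisymm (map_le_iff_le_comap.2 inf_le_right) fun p hp => ?_
      obtain ⟨g, hg, rfl⟩ : p ∈ (commutator G).map π := hc ▸ hP hp
      exact mem_map_of_mem _ ⟨hg, hp⟩
    have h3 := hY.map π
    rw [h1] at h3
    exact (h3.eq_of_le h2 h3.le le_rfl).symm
  have h1 : (commutator G ⊓ 𝐍[Y]).map π ≤ commutator (G ⧸ oddCore G) ⊓ 𝐍[P] :=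
    le_inf (hc ▸ map_mono inf_le_left) (hm ▸ map_norm_le _ inf_le_right)
  have h3 : commutator (G ⧸ oddCore G) ⊓ 𝐍[P] ≤ (commutator G ⊓ 𝐍[Y]).map π := fun q hq => by
    obtain ⟨g, hg, rfl⟩ : q ∈ (commutator G).map π := hc ▸ hq.1
    have hg' : g ∈ 𝐍[commutator G ⊓ P.comap π] :=
      norm_inf (norm_normal _ _) (comap_norm_le π le_rfl) (mem_comap.2 hq.2)
    obtain ⟨m, hm1, k, hk, rfl⟩ := hY.frattini hg'
    obtain ⟨y, hy, e⟩ : π m ∈ Y.map π := hm ▸ hm1.2
    exact ⟨y * k, ⟨mul_mem (hY1 hy) ((Subgroup.mul_mem_cancel_left _ hm1.1).1 hg), mul_mem (le_normalizer hy) hk⟩,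
      by rw [map_mul, map_mul, e]⟩
  have h4 : (Nat.card ↥(commutator G ⊓ 𝐍[Y] ⊓ O.comap π)).Coprime 2 := coprime_of_forall_pg fun Q hQ q2 => by
    have := eq_bot_of_coprime (q2.map π) (map_le_iff_le_comap.2 (hQ.trans inf_le_right)) (Nat.coprime_two_right.2 ho)
    rw [Subgroup.map_eq_bot_iff, hπ, QuotientGroup.ker_mk'] at this
    exact eq_bot_of_coprime q2 this (GT.coprime_card_pPrimeCore 2)
  have h5 : commutator G ⊓ 𝐍[Y] ≤ 𝐍[commutator G ⊓ 𝐍[Y] ⊓ O.comap π] :=
    norm_inf le_normalizer ((map_le_iff_le_comap.1 (h1.trans hn)).trans (comap_norm_le π le_rfl))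
  have h6 : commutator G ⊓ 𝐍[Y] ⊓ O.comap π ≤ commutator G := inf_le_left.trans inf_le_left
  have h7 : (commutator G ⊓ 𝐍[Y] ⊓ O.comap π).subgroupOf (commutator G) ≤ oddCore (commutator G) := by
    refine le_trans (GT.le_pPrimeCoreOf ?_ ?_ ?_) (hU (Y.subgroupOf _) hY.pg.comap_subtype)
    · rw [norm_subgroupOf hY1]
      exact fun g hg => hg.1.2
    · rw [norm_subgroupOf hY1, norm_subgroupOf h6]
      exact fun g hg => h5 ⟨g.2, hg⟩
    · rwa [Nat.card_congr (subgroupOfEquivOfLe h6).toEquiv]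
  have h8 := ((subgroupOf_le_iff h6).1 h7).trans (GT.pPrimeCoreOf_le_pPrimeCore _)
  refine eq_bot_iff.2 fun o ho' => ?_
  obtain ⟨g, hg, rfl⟩ := h3 (hO ho')
  exact (QuotientGroup.eq_one_iff g).2 (h8 ⟨hg, ho'⟩)

end Cfsg.Agent.S33
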