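import Mathlib
import Cfsg.Agent.S33.P1Big
import Cfsg.Agent.S33.P1End
import Cfsg.Agent.SF6.PB

set_option autoImplicit false
set_option linter.unusedSectionVars false
set_option maxRecDepth 100000
set_option synthInstance.maxSize 100000
set_option synthInstance.maxHeartbeats 1000000

namespace Cfsg.Agent.S33

open Cfsg Cfsg.Agent.Rec Cfsg.Agent.Spor Cfsg.Agent.Loc.Mss Cfsg.Agent.SF6 Subgroup
open scoped commutatorElement

universe u

variable {G K : Type u} [Group G] [Finite G] [Group K] [Finite K]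

namespace Qd

variable {s : Cf1 G} (Q : Qd s K) {B' : Subgroup K}

omit Q in
theorem P1PB_false (hp : s.t ∈ commutator G) {A B : Subgroup G} (hB : s.Big A B) (hA' : A ≤ s.V6)
    (hD : ∀ v ∈ s.V6, s.t * v ∈ s.D → v ∈ A) (h : ∀ g, cj(g, s.W) ≤ 𝐍[B] → g ∈ 𝐍[B]) : False := by
  refine s.fin hp (C := B) (s.big_T hB hA') hB.norm le_normalizer le_rfl
    (fun c hc hT => (s.big_cent hB hc).1 (s.T_comm hT)) hB.le (fun g _ he => ?_) h
  have h1 := s.D_conj s.tD g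
  have h2 : s.t * (s.t * (g * s.t * g⁻¹)) = g * s.t * g⁻¹ := s.tmul _
  have h3 := s.D_sq h1
  rw [← h2] at h1 h3 ⊢
  generalize s.t * (g * s.t * g⁻¹) = e at he h1 h3
  have h4 : e ∈ s.V6 := (s.big_cent hB he).1 (by
    rw [eq_inv_of_mul_eq_one_left h3, mul_inv_rev, inv_eq_of_mul_eq_one_left (hB.sq e he),
      inv_eq_of_mul_eq_one_left s.tt])
  obtain ⟨c, hc, h5⟩ := hB.onto e (hD e h4 h1)
  exact ⟨c, hc, h5.2.symm⟩

theorem noB (hp : s.t ∈ commutator G) (hB : Q.q.Big Q.q.A3 B') (hx : Q.q.t * Q.q.x1 ∉ Q.q.D) : False := by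
  obtain ⟨-, -, -, l4, -, l6, l7, -⟩ := s.les
  obtain ⟨B, up, h⟩ := Q.big l4 (fun _ => Q.mem_A3) hB
  refine P1PB_false hp h l4 (fun v hv hd => ?_) (Q.can le_rfl h up (Q.q.B_uniq hB hx))
  obtain ⟨w, hw, e⟩ := Q.mem_A3.1 (Q.q.B_D hB hx _ (Q.mem_V6.2 ⟨v, hv, rfl⟩) ((Q.D_W (l6 hv)).2 hd))
  rwa [Q.eq_T (cent_le_norm _ (s.WC (l6 hv))) ⟨1, by rw [pow_one, pow_two, s.W_sq (l6 hv)]⟩ (l7 (l6 (l4 hw))) e.symm]

theorem noTwelve (hp : s.t ∈ commutator G) (hB : Q.q.Big Q.q.V6 B') : False := by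
  obtain ⟨B, up, h⟩ := Q.big le_rfl (fun _ => Q.mem_V6) hB
  exact P1PB_false hp h le_rfl (fun _ h _ => h) (Q.can s.les.2.2.2.1 h up (Q.q.V_uniq hB))

end Qd

end Cfsg.Agent.S33
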