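import Mathlib
import Cfsg.Agent.S33.P1Kit
import Cfsg.Agent.Rec.Pres

set_option autoImplicit false
set_option linter.unusedSectionVars false
set_option maxRecDepth 100000
set_option synthInstance.maxSize 100000
set_option synthInstance.maxHeartbeats 1000000

namespace Cfsg.Agent.S33

open Cfsg Cfsg.Agent.Rec Cfsg.Agent.Spor Cfsg.Agent.Loc.Mss Cfsg.Agent.SF6 Subgroup
open scoped commutatorElement

universe u

variable {G : Type u} [Group G] [Finite G]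

namespace Quo

theorem nth_map' {α β : Type*} (f : α → β) (a : α) (e : List α) (i : ℕ) : nth (f a) (e.map f) i = f (nth a e i) := by
  induction e generalizing i with
  | nil => simp
  | cons x e ih => cases i with
    | zero => rfl
    | succ i => exact ih i

theorem img_clos {K : Type u} [Group K] (c : UT.Cov G K) {l : List G} (h : clos l ≤ c.M) :
    c.img (clos l) = clos (l.map c.f) := by
  refine le_antisymm (fun k hk => ?_) (clos_le.2 fun k hk => ?_)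
  · obtain ⟨x, hx, -, rfl⟩ := c.mem_img.1 hk
    induction hx using closure_induction with
    | mem x hx => exact mem_clos (List.mem_map_of_mem hx)
    | one => exact c.one ▸ one_mem _
    | mul a b ha hb iha ihb =>
      exact c.mul (h ha) (h hb) ▸ mul_mem (iha (c.mem_img.2 ⟨a, ha, h ha, rfl⟩)) (ihb (c.mem_img.2 ⟨b, hb, h hb, rfl⟩))
    | inv a ha iha => exact c.inv (h ha) ▸ inv_mem (iha (c.mem_img.2 ⟨a, ha, h ha, rfl⟩))
  · obtain ⟨x, hx, rfl⟩ := List.mem_map.1 hk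
    exact c.mem_img.2 ⟨x, mem_clos hx, h (mem_clos hx), rfl⟩

variable (s : Cf1 G)

/-- The group `⟨t⟩ L`. -/
def HL : Subgroup G where
  carrier := {g | g ∈ s.L ∨ s.t * g ∈ s.L}
  one_mem' := .inl (one_mem _)
  mul_mem' := by
    rintro g h (hg | hg) (hh | hh)
    · exact .inl (mul_mem hg hh)
    · refine .inr ?_
      rw [← mul_assoc, ← s.t_comm hg, mul_assoc]
      exact mul_mem hg hh
    · refine .inr ?_
      rw [← mul_assoc]
      exact mul_mem hg hh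
    · refine .inl ?_
      have := mul_mem hg hh
      rwa [← mul_assoc, s.t_comm hg, s.tmul] at this
  inv_mem' := by
    rintro g (hg | hg)
    · exact .inl (inv_mem hg)
    · refine .inr ?_
      have h1 := s.t_comm (inv_mem hg)
      have h2 : s.t⁻¹ = s.t := inv_eq_of_mul_eq_one_right s.tt
      rw [mul_inv_rev, inv_mul_cancel_right] at h1
      rw [h1, s.tmul, ← mul_inv_rev]
      exact inv_mem hg

theorem L_HL : s.L ≤ HL s := fun _ h => .inl h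

theorem t_HL : s.t ∈ HL s := .inr (s.tt ▸ one_mem _)

theorem HL_C : HL s ≤ 𝐂[s.O] := by
  rintro g (h | h)
  · exact s.LC h
  · exact s.tmul g ▸ mul_mem s.tC (s.LC h)

theorem HL_N : HL s ≤ 𝐍[s.O] := (HL_C s).trans (centralizer_le_normalizer _)

theorem HL_O {g : G} (hg : g ∈ HL s) (ho : g ∈ s.O) : g = 1 := by
  refine Gold.R2.eq_one_of_sq_odd s.odd (s.W_sq (s.memW.2 ?_)) ho
  refine hg.imp (fun h => s.cent_V6 h fun u hu => s.OL g ho u (s.V6_le hu)) fun h => s.cent_V6 h fun u hu => ?_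
  rw [mul_assoc, s.OL g ho u (s.V6_le hu), ← mul_assoc, ← s.t_comm (s.V6_le hu), mul_assoc]

theorem lets_HL : clos (lets s.toPre) ≤ HL s := by
  have k : (s.x1 ∈ s.V6 ∧ s.x2 ∈ s.V6 ∧ s.x3 ∈ s.V6 ∧ s.x12 ∈ s.V6 ∧ s.x13 ∈ s.V6 ∧ s.x23 ∈ s.V6 ∧ s.x123 ∈ s.V6 ∧
      s.y ∈ s.V6 ∧ s.a ∈ s.V6 ∧ s.b ∈ s.V6) ∧ (s.c ∈ s.L3 ∧ s.d ∈ s.L3 ∧ s.r ∈ s.L3 ∧ s.n ∈ s.L3 ∧ s.m ∈ s.L3) ∧
      s.w3 ∈ s.P2 ∧ s.w2 = s.d * s.m * s.d * s.w3 * (s.d * s.m * s.d)⁻¹ := s.hL.decide s.rep (by decide +kernel)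
  obtain ⟨⟨a1, a2, a3, a4, a5, a6, a7, a8, a9, a10⟩, ⟨b1, b2, b3, b4, b5⟩, c1, c2⟩ := k
  have v := fun {g : G} (h : g ∈ s.V6) => L_HL s (s.V6_le h)
  have l := fun {g : G} (h : g ∈ s.L3) => L_HL s (s.L3_le h)
  have w3 := L_HL s (s.P2_le c1)
  have e := mul_mem (mul_mem (l b2) (l b5)) (l b2)
  refine clos_le.2 ?_
  simp only [lets, List.forall_mem_cons, List.not_mem_nil, false_imp_iff, implies_true, and_true]
  exact ⟨t_HL s, v a1, v a2, v a3, v a4, v a5, v a6, v a7, v a8, v a9, v a10, l b1, l b2, l b3,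
    c2 ▸ mul_mem (mul_mem e w3) (inv_mem e), w3, l b4, l b5⟩

theorem exists_cfg {K : Type u} [Group K] (c : UT.Cov G K) (hM : c.M = 𝐍[s.O]) (hW : c.W = s.O) :
    ∃ q : Cfg K, lets q.toPre = (lets s.toPre).map c.f := by
  have hH : HL s ≤ c.M := hM ▸ HL_N s
  have hL : s.L ≤ c.M := (L_HL s).trans hH
  have inj : ∀ {x y : G}, x ∈ HL s → y ∈ HL s → c.f x = c.f y → x = y := fun hx hy e =>
    inv_mul_eq_one.1 (HL_O s (mul_mem (inv_mem hx) hy) (hW ▸ (c.eq_iff (hH hx) (hH hy)).1 e))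
  let ψ : HL s →* K := c.φ.comp (inclusion hH)
  have hψ : Function.Injective ψ := fun x y e => Subtype.ext (inj x.2 y.2 e)
  have rep := Cod.RepL.embed s.rep (e := (lets s.toPre).map c.f) rfl (H := HL s)
    (fun i => lets_HL s (nth_mem_clos _ i)) ψ hψ fun i => by
      have := nth_map' c.f 1 (lets s.toPre) i
      rw [c.one] at this
      exact this.symm
  have hi : c.img s.L = clos [c.f s.x3, c.f s.w3, c.f s.r, c.f s.n, c.f s.d, c.f s.m] := img_clos c hL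
  have hc : Nat.card (c.img s.L) = 1451520 := by
    rw [← s.cardL]
    refine (Nat.card_congr (Equiv.ofBijective (fun x : s.L => (⟨c.f x, c.mem_img.2 ⟨x, x.2, hL x.2, rfl⟩⟩ : c.img s.L))
      ⟨fun x y e => Subtype.ext (inj (L_HL s x.2) (L_HL s y.2) (congrArg Subtype.val e)), fun k => ?_⟩)).symm
    obtain ⟨x, h1, -, h2⟩ := c.mem_img.1 k.2
    exact ⟨⟨x, h1⟩, Subtype.ext h2⟩
  have tM := hH (t_HL s)
  refine ⟨⟨⟨_, _, _, _, _, _, _, _, _, _, _, _, _, _, _, _, _, _, _, rep, hi ▸ hc, fun h => ?_⟩, fun k hk => ?_⟩, rfl⟩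
  · obtain ⟨x, h1, -, h2⟩ := c.mem_img.1 (hi ▸ h)
    exact s.tL (inj (L_HL s h1) (t_HL s) h2 ▸ h1)
  · obtain ⟨n, h1, rfl, h3⟩ := c.lift1 tM tM s.tt s.tt (k := k) (by
      rw [show k * c.f s.t = c.f s.t * k from hk, mul_inv_cancel_right])
    obtain ⟨o, ho, h4⟩ := s.cent n (mul_inv_eq_iff_eq_mul.1 h3)
    have oM : o ∈ c.M := c.le (hW ▸ ho)
    have e : c.f (o * n) = c.f n := by rw [c.mul oM h1, (c.ker oM).2 (hW ▸ ho), one_mul]
    show c.f n ∈ clos _ ∨ c.f s.t * c.f n ∈ clos _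
    rw [← hi, ← e, ← c.mul tM (mul_mem oM h1)]
    exact h4.imp (fun h => c.mem_img.2 ⟨_, h, hL h, rfl⟩) fun h => c.mem_img.2 ⟨_, h, hL h, rfl⟩

end Quo

theorem Cf1.exists_qd (s : Cf1 G) : ∃ (K : Type u) (_ : Group K) (_ : Finite K), Nonempty (Qd s K) := by
  haveI : (s.O.subgroupOf 𝐍[s.O]).Normal := normal_in_normalizer
  obtain ⟨q, hq⟩ := Quo.exists_cfg s (UT.Cov.quot 𝐍[s.O] s.O le_normalizer s.odd) rfl rfl
  exact ⟨_, _, inferInstance, ⟨⟨_, q, rfl, rfl, hq⟩⟩⟩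

end Cfsg.Agent.S33
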