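import Mathlib
import Cfsg.Agent.SF6.Hat
import Cfsg.Agent.SF6.Gam
import Cfsg.Agent.SF6.Nine

/-! There is no homocyclic group over `V6`. -/

set_option autoImplicit false
set_option linter.unusedSectionVars false
set_option maxRecDepth 100000
set_option synthInstance.maxSize 100000
set_option synthInstance.maxHeartbeats 1000000

namespace Cfsg.Agent.S33

open Cfsg Cfsg.Agent.Rec Cfsg.Agent.Spor Cfsg.Agent.Loc.Mss Cfsg.Agent.SF6 Subgroup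
open scoped commutatorElement

universe u

variable {G : Type*} [Group G] [Finite G]

namespace ZE

variable (s : Cfg G)

/-- Square roots of `v` in `Z` that move `t` to `t v`. -/
def Rt (Z : Subgroup G) (v : G) : Prop := v ∈ s.V6 ∧ ∃ z ∈ Z, z ∈ s.Φ v ∧ z * z = v

variable {s} {Z : Subgroup G} {v v' l : G}

theorem sq_mul (hc : ∀ a ∈ Z, ∀ b ∈ Z, a * b = b * a) {z z' : G} (hz : z ∈ Z) (hz' : z' ∈ Z) :
    z * z' * (z * z') = z * z * (z' * z') := by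
  rw [mul_assoc, ← mul_assoc z', hc z' hz' z hz]; group

theorem Rt.mul (hc : ∀ a ∈ Z, ∀ b ∈ Z, a * b = b * a) (h : Rt s Z v) (h' : Rt s Z v') : Rt s Z (v * v') := by
  obtain ⟨h1, z, h2, h3, h4⟩ := h
  obtain ⟨k1, z', k2, k3, k4⟩ := h'
  exact ⟨mul_mem h1 k1, z * z', mul_mem h2 k2, s.Φ_mul h3 k3 k1, by rw [sq_mul hc h2 k2, h4, k4]⟩

theorem Rt.conj (hn : s.L3 ≤ 𝐍[Z]) (h : Rt s Z v) (hl : l ∈ s.L3) : Rt s Z (l * v * l⁻¹) := by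
  obtain ⟨h1, z, h2, h3, h4⟩ := h
  have hp := s.les.2.2.1 hl
  exact ⟨conj_mem_of_norm (s.P3_norm.1 hp) h1, l * z * l⁻¹, conj_mem_of_norm (hn hl) h2, s.Φ_conj h3 hp,
    by rw [← h4]; group⟩

variable (s)

theorem d1 : ∀ v ∈ s.V6, v ∈ s.Pts → ∃ l ∈ s.L3, v * (l * v * l⁻¹) ≠ 1 ∧ v * (l * v * l⁻¹) ∉ s.Pts :=
  s.hL.decide s.rep (by decide +kernel)

theorem d2 : ∀ v ∈ s.V6, v ≠ 1 → v ∉ s.Pts →
    v ∈ s.A3 ∨ ∃ l ∈ s.L3, v * (l * v * l⁻¹) ∈ s.A3 ∧ v * (l * v * l⁻¹) ≠ 1 :=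
  s.hL.decide s.rep (by decide +kernel)

theorem d3 : (∀ v ∈ s.A3, v ≠ 1 → (∃ l ∈ s.L3, l * v * l⁻¹ = s.y) ∧ ∃ l ∈ s.L3, l * v * l⁻¹ = s.a) ∧
    s.y ∈ s.A3 ∧ s.y ≠ 1 ∧ s.a ∈ s.A3 ∧ s.a ≠ 1 ∧ s.y ≠ s.a ∧ s.y * s.a ≠ 1 :=
  s.hL.decide s.rep (by decide +kernel)

variable {s}

theorem fin (hc : ∀ a ∈ Z, ∀ b ∈ Z, a * b = b * a) (hy : Rt s Z s.y) (ha : Rt s Z s.a) : False := by
  obtain ⟨-, y3, y1, a3, a1, ya, ya1⟩ := d3 s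
  obtain ⟨h1, z, h2, h3, h4⟩ := hy
  obtain ⟨k1, z', k2, k3, k4⟩ := ha
  have f1 := (s.Φ_W h3 h1 s.tW).2
  have f2 := (s.Φ_W k3 k1 s.tW).2
  have q1 : s.t * z * (s.t * z) = 1 := by rw [s.Φ_t_sq h3 h1, h4, Phi.V_sq s h1]
  have q2 : s.t * z' * (s.t * z') = 1 := by rw [s.Φ_t_sq k3 k1, k4, Phi.V_sq s k1]
  obtain ⟨f, hf⟩ := s.exists_hat f1
  have key := Nine.sq_mul s hf.mem hf.sq (fun e he e2 => s.gam hf he e2) y3 y1 a3 a1 ya f1 f2 q1 q2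
  have hm := s.Φ_mul h3 k3 k1
  have e : s.t * z * (s.t * z') = z * z' * s.y := by
    calc s.t * z * (s.t * z') = s.t * (z * s.t) * z' := by group
      _ = s.t * (s.t * (s.y * (z * z'))) := by rw [Phi.et s h3]; group
      _ = z * z' * s.y := by rw [Phi.tt' s, hm.1 _ h1]
  rw [e, s.Φ_V_sq hm h1, sq_mul hc h2 k2, h4, k4] at key
  exact ya1 key

end ZE

/-- No homocyclic group over `V6`. -/
theorem ze (s : Cfg G) {Z : Subgroup G} (hc : ∀ a ∈ Z, ∀ b ∈ Z, a * b = b * a) (hn : s.L3 ≤ 𝐍[Z]) {u v : G}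
    (hu : u ∈ Z) (hv : v ∈ s.V6) (h : u ∈ s.Φ v) (h2 : u * u = v) : v = 1 := by
  by_contra h1
  have r0 : ZE.Rt s Z v := ⟨hv, u, hu, h, h2⟩
  have A : ∀ w, ZE.Rt s Z w → w ∈ s.A3 → w ≠ 1 → False := fun w hw h3 w1 => by
    obtain ⟨⟨l, hl, e⟩, l', hl', e'⟩ := (ZE.d3 s).1 w h3 w1
    exact ZE.fin hc (e ▸ hw.conj hn hl) (e' ▸ hw.conj hn hl')
  have B : ∀ w, ZE.Rt s Z w → w ≠ 1 → w ∉ s.Pts → False := fun w hw w1 wp => by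
    rcases ZE.d2 s w hw.1 w1 wp with h3 | ⟨l, hl, h3, h4⟩
    · exact A w hw h3 w1
    · exact A _ (hw.mul hc (hw.conj hn hl)) h3 h4
  by_cases hp : v ∈ s.Pts
  · obtain ⟨l, hl, h3, h4⟩ := ZE.d1 s v hv hp
    exact B _ (r0.mul hc (r0.conj hn hl)) h3 h4
  · exact B v r0 h1 hp

end Cfsg.Agent.S33
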