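import Mathlib
import Cfsg.Agent.S33.Defs
import Cfsg.Agent.SF6.PB
import Cfsg.Agent.Chev.StCD
import Cfsg.Agent.Cl.SpForm
import Cfsg.Agent.Cl.Transport

/-! The doubled group `Sp₆(Λ)`, `Λ = 𝔽₂[ω] / (ω² + ω + c)`: hats, relations, matrices. -/

set_option autoImplicit false
set_option linter.unusedSectionVars false

namespace Cfsg.Agent.S33

open Cfsg Cfsg.Agent.Rec Cfsg.Agent.Spor Cfsg.Agent.Loc.Mss Cfsg.Agent.SF6 Cfsg.Agent.Ch Cfsg.Agent.Chev.CD Subgroup
open scoped commutatorElement Matrix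

variable {G : Type*} [Group G] [Finite G]

/-- `𝔽₂[ω] / (ω² + ω + c)`. -/
abbrev Lam (c : ZMod 2) : Type := QuadraticAlgebra (ZMod 2) c 1

instance factLam : Fact (∀ r : ZMod 2, r ^ 2 ≠ 1 + 1 * r) := ⟨by decide⟩

instance fintypeLam (c : ZMod 2) : Fintype (Lam c) := Fintype.ofEquiv _ (QuadraticAlgebra.equivProd c 1).symm

/-- The generator `ω`. -/
def om (c : ZMod 2) : Lam c := ⟨0, 1⟩

theorem Lam.cases {c : ZMod 2} (k : Lam c) : k = 0 ∨ k = 1 ∨ k = om c ∨ k = 1 + om c := by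
  obtain ⟨x, y⟩ := k
  revert x y c
  decide

theorem Lam.add_self {c : ZMod 2} (k : Lam c) : k + k = 0 := by
  obtain ⟨x, y⟩ := k
  revert x y c
  decide

theorem star_om (c : ZMod 2) : star (om c) = 1 + om c := by
  revert c
  decide

theorem om_sq (c : ZMod 2) : om c * om c = ⟨c, 1⟩ := by
  revert c
  decide

/-- The field with four elements. -/
abbrev F4 : Type := Lam 1

theorem card_F4 : Fintype.card F4 = 4 := by
  rw [Fintype.card_congr (QuadraticAlgebra.equivProd (1 : ZMod 2) 1)]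
  rfl

instance charF4 : CharP F4 2 := CharTwo.of_one_ne_zero_of_two_eq_zero one_ne_zero (by
  rw [← one_add_one_eq_two]; exact Lam.add_self 1)

theorem star_F4 (k : F4) : star k = k * k := by
  obtain ⟨x, y⟩ := k
  revert x y
  decide

/-- The Steinberg relations of type `C₃` in characteristic two; `Y a b` belongs to the root `e_a - e_b`. -/
structure C3Rel {Λ : Type*} [CommRing Λ] (Y : SI 3 → SI 3 → Λ → G) : Prop where
  sym : ∀ a b, a ≠ b → Y (bar b) (bar a) = Y a b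
  add : ∀ a b, a ≠ b → ∀ k l, Y a b (k + l) = Y a b k * Y a b l
  com : ∀ a b p q, a ≠ b → p ≠ q → b ≠ p → b ≠ bar q → bar a ≠ p → a ≠ q → ∀ k l, Commute (Y a b k) (Y p q l)
  ort : ∀ a b, a.1 ≠ b.1 → ∀ k l, Commute (Y a b k) (Y b (bar a) l)
  tri : ∀ a b e, a.1 ≠ b.1 → b.1 ≠ e.1 → a.1 ≠ e.1 → ∀ k l, ⁅Y a b k, Y b e l⁆ = Y a e (k * l)
  quad : ∀ a b, a.1 ≠ b.1 → ∀ k l, ⁅Y a b k, Y b (bar b) l⁆ = Y a (bar b) (k * l) * Y a (bar a) (k * k * l)

/-- The hats of the elements of `K1` and `K2`. -/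
structure Ht (s : Pre G) (B : Subgroup G) (h : G → G) : Prop where
  eqv : ∀ l ∈ s.L, ∀ u, u ∈ s.K1 ∨ u ∈ s.K2 → h (l * u * l⁻¹) = l * h u * l⁻¹
  mem : h s.x1 ∈ B
  phi : h s.x1 ∈ s.Φ s.x1
  y_eq : h s.y = h s.x1 * h s.x2 * h s.x12

/-- The relations between hats in standard position. -/
structure Std (s : Pre G) (h : G → G) (c : ℕ) : Prop where
  yr : h s.y * h s.r = h s.r * h s.y
  rx : ⁅h s.r, s.x2⁆ = h s.y * h s.x1 * s.x1 ^ c
  rX : ⁅h s.r, h s.x2⁆ = h s.y * s.y ^ c * h s.x1 ^ (c + 1) * s.x1 ^ c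
  bc : ⁅h s.b, h s.c⁆ = h s.y * s.y ^ c

/-- The element `u (k)`, where `u (1) = u` and `u (ω) = h u`. -/
def yy (h : G → G) {c : ZMod 2} (u : G) (k : Lam c) : G := u ^ k.re.val * h u ^ k.im.val

/-- The signed permutation with `(0, true), (1, true), (2, true) ↦ a, b, e`. -/
def sp (a b e p : SI 3) : SI 3 := if p.2 then ![a, b, e] p.1 else bar (![a, b, e] p.1)

/-- The root elements of `L`. -/
structure Ru (s : Pre G) (u : SI 3 → SI 3 → G) : Prop where
  sym : ∀ a b, a ≠ b → u (bar b) (bar a) = u a b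
  x1 : u (0, true) (0, false) = s.x1
  x2 : u (1, true) (1, false) = s.x2
  x3 : u (2, true) (2, false) = s.x3
  y : u (0, true) (1, false) = s.y
  a : u (0, true) (2, false) = s.a
  b : u (1, true) (2, false) = s.b
  r : u (0, true) (1, true) = s.r
  c : u (0, true) (2, true) = s.c
  d : u (1, true) (2, true) = s.d
  gen : ∀ K : Subgroup G, (∀ a b, a ≠ b → u a b ∈ K) → s.L ≤ K
  mon : ∀ a b e : SI 3, a.1 ≠ b.1 → b.1 ≠ e.1 → a.1 ≠ e.1 →
    ∃ l ∈ s.L, ∀ p q, p ≠ q → l * u p q * l⁻¹ = u (sp a b e p) (sp a b e q)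

/-- The root subgroups of the doubled group. -/
structure Dbl (s : Pre G) (B : Subgroup G) {c : ZMod 2} (Y : SI 3 → SI 3 → Lam c → G) : Prop where
  rel : C3Rel Y
  tac : ∀ a b, a ≠ b → ∀ k, s.t * Y a b k * s.t⁻¹ = Y a b (star k)
  memL : ∀ a b, a ≠ b → Y a b 1 ∈ s.L
  gen : ∀ K : Subgroup G, (∀ a b, a ≠ b → Y a b 1 ∈ K) → s.L ≤ K
  genB : ∀ K : Subgroup G, (∀ i j k, Y (i, true) (j, false) k ∈ K) → B ≤ K

/-- The wreathed case: `L` is the diagonal of `p(L) × q(L)`. -/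
structure Wd (s : Co G) where
  p : s.L →* G
  q : s.L →* G
  tp : ∀ l, s.t * p l * s.t⁻¹ = q l
  pq : ∀ l, p l * q l = l
  cm : ∀ l l', Commute (p l) (q l')
  memX : ∀ l, p l ∈ s.X

/-- The image of `A ≤ L` in the first factor. -/
def Wd.P {s : Co G} (w : Wd s) (A : Subgroup G) : Subgroup G := (A.subgroupOf s.L).map w.p
/-- The image of `A ≤ L` in the second factor. -/
def Wd.Q {s : Co G} (w : Wd s) (A : Subgroup G) : Subgroup G := (A.subgroupOf s.L).map w.q

section Mat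

variable {K : Type*} [Field K]

/-- The coordinate of a signed index. -/
def ix (a : SI 3) : Fin 3 ⊕ Fin 3 := if a.2 then .inl a.1 else .inr a.1

/-- `Sp₆(K)`. -/
abbrev Sp (K : Type*) [Field K] : Type _ := Matrix.symplecticGroup (Fin 3) K

/-- `A` is the root element with parameter `k` (characteristic two). -/
def IsE (A : Sp K) (a b : SI 3) (k : K) : Prop := ∀ w, A.1 *ᵥ w =
  w + (k * w (ix b)) • Pi.single (ix a) 1 + (if b = bar a then 0 else k * w (ix (bar a))) • Pi.single (ix (bar b)) 1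

variable (K) in
/-- The pointwise stabiliser of the plane `⟨e₁, e₂, e₃⟩`. -/
def Bm : Subgroup (Sp K) where
  carrier := {A | ∀ i, A.1 *ᵥ Pi.single (.inl i) 1 = Pi.single (.inl i) 1}
  one_mem' i := Matrix.one_mulVec _
  mul_mem' := fun {A B} hA hB i => by rw [Cl.sp_mul_mulVec, hB i, hA i]
  inv_mem' := fun {A} hA i => by
    conv_lhs => rw [← hA i]
    exact Cl.sp_inv_mulVec_mulVec _ _

theorem mem_Bm {A : Sp K} : A ∈ Bm K ↔ ∀ i, A.1 *ᵥ Pi.single (.inl i) 1 = Pi.single (.inl i) 1 := Iff.rfl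

/-- The field automorphism of `Sp₆(4)`. -/
def fr : Sp F4 ≃* Sp F4 := Cl.symplecticMapEquiv (Fin 3) (starRingAut : RingAut F4)

theorem fr_apply (A : Sp F4) (i j : Fin 3 ⊕ Fin 3) : (fr A).1 i j = star (A.1 i j) := rfl

theorem fr_fr (A : Sp F4) : fr (fr A) = A := Subtype.ext (Matrix.ext fun i j => star_star (A.1 i j))

end Mat

/-- The field case: a copy of `Sp₆(4)` on which `t` acts as a field automorphism. -/
structure Fd (s : Co G) (B : Subgroup G) where
  f : Sp F4 →* G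
  inj : Function.Injective f
  tac : ∀ A, s.t * f A * s.t⁻¹ = f (fr A)
  L_le : s.L ≤ f.range
  le_X : f.range ≤ s.X
  B_le : B ≤ (Bm F4).map f

end Cfsg.Agent.S33
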