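import Mathlib
import Cfsg.Agent.S33.VDefs
import Cfsg.Agent.SF6.Nine

/-! Basic properties of the hats. -/

set_option autoImplicit false
set_option linter.unusedSectionVars false
set_option maxRecDepth 100000
set_option synthInstance.maxSize 100000
set_option synthInstance.maxHeartbeats 1000000

namespace Cfsg.Agent.S33

open Cfsg Cfsg.Agent.Rec Cfsg.Agent.Spor Cfsg.Agent.Loc.Mss Cfsg.Agent.SF6 Cfsg.Agent.Ch Cfsg.Agent.Chev.CD Subgroup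
open scoped commutatorElement Matrix

variable {G : Type*} [Group G] [Finite G] {s : Cfg G} {B : Subgroup G} {h : G → G}

namespace VBas

theorem ab7 (hB : ∀ e ∈ B, e * e = 1) {a b c d e f g : G} (ha : a ∈ B) (hb : b ∈ B) (hc : c ∈ B) (hd : d ∈ B)
    (he : e ∈ B) (hf : f ∈ B) (hg : g ∈ B) :
    a * b * d * (a * c * e) * (a * f * g) = a * b * c * d * e * f * g ∧
      d * b * c * a * g * f * e = a * b * c * d * e * f * g := by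
  have h2 := hB a ha
  letI : CommGroup B := { (inferInstance : Group B) with
    mul_comm := fun x y => Subtype.ext (Phi.comm_of_sq hB x.2 y.2) }
  lift a to B using ha
  lift b to B using hb
  lift c to B using hc
  lift d to B using hd
  lift e to B using he
  lift f to B using hf
  lift g to B using hg
  have k1 : a * b * d * (a * c * e) * (a * f * g) = a * a * (a * b * c * d * e * f * g) := by ac_rfl
  have k2 : d * b * c * a * g * f * e = a * b * c * d * e * f * g := by ac_rfl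
  have k3 := congrArg Subtype.val k1
  refine ⟨?_, congrArg Subtype.val k2⟩
  simp only [coe_mul] at k3
  rw [k3, h2, one_mul]

theorem cj3 (l a b c : G) : l * (a * b * c) * l⁻¹ = l * a * l⁻¹ * (l * b * l⁻¹) * (l * c * l⁻¹) := by group

variable (s)

theorem dec1 : (∀ u ∈ s.V6, (u ∈ s.K1 → u ∈ s.Pts) ∧ (u ∈ s.K2 → u ∈ s.A3 ∧ u ≠ 1)) ∧
    (∀ u ∈ s.A3, u ≠ 1 → u ∈ s.K2) ∧ (∀ u ∈ s.Pts, u ∈ s.K1) ∧ s.x1 * s.x2 * s.x12 = s.y ∧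
    (s.x1 ∈ s.Pts ∧ s.x2 ∈ s.Pts ∧ s.x3 ∈ s.Pts ∧ s.x12 ∈ s.Pts ∧ s.x13 ∈ s.Pts ∧ s.x23 ∈ s.Pts ∧ s.x123 ∈ s.Pts) ∧
    (s.y ∈ s.A3 ∧ s.a ∈ s.A3 ∧ s.b ∈ s.A3 ∧ s.y ≠ 1 ∧ s.a ≠ 1 ∧ s.b ≠ 1 ∧ s.y * s.a ≠ 1 ∧ s.y ≠ s.a ∧ s.b ≠ s.y) ∧
    ∀ k ∈ s.V6, s.r * k * s.r⁻¹ = k → s.n * k * s.n⁻¹ = k → s.d * k * s.d⁻¹ = k → s.m * k * s.m⁻¹ = k → k = 1 :=
  s.hL.decide s.rep (by decide +kernel)

theorem memL : s.x3 ∈ s.L ∧ s.w3 ∈ s.L ∧ s.r ∈ s.L ∧ s.n ∈ s.L ∧ s.d ∈ s.L ∧ s.m ∈ s.L ∧ s.x2 ∈ s.L ∧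
    s.w2 ∈ s.L := by
  have k : s.w2 = s.d * s.m * s.d * s.w3 * (s.d * s.m * s.d)⁻¹ := s.hL.decide s.rep (by decide +kernel)
  have h1 : s.w3 ∈ s.L := mem_clos (by simp)
  have h2 : s.d ∈ s.L := mem_clos (by simp)
  have h3 : s.m ∈ s.L := mem_clos (by simp)
  have h4 := mul_mem (mul_mem h2 h3) h2
  exact ⟨mem_clos (by simp), h1, mem_clos (by simp), mem_clos (by simp), h2, h3,
    s.V6_le (mem_clos (by simp)), by rw [k]; exact mul_mem (mul_mem h4 h1) (inv_mem h4)⟩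

variable {s}

theorem cj (hh : Ht s.toPre B h) {u v l : G} (hu : u ∈ s.K1 ∨ u ∈ s.K2) (hl : l ∈ s.L) (e : l * u * l⁻¹ = v) :
    l * h u * l⁻¹ = h v := by rw [← e, hh.eqv l hl u hu]

theorem kP {p : G} (hp : p ∈ s.Pts) : p ∈ s.K1 ∨ p ∈ s.K2 := .inl ((dec1 s).2.2.1 p hp)

theorem kA {p : G} (hp : p ∈ s.A3) (h1 : p ≠ 1) : p ∈ s.K1 ∨ p ∈ s.K2 := .inr ((dec1 s).2.1 p hp h1)

theorem move (hh : Ht s.toPre B h) (hB : s.Big s.V6 B) {u v l : G} (hu : u ∈ s.K1 ∨ u ∈ s.K2) (hl : l ∈ s.L3)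
    (e : l * u * l⁻¹ = v) (k : h u ∈ B ∧ h u ∈ s.Φ u) : h v ∈ B ∧ h v ∈ s.Φ v := by
  have h1 : l ∈ s.P3 := s.les.2.2.1 hl
  rw [← cj hh hu (s.L3_le hl) e, ← e]
  exact ⟨conj_mem_of_norm (hB.norm h1) k.1, s.Φ_conj k.2 h1⟩

theorem memP (hh : Ht s.toPre B h) (hB : s.Big s.V6 B) {p : G} (hp : p ∈ s.Pts) : h p ∈ B ∧ h p ∈ s.Φ p := by
  obtain ⟨-, l, hl, e⟩ := s.pt_eq hp
  exact move hh hB (.inl (self_mem_cls _ _)) hl e ⟨hh.mem, hh.phi⟩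

theorem memA (hh : Ht s.toPre B h) (hB : s.Big s.V6 B) {v : G} (hv : v ∈ s.A3) (h1 : v ≠ 1) :
    h v ∈ B ∧ h v ∈ s.Φ v := by
  obtain ⟨l, hl, e⟩ := s.A3_eq hv h1
  obtain ⟨-, -, -, ey, ⟨p1, p2, -, p12, -⟩, -⟩ := dec1 s
  refine move hh hB (.inr (self_mem_cls _ _)) hl e ?_
  rw [hh.y_eq]
  refine ⟨mul_mem (mul_mem (memP hh hB p1).1 (memP hh hB p2).1) (memP hh hB p12).1, ?_⟩
  rw [← ey]
  exact s.Φ_mul (s.Φ_mul (memP hh hB p1).2 (memP hh hB p2).2 (s.pt_eq p2).1) (memP hh hB p12).2 (s.pt_eq p12).1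

theorem base (hh : Ht s.toPre B h) (hB : s.Big s.V6 B) {u : G} (hu : u ∈ s.K1 ∨ u ∈ s.K2) :
    ∃ l ∈ s.L, ∃ v ∈ s.V6, l * v * l⁻¹ = u ∧ l * h v * l⁻¹ = h u ∧ h v ∈ B ∧ h v ∈ s.Φ v := by
  obtain ⟨-, -, -, -, ⟨p1, -⟩, ⟨a1, -, -, a2, -⟩, -⟩ := dec1 s
  rcases hu with ⟨l, hl, e⟩ | ⟨l, hl, e⟩
  · exact ⟨l, hl, _, (s.pt_eq p1).1, e, cj hh (kP p1) hl e, hh.mem, hh.phi⟩
  · exact ⟨l, hl, _, Phi.A_V s a1, e, cj hh (kA a1 a2) hl e, memA hh hB a1 a2⟩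

/-- The conjugates of `y_eq`. -/
theorem yc (hh : Ht s.toPre B h) {l v p q r : G} (hl : l ∈ s.L)
    (e : l * s.y * l⁻¹ = v ∧ l * s.x1 * l⁻¹ = p ∧ l * s.x2 * l⁻¹ = q ∧ l * s.x12 * l⁻¹ = r) :
    h v = h p * h q * h r := by
  obtain ⟨-, -, -, -, ⟨p1, p2, -, p12, -⟩, ⟨a1, -, -, a2, -⟩, -⟩ := dec1 s
  rw [← cj hh (kA a1 a2) hl e.1, hh.y_eq, cj3, cj hh (kP p1) hl e.2.1, cj hh (kP p2) hl e.2.2.1,
    cj hh (kP p12) hl e.2.2.2]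

theorem a_eq (hh : Ht s.toPre B h) : h s.a = h s.x1 * h s.x3 * h s.x13 := by
  obtain ⟨-, -, -, -, ld, lm, -⟩ := memL s
  exact yc hh (mul_mem (mul_mem ld lm) ld) (s.hL.decide s.rep (by decide +kernel))

theorem ya (hh : Ht s.toPre B h) (hB : s.Big s.V6 B) : h (s.y * s.a) = h s.y * h s.a := by
  obtain ⟨-, -, lr, ln, ld, lm, -⟩ := memL s
  obtain ⟨-, -, -, -, ⟨p1, p2, p3, p12, p13, p23, p123⟩, ⟨a1, a2, -, n1, n2, -, n3, -⟩, fix⟩ := dec1 s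
  have a3 := mul_mem a1 a2
  have e3 : h (s.y * s.a) = h s.x1 * h s.x23 * h s.x123 := yc hh lm (s.hL.decide s.rep (by decide +kernel))
  obtain ⟨bY, fY⟩ := memA hh hB a1 n1
  obtain ⟨bA, fA⟩ := memA hh hB a2 n2
  obtain ⟨bH, fH⟩ := memA hh hB a3 n3
  have kB := mul_mem (mul_mem bY bA) bH
  have kΦ := s.Φ_mul (s.Φ_mul fY fA (Phi.A_V s a2)) fH (Phi.A_V s a3)
  rw [Phi.V_sq s (Phi.A_V s a3)] at kΦ
  have kV : h s.y * h s.a * h (s.y * s.a) ∈ s.V6 := (s.big_cent hB kB).1 (by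
    have := kΦ.2
    rwa [mul_one, mul_inv_eq_iff_eq_mul] at this)
  have c : (s.r * s.y * s.r⁻¹ = s.y ∧ s.r * s.a * s.r⁻¹ = s.a ∧ s.r * (s.y * s.a) * s.r⁻¹ = s.y * s.a) ∧
      (s.d * s.y * s.d⁻¹ = s.y ∧ s.d * s.a * s.d⁻¹ = s.y * s.a ∧ s.d * (s.y * s.a) * s.d⁻¹ = s.a) ∧
      (s.m * s.y * s.m⁻¹ = s.y * s.a ∧ s.m * s.a * s.m⁻¹ = s.a ∧ s.m * (s.y * s.a) * s.m⁻¹ = s.y) ∧
      s.n * s.x1 * s.n⁻¹ = s.x12 ∧ s.n * s.x2 * s.n⁻¹ = s.x2 ∧ s.n * s.x3 * s.n⁻¹ = s.x3 ∧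
      s.n * s.x12 * s.n⁻¹ = s.x1 ∧ s.n * s.x13 * s.n⁻¹ = s.x123 ∧ s.n * s.x23 * s.n⁻¹ = s.x23 ∧
      s.n * s.x123 * s.n⁻¹ = s.x13 := s.hL.decide s.rep (by decide +kernel)
  obtain ⟨⟨r1, r2, r3⟩, ⟨d1, d2, d3⟩, ⟨m1, m2, m3⟩, c1, c2, c3, c4, c5, c6, c7⟩ := c
  obtain ⟨q1, q2⟩ := ab7 hB.sq (memP hh hB p1).1 (memP hh hB p2).1 (memP hh hB p3).1 (memP hh hB p12).1
    (memP hh hB p13).1 (memP hh hB p23).1 (memP hh hB p123).1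
  rw [← hh.y_eq, ← a_eq hh, ← e3] at q1
  have k1 := fix _ kV
    (by rw [cj3, cj hh (kA a1 n1) lr r1, cj hh (kA a2 n2) lr r2, cj hh (kA a3 n3) lr r3])
    (by
      rw [q1]
      refine Eq.trans ?_ q2
      rw [cj3, cj3, cj3, cj hh (kP p1) ln c1, cj hh (kP p2) ln c2, cj hh (kP p3) ln c3, cj hh (kP p12) ln c4,
        cj hh (kP p13) ln c5, cj hh (kP p23) ln c6, cj hh (kP p123) ln c7])
    (by rw [cj3, cj hh (kA a1 n1) ld d1, cj hh (kA a2 n2) ld d2, cj hh (kA a3 n3) ld d3, mul_assoc,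
      s.big_comm hB bH bA, mul_assoc])
    (by rw [cj3, cj hh (kA a1 n1) lm m1, cj hh (kA a2 n2) lm m2, cj hh (kA a3 n3) lm m3, mul_assoc,
      s.big_comm hB bA bY, s.big_comm hB bH (mul_mem bY bA)])
  rw [eq_inv_of_mul_eq_one_right k1, inv_eq_of_mul_eq_one_right (hB.sq _ (mul_mem bY bA))]

end VBas

open VBas

theorem Ht.cm (hh : Ht s.toPre B h) {u l : G} (hu : u ∈ s.K1 ∨ u ∈ s.K2) (hl : l ∈ s.L) (e : l * u = u * l) :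
    l * h u = h u * l :=
  mul_inv_eq_iff_eq_mul.1 (cj hh hu hl (mul_inv_eq_iff_eq_mul.2 e))

theorem Ht.memB (hh : Ht s.toPre B h) (hB : s.Big s.V6 B) {u : G} (hu : u ∈ s.K1 ∨ u ∈ s.K2) (hv : u ∈ s.V6) :
    h u ∈ B ∧ h u ∈ s.Φ u := by
  obtain ⟨k1, k2⟩ := (dec1 s).1 u hv
  rcases hu with hu | hu
  · exact memP hh hB (k1 hu)
  · exact memA hh hB (k2 hu).1 (k2 hu).2

theorem Ht.sq (hh : Ht s.toPre B h) (hB : s.Big s.V6 B) {u : G} (hu : u ∈ s.K1 ∨ u ∈ s.K2) : h u * h u = 1 := by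
  obtain ⟨l, -, v, -, -, e, k, -⟩ := base hh hB hu
  rw [← e, conj_mul, hB.sq _ k, mul_one, mul_inv_cancel]

theorem Ht.tac (hh : Ht s.toPre B h) (hB : s.Big s.V6 B) {u : G} (hu : u ∈ s.K1 ∨ u ∈ s.K2) :
    s.t * h u * s.t⁻¹ = h u * u := by
  obtain ⟨l, hl, v, hv, e', e, -, k⟩ := base hh hB hu
  have k1 : s.t * h v * s.t⁻¹ = h v * v := by
    rw [Phi.ti, mul_assoc, Phi.et s k, mul_assoc, Phi.tt', k.1 v hv]
  have k2 : s.t * l = l * s.t := (s.t_comm hl).symm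
  rw [← e, ← e', conj_mul, ← k1]
  calc s.t * (l * h v * l⁻¹) * s.t⁻¹ = s.t * l * h v * (s.t * l)⁻¹ := by group
    _ = l * (s.t * h v * s.t⁻¹) * l⁻¹ := by rw [k2]; group

theorem Ht.addA (hh : Ht s.toPre B h) (hB : s.Big s.V6 B) {u v : G} (hu : u ∈ s.A3) (hv : v ∈ s.A3) (h1 : u ≠ 1)
    (h2 : v ≠ 1) (h3 : u ≠ v) : h (u * v) = h u * h v := by
  obtain ⟨l, hl, e1, e2⟩ := Nine.two_tr s u hu h1 v hv h2 h3
  have hl' := s.L3_le hl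
  have h4 : u * v ≠ 1 := fun e => h3 (mul_right_cancel (e.trans (Phi.V_sq s (Phi.A_V s hv)).symm))
  have k := ya hh hB
  rw [← cj hh (kA (mul_mem hu hv) h4) hl' (by rw [← conj_mul, e1, e2]), ← cj hh (kA hu h1) hl' e1,
    ← cj hh (kA hv h2) hl' e2, conj_mul] at k
  exact mul_left_cancel (mul_right_cancel k)

namespace VBas

theorem addC (hh : Ht s.toPre B h) (hB : s.Big s.V6 B) {u v l u' v' : G} (hu : u ∈ s.A3) (hv : v ∈ s.A3)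
    (h1 : u ≠ 1) (h2 : v ≠ 1) (h3 : u ≠ v) (hl : l ∈ s.L) (e : l * u * l⁻¹ = u' ∧ l * v * l⁻¹ = v') :
    h (u' * v') = h u' * h v' := by
  have h4 : u * v ≠ 1 := fun e => h3 (mul_right_cancel (e.trans (Phi.V_sq s (Phi.A_V s hv)).symm))
  rw [← cj hh (kA (mul_mem hu hv) h4) hl (by rw [← conj_mul, e.1, e.2]), ← cj hh (kA hu h1) hl e.1,
    ← cj hh (kA hv h2) hl e.2, conj_mul, hh.addA hB hu hv h1 h2 h3]

theorem comC (hh : Ht s.toPre B h) (hB : s.Big s.V6 B) {u v l u' v' : G} (hu : u ∈ s.K1 ∨ u ∈ s.K2)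
    (hv : v ∈ s.K1 ∨ v ∈ s.K2) (h1 : h u ∈ B) (h2 : h v ∈ B) (hl : l ∈ s.L)
    (e : l * u * l⁻¹ = u' ∧ l * v * l⁻¹ = v') : h u' * h v' = h v' * h u' := by
  rw [← cj hh hu hl e.1, ← cj hh hv hl e.2, conj_mul, conj_mul, s.big_comm hB h1 h2]

end VBas

/-- conjugated forms of `addA` and `y_eq` -/
theorem Ht.facts (hh : Ht s.toPre B h) (hB : s.Big s.V6 B) :
    h (s.r * s.a) = h s.r * h s.a ∧ h (s.r * s.c) = h s.r * h s.c ∧ h (s.d * s.c) = h s.d * h s.c ∧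
    h s.a = h s.x1 * h s.x3 * h s.x13 ∧ h s.b = h s.x2 * h s.x3 * h s.x23 ∧
    h s.r * h s.x1 = h s.x1 * h s.r ∧ h s.r * h s.a = h s.a * h s.r ∧ h s.r * h s.x3 = h s.x3 * h s.r ∧
    h s.r * h s.c = h s.c * h s.r ∧ h s.d * h s.c = h s.c * h s.d ∧
    h (s.c * s.y) = h s.c * h s.y ∧ h s.c * h s.y = h s.y * h s.c := by
  obtain ⟨l3, lw, lr, ln, ld, lm, l2, lw2⟩ := memL s
  obtain ⟨-, -, -, -, ⟨p1, -, p3, -⟩, ⟨ay, aa, ab, ny, na, nb, -, ya, yb⟩, -⟩ := dec1 s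
  have sg := mul_mem (mul_mem lr ln) lr
  have sig := mul_mem (mul_mem ld lm) ld
  have nw := mul_mem (mul_mem l3 lw) l3
  have nw2 := mul_mem (mul_mem l2 lw2) l2
  have c : (s.x2 * s.w2 * s.x2 * s.y * (s.x2 * s.w2 * s.x2)⁻¹ = s.r ∧
        s.x2 * s.w2 * s.x2 * s.a * (s.x2 * s.w2 * s.x2)⁻¹ = s.a) ∧
      s.x2 * s.w2 * s.x2 * s.x1 * (s.x2 * s.w2 * s.x2)⁻¹ = s.x1 ∧
      s.x2 * s.w2 * s.x2 * s.x3 * (s.x2 * s.w2 * s.x2)⁻¹ = s.x3 ∧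
      (s.x3 * s.w3 * s.x3 * (s.x2 * s.w2 * s.x2) * s.y * (s.x3 * s.w3 * s.x3 * (s.x2 * s.w2 * s.x2))⁻¹ = s.r ∧
        s.x3 * s.w3 * s.x3 * (s.x2 * s.w2 * s.x2) * s.a * (s.x3 * s.w3 * s.x3 * (s.x2 * s.w2 * s.x2))⁻¹ = s.c) ∧
      (s.d * s.m * s.d * (s.x2 * s.w2 * s.x2) * s.b * (s.d * s.m * s.d * (s.x2 * s.w2 * s.x2))⁻¹ = s.d ∧
        s.d * s.m * s.d * (s.x2 * s.w2 * s.x2) * s.y * (s.d * s.m * s.d * (s.x2 * s.w2 * s.x2))⁻¹ = s.c) ∧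
      (s.x3 * s.w3 * s.x3 * s.a * (s.x3 * s.w3 * s.x3)⁻¹ = s.c ∧
        s.x3 * s.w3 * s.x3 * s.y * (s.x3 * s.w3 * s.x3)⁻¹ = s.y) := s.hL.decide s.rep (by decide +kernel)
  obtain ⟨c1, c2, c3, c4, c5, c6⟩ := c
  have ky := kA ay ny
  have ka := kA aa na
  have bY := (memA hh hB ay ny).1
  have bA := (memA hh hB aa na).1
  exact ⟨addC hh hB ay aa ny na ya nw2 c1, addC hh hB ay aa ny na ya (mul_mem nw nw2) c4,
    addC hh hB ab ay nb ny yb (mul_mem sig nw2) c5, a_eq hh,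
    yc hh (mul_mem sg sig) (s.hL.decide s.rep (by decide +kernel)),
    comC hh hB ky (kP p1) bY hh.mem nw2 ⟨c1.1, c2⟩, comC hh hB ky ka bY bA nw2 c1,
    comC hh hB ky (kP p3) bY (memP hh hB p3).1 nw2 ⟨c1.1, c3⟩, comC hh hB ky ka bY bA (mul_mem nw nw2) c4,
    comC hh hB (kA ab nb) ky (memA hh hB ab nb).1 bY (mul_mem sig nw2) c5,
    addC hh hB aa ay na ny ya.symm nw c6, comC hh hB ka ky bA bY nw c6⟩

end Cfsg.Agent.S33
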