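import Mathlib
import Cfsg.Agent.S33.VDefs

/-! Existence of the hats. -/

set_option autoImplicit false
set_option linter.unusedSectionVars false
set_option maxRecDepth 100000
set_option synthInstance.maxSize 100000
set_option synthInstance.maxHeartbeats 1000000

namespace Cfsg.Agent.S33

open Cfsg Cfsg.Agent.Rec Cfsg.Agent.Spor Cfsg.Agent.Loc.Mss Cfsg.Agent.SF6 Cfsg.Agent.Ch Cfsg.Agent.Chev.CD Subgroup
open scoped commutatorElement Matrix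

variable {G : Type*} [Group G] [Finite G]

namespace VHat

theorem lets (s : Pre G) : s.x1 ∈ s.V6 ∧ s.x2 ∈ s.V6 ∧ s.x3 ∈ s.V6 ∧ s.y ∈ s.V6 ∧ s.b ∈ s.V6 ∧
    s.d = s.x3 * s.w3 * s.x3 * s.b * (s.x3 * s.w3 * s.x3)⁻¹ ∧ s.r = s.x2 * s.w2 * s.x2 * s.y * (s.x2 * s.w2 * s.x2)⁻¹ ∧
    s.m = s.x2 * s.w2 * s.x2 * s.b * (s.x2 * s.w2 * s.x2)⁻¹ ∧ s.a = s.d * s.m * s.d * s.y * (s.d * s.m * s.d)⁻¹ ∧
    s.w2 = s.d * s.m * s.d * s.w3 * (s.d * s.m * s.d)⁻¹ ∧ s.d * s.m * s.d * s.x1 * (s.d * s.m * s.d)⁻¹ = s.x1 ∧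
    s.x2 * s.w2 * s.x2 * s.x1 = s.x1 * (s.x2 * s.w2 * s.x2) ∧ s.d * s.m * s.d ∈ s.P3 ∧ s.w3 ∈ s.P2 ∧
    s.w3 * s.x1 = s.x1 * s.w3 ∧ s.w3 * s.x2 = s.x2 * s.w3 ∧ s.w3 * s.y = s.y * s.w3 ∧ s.w3 * s.w3 = 1 ∧
    (s.x3 * s.w3) ^ 3 = 1 ∧ s.w3 ≠ s.x3 ∧ s.w2 * s.w3 = s.w3 * s.w2 ∧ s.x1 * s.x1 = 1 :=
  s.hL.decide s.rep (by decide +kernel)

theorem d1 (s : Pre G) : (∀ u ∈ s.K2, s.x1 * u ∈ s.K3 →
    ∃ p ∈ s.P12, p * s.y * p⁻¹ = u ∨ p * s.a * p⁻¹ = u ∨ p * s.r * p⁻¹ = u) ∧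
    (∀ k ∈ s.P2, k * s.x1 = s.x1 * k → k ∈ s.P12) ∧ ∀ p ∈ s.P12, p * s.x1 = s.x1 * p ∧ p ∈ s.P2 :=
  s.hL.decide s.rep (by decide +kernel)

theorem d2 (s : Pre G) : (∀ w ∈ s.P2, w * s.x1 = s.x1 * w → w * s.x2 = s.x2 * w → w * w = 1 → (s.x3 * w) ^ 3 = 1 →
    w ≠ s.x3 → ∃ v ∈ s.V6, v * w * v⁻¹ = s.w3) ∧ ∀ u ∈ s.V6, u⁻¹ * s.w2 * u * s.w3 = s.w3 * (u⁻¹ * s.w2 * u) →
    ∃ v ∈ s.V6, v * s.w3 = s.w3 * v ∧ u⁻¹ * v * s.w2 = s.w2 * (u⁻¹ * v) :=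
  s.hL.decide s.rep (by decide +kernel)

theorem d3 (s : Pre G) : (∀ u ∈ s.K2, u ∉ s.K1) ∧ s.x1 ∈ s.Pts ∧ s.x2 ∈ s.Pts ∧ s.x12 ∈ s.Pts ∧
    (s.x3 * s.x1 * s.x3⁻¹ = s.x1 ∧ s.x3 * s.x2 * s.x3⁻¹ = s.x2 ∧ s.x3 * s.x12 * s.x3⁻¹ = s.x12) ∧
    (s.w3 * s.x1 * s.w3⁻¹ = s.x1 ∧ s.w3 * s.x2 * s.w3⁻¹ = s.x2 ∧ s.w3 * s.x12 * s.w3⁻¹ = s.x12) ∧
    (s.r * s.x1 * s.r⁻¹ = s.x1 ∧ s.r * s.x2 * s.r⁻¹ = s.x12 ∧ s.r * s.x12 * s.r⁻¹ = s.x2) ∧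
    (s.n * s.x1 * s.n⁻¹ = s.x12 ∧ s.n * s.x2 * s.n⁻¹ = s.x2 ∧ s.n * s.x12 * s.n⁻¹ = s.x1) ∧
    s.d * s.x1 * s.d⁻¹ = s.x1 ∧ s.d * s.x2 * s.d⁻¹ = s.x2 ∧ s.d * s.x12 * s.d⁻¹ = s.x12 :=
  s.hL.decide s.rep (by decide +kernel)

omit [Finite G] in
theorem exists_eqv {xs : List G} {z g : G} (h : ∀ l ∈ clos xs, l * z = z * l → l * g = g * l) :
    ∃ f : G → G, f z = g ∧ ∀ l ∈ clos xs, ∀ u ∈ cls xs z, f (l * u * l⁻¹) = l * f u * l⁻¹ := by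
  classical
  have key : ∀ l ∈ clos xs, (if h : l * z * l⁻¹ ∈ cls xs z then h.choose * g * h.choose⁻¹ else 1) = l * g * l⁻¹ := by
    intro l hl
    have h1 : l * z * l⁻¹ ∈ cls xs z := ⟨l, hl, rfl⟩
    obtain ⟨h2, h3⟩ := h1.choose_spec
    rw [dif_pos h1]
    generalize h1.choose = k at h2 h3
    have h4 := h _ (mul_mem (inv_mem hl) h2) (by
      calc l⁻¹ * k * z = l⁻¹ * (k * z * k⁻¹) * k := by group
        _ = _ := by rw [h3]; group)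
    calc k * g * k⁻¹ = l * (l⁻¹ * k * g) * k⁻¹ := by group
      _ = _ := by rw [h4]; group
  refine ⟨fun u => if h : u ∈ cls xs z then h.choose * g * h.choose⁻¹ else 1, by simpa using key 1 (one_mem _), ?_⟩
  rintro l hl _ ⟨k, hk, rfl⟩
  have := key _ (mul_mem hl hk)
  rw [show l * k * z * (l * k)⁻¹ = l * (k * z * k⁻¹) * l⁻¹ by group] at this
  simp only [this, key k hk]
  group

theorem exists_g0 (s : Cfg G) {B : Subgroup G} (hB : s.Big s.V6 B) : ∃ g ∈ B, g ∈ s.Φ s.x1 ∧ g * s.w3 = s.w3 * g := by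
  obtain ⟨v1, v2, v3, vy, -, -, -, -, -, -, -, -, -, wP, c1, c2, cy, ww, w3, ne, -, -⟩ := lets s.toPre
  obtain ⟨g, hg, hΦ⟩ := hB.onto _ v1
  have k : ∀ u ∈ s.V6, s.w3 * u = u * s.w3 → g * s.w3 * g⁻¹ * u = u * (g * s.w3 * g⁻¹) := fun u hu h => by
    rw [← Phi.cj_fix s hΦ hu, conj_mul, conj_mul, h]
  have h1 : Commute (g * s.w3 * g⁻¹) (s.t * s.x1) := by
    rw [← hΦ.2, Commute, SemiconjBy, conj_mul, conj_mul, s.t_comm (s.P2_le wP)]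
  have h2 : g * s.w3 * g⁻¹ * s.t = s.t * (g * s.w3 * g⁻¹) := by
    simpa using (h1.mul_right (show Commute (g * s.w3 * g⁻¹) s.x1 from k _ v1 c1).inv_right).eq
  have h3 : (s.x3 * (g * s.w3 * g⁻¹)) ^ 3 = 1 := by
    rw [← Phi.cj_fix s hΦ v3, conj_mul, conj_pow, w3, mul_one, mul_inv_cancel]
  have h4 : g * s.w3 * g⁻¹ ∈ s.L := (s.cent _ h2).resolve_right fun h => s.tL (by
    have h5 := mul_mem (s.V6_le v3) h
    have h6 : Commute s.t (s.x3 * (g * s.w3 * g⁻¹)) :=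
      (show Commute s.t s.x3 from (s.t_comm (s.V6_le v3)).symm).mul_right h2.symm
    rw [← mul_assoc, s.t_comm (s.V6_le v3), mul_assoc] at h5
    have h7 := pow_mem h5 3
    rwa [h6.mul_pow, h3, mul_one, pow_succ, pow_two, s.tt, one_mul] at h7)
  obtain ⟨v, hv, e⟩ := (d2 s.toPre).1 _ (s.cent_y h4 (k _ vy cy)) (k _ v1 c1) (k _ v2 c2)
    (by rw [conj_mul, ww, mul_one, mul_inv_cancel]) h3 fun h => ne (by
      rw [← Phi.cj_fix s hΦ v3] at h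
      exact mul_left_cancel (mul_right_cancel h))
  refine ⟨v * g, mul_mem (hB.le hv) hg, (s.Φ_W hΦ v1 (Phi.V_W s hv)).2, mul_inv_eq_iff_eq_mul.1 (.trans ?_ e)⟩
  group

end VHat

theorem cent_x1 (s : Pre G) {K : Subgroup G} (hV : s.V6 ≤ K) (h2 : s.w2 ∈ K) (h3 : s.w3 ∈ K) {g : G} (hg : g ∈ s.L)
    (h : g * s.x1 = s.x1 * g) : g ∈ K := by
  obtain ⟨v1, v2, v3, vy, vb, ed, er, em, ea, -, s1, n1, sP, wP, -⟩ := VHat.lets s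
  obtain ⟨k1, k2, k3⟩ := VHat.d1 s
  have n2 : s.x2 * s.w2 * s.x2 ∈ K := mul_mem (mul_mem (hV v2) h2) (hV v2)
  have n3 : s.x3 * s.w3 * s.x3 ∈ K := mul_mem (mul_mem (hV v3) h3) (hV v3)
  have hd : s.d ∈ K := ed ▸ mul_mem (mul_mem n3 (hV vb)) (inv_mem n3)
  have hr : s.r ∈ K := er ▸ mul_mem (mul_mem n2 (hV vy)) (inv_mem n2)
  have hm : s.m ∈ K := em ▸ mul_mem (mul_mem n2 (hV vb)) (inv_mem n2)
  have hP : s.P12 ≤ K := clos_le.2 (by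
    simp only [List.forall_mem_cons, List.not_mem_nil, false_imp_iff, implies_true, and_true]
    exact ⟨hV v3, h3, hr, hd, hV v2⟩)
  have key : ∀ p ∈ s.P12, ∀ q ∈ K, q ∈ s.L → q * s.x1 = s.x1 * q → p * (q * s.y * q⁻¹) * p⁻¹ = g * s.y * g⁻¹ → g ∈ K := by
    intro p hp q hq hq' c e
    have h1 := s.cent_y (mul_mem (inv_mem (mul_mem (s.P2_le (k3 p hp).2) hq')) hg) (by
      calc (p * q)⁻¹ * g * s.y = (p * q)⁻¹ * (g * s.y * g⁻¹) * g := by group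
        _ = _ := by rw [← e]; group)
    have h4 : Commute ((p * q)⁻¹ * g) s.x1 :=
      ((show Commute p s.x1 from (k3 p hp).1).mul_left c).inv_left.mul_left h
    exact (mul_mem_cancel_left (inv_mem (mul_mem (hP hp) hq))).1 (hP (k2 _ h1 h4))
  have w2L : s.w2 ∈ s.L := by
    obtain ⟨-, -, -, -, -, -, -, -, -, e, -⟩ := VHat.lets s
    exact e ▸ mul_mem (mul_mem (s.P3_le sP) (s.P2_le wP)) (inv_mem (s.P3_le sP))
  obtain ⟨p, hp, e | e | e⟩ := k1 _ ⟨g, hg, rfl⟩ ⟨g, hg, by rw [← conj_mul, h, mul_inv_cancel_right]⟩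
  · exact key p hp 1 (one_mem _) (one_mem _) (by simp) (by simpa using e)
  · exact key p hp _ (mul_mem (mul_mem hd hm) hd) (s.P3_le sP) (mul_inv_eq_iff_eq_mul.1 s1) (ea ▸ e)
  · exact key p hp _ n2 (mul_mem (mul_mem (s.V6_le v2) w2L) (s.V6_le v2)) n1 (er ▸ e)

theorem exists_g1 (s : Cfg G) {B : Subgroup G} (hB : s.Big s.V6 B) :
    ∃ g ∈ B, g ∈ s.Φ s.x1 ∧ g * s.w2 = s.w2 * g ∧ g * s.w3 = s.w3 * g := by
  obtain ⟨v1, -, -, -, -, -, -, -, -, e2, s1, -, sP, -, -, -, -, -, -, -, c23, xx⟩ := VHat.lets s.toPre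
  obtain ⟨g, hg, hΦ, c3⟩ := VHat.exists_g0 s hB
  generalize s.d * s.m * s.d = σ at e2 s1 sP
  have h1 : σ * g * σ⁻¹ ∈ B := conj_mem_of_norm (hB.norm sP) hg
  have h2 : σ * g * σ⁻¹ ∈ s.Φ s.x1 := s1 ▸ s.Φ_conj hΦ sP
  have h3 : Commute (σ * g * σ⁻¹) s.w2 := by rw [e2, Commute, SemiconjBy, conj_mul, conj_mul, c3]
  generalize σ * g * σ⁻¹ = g' at h1 h2 h3
  have h4 := mul_mem (inv_mem hg) h1
  have h5 : g⁻¹ * g' ∈ s.V6 := (s.big_cent hB h4).1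
    (s.W_comm (s.Φ_one.1 (xx ▸ s.Φ_mul (s.Φ_inv hΦ v1) h2 v1)) s.tW)
  have h6 : (g⁻¹ * g')⁻¹ * s.w2 * (g⁻¹ * g') = g * s.w2 * g⁻¹ := by
    rw [s.big_comm hB (inv_mem hg) h1, mul_inv_rev, inv_inv, mul_assoc g, mul_assoc g, ← mul_assoc _ g',
      mul_assoc _ _ g', ← h3.eq, inv_mul_cancel_left, mul_assoc]
  obtain ⟨v, hv, a, b⟩ := (VHat.d2 s.toPre).2 _ h5 (by
    rw [h6]
    calc g * s.w2 * g⁻¹ * s.w3 = g * s.w2 * g⁻¹ * (g * s.w3 * g⁻¹) := by rw [c3, mul_inv_cancel_right]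
      _ = g * s.w3 * g⁻¹ * (g * s.w2 * g⁻¹) := by rw [conj_mul, conj_mul, c23]
      _ = _ := by rw [c3, mul_inv_cancel_right])
  refine ⟨g * v, mul_mem hg (hB.le hv), (s.Φ_W hΦ v1 (Phi.V_W s hv)).1, ?_, (show Commute g s.w3 from c3).mul_left a⟩
  simpa [mul_assoc] using (h3.mul_left b).eq

theorem exists_ht (s : Cfg G) {B : Subgroup G} (hB : s.Big s.V6 B) : ∃ h, Ht s.toPre B h := by
  classical
  obtain ⟨g, hg, hΦ, c2, c3⟩ := exists_g1 s hB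
  obtain ⟨f, f1, hf⟩ := VHat.exists_eqv (xs := s.gL) (z := s.x1) (g := g) fun l hl h =>
    mem_centralizer_singleton_iff.1 (cent_x1 s.toPre (K := centralizer {g})
      (fun u hu => mem_centralizer_singleton_iff.2 (hΦ.1 u hu).symm) (mem_centralizer_singleton_iff.2 c2.symm)
      (mem_centralizer_singleton_iff.2 c3.symm) hl h)
  obtain ⟨dj, p1, p2, p12, a, b, c, d, e⟩ := VHat.d3 s.toPre
  have hp : ∀ p ∈ s.Pts, p ∈ s.K1 ∧ f p ∈ B := fun p hp => by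
    obtain ⟨l, hl, rfl⟩ := (s.pt_eq hp).2
    refine ⟨⟨l, s.L3_le hl, rfl⟩, ?_⟩
    rw [hf l (s.L3_le hl) _ (self_mem_cls _ _), f1]
    exact conj_mem_of_norm (hB.norm (s.les.2.2.1 hl)) hg
  have key : ∀ l ∈ s.L, l * (f s.x1 * f s.x2 * f s.x12) * l⁻¹ =
      f (l * s.x1 * l⁻¹) * f (l * s.x2 * l⁻¹) * f (l * s.x12 * l⁻¹) := fun l hl => by
    rw [hf l hl _ (hp _ p1).1, hf l hl _ (hp _ p2).1, hf l hl _ (hp _ p12).1, conj_mul, conj_mul]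
  have m1 := s.big_comm hB (hp _ p1).2 (hp _ p2).2
  have m2 := s.big_comm hB (hp _ p1).2 (hp _ p12).2
  have m3 := s.big_comm hB (hp _ p2).2 (hp _ p12).2
  obtain ⟨f', f1', hf'⟩ := VHat.exists_eqv (xs := s.gL) (z := s.y) (g := f s.x1 * f s.x2 * f s.x12) fun l hl h =>
    (commute_clos (by
      simp only [List.forall_mem_cons, List.not_mem_nil, false_imp_iff, implies_true, and_true]
      refine ⟨?_, ?_, ?_, ?_, ?_⟩ <;> refine (mul_inv_eq_iff_eq_mul.1 ?_).symm <;> rw [key _ (mem_clos (by simp))]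
      · rw [a.1, a.2.1, a.2.2]
      · rw [b.1, b.2.1, b.2.2]
      · rw [c.1, c.2.1, c.2.2, mul_assoc, ← m3, mul_assoc]
      · rw [d.1, d.2.1, d.2.2, ← m3, mul_assoc, ← m2, ← mul_assoc, m1]
      · rw [e.1, e.2.1, e.2.2]) l (s.cent_y hl h)).symm
  refine ⟨fun u => if u ∈ s.K1 then f u else f' u, fun l hl u hu => ?_, ?_, ?_, ?_⟩
  · rcases hu with hu | hu
    · rw [if_pos hu, if_pos (show _ ∈ s.K1 from conj_mem_cls hl hu), hf l hl u hu]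
    · rw [if_neg (dj u hu), if_neg (dj _ (conj_mem_cls hl hu)), hf' l hl u hu]
  · rw [if_pos (hp _ p1).1]
    exact (hp _ p1).2
  · rw [if_pos (hp _ p1).1, f1]
    exact hΦ
  · rw [if_pos (hp _ p1).1, if_pos (hp _ p2).1, if_pos (hp _ p12).1, if_neg (dj _ (self_mem_cls _ _)), f1']

end Cfsg.Agent.S33
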