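import Mathlib
import Cfsg.Agent.S33.VDefs
import Cfsg.Agent.Cl.ClassSpOInv

/-! Involutions of `Sp₆(4)` are conjugate into `Sp₆(2)`. -/

set_option autoImplicit false
set_option linter.unusedSectionVars false
set_option maxRecDepth 100000
set_option synthInstance.maxSize 100000
set_option synthInstance.maxHeartbeats 1000000

namespace Cfsg.Agent.S33

open Cfsg Cfsg.Agent.Rec Cfsg.Agent.Spor Cfsg.Agent.Loc.Mss Cfsg.Agent.SF6 Cfsg.Agent.Ch Cfsg.Agent.Chev.CD Subgroup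
open scoped commutatorElement Matrix

namespace VInv

/-- A matrix entry. -/
def ent {ι : Type} (M : Matrix ι ι F4) (i j : ι) : F4 := M i j

theorem invol {a : Sp F4} (h : a * a = 1) (x : Fin 3 ⊕ Fin 3 → F4) :
    (Cl.spStdEquiv 3 F4 a).1 ((Cl.spStdEquiv 3 F4 a).1 x) = x :=
  Cl.SpO.invol_of_mul_self (by rw [← map_mul, h, map_one]) x

theorem conj_of {a b : Sp F4} (ha : a * a = 1) (hb : b * b = 1) (hr : (a.1 - 1).rank = (b.1 - 1).rank)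
    (h : (∀ v, Cl.spB 3 F4 v (a.1 *ᵥ v) = 0) ↔ ∀ v, Cl.spB 3 F4 v (b.1 *ᵥ v) = 0) : IsConj a b := by
  have hA := Cl.spB_isAlt (m := 3) (R := F4)
  have hB := Cl.spB_nondegenerate (m := 3) (R := F4)
  have hra := Cl.SpO.finrank_res_eq_rank a.1 (g := (Cl.spStdEquiv 3 F4 a).1) fun _ => rfl
  have hrb := Cl.SpO.finrank_res_eq_rank b.1 (g := (Cl.spStdEquiv 3 F4 b).1) fun _ => rfl
  rw [← Cl.Cls.isConj_mulEquiv_iff (Cl.spStdEquiv 3 F4), Cl.SpO.inv_isConj_iff (Cl.wittData_alt hA) hB hA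
    Cl.SpO.mem_SpG_iff_witt _ _ (invol ha) (invol hb), hra, hrb]
  exact ⟨hr, h⟩

theorem rank_le {a : Sp F4} (ha : a * a = 1) : (a.1 - 1).rank ≤ 3 := by
  have h := Cl.SpO.inv_two_mul_le (Cl.spB_nondegenerate (m := 3) (R := F4)) (Cl.spStdEquiv 3 F4 a).2 (invol ha)
  rw [Cl.SpO.finrank_res_eq_rank a.1 (g := (Cl.spStdEquiv 3 F4 a).1) fun _ => rfl, Cl.sp_finrank_std] at h
  omega

theorem even_rank {a : Sp F4} (h : ∀ v, Cl.spB 3 F4 v (a.1 *ᵥ v) = 0) : Even (a.1 - 1).rank := by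
  rw [← Cl.SpO.finrank_res_eq_rank a.1 (g := (Cl.spStdEquiv 3 F4 a).1) fun _ => rfl]
  exact Cl.SpO.even_of_alt Cl.spB_nondegenerate Cl.spB_isAlt (Cl.spStdEquiv 3 F4 a).2 h

theorem eq_one {a : Sp F4} (h : (a.1 - 1).rank = 0) : a = 1 := by
  rw [← Cl.SpO.finrank_res_eq_rank a.1 (g := (Cl.spStdEquiv 3 F4 a).1) fun _ => rfl,
    Cl.SpO.finrank_res_eq_zero_iff] at h
  exact (Cl.spStdEquiv 3 F4).injective (by rw [map_one]; exact Subtype.ext h)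

/-- The representatives. -/
def rp (M : Matrix (Fin 3) (Fin 3) F4) : Matrix (Fin 3 ⊕ Fin 3) (Fin 3 ⊕ Fin 3) F4 := Matrix.fromBlocks 1 M 0 1

theorem ex (M : Matrix (Fin 3) (Fin 3) F4) (σ : Equiv.Perm (Fin 3 ⊕ Fin 3)) (w : Fin 3 ⊕ Fin 3 → F4) (n : ℕ)
    (h : (∀ i j, ent M j i = ent M i j) ∧ (∀ i j, star (ent (rp M) i j) = ent (rp M) i j) ∧
      (∀ i j, ent ((rp M - 1).submatrix σ (Equiv.refl _)) i j = ent (Matrix.diagonal w) i j) ∧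
      Fintype.card {i // w i ≠ 0} = n) :
    ∃ b : Sp F4, b.1 = rp M ∧ b * b = 1 ∧ fr b = b ∧ (b.1 - 1).rank = n := by
  have h2 : M + M = 0 := Matrix.ext fun i j => Lam.add_self _
  have h1 : Mᵀ = M := Matrix.ext h.1
  have h3 : (rp M - 1).submatrix σ (Equiv.refl _) = Matrix.diagonal w := Matrix.ext h.2.2.1
  have h4 : rp M * Matrix.J (Fin 3) F4 * (rp M)ᵀ = Matrix.J (Fin 3) F4 := by
    simp [rp, Matrix.J, Matrix.fromBlocks_transpose, Matrix.fromBlocks_multiply, h1]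
  have h5 : rp M * rp M = 1 := by simp [rp, Matrix.fromBlocks_multiply, h2]
  have h6 : (rp M - 1).rank = n := by
    rw [← Matrix.rank_submatrix _ σ (Equiv.refl _), h3, Matrix.rank_diagonal, h.2.2.2]
  exact ⟨⟨rp M, SymplecticGroup.mem_iff.2 h4⟩, rfl, Subtype.ext h5, Subtype.ext (Matrix.ext h.2.1), h6⟩

theorem nalt {M : Matrix (Fin 3) (Fin 3) F4} (h : M 0 0 = 1) : ¬ ∀ v, Cl.spB 3 F4 v (rp M *ᵥ v) = 0 := fun c => by
  have := c (Pi.single (.inr 0) 1)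
  rw [Cl.spB_single_inr, Matrix.mulVec_single_one] at this
  simp [rp, h] at this

theorem alt (v : Fin 3 ⊕ Fin 3 → F4) : Cl.spB 3 F4 v (rp !![0, 1, 0; 1, 0, 0; 0, 0, 0] *ᵥ v) = 0 := by
  rw [Cl.spB_eq_sum]
  simp [rp, Matrix.mulVec, dotProduct, Fin.sum_univ_three, Matrix.one_apply]
  linear_combination Lam.add_self (v (.inr 0) * v (.inr 1))

theorem exists_rep {a : Sp F4} (ha : a * a = 1) : ∃ b : Sp F4, fr b = b ∧ IsConj a b := by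
  have h3 := rank_le ha
  by_cases h0 : (a.1 - 1).rank = 0
  · exact ⟨1, map_one _, eq_one h0 ▸ IsConj.refl _⟩
  by_cases h : ∀ v, Cl.spB 3 F4 v (a.1 *ᵥ v) = 0
  · obtain ⟨b, e, b2, fb, rb⟩ := ex !![0, 1, 0; 1, 0, 0; 0, 0, 0]
      ((Equiv.swap (.inr 0) (.inr 1)).trans (Equiv.sumComm _ _)) (Sum.elim 0 ![1, 1, 0]) 2 (by decide +kernel)
    obtain ⟨k, hk⟩ := even_rank h
    exact ⟨b, fb, conj_of ha b2 (by omega) (iff_of_true h (e ▸ alt))⟩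
  have k : ∀ (d : Fin 3 → F4) (n : ℕ), d 0 = 1 → (a.1 - 1).rank = n →
      (∃ b : Sp F4, b.1 = rp (Matrix.diagonal d) ∧ b * b = 1 ∧ fr b = b ∧ (b.1 - 1).rank = n) →
      ∃ b : Sp F4, fr b = b ∧ IsConj a b := fun d n hd hn ⟨b, e, b2, fb, rb⟩ =>
    ⟨b, fb, conj_of ha b2 (hn.trans rb.symm) (iff_of_false h (e ▸ nalt (by rw [Matrix.diagonal_apply_eq, hd])))⟩
  obtain h1 | h1 | h1 : (a.1 - 1).rank = 1 ∨ (a.1 - 1).rank = 2 ∨ (a.1 - 1).rank = 3 := by omega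
  · exact k ![1, 0, 0] 1 rfl h1 (ex _ (Equiv.sumComm _ _) (Sum.elim 0 ![1, 0, 0]) 1 (by decide +kernel))
  · exact k ![1, 1, 0] 2 rfl h1 (ex _ (Equiv.sumComm _ _) (Sum.elim 0 ![1, 1, 0]) 2 (by decide +kernel))
  · exact k ![1, 1, 1] 3 rfl h1 (ex _ (Equiv.sumComm _ _) (Sum.elim 0 ![1, 1, 1]) 3 (by decide +kernel))

end VInv

theorem inv_fr {A : Sp F4} (h : A * A = 1) : ∃ C : Sp F4, fr (C * A * C⁻¹) = C * A * C⁻¹ := by
  obtain ⟨b, fb, hb⟩ := VInv.exists_rep h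
  obtain ⟨C, rfl⟩ := isConj_iff.1 hb
  exact ⟨C, fb⟩

end Cfsg.Agent.S33
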