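import Mathlib
import Cfsg.Agent.S33.VDefs
import Cfsg.Agent.Cl.AutPSp

/-! Lang's theorem for the field automorphism of `Sp₆(4)`. -/

set_option autoImplicit false
set_option linter.unusedSectionVars false
set_option maxRecDepth 100000
set_option synthInstance.maxSize 100000
set_option synthInstance.maxHeartbeats 1000000

namespace Cfsg.Agent.S33

open Cfsg Cfsg.Agent.Rec Cfsg.Agent.Spor Cfsg.Agent.Loc.Mss Cfsg.Agent.SF6 Cfsg.Agent.Ch Cfsg.Agent.Chev.CD Subgroup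
open scoped commutatorElement Matrix

theorem vlang_order : orderOf (starRingAut : RingAut F4) = 2 := by
  refine orderOf_eq_prime (by ext x : 1; exact star_star x) fun h => ?_
  have := congrArg (fun σ : RingAut F4 => σ (om 1)) h
  revert this
  show star (om 1) = om 1 → False
  decide

open Cfsg.Agent.Cl Cfsg.Agent.Cl.Aut Matrix in
theorem lang {A : Sp F4} (h : A * fr A = 1) : ∃ C : Sp F4, A = C * (fr C)⁻¹ := by
  set σ : RingAut F4 := starRingAut with hσ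
  have he : ∀ a, σ a = a ↔ ∃ b, (fixF σ).subtype b = a := fun a =>
    ⟨fun h => ⟨⟨a, h⟩, rfl⟩, fun ⟨b, hb⟩ => hb ▸ b.2⟩
  obtain ⟨k, hk⟩ := exists_descent (ι := Fin 3 ⊕ Fin 3) (⟨spInc 3 F4 A, σ⟩ : GammaL _ F4)
    (by simp [hσ, vlang_order]) (by
      show _ ^ orderOf σ = 1
      rw [hσ, vlang_order, sq]
      refine SemidirectProduct.ext (Units.ext ?_) ?_
      · exact congrArg Subtype.val h
      · ext x : 1; exact star_star x)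
  simp only at hk
  have hk' : A.1 * (k : Matrix (Fin 3 ⊕ Fin 3) (Fin 3 ⊕ Fin 3) F4).map σ =
      (k : Matrix (Fin 3 ⊕ Fin 3) (Fin 3 ⊕ Fin 3) F4) := congrArg Units.val hk
  obtain ⟨M, hM⟩ : ∃ M : GL (Fin 3 ⊕ Fin 3) F4, (M : Matrix (Fin 3 ⊕ Fin 3) (Fin 3 ⊕ Fin 3) F4) =
      (k : Matrix (Fin 3 ⊕ Fin 3) (Fin 3 ⊕ Fin 3) F4)ᵀ * J (Fin 3) F4 * (k : Matrix (Fin 3 ⊕ Fin 3) (Fin 3 ⊕ Fin 3) F4) :=
    ⟨(glInvTranspose _ F4 k)⁻¹ * spInc 3 F4 (SymplecticGroup.symJ _ F4) * k, rfl⟩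
  have hd : glField _ F4 σ M = M := Units.ext (by
    rw [coe_glField, hM]
    erw [← map_gram (σ : F4 →+* F4)]
    conv_rhs => rw [← hk', Matrix.transpose_mul, mul_assoc, mul_assoc, ← mul_assoc (J _ F4),
      ← mul_assoc _ (J _ F4 * _), ← mul_assoc _ (J _ F4), SymplecticGroup.mem_iff'.1 A.2]
    rw [mul_assoc]; rfl)
  obtain ⟨M₀, hM₀⟩ := (glField_eq_iff he).1 hd
  have hM3 : (M₀ : Matrix (Fin 3 ⊕ Fin 3) (Fin 3 ⊕ Fin 3) (fixF σ)).map (fixF σ).subtype =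
      (M : Matrix (Fin 3 ⊕ Fin 3) (Fin 3 ⊕ Fin 3) F4) := congrArg Units.val hM₀
  have hJ : ∀ {K : Type} [Field K] (v : Fin 3 ⊕ Fin 3 → K), v ⬝ᵥ (J (Fin 3) K *ᵥ v) = 0 :=
    fun v => (spB_apply v v).symm.trans (spB_isAlt v)
  obtain ⟨k₀, hk₀⟩ := exists_alt_congr M₀ (spInc 3 _ (SymplecticGroup.symJ _ _))
    (fun v => (fixF σ).subtype.injective (by
      rw [RingHom.map_dotProduct, show (fixF σ).subtype ∘ (_ *ᵥ v) = _ from
        funext (RingHom.map_mulVec _ _ v), hM3, hM, ← dot_mulVec_congr, hJ, map_zero])) hJ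
  have h4 := congrArg (·.map (fixF σ).subtype) hk₀
  simp only [Matrix.map_mul, Matrix.transpose_map, hM3, coe_spInc, SymplecticGroup.coe_J,
    map_J] at h4
  have h5 : ((k₀ : Matrix (Fin 3 ⊕ Fin 3) (Fin 3 ⊕ Fin 3) (fixF σ)).map (fixF σ).subtype).map σ =
      (k₀ : Matrix (Fin 3 ⊕ Fin 3) (Fin 3 ⊕ Fin 3) (fixF σ)).map (fixF σ).subtype := by
    ext i j : 1; exact ((k₀ : Matrix (Fin 3 ⊕ Fin 3) (Fin 3 ⊕ Fin 3) (fixF σ)) i j).2
  generalize (k₀ : Matrix (Fin 3 ⊕ Fin 3) (Fin 3 ⊕ Fin 3) (fixF σ)).map (fixF σ).subtype = N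
    at h4 h5
  refine ⟨⟨k * N, SymplecticGroup.mem_iff'.2 ?_⟩, eq_mul_inv_of_mul_eq (Subtype.ext ?_)⟩
  · refine Eq.trans ?_ h4
    rw [hM, Matrix.transpose_mul]; simp only [mul_assoc]
  · have h6 : ((k : Matrix (Fin 3 ⊕ Fin 3) (Fin 3 ⊕ Fin 3) F4) * N).map σ =
        (k : Matrix (Fin 3 ⊕ Fin 3) (Fin 3 ⊕ Fin 3) F4).map σ * N.map σ :=
      Matrix.map_mul (f := (σ : F4 →+* F4))
    show A.1 * ((k : Matrix (Fin 3 ⊕ Fin 3) (Fin 3 ⊕ Fin 3) F4) * N).map σ =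
      (k : Matrix (Fin 3 ⊕ Fin 3) (Fin 3 ⊕ Fin 3) F4) * N
    rw [h6, h5, ← mul_assoc, hk']

end Cfsg.Agent.S33
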