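import Mathlib
import Cfsg.Agent.S33.VDefs
import Cfsg.Agent.Cl.SpOrder

/-! The radical of the stabiliser of a plane. -/

set_option autoImplicit false
set_option linter.unusedSectionVars false
set_option maxRecDepth 100000
set_option synthInstance.maxSize 100000
set_option synthInstance.maxHeartbeats 1000000

namespace Cfsg.Agent.S33

open Cfsg Cfsg.Agent.Rec Cfsg.Agent.Spor Cfsg.Agent.Loc.Mss Cfsg.Agent.SF6 Cfsg.Agent.Ch Cfsg.Agent.Chev.CD Subgroup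
open scoped commutatorElement Matrix



theorem Bm_iff {K : Type*} [Field K] {A : Sp K} : A ∈ Bm K ↔ ∃ M, Mᵀ = M ∧ A.1 = Matrix.fromBlocks 1 M 0 1 := by
  rw [← Cl.sp_fix_frame_iff]
  exact ⟨fun h => ⟨A.2, h⟩, fun h => h.2⟩

theorem exists_Bm {K : Type*} [Field K] {M : Matrix (Fin 3) (Fin 3) K} (h : Mᵀ = M) :
    ∃ A ∈ Bm K, A.1 = Matrix.fromBlocks 1 M 0 1 := by
  have k := (Cl.sp_fix_frame_iff (Matrix.fromBlocks 1 M 0 1)).2 ⟨M, h, rfl⟩
  exact ⟨⟨_, k.1⟩, k.2, rfl⟩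

namespace VMatAux

theorem blk_sub {K : Type*} [Field K] (M : Matrix (Fin 3) (Fin 3) K) :
    (Matrix.fromBlocks 1 M 0 1 : Matrix (Fin 3 ⊕ Fin 3) (Fin 3 ⊕ Fin 3) K) - 1 = Matrix.fromBlocks 0 M 0 0 := by
  rw [sub_eq_iff_eq_add, ← Matrix.fromBlocks_one, Matrix.fromBlocks_add]
  simp

theorem nil_mul {K : Type*} [Field K] {A A' : Sp K} (h : A ∈ Bm K) (h' : A' ∈ Bm K) :
    (A.1 - 1) * (A'.1 - 1) = 0 := by
  obtain ⟨M, -, e⟩ := Bm_iff.1 h
  obtain ⟨M', -, e'⟩ := Bm_iff.1 h'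
  rw [e, e', blk_sub, blk_sub, Matrix.fromBlocks_multiply]
  simp

theorem exists_smul {K : Type*} [Field K] (k : K) (A : Sp K) :
    ∃ A' : Sp K, A ∈ Bm K → A' ∈ Bm K ∧ A'.1 = 1 + k • (A.1 - 1) := by
  by_cases h : A ∈ Bm K
  · obtain ⟨M, hM, e⟩ := Bm_iff.1 h
    obtain ⟨A', h1, h2⟩ := exists_Bm (M := k • M) (by rw [Matrix.transpose_smul, hM])
    refine ⟨A', fun _ => ⟨h1, ?_⟩⟩
    rw [h2, e, blk_sub, Matrix.fromBlocks_smul, ← Matrix.fromBlocks_one, Matrix.fromBlocks_add]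
    simp
  · exact ⟨1, fun k => (h k).elim⟩

theorem sp_coe_mul {K : Type*} [Field K] (A B : Sp K) : (A * B).1 = A.1 * B.1 := rfl

theorem coe_fr (A : Sp F4) : (fr A).1 = A.1.map star := rfl

/-- The plane spanned by the first three coordinate vectors. -/
def Pl (K : Type*) [Field K] : Submodule K (Fin 3 ⊕ Fin 3 → K) := Submodule.span K (Set.range (Cl.spStdFrame 3 K))

theorem fix_Pl {K : Type*} [Field K] {A : Sp K} (h : A ∈ Bm K) {v : Fin 3 ⊕ Fin 3 → K} (hv : v ∈ Pl K) :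
    A.1 *ᵥ v = v := by
  induction hv using Submodule.span_induction with
  | mem x hx => obtain ⟨i, rfl⟩ := hx; exact h i
  | zero => exact Matrix.mulVec_zero _
  | add x y _ _ hx hy => rw [Matrix.mulVec_add, hx, hy]
  | smul a x _ hx => rw [Matrix.mulVec_smul, hx]

/-- The stabiliser of the plane. -/
def St (K : Type*) [Field K] : Subgroup (Sp K) where
  carrier := {A | ∀ v, v ∈ Pl K ↔ A.1 *ᵥ v ∈ Pl K}
  one_mem' v := by
    show _ ↔ (1 : Matrix _ _ K) *ᵥ v ∈ _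
    rw [Matrix.one_mulVec]
  mul_mem' := fun {A B} hA hB v => by rw [Cl.sp_mul_mulVec, ← hA, ← hB]
  inv_mem' := fun {A} hA v => by rw [hA (A⁻¹.1 *ᵥ v), Cl.sp_mulVec_inv_mulVec]

theorem St_conj {K : Type*} [Field K] {D A : Sp K} (hD : D ∈ St K) (h : A ∈ Bm K) : D * A * D⁻¹ ∈ Bm K := by
  intro i
  have h1 : D⁻¹.1 *ᵥ Pi.single (.inl i) 1 ∈ Pl K :=
    ((St K).inv_mem hD _).1 (Submodule.subset_span ⟨i, rfl⟩)
  rw [Cl.sp_mul_mulVec, Cl.sp_mul_mulVec, fix_Pl h h1, Cl.sp_mulVec_inv_mulVec]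

theorem St_le {K : Type*} [Field K] : St K ≤ 𝐍[Bm K] := by
  intro D hD
  rw [mem_normalizer_iff]
  refine fun A => ⟨St_conj hD, fun h => ?_⟩
  have := St_conj ((St K).inv_mem hD) h
  rwa [show D⁻¹ * (D * A * D⁻¹) * D⁻¹⁻¹ = A by group] at this

theorem card_St' {K : Type*} [Field K] [Finite K] : Nat.card (St K) = Nat.card K ^ (3 ^ 2 - Nat.choose 3 2) *
    (∏ i ∈ Finset.range (3 - 3), (Nat.card K ^ (2 * (i + 1)) - 1)) *
    ∏ i : Fin 3, (Nat.card K ^ 3 - Nat.card K ^ (i : ℕ)) := by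
  have hf := Cl.spStdFrame_mem (F := K) 3
  have h := Cl.sp_card_stab_iso (Cl.spB_nondegenerate (m := 3) (R := K)) Cl.spB_isAlt (m := 3)
    Cl.sp_finrank_std le_rfl (Pl K) (by rw [Pl, finrank_span_eq_card hf.1]; exact Fintype.card_fin 3)
    (Cl.sp_span_isotropic hf.2)
    ((St K).map (Cl.spStdEquiv 3 K).toMonoidHom) (by
      intro g
      rw [mem_map_equiv]
      show (∀ v, v ∈ Pl K ↔ ((Cl.spStdEquiv 3 K).symm g).1 *ᵥ v ∈ Pl K) ↔ _
      simp only [Cl.spStdEquiv_symm_mulVec])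
  rwa [card_map_of_injective (Cl.spStdEquiv 3 K).injective] at h

theorem ncard_F4 : Nat.card F4 = 4 := by rw [Nat.card_eq_fintype_card, card_F4]

theorem card_St : Nat.card (St F4) = 4 ^ 6 * (63 * 60 * 48) := by
  rw [card_St', ncard_F4]
  decide +kernel

theorem index_St : (St F4).index = 5525 := by
  have h := (St F4).index_mul_card
  rw [card_St, Cl.sp_card_std, ncard_F4] at h
  have e : 4 ^ 3 ^ 2 * ∏ i ∈ Finset.range 3, (4 ^ (2 * (i + 1)) - 1) = 5525 * (4 ^ 6 * (63 * 60 * 48)) := by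
    decide +kernel
  exact Nat.eq_of_mul_eq_mul_right (by norm_num) (h.trans e)

end VMatAux

open VMatAux

theorem Bm_sq {A : Sp F4} (h : A ∈ Bm F4) : A * A = 1 := by
  obtain ⟨M, -, e⟩ := Bm_iff.1 h
  refine Subtype.ext ?_
  rw [sp_coe_mul, e, Matrix.fromBlocks_multiply]
  have : M + M = 0 := Matrix.ext fun i j => Lam.add_self _
  simp [this]

theorem fr_Bm {A : Sp F4} (h : A ∈ Bm F4) : fr A ∈ Bm F4 := by
  intro i
  funext j
  have := congrArg star (congrFun (h i) j)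
  rw [Matrix.mulVec_single_one] at this ⊢
  refine this.trans ?_
  by_cases e : j = .inl i
  · subst e; simp
  · simp [Pi.single_eq_of_ne e]

theorem exists_om : ∃ o : Sp F4 → Sp F4, (∀ A ∈ Bm F4, o A ∈ Bm F4) ∧
    (∀ A ∈ Bm F4, ∀ A' ∈ Bm F4, o (A * A') = o A * o A') ∧ (∀ A ∈ Bm F4, fr (o A) = o (fr A) * fr A) ∧
    ∀ D, ∀ A ∈ Bm F4, D * A * D⁻¹ ∈ Bm F4 → o (D * A * D⁻¹) = D * o A * D⁻¹ := by
  choose o ho using exists_smul (om 1 : F4)
  refine ⟨o, fun A h => (ho A h).1, fun A h A' h' => Subtype.ext ?_, fun A h => Subtype.ext ?_,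
    fun D A h h' => Subtype.ext ?_⟩
  · have k := nil_mul h h'
    rw [(ho _ (mul_mem h h')).2, sp_coe_mul, sp_coe_mul, (ho _ h).2, (ho _ h').2]
    have e : A.1 * A'.1 - 1 = (A.1 - 1) + (A'.1 - 1) + (A.1 - 1) * (A'.1 - 1) := by noncomm_ring
    rw [e, k, add_zero]
    generalize A.1 - 1 = N at k ⊢
    generalize A'.1 - 1 = N' at k ⊢
    simp only [add_mul, mul_add, one_mul, mul_one, smul_mul_assoc, mul_smul_comm, k, smul_zero, add_zero, smul_add]
    abel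
  · have k := nil_mul (fr_Bm h) (fr_Bm h)
    have e1 : (fr (o A)).1 = 1 + (1 + om 1 : F4) • ((fr A).1 - 1) := by
      refine Matrix.ext fun i j => ?_
      rw [fr_apply, (ho _ h).2, ← star_om]
      by_cases e : i = j
      · subst e; simp [fr_apply]
      · simp [fr_apply, Matrix.one_apply_ne e]
    rw [e1, sp_coe_mul, (ho _ (fr_Bm h)).2]
    have e : (fr A).1 = 1 + ((fr A).1 - 1) := by abel
    generalize (fr A).1 - 1 = N at k e ⊢
    rw [e]
    simp only [add_mul, mul_add, one_mul, mul_one, smul_mul_assoc, k, smul_zero, add_zero, add_smul, one_smul]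
    abel
  · have e : D.1 * D⁻¹.1 = 1 := by rw [← sp_coe_mul, mul_inv_cancel]; rfl
    rw [(ho _ h').2, sp_coe_mul, sp_coe_mul, sp_coe_mul, sp_coe_mul, (ho _ h).2]
    simp only [add_mul, mul_add, mul_one, smul_mul_assoc, mul_smul_comm, e, mul_sub, sub_mul]

theorem exists_syl : ∃ S : Subgroup (Sp F4), Syl 2 S ⊤ ∧ S ≤ 𝐍[Bm F4] := by
  obtain ⟨S, hS⟩ := Syl.exists 2 (St F4)
  refine ⟨S, ⟨le_top, hS.pg, fun h => ?_⟩, hS.le.trans St_le⟩
  rw [← relIndex_mul_relIndex S (St F4) ⊤ hS.le le_top, relIndex_top_right, index_St] at h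
  rcases (Nat.prime_two.dvd_mul).1 h with h | h
  · exact hS.nd h
  · exact absurd h (by decide)

end Cfsg.Agent.S33
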