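import Mathlib
import Cfsg.Agent.S33.VBas

/-! The hats of the involutions of `L3` normalise `B`. -/

set_option autoImplicit false
set_option linter.unusedSectionVars false
set_option maxRecDepth 100000
set_option synthInstance.maxSize 100000
set_option synthInstance.maxHeartbeats 1000000

namespace Cfsg.Agent.S33

open Cfsg Cfsg.Agent.Rec Cfsg.Agent.Spor Cfsg.Agent.Loc.Mss Cfsg.Agent.SF6 Cfsg.Agent.Ch Cfsg.Agent.Chev.CD Subgroup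
open scoped commutatorElement Matrix

variable {G : Type*} [Group G] [Finite G] {s : Cfg G} {B : Subgroup G} {h : G → G}

/-- An involution moving `V6` into `B` and `t` into `N(B)` normalises `B`. -/
theorem VNB_norm (hB : s.Big s.V6 B) {R : G} (hR : R * R = 1) (hV : ∀ u ∈ s.V6, R * u * R⁻¹ ∈ B)
    (hn : R * s.t * R⁻¹ ∈ 𝐍[B]) : R ∈ 𝐍[B] := by
  have Ri : R⁻¹ = R := inv_eq_of_mul_eq_one_right hR
  have RR : ∀ x, R * (R * x) = x := fun x => by rw [← mul_assoc, hR, one_mul]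
  have cV : ∀ e ∈ B, ∀ u ∈ s.V6, R * e * R⁻¹ * u = u * (R * e * R⁻¹) := fun e he u hu => by
    have k := s.big_comm hB he (hV u hu)
    rw [Ri] at k ⊢
    calc R * e * R * u = R * (e * (R * u * R)) * R := by simp only [mul_assoc, hR, mul_one]
      _ = u * (R * e * R) := by rw [k]; simp only [mul_assoc, RR]
  have kW : ∀ e ∈ B, R * e * R⁻¹ ∈ s.W → R * e * R⁻¹ ∈ s.V6 := fun e he hw => by
    refine (s.memW.1 hw).resolve_right fun k => ?_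
    have k1 := mul_mem (hV _ k) (inv_mem he)
    have e1 : R * (R * (s.t * (R * e * R⁻¹)) * R⁻¹ * e⁻¹) * R⁻¹ = s.t := by
      rw [Ri]; simp only [mul_assoc, RR, hR, mul_one, mul_inv_cancel_left]
    exact s.big_nD hB s.les.2.2.2.1 k1 R (e1.symm ▸ s.tD)
  refine mem_norm_of_cj_le (cj_le_iff.2 fun e he => ?_)
  have hm : R * s.t * R⁻¹ * e * (R * s.t * R⁻¹)⁻¹ * e⁻¹ ∈ B := mul_mem (conj_mem_of_norm hn he) (inv_mem he)
  have e1 : R * (R * s.t * R⁻¹ * e * (R * s.t * R⁻¹)⁻¹ * e⁻¹) * R⁻¹ =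
      s.t * (R * e * R⁻¹ * s.t * (R * e * R⁻¹)⁻¹) := by
    simp only [mul_inv_rev, Ri, inv_eq_of_mul_eq_one_right s.tt, mul_assoc, RR]
  have m2 : s.t * (R * e * R⁻¹ * s.t * (R * e * R⁻¹)⁻¹) * (s.t * (R * e * R⁻¹ * s.t * (R * e * R⁻¹)⁻¹)) = 1 := by
    rw [← e1, conj_mul, hB.sq _ hm, mul_one, mul_inv_cancel]
  have e2 : R * e * R⁻¹ * (R * e * R⁻¹) = 1 := by rw [conj_mul, hB.sq _ he, mul_one, mul_inv_cancel]
  have hv : s.t * (R * e * R⁻¹ * s.t * (R * e * R⁻¹)⁻¹) ∈ s.V6 := by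
    have k := kW _ hm (s.centW (cV _ hm) ?_)
    · rwa [e1] at k
    · rw [e1]
      generalize R * e * R⁻¹ = f at m2 ⊢
      have d2 : f * s.t * f⁻¹ * (f * s.t * f⁻¹) = 1 := by rw [conj_mul, s.tt, mul_one, mul_inv_cancel]
      generalize f * s.t * f⁻¹ = d at m2 d2 ⊢
      rw [s.tmul]
      calc s.t * d * s.t = s.t * d * (s.t * d) * d := by rw [mul_assoc, mul_assoc, mul_assoc, mul_assoc, d2, mul_one]
        _ = d := by rw [m2, one_mul]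
  have hΦ : R * e * R⁻¹ ∈ s.Φ (s.t * (R * e * R⁻¹ * s.t * (R * e * R⁻¹)⁻¹)) := ⟨cV e he, (s.tmul _).symm⟩
  by_cases h1 : s.t * (R * e * R⁻¹ * s.t * (R * e * R⁻¹)⁻¹) = 1
  · rw [h1] at hΦ
    exact hB.le (kW e he (s.Φ_one.1 hΦ))
  · exact hB.max _ hv h1 _ hΦ e2

theorem Ht.normB (hh : Ht s.toPre B h) (hB : s.Big s.V6 B) {c : ℕ} (hc : ⁅h s.r, s.x2⁆ = h s.y * h s.x1 * s.x1 ^ c) :
    h s.r ∈ 𝐍[B] ∧ h s.c ∈ 𝐍[B] ∧ h s.d ∈ 𝐍[B] := by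
  have k : s.r ∈ s.K2 ∧ s.x1 * s.r = s.r * s.x1 ∧ s.x3 * s.r = s.r * s.x3 ∧ s.y * s.r = s.r * s.y ∧
      s.a * s.r = s.r * s.a ∧ s.b * s.r * s.b⁻¹ = s.r * s.a ∧ s.x1 ∈ s.V6 ∧ s.x2 ∈ s.V6 ∧ s.x3 ∈ s.V6 ∧
      s.y ∈ s.V6 ∧ s.a ∈ s.V6 ∧ s.b ∈ s.V6 ∧ s.y ∈ s.K2 ∧ s.a ∈ s.K2 ∧ s.r * s.t ∈ s.T ∧ s.b * s.b = 1 ∧
      s.d * s.m * s.d ∈ s.L3 ∧ s.r * s.n * s.r ∈ s.L3 ∧ s.c ∈ s.K2 ∧
      s.d * s.m * s.d * s.r * (s.d * s.m * s.d)⁻¹ = s.c ∧ s.r * s.n * s.r * s.c * (s.r * s.n * s.r)⁻¹ = s.d :=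
    s.hL.decide s.rep (by decide +kernel)
  obtain ⟨rK, c1, c3, cy, ca, br, v1, v2, v3, vy, va, vb, yK, aK, rt, bb, l1, l2, cK, q1, q2⟩ := k
  have hR := hh.sq hB (.inr rK)
  have Ri : (h s.r)⁻¹ = h s.r := inv_eq_of_mul_eq_one_right hR
  have fx : ∀ u ∈ s.V6, u * s.r = s.r * u → h s.r * u * (h s.r)⁻¹ ∈ B := fun u hu e => by
    rw [← hh.cm (.inr rK) (s.V6_le hu) e, mul_inv_cancel_right]
    exact hB.le hu
  have hr : h s.r ∈ 𝐍[B] := by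
    refine VNB_norm hB hR (conj_clos_mem ?_) ?_
    · simp only [List.forall_mem_cons, List.not_mem_nil, false_imp_iff, implies_true, and_true]
      refine ⟨fx _ v1 c1, ?_, fx _ v3 c3, fx _ vy cy, fx _ va ca, ?_⟩
      · have e : h s.r * s.x2 * (h s.r)⁻¹ = ⁅h s.r, s.x2⁆ * s.x2 := by
          rw [commutatorElement_def, inv_mul_cancel_right]
        rw [e, hc]
        exact mul_mem (mul_mem (mul_mem (hh.memB hB (.inr yK) vy).1 hh.mem) (pow_mem (hB.le v1) _)) (hB.le v2)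
      · have e := hh.eqv _ (s.V6_le vb) _ (.inr rK)
        rw [br, (hh.facts hB).1] at e
        have e' : h s.r * s.b * (h s.r)⁻¹ = h s.a * s.b := by
          calc h s.r * s.b * (h s.r)⁻¹ = h s.r * (s.b * h s.r * s.b⁻¹) * s.b := by rw [Ri]; group
            _ = h s.a * s.b := by rw [← e, ← mul_assoc, hR, one_mul]
        rw [e']
        exact mul_mem (hh.memB hB (.inr aK) va).1 (hB.le vb)
    · have e : h s.r * s.t * (h s.r)⁻¹ = s.r * s.t := by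
        calc h s.r * s.t * (h s.r)⁻¹ = h s.r * (s.t * h s.r * s.t⁻¹) * s.t := by rw [Ri]; group
          _ = s.r * s.t := by rw [hh.tac hB (.inr rK), ← mul_assoc, hR, one_mul]
      rw [e]
      exact s.big_T hB le_rfl rt
  have cj : ∀ l ∈ s.L3, ∀ u ∈ s.K2, h u ∈ 𝐍[B] → h (l * u * l⁻¹) ∈ 𝐍[B] := fun l hl u hu hn => by
    rw [hh.eqv l (s.L3_le hl) u (.inr hu)]
    have k := hB.norm (s.les.2.2.1 hl)
    exact mul_mem (mul_mem k hn) (inv_mem k)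
  have hc' : h s.c ∈ 𝐍[B] := q1 ▸ cj _ l1 _ rK hr
  exact ⟨hr, hc', q2 ▸ cj _ l2 _ cK hc'⟩

end Cfsg.Agent.S33
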