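import Mathlib
import Cfsg.Agent.S33.VBas

/-! Relations inside the centraliser of `V5`. -/

set_option autoImplicit false
set_option linter.unusedSectionVars false
set_option maxRecDepth 100000
set_option synthInstance.maxSize 100000
set_option synthInstance.maxHeartbeats 1000000

namespace Cfsg.Agent.S33

open Cfsg Cfsg.Agent.Rec Cfsg.Agent.Spor Cfsg.Agent.Loc.Mss Cfsg.Agent.SF6 Cfsg.Agent.Ch Cfsg.Agent.Chev.CD Subgroup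
open scoped commutatorElement Matrix

variable {G : Type*} [Group G] [Finite G] {s : Cfg G} {B : Subgroup G} {h : G → G}

namespace VR1

theorem mems (s : Pre G) : s.x1 ∈ s.K1 ∧ s.y ∈ s.K2 ∧ s.r ∈ s.K2 ∧ s.x1 * s.y * s.r ∈ s.K2 ∧ s.w2 ∈ s.K1 ∧
    s.x1 ∈ s.V6 ∧ s.y ∈ s.V6 ∧ s.x1 ∈ s.V5 ∧ s.y ∈ s.V5 ∧ s.r ∈ s.V5 ∧ s.x2 ∈ s.U ∧ s.x1 ≠ 1 ∧ s.y ≠ 1 :=
  s.hL.decide s.rep (by decide +kernel)

theorem v5 (s : Pre G) : (∀ u ∈ s.V5, ∀ v ∈ s.V5, u * v = v * u) ∧ (∀ v ∈ s.V5, v * v = 1) ∧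
    (∀ v ∈ s.V5, s.x2 * v * s.x2⁻¹ ∈ s.V5) ∧
    (∀ v ∈ s.V5, s.x2 * v * s.x2⁻¹ = v → s.x2 * s.w2 * s.x2 * v * (s.x2 * s.w2 * s.x2)⁻¹ = v →
      s.x3 * v * s.x3⁻¹ = v → s.w3 * v * s.w3⁻¹ = v → v = 1 ∨ v = s.x1) ∧
    (∀ v ∈ s.V5, s.x2 * v * s.x2⁻¹ = v → s.w2 * v * s.w2⁻¹ = v →
      s.x3 * v * s.x3⁻¹ = v → s.w3 * v * s.w3⁻¹ = v → v = 1 ∨ v = s.x1) :=
  s.hL.decide s.rep (by decide +kernel)

theorem acts (s : Pre G) :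
    (s.x2 * s.x1 * s.x2⁻¹ = s.x1 ∧ s.x2 * s.y * s.x2⁻¹ = s.y ∧ s.x2 * s.r * s.x2⁻¹ = s.x1 * s.y * s.r ∧
      s.x2 * (s.x1 * s.y * s.r) * s.x2⁻¹ = s.r) ∧
    (s.w2 * s.x1 * s.w2⁻¹ = s.x1 ∧ s.w2 * s.y * s.w2⁻¹ = s.x1 * s.y * s.r ∧ s.w2 * s.r * s.w2⁻¹ = s.r ∧
      s.w2 * (s.x1 * s.y * s.r) * s.w2⁻¹ = s.y) ∧
    (s.x3 * s.x1 * s.x3⁻¹ = s.x1 ∧ s.x3 * s.y * s.x3⁻¹ = s.y ∧ s.x3 * s.r * s.x3⁻¹ = s.r ∧
      s.x3 * (s.x1 * s.y * s.r) * s.x3⁻¹ = s.x1 * s.y * s.r) ∧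
    (s.w3 * s.x1 * s.w3⁻¹ = s.x1 ∧ s.w3 * s.y * s.w3⁻¹ = s.y ∧ s.w3 * s.r * s.w3⁻¹ = s.r ∧
      s.w3 * (s.x1 * s.y * s.r) * s.w3⁻¹ = s.x1 * s.y * s.r) ∧
    s.x2 * s.x2 = 1 ∧ s.y * (s.r * (s.x1 * s.y * s.r)) = s.x1 :=
  s.hL.decide s.rep (by decide +kernel)

theorem cent_V5 (s : Pre G) {g : G} (hg : g ∈ s.L) (h : g ∈ centralizer (s.V5 : Set G)) : g ∈ s.V5 := by
  have k1 : ∀ k ∈ s.P2, s.x1 * k = k * s.x1 → s.a * k = k * s.a → s.c * k = k * s.c → s.r * k = k * s.r →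
      k ∈ s.V5 := s.hL.decide s.rep (by decide +kernel)
  rw [mem_centralizer_iff] at h
  refine k1 g (s.cent_y hg (h _ ?_).symm) (h _ ?_) (h _ ?_) (h _ ?_) (h _ ?_) <;> exact mem_clos (by simp)

theorem V5_le (s : Pre G) : s.V5 ≤ s.L := s.les.2.2.2.2.2.2.2.2.2.2.2.2.2.trans s.U_le

theorem K1_le (s : Pre G) {u : G} (hu : u ∈ s.K1) : u ∈ s.L := by
  obtain ⟨l, hl, rfl⟩ := hu
  have : s.x1 ∈ s.L := s.V6_le (mems s).2.2.2.2.2.1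
  exact mul_mem (mul_mem hl this) (inv_mem hl)

theorem t_mem (s : Pre G) : s.t ∈ centralizer (s.V5 : Set G) :=
  mem_centralizer_iff.2 fun _ hv => s.t_comm (V5_le s hv)

/-- An element of `C(V5) ∩ C(t)` fixed or inverted by an element moving `t` lies in `V5`. -/
theorem memV5 (s : Cfg G) {g e u : G} (hg : g ∈ centralizer (s.V5 : Set G)) (ht : s.t * g * s.t⁻¹ = g)
    (he : e ∈ centralizer (s.V5 : Set G)) (het : e * s.t * e⁻¹ = s.t * u) (hu : u ≠ 1)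
    (hge : e * g * e⁻¹ = g ∨ e * g * e⁻¹ = g⁻¹) : g ∈ s.V5 := by
  rcases s.cent g (by rw [mul_inv_eq_iff_eq_mul] at ht; exact ht.symm) with k | k
  · exact cent_V5 s.toPre k hg
  exfalso
  have hv := cent_V5 s.toPre k (mul_mem (t_mem s.toPre) hg)
  set v := s.t * g with hvd
  have e1 : g = s.t * v := by rw [hvd, ← mul_assoc, s.tt, one_mul]
  have e2 : g⁻¹ = g := by
    refine inv_eq_of_mul_eq_one_right ?_
    calc g * g = s.t * (v * s.t) * v := by rw [e1]; group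
      _ = s.t * s.t * (v * v) := by rw [s.t_comm (V5_le s.toPre hv)]; group
      _ = 1 := by rw [s.tt, (v5 s.toPre).2.1 v hv, one_mul]
  have e3 : e * g * e⁻¹ = g := hge.elim id fun k => k.trans e2
  have e4 : v * e = e * v := mem_centralizer_iff.1 he v hv
  have e5 : s.t * u * v = s.t * v := by
    calc s.t * u * v = e * s.t * e⁻¹ * (v * e) * e⁻¹ := by rw [het]; group
      _ = e * (s.t * v) * e⁻¹ := by rw [e4]; group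
      _ = s.t * v := by rw [← e1, e3]
  exact hu (by simpa using e5)

theorem memF (hh : Ht s.toPre B h) {u : G} (hu : u ∈ s.K1 ∨ u ∈ s.K2) (hv : u ∈ s.V5) :
    h u ∈ centralizer (s.V5 : Set G) :=
  mem_centralizer_iff.2 fun v k => hh.cm hu (V5_le s.toPre k) ((v5 s.toPre).1 v k u hv)

theorem ct (hh : Ht s.toPre B h) (hB : s.Big s.V6 B) {u : G} (hu : u ∈ s.K1 ∨ u ∈ s.K2) (hv : u ∈ s.V5) :
    h u * s.t * (h u)⁻¹ = s.t * u := by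
  have e1 := hh.tac hB hu
  have e2 := hh.sq hB hu
  have e3 : u * h u = h u * u := mem_centralizer_iff.1 (memF hh hu hv) u hv
  have e4 : s.t⁻¹ = s.t := inv_eq_of_mul_eq_one_right s.tt
  calc h u * s.t * (h u)⁻¹ = s.t⁻¹ * (s.t * h u * s.t⁻¹) * (s.t * s.t) * (h u)⁻¹ := by group
    _ = s.t * (u * h u) * (h u)⁻¹ := by rw [e1, s.tt, e4, e3, mul_one]
    _ = s.t * u := by group

theorem comm_mul {a b u v : G} (h1 : u * b = b * u) (h2 : u * v = v * u) (h3 : v * a = a * v) :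
    ⁅a * u, b * v⁆ = ⁅a, b⁆ := by
  simp only [commutatorElement_def]
  calc a * u * (b * v) * (a * u)⁻¹ * (b * v)⁻¹ = a * (u * b) * v * u⁻¹ * a⁻¹ * v⁻¹ * b⁻¹ := by group
    _ = a * b * (u * v) * u⁻¹ * a⁻¹ * v⁻¹ * b⁻¹ := by rw [h1]; group
    _ = a * b * v * a⁻¹ * v⁻¹ * a * a⁻¹ * b⁻¹ := by rw [h2]; group
    _ = a * b * a⁻¹ * (a * v) * a⁻¹ * v⁻¹ * b⁻¹ := by group
    _ = a * b * a⁻¹ * b⁻¹ := by rw [← h3]; group

theorem conj_comm (g a b : G) : g * ⁅a, b⁆ * g⁻¹ = ⁅g * a * g⁻¹, g * b * g⁻¹⁆ := by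
  simp only [commutatorElement_def]; group

theorem conj_cm {g a b a' b' : G} (e : a * b = b * a) (ha : g * a * g⁻¹ = a') (hb : g * b * g⁻¹ = b') :
    a' * b' = b' * a' := by
  rw [← ha, ← hb]
  calc g * a * g⁻¹ * (g * b * g⁻¹) = g * (a * b) * g⁻¹ := by group
    _ = _ := by rw [e]; group

/-- Action of the letters on the four hats. -/
theorem hacts (hh : Ht s.toPre B h) :
    (s.x2 * h s.x1 * s.x2⁻¹ = h s.x1 ∧ s.x2 * h s.y * s.x2⁻¹ = h s.y ∧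
      s.x2 * h s.r * s.x2⁻¹ = h (s.x1 * s.y * s.r) ∧ s.x2 * h (s.x1 * s.y * s.r) * s.x2⁻¹ = h s.r) ∧
    (s.w2 * h s.x1 * s.w2⁻¹ = h s.x1 ∧ s.w2 * h s.y * s.w2⁻¹ = h (s.x1 * s.y * s.r) ∧
      s.w2 * h s.r * s.w2⁻¹ = h s.r ∧ s.w2 * h (s.x1 * s.y * s.r) * s.w2⁻¹ = h s.y) ∧
    (s.x3 * h s.x1 * s.x3⁻¹ = h s.x1 ∧ s.x3 * h s.y * s.x3⁻¹ = h s.y ∧ s.x3 * h s.r * s.x3⁻¹ = h s.r ∧
      s.x3 * h (s.x1 * s.y * s.r) * s.x3⁻¹ = h (s.x1 * s.y * s.r)) ∧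
    (s.w3 * h s.x1 * s.w3⁻¹ = h s.x1 ∧ s.w3 * h s.y * s.w3⁻¹ = h s.y ∧ s.w3 * h s.r * s.w3⁻¹ = h s.r ∧
      s.w3 * h (s.x1 * s.y * s.r) * s.w3⁻¹ = h (s.x1 * s.y * s.r)) := by
  obtain ⟨m1, m2, m3, m4, m5, -, -, -, -, -, m6, -⟩ := mems s.toPre
  obtain ⟨⟨a1, a2, a3, a4⟩, ⟨b1, b2, b3, b4⟩, ⟨c1, c2, c3, c4⟩, ⟨d1, d2, d3, d4⟩, -⟩ := acts s.toPre
  have l1 : s.x2 ∈ s.L := s.U_le m6
  have l2 : s.w2 ∈ s.L := K1_le s.toPre m5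
  have l3 : s.x3 ∈ s.L := mem_clos (by simp)
  have l4 : s.w3 ∈ s.L := mem_clos (by simp)
  refine ⟨⟨?_, ?_, ?_, ?_⟩, ⟨?_, ?_, ?_, ?_⟩, ⟨?_, ?_, ?_, ?_⟩, ⟨?_, ?_, ?_, ?_⟩⟩
  · rw [← hh.eqv _ l1 _ (.inl m1), a1]
  · rw [← hh.eqv _ l1 _ (.inr m2), a2]
  · rw [← hh.eqv _ l1 _ (.inr m3), a3]
  · rw [← hh.eqv _ l1 _ (.inr m4), a4]
  · rw [← hh.eqv _ l2 _ (.inl m1), b1]
  · rw [← hh.eqv _ l2 _ (.inr m2), b2]
  · rw [← hh.eqv _ l2 _ (.inr m3), b3]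
  · rw [← hh.eqv _ l2 _ (.inr m4), b4]
  · rw [← hh.eqv _ l3 _ (.inl m1), c1]
  · rw [← hh.eqv _ l3 _ (.inr m2), c2]
  · rw [← hh.eqv _ l3 _ (.inr m3), c3]
  · rw [← hh.eqv _ l3 _ (.inr m4), c4]
  · rw [← hh.eqv _ l4 _ (.inl m1), d1]
  · rw [← hh.eqv _ l4 _ (.inr m2), d2]
  · rw [← hh.eqv _ l4 _ (.inr m3), d3]
  · rw [← hh.eqv _ l4 _ (.inr m4), d4]

theorem core (hh : Ht s.toPre B h) (hB : s.Big s.V6 B) :
    h s.y * h s.r = h s.r * h s.y ∧ ∃ v ∈ s.V5, h s.y * h s.r * h (s.x1 * s.y * s.r) = v * h s.x1 := by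
  obtain ⟨m1, m2, m3, m4, -, n1, n2, p1, p2, p3, -, q1, q2⟩ := mems s.toPre
  obtain ⟨ab, sq, nx, dk, -⟩ := v5 s.toPre
  obtain ⟨⟨a1, a2, a3, a4⟩, ⟨b1, b2, b3, b4⟩, ⟨-, c2, c3, -⟩, ⟨-, d2, d3, -⟩⟩ := hacts hh
  obtain ⟨-, ⟨w1, -⟩, -, -, x22, yr⟩ := acts s.toPre
  have p4 : s.x1 * s.y * s.r ∈ s.V5 := mul_mem (mul_mem p1 p2) p3
  have fX := memF hh (.inl m1) p1
  have fY := memF hh (.inr m2) p2
  have fR := memF hh (.inr m3) p3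
  have fH := memF hh (.inr m4) p4
  have sX := hh.sq hB (.inl m1)
  have sY := hh.sq hB (.inr m2)
  have sR := hh.sq hB (.inr m3)
  have sH := hh.sq hB (.inr m4)
  have tX := hh.tac hB (.inl m1)
  have tY := hh.tac hB (.inr m2)
  have tR := hh.tac hB (.inr m3)
  have tH := hh.tac hB (.inr m4)
  have cX := ct hh hB (.inl m1) p1
  have cY := ct hh hB (.inr m2) p2
  have XY : h s.x1 * h s.y = h s.y * h s.x1 :=
    comm_of_sq2 hB.sq (hh.memB hB (.inl m1) n1).1 (hh.memB hB (.inr m2) n2).1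
  set X := h s.x1
  set Y := h s.y
  set R := h s.r
  set H := h (s.x1 * s.y * s.r)
  have cF : ∀ {g v : G}, g ∈ centralizer (s.V5 : Set G) → v ∈ s.V5 → v * g = g * v :=
    fun hg hv => mem_centralizer_iff.1 hg _ hv
  have iY : Y⁻¹ = Y := inv_eq_of_mul_eq_one_right sY
  have iR : R⁻¹ = R := inv_eq_of_mul_eq_one_right sR
  have iH : H⁻¹ = H := inv_eq_of_mul_eq_one_right sH
  have XH : X * H = H * X := conj_cm XY b1 b2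
  have XR : X * R = R * X := conj_cm XH a1 a4
  -- the commutator `k`
  have kF : ⁅Y, R⁆ ∈ centralizer (s.V5 : Set G) :=
    mul_mem (mul_mem (mul_mem fY fR) (inv_mem fY)) (inv_mem fR)
  have kt : s.t * ⁅Y, R⁆ * s.t⁻¹ = ⁅Y, R⁆ := by
    rw [conj_comm, tY, tR]
    exact comm_mul (cF fR p2) (ab _ p2 _ p3) (cF fY p3)
  have kY : Y * ⁅Y, R⁆ * Y⁻¹ = ⁅Y, R⁆⁻¹ := by
    simp only [commutatorElement_def]
    calc Y * (Y * R * Y⁻¹ * R⁻¹) * Y⁻¹ = (Y * Y) * R * Y⁻¹ * R⁻¹ * Y⁻¹ := by group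
      _ = R * Y * R⁻¹ * Y⁻¹ := by rw [sY, one_mul, iY]
      _ = _ := by group
  have kV : ⁅Y, R⁆ ∈ s.V5 := memV5 s kF kt fY cY q2 (.inr kY)
  have ki : ⁅Y, R⁆⁻¹ = ⁅Y, R⁆ := inv_eq_of_mul_eq_one_right (sq _ kV)
  -- the product `z`
  have zF : Y * R * H * X ∈ centralizer (s.V5 : Set G) := mul_mem (mul_mem (mul_mem fY fR) fH) fX
  have zt : s.t * (Y * R * H * X) * s.t⁻¹ = Y * R * H * X := by
    calc s.t * (Y * R * H * X) * s.t⁻¹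
        = (s.t * Y * s.t⁻¹) * (s.t * R * s.t⁻¹) * (s.t * H * s.t⁻¹) * (s.t * X * s.t⁻¹) := by group
      _ = Y * (s.y * R) * (s.r * H) * (s.x1 * s.y * s.r) * X * s.x1 := by rw [tY, tR, tH, tX]; group
      _ = Y * R * (s.y * H) * s.r * (s.x1 * s.y * s.r) * X * s.x1 := by rw [cF fR p2, cF fH p3]; group
      _ = Y * R * H * (s.y * (s.r * (s.x1 * s.y * s.r)) * X) * s.x1 := by rw [cF fH p2]; group
      _ = Y * R * H * X * (s.x1 * s.x1) := by rw [yr, cF fX p1]; group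
      _ = _ := by rw [sq _ p1, mul_one]
  have zX : X * (Y * R * H * X) * X⁻¹ = Y * R * H * X := by
    calc X * (Y * R * H * X) * X⁻¹ = (X * Y) * R * H := by group
      _ = Y * (X * R) * H := by rw [XY]; group
      _ = Y * R * (X * H) := by rw [XR]; group
      _ = _ := by rw [XH]; group
  have zV : Y * R * H * X ∈ s.V5 := memV5 s zF zt fX cX q1 (.inl zX)
  set v := Y * R * H * X with hv
  have ez : Y * R * H = v * X := by rw [hv, mul_assoc _ X X, sX, mul_one]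
  refine ⟨?_, v, zV, ez⟩
  have zY : Y * (R * H) = R * H * Y := by
    have : Y * (Y * R * H) = Y * R * H * Y := by
      rw [ez]
      calc Y * (v * X) = (Y * v) * X := by group
        _ = v * (Y * X) := by rw [← cF fY zV]; group
        _ = _ := by rw [← XY]; group
    have e : Y * (Y * (R * H)) = Y * (R * H * Y) := by simpa only [mul_assoc] using this
    exact mul_left_cancel e
  have z2 : R * H * (R * H) = 1 := by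
    calc R * H * (R * H) = (Y * Y) * (R * H) * (R * H) := by rw [sY, one_mul]
      _ = Y * (Y * (R * H)) * (R * H) := by group
      _ = (Y * R * H) * (Y * R * H) := by rw [zY]; group
      _ = v * (X * v) * X := by rw [ez]; group
      _ = (v * v) * (X * X) := by rw [← cF fX zV]; group
      _ = 1 := by rw [sq _ zV, sX, one_mul]
  have kx : s.x2 * ⁅Y, R⁆ * s.x2⁻¹ = ⁅Y, H⁆ := by rw [conj_comm, a2, a3]
  have k'V : ⁅Y, H⁆ ∈ s.V5 := kx ▸ nx _ kV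
  have kk : ⁅Y, R⁆ * ⁅Y, H⁆ = 1 := by
    calc ⁅Y, R⁆ * ⁅Y, H⁆ = ⁅Y, R⁆ * (⁅Y, H⁆ * R) * R⁻¹ := by group
      _ = ⁅Y, R⁆ * (R * ⁅Y, H⁆) * R⁻¹ := by rw [cF fR k'V]
      _ = Y * (R * H) * Y⁻¹ * (R * H)⁻¹ := by simp only [commutatorElement_def]; group
      _ = 1 := by rw [zY]; group
  have k1 : s.x2 * ⁅Y, R⁆ * s.x2⁻¹ = ⁅Y, R⁆ := by rw [kx, ← ki]; exact (inv_eq_of_mul_eq_one_right kk).symm
  have ix : s.x2⁻¹ = s.x2 := inv_eq_of_mul_eq_one_right x22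
  have k2 : s.x2 * s.w2 * s.x2 * ⁅Y, R⁆ * (s.x2 * s.w2 * s.x2)⁻¹ = ⁅Y, R⁆ := by
    calc s.x2 * s.w2 * s.x2 * ⁅Y, R⁆ * (s.x2 * s.w2 * s.x2)⁻¹
        = s.x2 * (s.w2 * (s.x2 * ⁅Y, R⁆ * s.x2⁻¹) * s.w2⁻¹) * s.x2⁻¹ := by group
      _ = ⁅R, Y⁆ := by rw [kx, conj_comm s.w2, b2, b4, conj_comm, a4, a2]
      _ = _ := by rw [← commutatorElement_inv, ki]
  have k3 : s.x3 * ⁅Y, R⁆ * s.x3⁻¹ = ⁅Y, R⁆ := by rw [conj_comm, c2, c3]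
  have k4 : s.w3 * ⁅Y, R⁆ * s.w3⁻¹ = ⁅Y, R⁆ := by rw [conj_comm, d2, d3]
  have k5 : s.w2 * ⁅Y, R⁆ * s.w2⁻¹ = ⁅Y, R⁆ := by
    rcases dk _ kV k1 k2 k3 k4 with e | e <;> rw [e]
    · group
    · exact w1
  have k6 : ⁅H, R⁆ = ⁅Y, R⁆ := by rw [← k5, conj_comm, b2, b3]
  have k7 : ⁅H, R⁆ = 1 := by
    rw [← inv_eq_one, commutatorElement_inv, commutatorElement_def, iR, iH, ← z2]; group
  exact commutatorElement_eq_one_iff_mul_comm.1 (k6 ▸ k7)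

end VR1

theorem Ht.yr (hh : Ht s.toPre B h) (hB : s.Big s.V6 B) : h s.y * h s.r = h s.r * h s.y :=
  (VR1.core hh hB).1

theorem Ht.exists_c (hh : Ht s.toPre B h) (hB : s.Big s.V6 B) :
    ∃ c < 2, ⁅h s.r, s.x2⁆ = h s.y * h s.x1 * s.x1 ^ c := by
  obtain ⟨YR, v, hv, ez⟩ := VR1.core hh hB
  obtain ⟨m1, m2, m3, m4, -, -, -, p1, -⟩ := VR1.mems s.toPre
  obtain ⟨⟨a1, a2, a3, a4⟩, ⟨b1, b2, b3, b4⟩, ⟨c1, c2, c3, c4⟩, ⟨d1, d2, d3, d4⟩⟩ := VR1.hacts hh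
  have fX := VR1.memF hh (.inl m1) p1
  have sY := hh.sq hB (.inr m2)
  have sH := hh.sq hB (.inr m4)
  set X := h s.x1
  set Y := h s.y
  set R := h s.r
  set H := h (s.x1 * s.y * s.r)
  have YH : Y * H = H * Y := VR1.conj_cm YR a2 a3
  have HR : H * R = R * H := VR1.conj_cm YR b2 b3
  have ev : v = Y * R * H * X⁻¹ := by rw [ez]; group
  have key : ∀ g : G, g * v * g⁻¹ = (g * Y * g⁻¹) * (g * R * g⁻¹) * (g * H * g⁻¹) * (g * X * g⁻¹)⁻¹ := by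
    intro g; rw [ev]; group
  have k1 : s.x2 * v * s.x2⁻¹ = v := by rw [key, a1, a2, a3, a4, mul_assoc Y, HR, ev]; group
  have k2 : s.w2 * v * s.w2⁻¹ = v := by
    rw [key, b1, b2, b3, b4, HR, mul_assoc R, ← YH, ← mul_assoc, ← YR, ev]
  have k3 : s.x3 * v * s.x3⁻¹ = v := by rw [key, c1, c2, c3, c4, ev]
  have k4 : s.w3 * v * s.w3⁻¹ = v := by rw [key, d1, d2, d3, d4, ev]
  have e1 : ⁅R, s.x2⁆ = Y * X * v := by
    calc ⁅R, s.x2⁆ = R * (s.x2 * R * s.x2⁻¹)⁻¹ := by simp only [commutatorElement_def]; group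
      _ = (Y * Y) * R * H := by rw [a3, inv_eq_of_mul_eq_one_right sH, sY, one_mul]
      _ = Y * (v * X) := by rw [← ez]; group
      _ = _ := by rw [mem_centralizer_iff.1 fX v hv]; group
  rcases (VR1.v5 s.toPre).2.2.2.2 v hv k1 k2 k3 k4 with e | e
  · exact ⟨0, by norm_num, by rw [e1, e, pow_zero]⟩
  · exact ⟨1, by norm_num, by rw [e1, e, pow_one]⟩

end Cfsg.Agent.S33
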