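import Mathlib
import Cfsg.Agent.S33.VR1
import Cfsg.Agent.S33.VNB

/-! Commutators of two hats, up to parameters. -/

set_option autoImplicit false
set_option linter.unusedSectionVars false
set_option maxRecDepth 100000
set_option synthInstance.maxSize 100000
set_option synthInstance.maxHeartbeats 1000000

namespace Cfsg.Agent.S33

open Cfsg Cfsg.Agent.Rec Cfsg.Agent.Spor Cfsg.Agent.Loc.Mss Cfsg.Agent.SF6 Cfsg.Agent.Ch Cfsg.Agent.Chev.CD Subgroup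
open scoped commutatorElement Matrix

namespace VR3

section Ab

variable {H : Type*} [CommGroup H] (h2 : ∀ x : H, x * x = 1)
include h2

theorem id1 (P b k Y y : H) : P * b * (P * k * Y * (Y * b * y)) = k * y := by
  rw [show P * b * (P * k * Y * (Y * b * y)) = P * P * (b * b) * (Y * Y) * (k * y) by ac_rfl]
  simp [h2]

theorem id2 (Y y k : H) : Y * y * (k * y) = Y * k := by
  rw [show Y * y * (k * y) = y * y * (Y * k) by ac_rfl]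
  simp [h2]

theorem id3 (X1 X2 X12 : H) : X12 = X1 * X2 * (X1 * X2 * X12) := by
  rw [show X1 * X2 * (X1 * X2 * X12) = X1 * X1 * (X2 * X2) * X12 by ac_rfl]
  simp [h2]

theorem id4 (X1 X2 Y k x1 x2 y p : H) :
    X1 * (k * X2) * Y * (x1 * (Y * X1 * p * x2) * y) * (X2 * x2) = k * y * (p * x1) := by
  rw [show X1 * (k * X2) * Y * (x1 * (Y * X1 * p * x2) * y) * (X2 * x2) =
    X1 * X1 * (X2 * X2) * (Y * Y) * (x2 * x2) * (k * y * (p * x1)) by ac_rfl]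
  simp [h2]

theorem id5 (k Y y P p : H) : k * y * p * (Y * y) * (P * p) = k * Y * P := by
  rw [show k * y * p * (Y * y) * (P * p) = y * y * (p * p) * (k * Y * P) by ac_rfl]
  simp [h2]

theorem id6 (k Y P a b : H) (e : k * Y * P = a * b) : k = Y * a * P * b := by
  rw [show Y * a * P * b = a * b * (Y * P) by ac_rfl, ← e,
    show k * Y * P * (Y * P) = Y * Y * (P * P) * k by ac_rfl]
  simp [h2]

end Ab

/-- A subgroup of exponent two as a commutative group. -/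
@[reducible] def cg {G : Type*} [Group G] {B : Subgroup G} (h2 : ∀ e ∈ B, e * e = 1) : CommGroup B :=
  { (inferInstance : Group B) with mul_comm := fun a b => Subtype.ext (comm_of_sq2 h2 a.2 b.2) }

theorem cj_of_comm {G : Type*} [Group G] {a b : G} (e : a * b = b * a) : a * b * a⁻¹ = b := by
  rw [e, mul_inv_cancel_right]

theorem comm_of_cj {G : Type*} [Group G] {a b : G} (e : a * b * a⁻¹ = b) : b * a = a * b :=
  (mul_inv_eq_iff_eq_mul.1 e).symm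

end VR3

open VR3

variable {G : Type*} [Group G] [Finite G] {s : Cfg G} {B : Subgroup G} {h : G → G}

theorem Ht.r3 (hh : Ht s.toPre B h) (hB : s.Big s.V6 B) {c : ℕ} (hc : ⁅h s.r, s.x2⁆ = h s.y * h s.x1 * s.x1 ^ c) :
    ∃ i < 2, ⁅h s.b, h s.c⁆ = h s.y * s.y ^ i := by
  obtain ⟨⟨kb, kc, ky, ka, kr⟩, ⟨vb, vy, va⟩, ⟨ab, ay, aa, b1, y1, a1, by', ab'⟩, ⟨ub, uc, uy⟩,
      ⟨e1, e2, e3, e4, e5, e6⟩, ⟨e7, e8, e9, e10, e11⟩, dec⟩ :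
      (s.b ∈ s.K2 ∧ s.c ∈ s.K2 ∧ s.y ∈ s.K2 ∧ s.a ∈ s.K2 ∧ s.r ∈ s.K2) ∧ (s.b ∈ s.V6 ∧ s.y ∈ s.V6 ∧ s.a ∈ s.V6) ∧
      (s.b ∈ s.A3 ∧ s.y ∈ s.A3 ∧ s.a ∈ s.A3 ∧ s.b ≠ 1 ∧ s.y ≠ 1 ∧ s.a ≠ 1 ∧ s.b ≠ s.y ∧ s.a ≠ s.b) ∧
      (s.b ∈ s.U ∧ s.c ∈ s.U ∧ s.y ∈ s.U) ∧
      (s.c * s.b * s.c⁻¹ = s.b * s.y ∧ s.b * s.c * s.b⁻¹ = s.c * s.y ∧ s.y * s.c = s.c * s.y ∧
        s.r * s.b * s.r⁻¹ = s.a * s.b ∧ s.r * s.c = s.c * s.r ∧ s.r * s.y = s.y * s.r) ∧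
      (s.x3 * s.w3 * s.x3 * (s.r * s.n * s.r) * s.b * (s.x3 * s.w3 * s.x3 * (s.r * s.n * s.r))⁻¹ = s.c ∧
        s.x3 * s.w3 * s.x3 * (s.r * s.n * s.r) * s.c * (s.x3 * s.w3 * s.x3 * (s.r * s.n * s.r))⁻¹ = s.b ∧
        s.x3 * s.w3 * s.x3 * (s.r * s.n * s.r) * s.y = s.y * (s.x3 * s.w3 * s.x3 * (s.r * s.n * s.r)) ∧
        s.d * s.m * s.d * s.y * (s.d * s.m * s.d)⁻¹ = s.a ∧ s.d * s.m * s.d * s.r * (s.d * s.m * s.d)⁻¹ = s.c) ∧
      ∀ v ∈ s.V6, v * (s.x3 * s.w3 * s.x3 * (s.r * s.n * s.r)) = s.x3 * s.w3 * s.x3 * (s.r * s.n * s.r) * v →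
        v * s.r = s.r * v → v = 1 ∨ v = s.y := s.hL.decide s.rep (by decide +kernel)
  have lr : s.r ∈ s.L := mem_clos (by simp)
  have ln : s.x3 * s.w3 * s.x3 * (s.r * s.n * s.r) ∈ s.L :=
    mul_mem (mul_mem (mul_mem (mem_clos (by simp)) (mem_clos (by simp))) (mem_clos (by simp)))
      (mul_mem (mul_mem lr (mem_clos (by simp))) lr)
  have ls : s.d * s.m * s.d ∈ s.L :=
    mul_mem (mul_mem (mem_clos (by simp)) (mem_clos (by simp))) (mem_clos (by simp))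
  generalize s.x3 * s.w3 * s.x3 * (s.r * s.n * s.r) = nn at *
  generalize s.d * s.m * s.d = sig at *
  have hP := (hh.memB hB (.inr kb) vb).1
  have hY := (hh.memB hB (.inr ky) vy).1
  have hA := (hh.memB hB (.inr ka) va).1
  have nC := (hh.normB hB hc).2.1
  obtain ⟨-, -, -, -, -, -, -, -, -, -, f1, f2⟩ := hh.facts hB
  have sC := hh.sq hB (.inr kc)
  have iC : (h s.c)⁻¹ = h s.c := inv_eq_of_mul_eq_one_right sC
  have iB : ∀ e ∈ B, e⁻¹ = e := fun e he => inv_eq_of_mul_eq_one_right (hB.sq e he)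
  have h2 : ∀ x : B, x * x = 1 := fun x => Subtype.ext (hB.sq x x.2)
  have cAC : h s.a * h s.c = h s.c * h s.a := by
    rw [← e10, ← e11, hh.eqv _ ls _ (.inr ky), hh.eqv _ ls _ (.inr kr), conj_mul, conj_mul, hh.yr hB]
  set k := ⁅h s.b, h s.c⁆ with hk
  have kB : k ∈ B := by
    rw [show k = h s.b * (h s.c * (h s.b)⁻¹ * (h s.c)⁻¹) by rw [hk, commutatorElement_def]; group]
    exact mul_mem hP (conj_mem_of_norm nC (inv_mem hP))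
  have q1 : h s.c * h s.b * (h s.c)⁻¹ = h s.b * k := by
    rw [hk, commutatorElement_def, iB _ hP, ← mul_assoc, ← mul_assoc, ← mul_assoc, hB.sq _ hP, one_mul]
  have q2 : h s.c * s.b * (h s.c)⁻¹ = h s.y * s.b := by
    have := hh.eqv _ (s.U_le ub) _ (.inr kc)
    rw [e2, f1] at this
    rw [iC, mul_assoc, ← inv_mul_cancel_right (s.b * h s.c) s.b, ← this, ← mul_assoc, ← mul_assoc, sC, one_mul]
  have q3 : s.c * h s.b * s.c⁻¹ = h s.b * h s.y := by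
    rw [← hh.eqv _ (s.U_le uc) _ (.inr kb), e1, hh.addA hB ab ay b1 y1 by']
  have q4 : s.t * k * s.t⁻¹ = k * s.y := by
    have q5 : h s.c * s.y * (h s.c)⁻¹ = s.y := cj_of_comm (hh.cm (.inr kc) (s.U_le uy) e3).symm
    rw [hk, conjugate_commutatorElement, hh.tac hB (.inr kb), hh.tac hB (.inr kc), commutatorElement_def,
      iB _ (mul_mem hP (hB.le vb)),
      show h s.b * s.b * (h s.c * s.c) * (h s.b * s.b) * (h s.c * s.c)⁻¹ =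
        h s.b * s.b * (h s.c * (s.c * h s.b * s.c⁻¹ * (s.c * s.b * s.c⁻¹)) * (h s.c)⁻¹) by group,
      q3, e1, ← conj_mul, ← conj_mul, ← conj_mul, q1, q2, q5, cj_of_comm f2]
    exact congrArg Subtype.val (@id1 B (cg hB.sq) h2 ⟨_, hP⟩ ⟨_, hB.le vb⟩ ⟨k, kB⟩ ⟨_, hY⟩ ⟨_, hB.le vy⟩)
  have hv : h s.y * k ∈ s.V6 := (s.big_cent hB (mul_mem hY kB)).1 (comm_of_cj (by
    rw [← conj_mul, q4, hh.tac hB (.inr ky)]
    exact congrArg Subtype.val (@id2 B (cg hB.sq) h2 ⟨_, hY⟩ ⟨_, hB.le vy⟩ ⟨k, kB⟩)))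
  have q6 : nn * k * nn⁻¹ = k := by
    rw [hk, conjugate_commutatorElement, ← hh.eqv _ ln _ (.inr kb), ← hh.eqv _ ln _ (.inr kc), e7, e8,
      ← commutatorElement_inv, iB _ kB]
  have q7 : s.r * k * s.r⁻¹ = k := by
    rw [hk, conjugate_commutatorElement, ← hh.eqv _ lr _ (.inr kb), e4, hh.addA hB aa ab a1 b1 ab',
      cj_of_comm (hh.cm (.inr kc) lr e5), commutatorElement_def,
      show h s.a * h s.b * h s.c * (h s.a * h s.b)⁻¹ * (h s.c)⁻¹ =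
        h s.a * ⁅h s.b, h s.c⁆ * (h s.c * (h s.a)⁻¹ * (h s.c)⁻¹) by rw [commutatorElement_def]; group,
      ← conj_inv, cj_of_comm cAC.symm, cj_of_comm (s.big_comm hB hA kB)]
  have hY2 : k = h s.y * (h s.y * k) := by rw [← mul_assoc, hB.sq _ hY, one_mul]
  rcases dec _ hv (comm_of_cj (by rw [← conj_mul, q6, cj_of_comm (hh.cm (.inr ky) ln e9)]))
    (comm_of_cj (by rw [← conj_mul, q7, cj_of_comm (hh.cm (.inr ky) lr e6)])) with e | e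
  · exact ⟨0, by norm_num, by rw [hY2, e, pow_zero]⟩
  · exact ⟨1, by norm_num, by rw [hY2, e, pow_one]⟩

theorem Ht.r5 (hh : Ht s.toPre B h) (hB : s.Big s.V6 B) {c : ℕ} (hc : ⁅h s.r, s.x2⁆ = h s.y * h s.x1 * s.x1 ^ c) :
    ∃ i < 2, ∃ j < 2, ⁅h s.r, h s.x2⁆ = h s.y * s.y ^ i * h s.x1 ^ (c + 1) * s.x1 ^ j := by
  obtain ⟨⟨k1, k2, k12, ky, kr⟩, ⟨v1, v2, v12, vy⟩, ⟨e1, e2, e3, e4, e5⟩, ⟨w1, w2, w3, w4⟩, dec⟩ :
      (s.x1 ∈ s.K1 ∧ s.x2 ∈ s.K1 ∧ s.x12 ∈ s.K1 ∧ s.y ∈ s.K2 ∧ s.r ∈ s.K2) ∧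
      (s.x1 ∈ s.V6 ∧ s.x2 ∈ s.V6 ∧ s.x12 ∈ s.V6 ∧ s.y ∈ s.V6) ∧
      (s.r * s.x2 * s.r⁻¹ = s.x12 ∧ s.x12 = s.x1 * s.x2 * s.y ∧ s.x1 * s.r = s.r * s.x1 ∧ s.y * s.r = s.r * s.y ∧
        s.y * s.x1 * 1 ≠ 1) ∧
      (s.w3 * s.r = s.r * s.w3 ∧ s.w3 * s.x2 = s.x2 * s.w3 ∧ s.w3 * s.y = s.y * s.w3 ∧ s.w3 * s.x1 = s.x1 * s.w3) ∧
      ∀ v ∈ s.V6, v * s.w3 = s.w3 * v → (v = 1 * 1 ∨ v = 1 * s.x1 ∨ v = s.y * 1 ∨ v = s.y * s.x1) ∨
        (s.x2 = v ∨ s.x2 = v * s.x1 ∨ s.x2 = v * s.y ∨ s.x2 = v * s.y * s.x1) :=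
    s.hL.decide s.rep (by decide +kernel)
  have lr : s.r ∈ s.L := mem_clos (by simp)
  have lw : s.w3 ∈ s.L := mem_clos (by simp)
  obtain ⟨hX1, p1⟩ := hh.memB hB (.inl k1) v1
  have hX2 := (hh.memB hB (.inl k2) v2).1
  have hX12 := (hh.memB hB (.inl k12) v12).1
  obtain ⟨hY, py⟩ := hh.memB hB (.inr ky) vy
  have nR := (hh.normB hB hc).1
  obtain ⟨-, -, -, -, -, f1, -⟩ := hh.facts hB
  have sR := hh.sq hB (.inr kr)
  have iB : ∀ e ∈ B, e⁻¹ = e := fun e he => inv_eq_of_mul_eq_one_right (hB.sq e he)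
  have h2 : ∀ x : B, x * x = 1 := fun x => Subtype.ext (hB.sq x x.2)
  set k := ⁅h s.r, h s.x2⁆ with hk
  have kB : k ∈ B := mul_mem (conj_mem_of_norm nR hX2) (inv_mem hX2)
  have q1 : h s.r * h s.x2 * (h s.r)⁻¹ = k * h s.x2 := by rw [hk, commutatorElement_def, inv_mul_cancel_right]
  have q2 : h s.r * s.x2 * (h s.r)⁻¹ = h s.y * h s.x1 * s.x1 ^ c * s.x2 := by
    rw [← hc, commutatorElement_def, inv_mul_cancel_right]
  have q3 : s.r * h s.x2 * s.r⁻¹ = h s.x1 * h s.x2 * h s.y := by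
    rw [← hh.eqv _ lr _ (.inl k2), e1, hh.y_eq]
    exact congrArg Subtype.val (@id3 B (cg hB.sq) h2 ⟨_, hX1⟩ ⟨_, hX2⟩ ⟨_, hX12⟩)
  have r1 : h s.r * s.x1 * (h s.r)⁻¹ = s.x1 := cj_of_comm (hh.cm (.inr kr) (s.V6_le v1) e3).symm
  have r2 : h s.r * s.y * (h s.r)⁻¹ = s.y := cj_of_comm (hh.cm (.inr kr) (s.V6_le vy) e4).symm
  have r3 : h s.r * h s.x1 * (h s.r)⁻¹ = h s.x1 := cj_of_comm f1
  have r4 : h s.r * h s.y * (h s.r)⁻¹ = h s.y := cj_of_comm (hh.yr hB).symm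
  have q4 : s.t * k * s.t⁻¹ = k * s.y * s.x1 ^ (c + 1) := by
    rw [hk, conjugate_commutatorElement, hh.tac hB (.inr kr), hh.tac hB (.inl k2), commutatorElement_def,
      iB _ (mul_mem hX2 (hB.le v2)),
      show h s.r * s.r * (h s.x2 * s.x2) * (h s.r * s.r)⁻¹ =
        h s.r * (s.r * h s.x2 * s.r⁻¹ * (s.r * s.x2 * s.r⁻¹)) * (h s.r)⁻¹ by group,
      q3, e1, e2, ← conj_mul, ← conj_mul, ← conj_mul, ← conj_mul, ← conj_mul, q1, q2, r1, r2, r3, r4, pow_succ]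
    exact congrArg Subtype.val (@id4 B (cg hB.sq) h2 ⟨_, hX1⟩ ⟨_, hX2⟩ ⟨_, hY⟩ ⟨k, kB⟩ ⟨_, hB.le v1⟩
      ⟨_, hB.le v2⟩ ⟨_, hB.le vy⟩ ⟨_, pow_mem (hB.le v1) c⟩)
  have hP := pow_mem hX1 (c + 1)
  have hv : k * h s.y * h s.x1 ^ (c + 1) ∈ s.V6 := (s.big_cent hB (mul_mem (mul_mem kB hY) hP)).1 (comm_of_cj (by
    rw [← conj_mul, ← conj_mul, ← conj_pow, q4, hh.tac hB (.inr ky), hh.tac hB (.inl k1),
      Commute.mul_pow (s.big_comm hB hX1 (hB.le v1))]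
    exact congrArg Subtype.val (@id5 B (cg hB.sq) h2 ⟨k, kB⟩ ⟨_, hY⟩ ⟨_, hB.le vy⟩ ⟨_, hP⟩
      ⟨_, pow_mem (hB.le v1) (c + 1)⟩)))
  have q5 : h s.r * k * (h s.r)⁻¹ = k := by
    conv_rhs => rw [← iB _ kB]
    rw [hk, commutatorElement_inv, commutatorElement_def, commutatorElement_def, ← mul_assoc, ← mul_assoc,
      ← mul_assoc, sR, one_mul, inv_eq_of_mul_eq_one_right sR]
  have q6 : h s.r * (k * h s.y * h s.x1 ^ (c + 1)) * (h s.r)⁻¹ = k * h s.y * h s.x1 ^ (c + 1) := by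
    rw [← conj_mul, ← conj_mul, ← conj_pow, q5, r3, r4]
  have q7 : ∀ a ∈ s.V6, ∀ b ∈ s.V6, k * h s.y * h s.x1 ^ (c + 1) = a * b → k = h s.y * a * h s.x1 ^ (c + 1) * b :=
    fun a ha b hb e => congrArg Subtype.val (@id6 B (cg hB.sq) h2 ⟨k, kB⟩ ⟨_, hY⟩ ⟨_, hP⟩ ⟨a, hB.le ha⟩
      ⟨b, hB.le hb⟩ (Subtype.ext e))
  rcases dec _ hv (comm_of_cj (by
    rw [← conj_mul, ← conj_mul, ← conj_pow, hk, conjugate_commutatorElement, cj_of_comm (hh.cm (.inr kr) lw w1),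
      cj_of_comm (hh.cm (.inl k2) lw w2), cj_of_comm (hh.cm (.inr ky) lw w3),
      cj_of_comm (hh.cm (.inl k1) lw w4)])) with e | e
  · rcases e with e | e | e | e
    · exact ⟨0, by norm_num, 0, by norm_num, by simpa using q7 _ (one_mem _) _ (one_mem _) e⟩
    · exact ⟨0, by norm_num, 1, by norm_num, by simpa using q7 _ (one_mem _) _ v1 e⟩
    · exact ⟨1, by norm_num, 0, by norm_num, by simpa using q7 _ vy _ (one_mem _) e⟩
    · exact ⟨1, by norm_num, 1, by norm_num, by simpa using q7 _ vy _ v1 e⟩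
  · have q8 : h s.r * s.x2 * (h s.r)⁻¹ = s.x2 := by
      generalize k * h s.y * h s.x1 ^ (c + 1) = v at e q6
      rcases e with e | e | e | e <;> rw [e] <;> simp only [← conj_mul, q6, r1, r2]
    rw [commutatorElement_def, q8, mul_inv_cancel] at hc
    have q9 := s.Φ_mul (s.Φ_mul py p1 v1) (s.Φ_one.2 (s.les.2.2.2.2.2.1 (pow_mem v1 c))) (one_mem _)
    rw [← hc] at q9
    exact absurd (s.Φ_uniq q9 (s.Φ_one.2 (one_mem _))) e5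

end Cfsg.Agent.S33
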