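import Mathlib
import Cfsg.Agent.S33.VR3

/-! All parameters agree. -/

set_option autoImplicit false
set_option linter.unusedSectionVars false
set_option maxRecDepth 100000
set_option synthInstance.maxSize 100000
set_option synthInstance.maxHeartbeats 1000000

namespace Cfsg.Agent.S33

open Cfsg Cfsg.Agent.Rec Cfsg.Agent.Spor Cfsg.Agent.Loc.Mss Cfsg.Agent.SF6 Cfsg.Agent.Ch Cfsg.Agent.Chev.CD Subgroup
open scoped commutatorElement Matrix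

variable {G : Type*} [Group G] [Finite G] {s : Cfg G} {B : Subgroup G} {h : G → G}

namespace VR4

theorem ab1 {M : Type*} [CommGroup M] (h2 : ∀ m : M, m * m = 1) (X1 X2 X3 Y A Bb x1 y a : M) (c i i' j : ℕ)
    (e : Y * y ^ i' * X1 ^ (c + 1) * x1 ^ j * X2 * (X2 * X3 * Bb) * (A * Y * (a * y) ^ i * Bb) =
      A * a ^ i' * X1 ^ (c + 1) * x1 ^ j * X3) : a ^ i * y ^ i * y ^ i' = a ^ i' := by
  apply mul_right_cancel (b := A * X1 ^ (c + 1) * x1 ^ j * X3)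
  calc _ = a ^ i * y ^ i * y ^ i' * (A * X1 ^ (c + 1) * x1 ^ j * X3) * (Y * Y) * (X2 * X2) * (Bb * Bb) := by
        simp only [h2, mul_one]
    _ = _ := by
        rw [mul_pow] at e
        generalize y ^ i = p2, a ^ i = p4, X1 ^ (c + 1) = p5, x1 ^ j = p6, y ^ i' = p7, a ^ i' = p8 at e ⊢
        rw [show p8 * (A * p5 * p6 * X3) = A * p8 * p5 * p6 * X3 by ac_rfl, ← e]
        ac_rfl

theorem ab2 {M : Type*} [CommGroup M] (h2 : ∀ m : M, m * m = 1) (X1 X2 Y A Bb x1 x2 x3 y a : M) (c i j : ℕ)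
    (e : Y * y ^ i * A * (Y * a) ^ i * Bb * (Y * y ^ i * X1 ^ (c + 1) * x1 ^ j * X2) *
      (Y * X1 * x1 ^ c * x2) ^ c * (Bb * X2 * x2 ^ c * x3) =
      A * X1 * x1 ^ c * x3 * (x1 * a) ^ i) : Y ^ i * Y ^ c * (x1 ^ j * (x1 ^ c) ^ c) = x1 ^ c * x1 ^ i := by
  apply mul_right_cancel (b := A * X1 * x3 * a ^ i)
  calc _ = Y ^ i * Y ^ c * (x1 ^ j * (x1 ^ c) ^ c) * (A * X1 * x3 * a ^ i) * (Y * Y) * (X2 * X2) * (Bb * Bb) *
        (y ^ i * y ^ i) * (X1 ^ c * X1 ^ c) * (x2 ^ c * x2 ^ c) := by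
        simp only [h2, mul_one]
    _ = _ := by
        simp only [mul_pow, pow_succ] at e
        rw [show x1 ^ c * x1 ^ i * (A * X1 * x3 * a ^ i) = A * X1 * x1 ^ c * x3 * (x1 ^ i * a ^ i) by ac_rfl, ← e]
        generalize (x1 ^ c) ^ c = p1, y ^ i = p2, Y ^ i = p3, a ^ i = p4, X1 ^ c = p5, x1 ^ j = p6, Y ^ c = p7,
          x2 ^ c = p8
        ac_rfl

theorem of_comm {g u k : G} (e : ⁅g, u⁆ = k) : MulAut.conj g u = k * u := by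
  rw [← e, MulAut.conj_apply, commutatorElement_def]; group

theorem of_comm' {g u k : G} (e : ⁅u, g⁆ = k) (hk : k * k = 1) : MulAut.conj g u = k * u := by
  have : ⁅g, u⁆ = k := by rw [← commutatorElement_inv, e]; exact inv_eq_of_mul_eq_one_right hk
  exact of_comm this

theorem of_eq {g u : G} (e : g * u = u * g) : MulAut.conj g u = u := by
  rw [MulAut.conj_apply, e]; group

theorem cjh (hh : Ht s.toPre B h) {l u v : G} (hl : l ∈ s.L) (hu : u ∈ s.K1 ∨ u ∈ s.K2) (e : l * u * l⁻¹ = v) :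
    MulAut.conj l (h u) = h v := by
  rw [MulAut.conj_apply, ← hh.eqv l hl u hu, e]

theorem cls (s : Cfg G) : (s.x1 ∈ s.K1 ∧ s.x2 ∈ s.K1 ∧ s.x3 ∈ s.K1 ∧ s.x23 ∈ s.K1) ∧
    (s.y ∈ s.K2 ∧ s.a ∈ s.K2 ∧ s.b ∈ s.K2 ∧ s.c ∈ s.K2 ∧ s.d ∈ s.K2 ∧ s.r ∈ s.K2 ∧ s.c * s.y ∈ s.K2) ∧
    (s.x1 ∈ s.V6 ∧ s.x2 ∈ s.V6 ∧ s.x3 ∈ s.V6 ∧ s.x23 ∈ s.V6 ∧ s.y ∈ s.V6 ∧ s.a ∈ s.V6 ∧ s.b ∈ s.V6) ∧
    (s.y ∈ s.A3 ∧ s.a ∈ s.A3 ∧ s.y ≠ 1 ∧ s.a ≠ 1 ∧ s.a ≠ s.y ∧ s.x1 ≠ 1) ∧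
    (s.r * s.n * s.r ∈ s.P3 ∧ s.d * s.m * s.d ∈ s.P3 ∧ s.x3 * s.w3 * s.x3 ∈ s.P2 ∧ s.d ∈ s.P3) :=
  s.hL.decide s.rep (by decide +kernel)

theorem eqs1 (s : Cfg G) :
    (s.d * s.r * s.d⁻¹ = s.r * s.c ∧ s.d * s.x3 * s.d⁻¹ = s.x23 ∧ s.d * s.x2 * s.d⁻¹ = s.x2 ∧
      s.d * s.x1 * s.d⁻¹ = s.x1 ∧ s.d * s.y * s.d⁻¹ = s.y ∧ s.d * s.a * s.d⁻¹ = s.a * s.y ∧
      s.d * s.b * s.d⁻¹ = s.b ∧ s.d * s.d = 1) ∧
    (s.d * s.m * s.d * s.b * (s.d * s.m * s.d)⁻¹ = s.b ∧ s.d * s.m * s.d * s.c * (s.d * s.m * s.d)⁻¹ = s.r ∧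
      s.d * s.m * s.d * s.y * (s.d * s.m * s.d)⁻¹ = s.a ∧ s.d * s.m * s.d * s.r * (s.d * s.m * s.d)⁻¹ = s.c ∧
      s.d * s.m * s.d * s.x1 * (s.d * s.m * s.d)⁻¹ = s.x1 ∧ s.d * s.m * s.d * s.x2 * (s.d * s.m * s.d)⁻¹ = s.x3 ∧
      s.d * s.m * s.d * s.x3 * (s.d * s.m * s.d)⁻¹ = s.x2) ∧
    (s.r * s.n * s.r * s.b * (s.r * s.n * s.r)⁻¹ = s.a ∧ s.r * s.n * s.r * s.a * (s.r * s.n * s.r)⁻¹ = s.b ∧
      s.r * s.n * s.r * s.c * (s.r * s.n * s.r)⁻¹ = s.d ∧ s.r * s.n * s.r * s.y * (s.r * s.n * s.r)⁻¹ = s.y ∧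
      s.r * s.n * s.r * s.x1 * (s.r * s.n * s.r)⁻¹ = s.x2 ∧ s.r * s.n * s.r * s.x2 * (s.r * s.n * s.r)⁻¹ = s.x1 ∧
      s.r * s.n * s.r * s.x3 * (s.r * s.n * s.r)⁻¹ = s.x3 ∧
      s.r * s.n * s.r * (s.c * s.y) * (s.r * s.n * s.r)⁻¹ = s.a * s.d * s.a⁻¹) ∧
    (s.x1 * s.r = s.r * s.x1 ∧ s.x3 * s.r = s.r * s.x3 ∧ s.y * s.r = s.r * s.y ∧ s.a * s.r = s.r * s.a ∧
      s.x1 * s.c = s.c * s.x1 ∧ s.a * s.c = s.c * s.a ∧ s.x1 * s.d = s.d * s.x1 ∧ s.x2 * s.d = s.d * s.x2 ∧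
      s.y * s.d = s.d * s.y ∧ s.c * s.x3 * s.c⁻¹ = s.x3 * (s.x1 * s.a) ∧ s.a * s.a = 1) :=
  s.hL.decide s.rep (by decide +kernel)

theorem eqs2 (s : Cfg G) :
    s.d * s.m * s.d * (s.x3 * s.w3 * s.x3) * (s.d * s.m * s.d * (s.x3 * s.w3 * s.x3) * (s.d * s.m * s.d)) *
        (s.r * s.n * s.r) * s.b * (s.d * s.m * s.d * (s.x3 * s.w3 * s.x3) *
        (s.d * s.m * s.d * (s.x3 * s.w3 * s.x3) * (s.d * s.m * s.d)) * (s.r * s.n * s.r))⁻¹ = s.r ∧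
    s.d * s.m * s.d * (s.x3 * s.w3 * s.x3) * (s.d * s.m * s.d * (s.x3 * s.w3 * s.x3) * (s.d * s.m * s.d)) *
        (s.r * s.n * s.r) * s.c * (s.d * s.m * s.d * (s.x3 * s.w3 * s.x3) *
        (s.d * s.m * s.d * (s.x3 * s.w3 * s.x3) * (s.d * s.m * s.d)) * (s.r * s.n * s.r))⁻¹ = s.d ∧
    s.d * s.m * s.d * (s.x3 * s.w3 * s.x3) * (s.d * s.m * s.d * (s.x3 * s.w3 * s.x3) * (s.d * s.m * s.d)) *
        (s.r * s.n * s.r) * s.y * (s.d * s.m * s.d * (s.x3 * s.w3 * s.x3) *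
        (s.d * s.m * s.d * (s.x3 * s.w3 * s.x3) * (s.d * s.m * s.d)) * (s.r * s.n * s.r))⁻¹ = s.c :=
  s.hL.decide s.rep (by decide +kernel)

end VR4

open VR4 in
theorem Ht.par (hh : Ht s.toPre B h) (hB : s.Big s.V6 B) {c i i' j : ℕ} (c2 : c < 2) (i2 : i < 2) (i2' : i' < 2)
    (j2 : j < 2) (hc : ⁅h s.r, s.x2⁆ = h s.y * h s.x1 * s.x1 ^ c) (h3 : ⁅h s.b, h s.c⁆ = h s.y * s.y ^ i)
    (h5 : ⁅h s.r, h s.x2⁆ = h s.y * s.y ^ i' * h s.x1 ^ (c + 1) * s.x1 ^ j) : i = c ∧ i' = c ∧ j = c := by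
  obtain ⟨⟨k1, k2, k3, k23⟩, ⟨ky, ka, kb, kc, kd, kr, kcy⟩, ⟨v1, v2, v3, v23, vy, va, vb⟩,
    ⟨ay, aa, y1, a1, ay', x11⟩, ⟨psg, psig, pnw, pd⟩⟩ := cls s
  obtain ⟨⟨d1, d2, d3, d4, d5, d6, d7, d8⟩, ⟨s1, s2, s3, s4, s5, s6, s7⟩, ⟨g1, g2, g3, g4, g5, g6, g7, g8⟩,
    ⟨c1, c3, cy, ca, c5, c6, c7, c8, c9, c10, c11⟩⟩ := eqs1 s
  obtain ⟨l1, l2, l3⟩ := eqs2 s
  obtain ⟨-, f2, -, -, f5, f6, f7, f8, -, -, f11, f12⟩ := hh.facts hB
  have lsg := s.P3_le psg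
  have lsig := s.P3_le psig
  have lnw := s.P2_le pnw
  have ld := s.P3_le pd
  have ll := mul_mem (mul_mem (mul_mem lsig lnw) (mul_mem (mul_mem lsig lnw) lsig)) lsg
  generalize s.d * s.m * s.d * (s.x3 * s.w3 * s.x3) * (s.d * s.m * s.d * (s.x3 * s.w3 * s.x3) * (s.d * s.m * s.d)) *
        (s.r * s.n * s.r) = l at l1 l2 l3 ll
  generalize s.d * s.m * s.d = sig at *
  generalize s.r * s.n * s.r = sg at *
  have B1 := (hh.memB hB (.inl k1) v1).1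
  have B2 := (hh.memB hB (.inl k2) v2).1
  have B3 := (hh.memB hB (.inl k3) v3).1
  have B23 := (hh.memB hB (.inl k23) v23).1
  have By := (hh.memB hB (.inr ky) vy).1
  have Ba := (hh.memB hB (.inr ka) va).1
  have Bb := (hh.memB hB (.inr kb) vb).1
  have b1 := hB.le v1
  have b2 := hB.le v2
  have b3 := hB.le v3
  have by' := hB.le vy
  have ba := hB.le va
  have VL := s.V6_le
  let _ : CommGroup B := { (inferInstance : Group B) with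
    mul_comm := fun u v => Subtype.ext (s.big_comm hB u.2 v.2) }
  have h2 : ∀ m : B, m * m = 1 := fun m => Subtype.ext (hB.sq m m.2)
  -- conjugates of the relations
  have h3s : ⁅h s.b, h s.r⁆ = h s.a * s.a ^ i := by
    have := congrArg (MulAut.conj sig) h3
    rwa [map_commutatorElement, map_mul, map_pow, cjh hh lsig (.inr kb) s1, cjh hh lsig (.inr kc) s2,
      cjh hh lsig (.inr ky) s3, MulAut.conj_apply, s3] at this
  have h3g : ⁅h s.a, h s.d⁆ = h s.y * s.y ^ i := by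
    have := congrArg (MulAut.conj sg) h3
    rwa [map_commutatorElement, map_mul, map_pow, cjh hh lsg (.inr kb) g1, cjh hh lsg (.inr kc) g3,
      cjh hh lsg (.inr ky) g4, MulAut.conj_apply, g4] at this
  have h3l : ⁅h s.r, h s.d⁆ = h s.c * s.c ^ i := by
    have := congrArg (MulAut.conj l) h3
    rwa [map_commutatorElement, map_mul, map_pow, cjh hh ll (.inr kb) l1, cjh hh ll (.inr kc) l2,
      cjh hh ll (.inr ky) l3, MulAut.conj_apply, l3] at this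
  have h5s : ⁅h s.c, h s.x3⁆ = h s.a * s.a ^ i' * h s.x1 ^ (c + 1) * s.x1 ^ j := by
    have := congrArg (MulAut.conj sig) h5
    rwa [map_commutatorElement, map_mul, map_mul, map_mul, map_pow, map_pow, map_pow, cjh hh lsig (.inr kr) s4,
      cjh hh lsig (.inl k2) s6, cjh hh lsig (.inr ky) s3, cjh hh lsig (.inl k1) s5, MulAut.conj_apply,
      MulAut.conj_apply, s3, s5] at this
  have hcs : ⁅h s.c, s.x3⁆ = h s.a * h s.x1 * s.x1 ^ c := by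
    have := congrArg (MulAut.conj sig) hc
    rwa [map_commutatorElement, map_mul, map_mul, map_pow, cjh hh lsig (.inr kr) s4,
      cjh hh lsig (.inr ky) s3, cjh hh lsig (.inl k1) s5, MulAut.conj_apply, MulAut.conj_apply, s6, s5] at this
  have hcg : ⁅h s.d, s.x3⁆ = h s.b * h s.x2 * s.x2 ^ c := by
    have := congrArg (MulAut.conj sg) hcs
    rwa [map_commutatorElement, map_mul, map_mul, map_pow, cjh hh lsg (.inr kc) g3,
      cjh hh lsg (.inr ka) g2, cjh hh lsg (.inl k1) g5, MulAut.conj_apply, MulAut.conj_apply, g7, g5] at this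
  -- action of R
  have R1 := of_eq f6
  have Ra := of_eq f7
  have R3 := of_eq f8
  have Ry := of_eq (hh.yr hB).symm
  have r1 := of_eq (hh.cm (.inr kr) (VL v1) c1).symm
  have r3 := of_eq (hh.cm (.inr kr) (VL v3) c3).symm
  have ra := of_eq (hh.cm (.inr kr) (VL va) ca).symm
  have R2 := of_comm h5
  have r2 := of_comm hc
  have Rb := of_comm' h3s (hB.sq _ (mul_mem Ba (pow_mem ba i)))
  -- action of C
  have C3 := of_comm h5s
  have cc3 := of_comm hcs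
  have cc1 := of_eq (hh.cm (.inr kc) (VL v1) c5).symm
  have cca := of_eq (hh.cm (.inr kc) (VL va) c6).symm
  -- action of D
  have tr : ∀ {u v u' v' g : G}, g ∈ s.L → (u ∈ s.K1 ∨ u ∈ s.K2) → (v ∈ s.K1 ∨ v ∈ s.K2) → g * u * g⁻¹ = u' →
      g * v * g⁻¹ = v' → h u * h v = h v * h u → h u' * h v' = h v' * h u' := fun {u v u' v' g} hg hu hv e e' k => by
    have := congrArg (MulAut.conj g) k
    rwa [map_mul, map_mul, cjh hh hg hu e, cjh hh hg hv e'] at this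
  have D1 := of_eq (tr lsg (.inr kc) (.inl k2) g3 g6 (tr lsig (.inr kr) (.inl k3) s4 s7 f8))
  have D2 := of_eq (tr lsg (.inr kc) (.inl k1) g3 g5 (tr lsig (.inr kr) (.inl k1) s4 s5 f6))
  have Db := of_eq (tr lsg (.inr kc) (.inr ka) g3 g2 (tr lsig (.inr kr) (.inr ky) s4 s3 (hh.yr hB).symm))
  have Dy := of_eq (tr lsg (.inr kc) (.inr ky) g3 g4 f12)
  have dd1 := of_eq (hh.cm (.inr kd) (VL v1) c7).symm
  have dd2 := of_eq (hh.cm (.inr kd) (VL v2) c8).symm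
  have ddy := of_eq (hh.cm (.inr kd) (VL vy) c9).symm
  have dd3 := of_comm hcg
  have DA := of_comm' h3g (hB.sq _ (mul_mem By (pow_mem by' i)))
  have sD := hh.sq hB (.inr kd)
  have sR := hh.sq hB (.inr kr)
  have dda : MulAut.conj (h s.d) s.a = h s.y * s.a := by
    have e := congrArg (MulAut.conj sg) f11
    rw [map_mul, cjh hh lsg (.inr kcy) g8, cjh hh lsg (.inr kc) g3, cjh hh lsg (.inr ky) g4,
      hh.eqv _ (VL va) _ (.inr kd)] at e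
    rw [MulAut.conj_apply, inv_eq_of_mul_eq_one_right sD]
    calc h s.d * s.a * h s.d = h s.d * (s.a * h s.d * s.a⁻¹) * s.a := by group
      _ = h s.d * h s.d * h s.y * s.a := by rw [e]; group
      _ = _ := by rw [sD, one_mul]
  -- step 1
  have X23 : h s.x23 = h s.x2 * h s.x3 * h s.b := by
    have e : (⟨_, Bb⟩ : B) = ⟨_, B2⟩ * ⟨_, B3⟩ * ⟨_, B23⟩ := Subtype.ext f5
    have e' : (⟨_, B23⟩ : B) = ⟨_, B2⟩ * ⟨_, B3⟩ * ⟨_, Bb⟩ := by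
      rw [e]
      generalize (⟨_, B2⟩ : B) = p, (⟨_, B3⟩ : B) = q, (⟨_, B23⟩ : B) = w
      calc w = w * (p * p) * (q * q) := by simp only [h2, mul_one]
        _ = _ := by ac_rfl
    exact congrArg Subtype.val e'
  have e1 : MulAut.conj s.d (MulAut.conj (h s.r) (MulAut.conj s.d (h s.x3))) =
      MulAut.conj (h s.r) (MulAut.conj (h s.c) (h s.x3)) := by
    have e : s.d * h s.r * s.d = h s.r * h s.c := by
      rw [← f2, ← d1, hh.eqv _ ld _ (.inr kr), inv_eq_of_mul_eq_one_right d8]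
    rw [← MulAut.mul_apply, ← MulAut.mul_apply, ← MulAut.mul_apply, ← map_mul, ← map_mul, ← map_mul, e]
  have dA : MulAut.conj s.d (h s.a) = h s.a * h s.y := by
    rw [cjh hh ld (.inr ka) d6, hh.addA hB aa ay a1 y1 ay']
  have d3' := (cjh hh ld (.inl k3) d2).trans X23
  rw [d3', C3] at e1
  simp only [map_mul, map_pow, R1, R2, R3, Ra, Rb, r1, ra, d3', dA, cjh hh ld (.inl k2) d3, cjh hh ld (.inl k1) d4,
    cjh hh ld (.inr ky) d5, cjh hh ld (.inr kb) d7, show MulAut.conj s.d s.y = s.y from d5,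
    show MulAut.conj s.d s.x1 = s.x1 from d4, show MulAut.conj s.d s.a = s.a * s.y from d6] at e1
  have q1 : s.a ^ i * s.y ^ i * s.y ^ i' = s.a ^ i' :=
    congrArg Subtype.val (ab1 h2 ⟨_, B1⟩ ⟨_, B2⟩ ⟨_, B3⟩ ⟨_, By⟩ ⟨_, Ba⟩ ⟨_, Bb⟩ ⟨_, b1⟩ ⟨_, by'⟩ ⟨_, ba⟩ c i i' j
      (Subtype.ext e1))
  have yy : s.y * s.y = 1 := hB.sq _ by'
  obtain rfl : i = i' := by
    interval_cases i <;> interval_cases i' <;> simp only [pow_zero, pow_one, one_mul, mul_one] at q1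
    · rfl
    · exact absurd q1.symm ay'
    · exact absurd ((mul_eq_one_iff_eq_inv.1 q1).trans (inv_eq_of_mul_eq_one_right yy)) ay'
    · rfl
  -- step 2
  have e2 : MulAut.conj (h s.d) (MulAut.conj (h s.r) (MulAut.conj (h s.d) s.x3)) =
      MulAut.conj (h s.r) (MulAut.conj (h s.c) (MulAut.conj (s.c ^ i) s.x3)) := by
    have e : h s.d * h s.r * h s.d = h s.r * h s.c * s.c ^ i := by
      rw [mul_assoc (h s.r), ← h3l, commutatorElement_def, inv_eq_of_mul_eq_one_right sD,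
        inv_eq_of_mul_eq_one_right sR]
      calc _ = h s.r * h s.r * h s.d * h s.r * h s.d := by rw [sR, one_mul]
        _ = _ := by group
    rw [← MulAut.mul_apply, ← MulAut.mul_apply, ← MulAut.mul_apply, ← MulAut.mul_apply, ← map_mul, ← map_mul,
      ← map_mul, ← map_mul, e]
  have ci : MulAut.conj (s.c ^ i) s.x3 = s.x3 * (s.x1 * s.a) ^ i := by
    interval_cases i
    · simp
    · rw [pow_one, pow_one]; exact c10
  rw [dd3, ci] at e2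
  simp only [map_mul, map_pow, cc3, cc1, cca] at e2
  simp only [map_mul, map_pow, R1, R2, Ra, Rb, r1, r2, r3, ra] at e2
  simp only [D1, D2, Db, Dy, dd1, dd2, ddy, dd3, DA, dda] at e2
  have q2 : h s.y ^ i * h s.y ^ c * (s.x1 ^ j * (s.x1 ^ c) ^ c) = s.x1 ^ c * s.x1 ^ i :=
    congrArg Subtype.val (ab2 h2 ⟨_, B1⟩ ⟨_, B2⟩ ⟨_, By⟩ ⟨_, Ba⟩ ⟨_, Bb⟩ ⟨_, b1⟩ ⟨_, b2⟩ ⟨_, b3⟩ ⟨_, by'⟩ ⟨_, ba⟩ c i j
      (Subtype.ext e2))
  have nY : h s.y ∉ s.V6 := fun k =>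
    y1 (s.Φ_uniq (hh.memB hB (.inr ky) vy).2 (s.Φ_one.2 (Phi.V_W s k)))
  have xx : s.x1 * s.x1 = 1 := hB.sq _ b1
  have YY : h s.y * h s.y = 1 := hB.sq _ By
  obtain rfl : i = c := by
    by_contra ne
    apply nY
    have m1 : s.x1 ^ j * (s.x1 ^ c) ^ c ∈ s.V6 := mul_mem (pow_mem v1 _) (pow_mem (pow_mem v1 _) _)
    have m2 : h s.y ^ i * h s.y ^ c ∈ s.V6 :=
      (mul_mem_cancel_right m1).1 (q2 ▸ mul_mem (pow_mem v1 _) (pow_mem v1 _))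
    interval_cases i <;> interval_cases c <;> simp at ne m2 <;> exact m2
  refine ⟨rfl, rfl, ?_⟩
  interval_cases i <;> interval_cases j <;> simp [xx, YY, x11] at q2 ⊢

theorem Ht.exists_std (hh : Ht s.toPre B h) (hB : s.Big s.V6 B) : ∃ c : ZMod 2, Std s.toPre h c.val := by
  obtain ⟨c, c2, hc⟩ := hh.exists_c hB
  obtain ⟨i, i2, h3⟩ := hh.r3 hB hc
  obtain ⟨i', i2', j, j2, h5⟩ := hh.r5 hB hc
  obtain ⟨rfl, rfl, rfl⟩ := hh.par hB c2 i2 i2' j2 hc h3 h5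
  exact ⟨j, by rw [ZMod.val_natCast_of_lt j2]; exact ⟨hh.yr hB, hc, h5, h3⟩⟩

end Cfsg.Agent.S33
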