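import Mathlib
import Cfsg.Agent.S33.VDefs

/-! The root elements of `L`. -/

set_option autoImplicit false
set_option linter.unusedSectionVars false
set_option maxRecDepth 100000
set_option synthInstance.maxSize 100000
set_option synthInstance.maxHeartbeats 1000000

namespace Cfsg.Agent.S33

open Cfsg Cfsg.Agent.Rec Cfsg.Agent.Spor Cfsg.Agent.Loc.Mss Cfsg.Agent.SF6 Cfsg.Agent.Ch Cfsg.Agent.Chev.CD Subgroup
open scoped commutatorElement Matrix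

variable {G : Type*} [Group G] [Finite G]

/-- The table of root elements. -/
def VRu_u (s : Pre G) (a b : SI 3) : G :=
  match a.1.val, a.2, b.1.val, b.2 with
  | 0, true, 0, false => s.x1
  | 0, true, 1, true => s.r
  | 0, true, 1, false => s.y
  | 0, true, 2, true => s.c
  | 0, true, 2, false => s.a
  | 0, false, 0, true => s.r * s.n * s.w2 * s.n * s.r
  | 0, false, 1, true => s.x2 * s.w2 * s.n * s.w2 * s.x2
  | 0, false, 1, false => s.n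
  | 0, false, 2, true => s.x3 * s.w3 * s.n * s.m * s.n * s.m * s.w3 * s.x3
  | 0, false, 2, false => s.n * s.m * s.n * s.m
  | 1, true, 0, true => s.n
  | 1, true, 0, false => s.y
  | 1, true, 1, false => s.x2
  | 1, true, 2, true => s.d
  | 1, true, 2, false => s.b
  | 1, false, 0, true => s.x2 * s.w2 * s.n * s.w2 * s.x2
  | 1, false, 0, false => s.r
  | 1, false, 1, true => s.w2
  | 1, false, 2, true => s.x2 * s.w2 * s.d * s.w2 * s.x2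
  | 1, false, 2, false => s.m
  | 2, true, 0, true => s.n * s.m * s.n * s.m
  | 2, true, 0, false => s.a
  | 2, true, 1, true => s.m
  | 2, true, 1, false => s.b
  | 2, true, 2, false => s.x3
  | 2, false, 0, true => s.x3 * s.w3 * s.n * s.m * s.n * s.m * s.w3 * s.x3
  | 2, false, 0, false => s.c
  | 2, false, 1, true => s.x2 * s.w2 * s.d * s.w2 * s.x2
  | 2, false, 1, false => s.d
  | 2, false, 2, true => s.w3
  | _, _, _, _ => 1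

/-- The two transpositions and the sign change. -/
def VRu_g (k : Fin 3) (p : SI 3) : SI 3 :=
  match k.val, p.1.val with
  | 0, 0 => (1, p.2)
  | 0, 1 => (0, p.2)
  | 1, 1 => (2, p.2)
  | 1, 2 => (1, p.2)
  | 2, 2 => (2, !p.2)
  | _, _ => p

/-- The signed permutation of a word. -/
def VRu_ev : List (Fin 3) → SI 3 → SI 3
  | [], p => p
  | k :: w, p => VRu_g k (VRu_ev w p)

/-- Words for the signed permutations. -/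
def VRu_w : List (List (Fin 3)) :=
  [[], [0], [1], [2], [1, 0], [2, 0], [0, 1], [2, 1], [1, 2], [0, 1, 0], [2, 1, 0], [1, 2, 0], [2, 0, 1], [1, 2, 1], [0, 1, 2], [2, 1, 2], [2, 0, 1, 0], [1, 2, 1, 0], [0, 1, 2, 0], [2, 1, 2, 0], [1, 2, 0, 1], [0, 1, 2, 1], [2, 1, 2, 1], [2, 0, 1, 2], [1, 2, 0, 1, 0], [0, 1, 2, 1, 0], [2, 1, 2, 1, 0], [2, 0, 1, 2, 0], [0, 1, 2, 0, 1], [2, 1, 2, 0, 1], [2, 0, 1, 2, 1], [1, 2, 0, 1, 2], [0, 1, 2, 0, 1, 0], [2, 1, 2, 0, 1, 0], [2, 0, 1, 2, 1, 0], [1, 2, 0, 1, 2, 0], [2, 0, 1, 2, 0, 1], [1, 2, 0, 1, 2, 1], [2, 1, 2, 0, 1, 2], [2, 0, 1, 2, 0, 1, 0], [1, 2, 0, 1, 2, 1, 0], [2, 1, 2, 0, 1, 2, 0], [1, 2, 0, 1, 2, 0, 1], [2, 1, 2, 0, 1, 2, 1], [1, 2, 0, 1, 2, 0, 1, 0], [2, 1, 2, 0, 1, 2, 1, 0], [2, 1, 2, 0, 1, 2, 0, 1], [2, 1, 2, 0, 1, 2, 0, 1, 0]]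

theorem VRu_inj : ∀ k p q, VRu_g k p = VRu_g k q → p = q := by decide +kernel

theorem VRu_sp : ∀ a b e : SI 3, a.1 ≠ b.1 → b.1 ≠ e.1 → a.1 ≠ e.1 → ∃ w ∈ VRu_w, ∀ p, sp a b e p = VRu_ev w p := by
  decide +kernel

theorem VRu_g0 (s : Pre G) : ∀ p q, p ≠ q →
    s.r * s.n * s.r * VRu_u s p q * (s.r * s.n * s.r)⁻¹ = VRu_u s (VRu_g 0 p) (VRu_g 0 q) := by
  have k : s.r * s.n * s.r * (s.r * s.n * s.w2 * s.n * s.r) * (s.r * s.n * s.r)⁻¹ = s.w2 ∧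
      s.r * s.n * s.r * s.x1 * (s.r * s.n * s.r)⁻¹ = s.x2 ∧
      s.r * s.n * s.r * s.n * (s.r * s.n * s.r)⁻¹ = s.r ∧
      s.r * s.n * s.r * (s.x2 * s.w2 * s.n * s.w2 * s.x2) * (s.r * s.n * s.r)⁻¹ = s.x2 * s.w2 * s.n * s.w2 * s.x2 ∧
      s.r * s.n * s.r * s.y * (s.r * s.n * s.r)⁻¹ = s.y ∧
      s.r * s.n * s.r * s.r * (s.r * s.n * s.r)⁻¹ = s.n ∧
      s.r * s.n * s.r * (s.n * s.m * s.n * s.m) * (s.r * s.n * s.r)⁻¹ = s.m ∧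
      s.r * s.n * s.r * (s.x3 * s.w3 * s.n * s.m * s.n * s.m * s.w3 * s.x3) * (s.r * s.n * s.r)⁻¹ = s.x2 * s.w2 * s.d * s.w2 * s.x2 ∧
      s.r * s.n * s.r * s.a * (s.r * s.n * s.r)⁻¹ = s.b ∧
      s.r * s.n * s.r * s.c * (s.r * s.n * s.r)⁻¹ = s.d ∧
      s.r * s.n * s.r * s.w2 * (s.r * s.n * s.r)⁻¹ = s.r * s.n * s.w2 * s.n * s.r ∧
      s.r * s.n * s.r * s.x2 * (s.r * s.n * s.r)⁻¹ = s.x1 ∧
      s.r * s.n * s.r * s.m * (s.r * s.n * s.r)⁻¹ = s.n * s.m * s.n * s.m ∧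
      s.r * s.n * s.r * (s.x2 * s.w2 * s.d * s.w2 * s.x2) * (s.r * s.n * s.r)⁻¹ = s.x3 * s.w3 * s.n * s.m * s.n * s.m * s.w3 * s.x3 ∧
      s.r * s.n * s.r * s.b * (s.r * s.n * s.r)⁻¹ = s.a ∧
      s.r * s.n * s.r * s.d * (s.r * s.n * s.r)⁻¹ = s.c ∧
      s.r * s.n * s.r * s.w3 * (s.r * s.n * s.r)⁻¹ = s.w3 ∧
      s.r * s.n * s.r * s.x3 * (s.r * s.n * s.r)⁻¹ = s.x3 :=
    s.hL.decide s.rep (by decide +kernel)
  obtain ⟨k0, k1, k2, k3, k4, k5, k6, k7, k8, k9, k10, k11, k12, k13, k14, k15, k16, k17⟩ := k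
  rintro ⟨i, bi⟩ ⟨j, bj⟩ h
  fin_cases i <;> fin_cases j <;> cases bi <;> cases bj
  exacts [absurd rfl h, k0, k1, absurd rfl h, k2, k3, k4, k5, k6, k7, k8, k9, k5, k3, k4, k2, absurd rfl h, k10, k11, absurd rfl h, k12, k13, k14, k15, k9, k7, k8, k6, k15, k13, k14, k12, absurd rfl h, k16, k17, absurd rfl h]

theorem VRu_g1 (s : Pre G) : ∀ p q, p ≠ q →
    s.d * s.m * s.d * VRu_u s p q * (s.d * s.m * s.d)⁻¹ = VRu_u s (VRu_g 1 p) (VRu_g 1 q) := by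
  have k : s.d * s.m * s.d * (s.r * s.n * s.w2 * s.n * s.r) * (s.d * s.m * s.d)⁻¹ = s.r * s.n * s.w2 * s.n * s.r ∧
      s.d * s.m * s.d * s.x1 * (s.d * s.m * s.d)⁻¹ = s.x1 ∧
      s.d * s.m * s.d * s.n * (s.d * s.m * s.d)⁻¹ = s.n * s.m * s.n * s.m ∧
      s.d * s.m * s.d * (s.x2 * s.w2 * s.n * s.w2 * s.x2) * (s.d * s.m * s.d)⁻¹ = s.x3 * s.w3 * s.n * s.m * s.n * s.m * s.w3 * s.x3 ∧
      s.d * s.m * s.d * s.y * (s.d * s.m * s.d)⁻¹ = s.a ∧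
      s.d * s.m * s.d * s.r * (s.d * s.m * s.d)⁻¹ = s.c ∧
      s.d * s.m * s.d * (s.n * s.m * s.n * s.m) * (s.d * s.m * s.d)⁻¹ = s.n ∧
      s.d * s.m * s.d * (s.x3 * s.w3 * s.n * s.m * s.n * s.m * s.w3 * s.x3) * (s.d * s.m * s.d)⁻¹ = s.x2 * s.w2 * s.n * s.w2 * s.x2 ∧
      s.d * s.m * s.d * s.a * (s.d * s.m * s.d)⁻¹ = s.y ∧
      s.d * s.m * s.d * s.c * (s.d * s.m * s.d)⁻¹ = s.r ∧
      s.d * s.m * s.d * s.w2 * (s.d * s.m * s.d)⁻¹ = s.w3 ∧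
      s.d * s.m * s.d * s.x2 * (s.d * s.m * s.d)⁻¹ = s.x3 ∧
      s.d * s.m * s.d * s.m * (s.d * s.m * s.d)⁻¹ = s.d ∧
      s.d * s.m * s.d * (s.x2 * s.w2 * s.d * s.w2 * s.x2) * (s.d * s.m * s.d)⁻¹ = s.x2 * s.w2 * s.d * s.w2 * s.x2 ∧
      s.d * s.m * s.d * s.b * (s.d * s.m * s.d)⁻¹ = s.b ∧
      s.d * s.m * s.d * s.d * (s.d * s.m * s.d)⁻¹ = s.m ∧
      s.d * s.m * s.d * s.w3 * (s.d * s.m * s.d)⁻¹ = s.w2 ∧
      s.d * s.m * s.d * s.x3 * (s.d * s.m * s.d)⁻¹ = s.x2 :=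
    s.hL.decide s.rep (by decide +kernel)
  obtain ⟨k0, k1, k2, k3, k4, k5, k6, k7, k8, k9, k10, k11, k12, k13, k14, k15, k16, k17⟩ := k
  rintro ⟨i, bi⟩ ⟨j, bj⟩ h
  fin_cases i <;> fin_cases j <;> cases bi <;> cases bj
  exacts [absurd rfl h, k0, k1, absurd rfl h, k2, k3, k4, k5, k6, k7, k8, k9, k5, k3, k4, k2, absurd rfl h, k10, k11, absurd rfl h, k12, k13, k14, k15, k9, k7, k8, k6, k15, k13, k14, k12, absurd rfl h, k16, k17, absurd rfl h]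

theorem VRu_g2 (s : Pre G) : ∀ p q, p ≠ q →
    s.x3 * s.w3 * s.x3 * VRu_u s p q * (s.x3 * s.w3 * s.x3)⁻¹ = VRu_u s (VRu_g 2 p) (VRu_g 2 q) := by
  have k : s.x3 * s.w3 * s.x3 * (s.r * s.n * s.w2 * s.n * s.r) * (s.x3 * s.w3 * s.x3)⁻¹ = s.r * s.n * s.w2 * s.n * s.r ∧
      s.x3 * s.w3 * s.x3 * s.x1 * (s.x3 * s.w3 * s.x3)⁻¹ = s.x1 ∧
      s.x3 * s.w3 * s.x3 * s.n * (s.x3 * s.w3 * s.x3)⁻¹ = s.n ∧
      s.x3 * s.w3 * s.x3 * (s.x2 * s.w2 * s.n * s.w2 * s.x2) * (s.x3 * s.w3 * s.x3)⁻¹ = s.x2 * s.w2 * s.n * s.w2 * s.x2 ∧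
      s.x3 * s.w3 * s.x3 * s.y * (s.x3 * s.w3 * s.x3)⁻¹ = s.y ∧
      s.x3 * s.w3 * s.x3 * s.r * (s.x3 * s.w3 * s.x3)⁻¹ = s.r ∧
      s.x3 * s.w3 * s.x3 * (s.n * s.m * s.n * s.m) * (s.x3 * s.w3 * s.x3)⁻¹ = s.x3 * s.w3 * s.n * s.m * s.n * s.m * s.w3 * s.x3 ∧
      s.x3 * s.w3 * s.x3 * (s.x3 * s.w3 * s.n * s.m * s.n * s.m * s.w3 * s.x3) * (s.x3 * s.w3 * s.x3)⁻¹ = s.n * s.m * s.n * s.m ∧
      s.x3 * s.w3 * s.x3 * s.a * (s.x3 * s.w3 * s.x3)⁻¹ = s.c ∧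
      s.x3 * s.w3 * s.x3 * s.c * (s.x3 * s.w3 * s.x3)⁻¹ = s.a ∧
      s.x3 * s.w3 * s.x3 * s.w2 * (s.x3 * s.w3 * s.x3)⁻¹ = s.w2 ∧
      s.x3 * s.w3 * s.x3 * s.x2 * (s.x3 * s.w3 * s.x3)⁻¹ = s.x2 ∧
      s.x3 * s.w3 * s.x3 * s.m * (s.x3 * s.w3 * s.x3)⁻¹ = s.x2 * s.w2 * s.d * s.w2 * s.x2 ∧
      s.x3 * s.w3 * s.x3 * (s.x2 * s.w2 * s.d * s.w2 * s.x2) * (s.x3 * s.w3 * s.x3)⁻¹ = s.m ∧
      s.x3 * s.w3 * s.x3 * s.b * (s.x3 * s.w3 * s.x3)⁻¹ = s.d ∧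
      s.x3 * s.w3 * s.x3 * s.d * (s.x3 * s.w3 * s.x3)⁻¹ = s.b ∧
      s.x3 * s.w3 * s.x3 * s.w3 * (s.x3 * s.w3 * s.x3)⁻¹ = s.x3 ∧
      s.x3 * s.w3 * s.x3 * s.x3 * (s.x3 * s.w3 * s.x3)⁻¹ = s.w3 :=
    s.hL.decide s.rep (by decide +kernel)
  obtain ⟨k0, k1, k2, k3, k4, k5, k6, k7, k8, k9, k10, k11, k12, k13, k14, k15, k16, k17⟩ := k
  rintro ⟨i, bi⟩ ⟨j, bj⟩ h
  fin_cases i <;> fin_cases j <;> cases bi <;> cases bj
  exacts [absurd rfl h, k0, k1, absurd rfl h, k2, k3, k4, k5, k6, k7, k8, k9, k5, k3, k4, k2, absurd rfl h, k10, k11, absurd rfl h, k12, k13, k14, k15, k9, k7, k8, k6, k15, k13, k14, k12, absurd rfl h, k16, k17, absurd rfl h]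

theorem VRu_real (s : Pre G) (w : List (Fin 3)) : (∀ p q, p ≠ q → VRu_ev w p ≠ VRu_ev w q) ∧
    ∃ l ∈ s.L, ∀ p q, p ≠ q → l * VRu_u s p q * l⁻¹ = VRu_u s (VRu_ev w p) (VRu_ev w q) := by
  have m : ∀ {x}, x ∈ s.gL → x ∈ s.L := mem_clos
  have k : ∀ k, ∃ l ∈ s.L, ∀ p q, p ≠ q → l * VRu_u s p q * l⁻¹ = VRu_u s (VRu_g k p) (VRu_g k q) := fun k => by
    fin_cases k
    · exact ⟨_, mul_mem (mul_mem (m (by simp)) (m (by simp))) (m (by simp)), VRu_g0 s⟩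
    · exact ⟨_, mul_mem (mul_mem (m (by simp)) (m (by simp))) (m (by simp)), VRu_g1 s⟩
    · exact ⟨_, mul_mem (mul_mem (m (by simp)) (m (by simp))) (m (by simp)), VRu_g2 s⟩
  induction w with
  | nil => exact ⟨fun _ _ h => h, 1, one_mem _, fun p q _ => by rw [one_mul, inv_one, mul_one]; rfl⟩
  | cons i w ih =>
    obtain ⟨h1, l, hl, h2⟩ := ih
    obtain ⟨l', hl', h3⟩ := k i
    refine ⟨fun p q h e => h1 p q h (VRu_inj i _ _ e), l' * l, mul_mem hl' hl, fun p q h => ?_⟩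
    calc l' * l * VRu_u s p q * (l' * l)⁻¹ = l' * (l * VRu_u s p q * l⁻¹) * l'⁻¹ := by group
      _ = _ := by rw [h2 p q h]; exact h3 _ _ (h1 p q h)

theorem exists_ru (s : Pre G) : ∃ u, Ru s u := by
  refine ⟨VRu_u s, ?_, rfl, rfl, rfl, rfl, rfl, rfl, rfl, rfl, rfl, fun K h => clos_le.2 ?_, fun a b e h1 h2 h3 => ?_⟩
  · rintro ⟨i, bi⟩ ⟨j, bj⟩ h
    fin_cases i <;> fin_cases j <;> cases bi <;> cases bj <;> rfl
  · simp only [List.forall_mem_cons, List.not_mem_nil, false_imp_iff, implies_true, and_true]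
    exact ⟨h (2, true) (2, false) (by decide), h (2, false) (2, true) (by decide), h (0, true) (1, true) (by decide),
      h (1, true) (0, true) (by decide), h (1, true) (2, true) (by decide), h (2, true) (1, true) (by decide)⟩
  · obtain ⟨w, -, hw⟩ := VRu_sp a b e h1 h2 h3
    obtain ⟨l, hl, k⟩ := (VRu_real s w).2
    exact ⟨l, hl, fun p q h => by rw [hw, hw, k p q h]⟩

end Cfsg.Agent.S33
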