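import Mathlib
import Cfsg.Agent.S33.VMat
import Cfsg.Agent.Cl.SpMat

/-! Class preserving embeddings of the radical are induced by semilinear maps. -/

set_option autoImplicit false
set_option linter.unusedSectionVars false
set_option maxRecDepth 100000
set_option synthInstance.maxSize 100000
set_option synthInstance.maxHeartbeats 1000000

namespace Cfsg.Agent.S33

open Cfsg Cfsg.Agent.Rec Cfsg.Agent.Spor Cfsg.Agent.Loc.Mss Cfsg.Agent.SF6 Cfsg.Agent.Ch Cfsg.Agent.Chev.CD Subgroup
open scoped commutatorElement Matrix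

namespace VSemi

open Cfsg.Agent.Cl

/-- The inclusion of the plane. -/
def io : (Fin 3 → F4) →ₗ[F4] (Fin 3 ⊕ Fin 3 → F4) where
  toFun v := Sum.elim v 0
  map_add' u v := by ext (i | i) <;> simp
  map_smul' k v := by ext (i | i) <;> simp

theorem io_inj : Function.Injective io := fun _ _ h => funext fun i => congrFun h (.inl i)

theorem io_single (i : Fin 3) : io (Pi.single i 1) = Pi.single (.inl i) 1 := by
  ext (j | j) <;> simp [io, Pi.single_apply]

theorem io_orth (u v : Fin 3 → F4) : spB 3 F4 (io u) (io v) = 0 := by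
  simp [spB_eq_sum, io]

theorem two : (2 : F4) = 0 := CharTwo.two_eq_zero

theorem self_add {ι : Type} (v : ι → F4) : v + v = 0 := funext fun i => Lam.add_self (v i)

theorem star_sq (k : F4) : star k * star k = k := by rw [← star_F4, star_star]

/-- The transvections in the radical. -/
def X (v : Fin 3 → F4) : Bm F4 := ⟨spTM (io v) 1, fun i => by
  rw [spTM_mulVec, ← io_single, io_orth, mul_zero, zero_smul, add_zero]⟩

theorem X_coe (v : Fin 3 → F4) : (X v).1.1 = Matrix.fromBlocks 1 (Matrix.vecMulVec v v) 0 1 := by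
  refine Matrix.ext_of_mulVec_single fun j => ?_
  rw [show (X v).1 = spTM (io v) 1 from rfl, spTM_mulVec]
  rcases j with j | j
  · rw [spB_single_inl]
    ext (i | i) <;> simp [io, Matrix.one_apply, Pi.single_apply]
  · rw [spB_single_inr]
    ext (i | i) <;> simp [io, Matrix.one_apply, Pi.single_apply, Matrix.vecMulVec_apply, mul_comm]

theorem gen {K : Subgroup (Bm F4)} (h : ∀ v, X v ∈ K) (A : Bm F4) : A ∈ K := by
  obtain ⟨M, hM, hA⟩ := Bm_iff.1 A.2
  have hs : ∀ i j, M j i = M i j := fun i j => congrFun (congrFun hM i) j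
  rw [show A = X ![star (M 0 1), star (M 0 1), 0] * X ![star (M 0 2), 0, star (M 0 2)] *
      X ![0, star (M 1 2), star (M 1 2)] * X ![star (M 0 0 + M 0 1 + M 0 2), 0, 0] *
      X ![0, star (M 1 1 + M 0 1 + M 1 2), 0] * X ![0, 0, star (M 2 2 + M 0 2 + M 1 2)] from ?_]
  · exact mul_mem (mul_mem (mul_mem (mul_mem (mul_mem (h _) (h _)) (h _)) (h _)) (h _)) (h _)
  refine Subtype.ext (Subtype.ext ?_)
  simp only [Subgroup.coe_mul, Submonoid.coe_mul, X_coe, hA, Matrix.fromBlocks_multiply, Matrix.mul_one,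
    Matrix.one_mul, Matrix.mul_zero, Matrix.zero_mul, add_zero, zero_add]
  congr 1
  refine Matrix.ext fun i j => ?_
  fin_cases i <;> fin_cases j <;>
    simp [star_sq, -star_add, hs 0 1, hs 0 2, hs 1 2]
  · linear_combination (-M 0 1 - M 0 2) * two
  · linear_combination (-M 0 1 - M 1 2) * two
  · linear_combination (-M 0 2 - M 1 2) * two

theorem x3 {a b c : Fin 3 ⊕ Fin 3 → F4} (h1 : spB 3 F4 b a = 0) (h2 : spB 3 F4 c a = 0)
    (h3 : spB 3 F4 c b = 0) (w : Fin 3 ⊕ Fin 3 → F4) :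
    (spTM a 1 * spTM b 1 * spTM c 1).1 *ᵥ w =
      w + spB 3 F4 w a • a + spB 3 F4 w b • b + spB 3 F4 w c • c := by
  simp only [sp_mul_mulVec, spTM_mulVec, one_mul, map_add, map_smul, LinearMap.add_apply,
    LinearMap.smul_apply, h1, h2, h3, smul_zero, add_zero]
  abel

theorem alt3 {a b c : Fin 3 ⊕ Fin 3 → F4} (h1 : spB 3 F4 b a = 0) (h2 : spB 3 F4 c a = 0)
    (h3 : spB 3 F4 c b = 0) :
    (∀ w, spB 3 F4 w ((spTM a 1 * spTM b 1 * spTM c 1).1 *ᵥ w) = 0) ↔ a + b + c = 0 := by
  have k : ∀ w, spB 3 F4 w ((spTM a 1 * spTM b 1 * spTM c 1).1 *ᵥ w) = spB 3 F4 w (a + b + c) ^ 2 :=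
    fun w => by
      simp only [x3 h1 h2 h3, map_add, map_smul, smul_eq_mul, spB_isAlt.self_eq_zero]
      linear_combination (-(spB 3 F4 w a * spB 3 F4 w b) - spB 3 F4 w a * spB 3 F4 w c -
        spB 3 F4 w b * spB 3 F4 w c) * two
  simp only [k, pow_eq_zero_iff two_ne_zero]
  exact ⟨fun h => spB_separating _ fun w => spB_isAlt.isRefl _ _ (h w), fun h w => by rw [h, map_zero]⟩

theorem alt_conj {A A' : Sp F4} (h : IsConj A A') (ha : ∀ w, spB 3 F4 w (A.1 *ᵥ w) = 0) (w) :
    spB 3 F4 w (A'.1 *ᵥ w) = 0 := by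
  obtain ⟨D, rfl⟩ := isConj_iff.1 h
  rw [sp_mul_mulVec, sp_mul_mulVec]
  conv_lhs => enter [1, 2]; rw [← sp_mulVec_inv_mulVec D w]
  rw [spB_mulVec, ha]

theorem lin (φ : Bm F4 →* Sp F4) (g : (Fin 3 → F4) → Fin 3 ⊕ Fin 3 → F4)
    (hg : ∀ v, φ (X v) = spTM (g v) 1) (h0 : ∀ v, g v = 0 → v = 0) (ha : ∀ u v, g (u + v) = g u + g v)
    (ho : ∀ u v, spB 3 F4 (g u) (g v) = 0) (hw : ∀ v, g (om 1 • v) = om 1 • g v) :
    ∃ C : Sp F4, ∀ A, φ A = C * A.1 * C⁻¹ := by
  let l : (Fin 3 → F4) →ₗ[F4] (Fin 3 ⊕ Fin 3 → F4) :=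
    { toFun := g
      map_add' := ha
      map_smul' := fun k v => by
        rcases Lam.cases k with rfl | rfl | rfl | rfl
        · rw [zero_smul, RingHom.id_apply, zero_smul, ← add_zero 0, ha, self_add]
        · simp
        · exact hw v
        · rw [add_smul, ha, hw, RingHom.id_apply, add_smul, one_smul, one_smul] }
  obtain ⟨C, hC⟩ := sp_witt_family (fun i => io (Pi.basisFun F4 (Fin 3) i))
    (fun i => l (Pi.basisFun F4 (Fin 3) i))
    ((Pi.basisFun F4 (Fin 3)).linearIndependent.map' io (LinearMap.ker_eq_bot.2 io_inj))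
    ((Pi.basisFun F4 (Fin 3)).linearIndependent.map' l (LinearMap.ker_eq_bot'.2 h0))
    fun i j => (ho _ _).trans (io_orth _ _).symm
  have k : C.1.mulVecLin ∘ₗ io = l := (Pi.basisFun F4 (Fin 3)).ext hC
  refine ⟨C, gen (K := φ.eqLocus ((MulAut.conj C).toMonoidHom.comp (Bm F4).subtype)) fun v => ?_⟩
  exact (hg v).trans ((spTM_conj C _ _).trans (by rw [← show l v = g v from rfl, ← k]; rfl)).symm

theorem fr_X (v : Fin 3 → F4) : fr (X v).1 = (X (star v)).1 := Subtype.ext (Matrix.ext fun i j => by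
  rw [fr_apply, X_coe, X_coe]
  rcases i with i | i <;> rcases j with j | j <;>
    simp [Matrix.one_apply, Matrix.vecMulVec_apply, apply_ite star])

end VSemi

open VSemi Cfsg.Agent.Cl in
theorem semi (φ : Bm F4 →* Sp F4) (hi : Function.Injective φ) (hc : ∀ A, IsConj A.1 (φ A)) :
    ∃ C : Sp F4, (∀ A, φ A = C * A.1 * C⁻¹) ∨ ∀ A, φ A = C * fr A.1 * C⁻¹ := by
  have h1 : ∀ v, ∃ u, φ (X v) = spTM u 1 := fun v => by
    obtain ⟨D, hD⟩ := isConj_iff.1 (hc (X v))
    exact ⟨_, hD.symm.trans (spTM_conj D _ _)⟩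
  choose g hg using h1
  have h0 : ∀ v, g v = 0 → v = 0 := fun v h => by
    have := hg v
    rw [h, spTM_zero_vec, map_eq_one_iff φ hi] at this
    exact io_inj ((((spTM_eq_one_iff).1 (congrArg Subtype.val this)).resolve_right one_ne_zero).trans
      (map_zero io).symm)
  have ho : ∀ u v, spB 3 F4 (g u) (g v) = 0 := fun u v => by
    rw [← spTM_commute_iff one_ne_zero one_ne_zero, ← hg, ← hg]
    exact Commute.map (Subtype.ext (spTM_commute (io_orth u v) 1 1).eq : Commute (X u) (X v)) φ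
  have ha : ∀ u v, g (u + v) = g u + g v := fun u v => by
    have k := alt_conj (hc (X u * X v * X (u + v))) ((alt3 (io_orth _ _) (io_orth _ _) (io_orth _ _)).2
      (by rw [map_add, self_add]))
    rw [map_mul, map_mul, hg, hg, hg, alt3 (ho _ _) (ho _ _) (ho _ _)] at k
    rw [← add_zero (g (u + v)), ← k, add_left_comm, self_add, add_zero]
  have hw : ∀ v, g (om 1 • v) = om 1 • g v ∨ g (om 1 • v) = (1 + om 1) • g v := fun v => by
    have k : X v * X (om 1 • v) * X (v + om 1 • v) = 1 := Subtype.ext (by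
      change spTM (io v) 1 * spTM (io (om 1 • v)) 1 * spTM (io (v + om 1 • v)) 1 = 1
      rw [show v + om 1 • v = (1 + om 1) • v by rw [add_smul, one_smul], map_smul, map_smul, spTM_smul,
        spTM_smul, spTM_mul, spTM_mul, show (1 + om 1 ^ 2 * 1 + (1 + om 1) ^ 2 * 1 : F4) = 0 by decide,
        spTM_zero])
    have k1 := congrArg φ k
    rw [map_mul, map_mul, hg, hg, hg, map_one] at k1
    by_cases hv : v = 0
    · left
      have : g 0 = 0 := by rw [← add_zero 0, ha, self_add]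
      rw [hv, smul_zero, this, smul_zero]
    obtain ⟨w, hw⟩ : ∃ w, spB 3 F4 w (g v) ≠ 0 := by
      by_contra! h
      exact hv (h0 v (spB_separating _ fun w => spB_isAlt.isRefl _ _ (h w)))
    have k2 := x3 (ho (om 1 • v) v) (ho (v + om 1 • v) v) (ho (v + om 1 • v) (om 1 • v)) w
    rw [k1, ha, map_add] at k2
    have k3 : g (om 1 • v) = (spB 3 F4 w (g (om 1 • v)) / spB 3 F4 w (g v)) • g v := by
      ext i : 1
      have := congrFun k2 i
      simp only [OneMemClass.coe_one, Matrix.one_mulVec, Pi.add_apply, Pi.smul_apply, smul_eq_mul] at this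
      rw [Pi.smul_apply, smul_eq_mul, div_mul_eq_mul_div, eq_div_iff hw]
      linear_combination -this - (spB 3 F4 w (g v) * g v i + spB 3 F4 w (g (om 1 • v)) * g (om 1 • v) i +
        spB 3 F4 w (g (om 1 • v)) * g v i) * two
    rcases Lam.cases (spB 3 F4 w (g (om 1 • v)) / spB 3 F4 w (g v)) with e | e | e | e <;> rw [e] at k3
    · exact absurd ((smul_eq_zero.1 (h0 _ (k3.trans (zero_smul _ _)))).resolve_left (by decide)) hv
    · have := h0 (v + om 1 • v) (by rw [ha, k3, one_smul, self_add])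
      rw [show v + om 1 • v = (1 + om 1) • v by rw [add_smul, one_smul]] at this
      exact absurd ((smul_eq_zero.1 this).resolve_left (by decide)) hv
    · exact .inl k3
    · exact .inr k3
  by_cases h2 : ∀ v, g (om 1 • v) = om 1 • g v
  · exact (lin φ g hg h0 ha ho h2).imp fun _ => .inl
  obtain ⟨u, hu⟩ := not_forall.1 h2
  have h3 : ∀ v, g (om 1 • v) = (1 + om 1) • g v := fun v => by_contra fun hv => by
    have k := hw (u + v)
    rw [smul_add, ha, ha, smul_add, smul_add] at k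
    rcases k with k | k
    · exact hu (add_right_cancel (((hw v).resolve_right hv) ▸ k))
    · exact hv (add_left_cancel (((hw u).resolve_left hu) ▸ k))
  let ψ : Bm F4 →* Bm F4 := (fr.toMonoidHom.comp (Bm F4).subtype).codRestrict _ fun A => fr_Bm A.2
  obtain ⟨C, hC⟩ := lin (φ.comp ψ) (fun v => g (star v))
    (fun v => by rw [← hg]; exact congrArg φ (Subtype.ext (fr_X v)))
    (fun v h => star_eq_zero.1 (h0 _ h)) (fun u v => by rw [star_add, ha]) (fun u v => ho _ _) fun v => by
      rw [star_smul, star_om, add_smul, one_smul, ha, h3, add_smul, one_smul, ← add_assoc, self_add,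
        zero_add]
  exact ⟨C, .inr fun A => (congrArg φ (Subtype.ext (fr_fr A.1).symm : A = ψ (ψ A))).trans (hC (ψ A))⟩

end Cfsg.Agent.S33
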