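import Mathlib
import Cfsg.Agent.S33.VBas

/-! The relations in standard position. -/

set_option autoImplicit false
set_option linter.unusedSectionVars false
set_option maxRecDepth 100000
set_option synthInstance.maxSize 100000
set_option synthInstance.maxHeartbeats 1000000

namespace Cfsg.Agent.S33

open Cfsg Cfsg.Agent.Rec Cfsg.Agent.Spor Cfsg.Agent.Loc.Mss Cfsg.Agent.SF6 Cfsg.Agent.Ch Cfsg.Agent.Chev.CD Subgroup
open scoped commutatorElement Matrix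

variable {G : Type*} [Group G] [Finite G] {s : Cfg G} {B : Subgroup G} {h : G → G} {c : ZMod 2}

namespace VSt1

theorem pv_add {g : G} (hg : g * g = 1) (a b : ZMod 2) : g ^ (a + b).val = g ^ a.val * g ^ b.val := by
  rw [← pow_add, ZMod.val_add]
  exact (pow_eq_pow_mod _ (by rw [pow_two, hg])).symm

theorem kL (s : Pre G) {u : G} (hu : u ∈ s.K1 ∨ u ∈ s.K2) : u ∈ s.L ∧ u * u = 1 := by
  have k : (∀ u ∈ s.K1, u * u = 1) ∧ ∀ u ∈ s.K2, u * u = 1 := s.hL.decide s.rep (by decide +kernel)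
  refine ⟨?_, hu.elim (k.1 u) (k.2 u)⟩
  rcases hu with ⟨g, hg, rfl⟩ | ⟨g, hg, rfl⟩ <;>
    exact mul_mem (mul_mem hg (s.V6_le (mem_clos (by simp)))) (inv_mem hg)

theorem ks (s : Pre G) : s.r ∈ s.K2 ∧ s.d ∈ s.K2 ∧ s.c ∈ s.K2 ∧ s.y ∈ s.K2 ∧ s.b ∈ s.K2 ∧ s.x1 ∈ s.K1 ∧
    s.x2 ∈ s.K1 ∧ s.x12 ∈ s.K1 ∧ s.x1 ∈ s.V6 ∧ s.x2 ∈ s.V6 ∧ s.x12 ∈ s.V6 ∧ s.y ∈ s.V6 :=
  s.hL.decide s.rep (by decide +kernel)

theorem yy_one (h : G → G) (u : G) : yy h u (1 : Lam c) = u := by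
  simp [yy, QuadraticAlgebra.re_one, QuadraticAlgebra.im_one, ZMod.val_one]

theorem yy_om (h : G → G) (u : G) : yy h u (om c) = h u := by
  simp [yy, om, ZMod.val_one]

theorem yy_om2 (h : G → G) (u : G) : yy h u (om c * om c) = u ^ c.val * h u := by
  rw [om_sq]; simp [yy, ZMod.val_one]

theorem om_cube (c : ZMod 2) : om c * om c * om c = ⟨c, c + 1⟩ := by
  revert c
  decide

theorem comm1 {g u : G} (h1 : Commute g u) (h2 : Commute g (h u)) (k : Lam c) : Commute g (yy h u k) :=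
  (h1.pow_right _).mul_right (h2.pow_right _)

theorem comm2 {u v : G} (h1 : Commute u v) (h2 : Commute u (h v)) (h3 : Commute (h u) v)
    (h4 : Commute (h u) (h v)) (k l : Lam c) : Commute (yy h u k) (yy h v l) :=
  (comm1 (comm1 h1 h2 l).symm (comm1 h3 h4 l).symm k).symm

theorem comm3 (hh : Ht s.toPre B h) {u v : G} (hu : u ∈ s.K1 ∨ u ∈ s.K2) (hv : v ∈ s.K1 ∨ v ∈ s.K2)
    (h1 : u * v = v * u) (h4 : h u * h v = h v * h u) (k l : Lam c) : Commute (yy h u k) (yy h v l) :=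
  comm2 h1 (hh.cm hv (kL _ hu).1 h1) (Commute.symm (hh.cm hu (kL _ hv).1 h1.symm)) h4 k l

theorem yy_mem (hh : Ht s.toPre B h) (hB : s.Big s.V6 B) {u : G} (hu : u ∈ s.K1 ∨ u ∈ s.K2) (hv : u ∈ s.V6)
    (k : Lam c) : yy h u k ∈ B :=
  mul_mem (pow_mem (hB.le hv) _) (pow_mem (hh.memB hB hu hv).1 _)

theorem bil {u v : Lam c → G} {H : Lam c → Lam c → G} (hu : ∀ k l, u (k + l) = u k * u l)
    (hv : ∀ k l, v (k + l) = v k * v l) (H1 : ∀ k k' l, H (k + k') l = H k l * H k' l)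
    (H2 : ∀ k l l', H k (l + l') = H k l * H k l') (cu : ∀ m k l, Commute (u m) (H k l))
    (cv : ∀ m k l, Commute (v m) (H k l)) (e1 : ⁅u 1, v 1⁆ = H 1 1) (e2 : ⁅u 1, v (om c)⁆ = H 1 (om c))
    (e3 : ⁅u (om c), v 1⁆ = H (om c) 1) (e4 : ⁅u (om c), v (om c)⁆ = H (om c) (om c)) (k l : Lam c) :
    ⁅u k, v l⁆ = H k l := by
  have ind : ∀ P : Lam c → Prop, (∀ k l, P k → P l → P (k + l)) → P 1 → P (om c) → ∀ k, P k := fun P a p q k => by
    rcases Lam.cases k with rfl | rfl | rfl | rfl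
    exacts [Lam.add_self (1 : Lam c) ▸ a _ _ p p, p, q, a _ _ p q]
  have row : ∀ k, ⁅u k, v 1⁆ = H k 1 → ⁅u k, v (om c)⁆ = H k (om c) → ∀ l, ⁅u k, v l⁆ = H k l := fun k =>
    ind (fun l => ⁅u k, v l⁆ = H k l) fun l l' p q => by
      have e : ⁅u k, v l * v l'⁆ = ⁅u k, v l⁆ * (v l * ⁅u k, v l'⁆ * (v l)⁻¹) := by
        simp only [commutatorElement_def]; group
      rw [hv, e, p, q, (cv l k l').eq, mul_inv_cancel_right, H2]
  refine ind (fun k => ⁅u k, v l⁆ = H k l) (fun k k' p q => ?_) (row _ e1 e2 l) (row _ e3 e4 l) k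
  have e : ⁅u k * u k', v l⁆ = u k * ⁅u k', v l⁆ * (u k)⁻¹ * ⁅u k, v l⁆ := by
    simp only [commutatorElement_def]; group
  rw [hu, e, p, q, (cu k k' l).eq, mul_inv_cancel_right, add_comm, H1]

end VSt1

open VSt1

theorem yy_add (hh : Ht s.toPre B h) (hB : s.Big s.V6 B) {u : G} (hu : u ∈ s.K1 ∨ u ∈ s.K2) (k l : Lam c) :
    yy h u (k + l) = yy h u k * yy h u l := by
  have cm : Commute u (h u) := hh.cm hu (kL _ hu).1 rfl
  simp only [yy, QuadraticAlgebra.re_add, QuadraticAlgebra.im_add, pv_add (kL _ hu).2, pv_add (hh.sq hB hu)]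
  exact (cm.pow_pow _ _).mul_mul_mul_comm _ _

theorem yy_conj (hh : Ht s.toPre B h) {u l : G} (hu : u ∈ s.K1 ∨ u ∈ s.K2) (hl : l ∈ s.L) (k : Lam c) :
    l * yy h u k * l⁻¹ = yy h (l * u * l⁻¹) k := by
  simp only [yy, hh.eqv l hl u hu, conj_pow]
  group

theorem yy_tac (hh : Ht s.toPre B h) (hB : s.Big s.V6 B) {u : G} (hu : u ∈ s.K1 ∨ u ∈ s.K2) (k : Lam c) :
    s.t * yy h u k * s.t⁻¹ = yy h u (star k) := by
  have cm : Commute u (h u) := hh.cm hu (kL _ hu).1 rfl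
  have e1 : s.t * u * s.t⁻¹ = u := by rw [← s.t_comm (kL _ hu).1, mul_inv_cancel_right]
  have e2 : (star k).re = k.re + k.im ∧ (star k).im = k.im := by
    obtain ⟨x, y⟩ := k
    revert x y c
    decide
  calc _ = (s.t * u * s.t⁻¹) ^ k.re.val * (s.t * h u * s.t⁻¹) ^ k.im.val := by
        simp only [yy, conj_pow]; group
    _ = _ := by rw [e1, hh.tac hB hu, ← cm.eq, cm.mul_pow, yy, e2.1, e2.2, pv_add (kL _ hu).2, mul_assoc]

theorem yy_ort (hh : Ht s.toPre B h) (hs : Std s.toPre h c.val) (k l : Lam c) :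
    Commute (yy h s.r k) (yy h s.y l) := by
  obtain ⟨kr, -, -, ky, -⟩ := ks s.toPre
  exact comm3 hh (.inr kr) (.inr ky) (s.hL.decide s.rep (by decide +kernel)) hs.yr.symm k l

theorem yy_tri (hh : Ht s.toPre B h) (hB : s.Big s.V6 B) (hs : Std s.toPre h c.val) (k l : Lam c) :
    ⁅yy h s.r k, yy h s.d l⁆ = yy h s.c (k * l) := by
  obtain ⟨kr, kd, kc, ky, kb, -⟩ := ks s.toPre
  obtain ⟨-, f1, f2, -, -, -, -, -, f3, f4, -⟩ := hh.facts hB
  obtain ⟨g, hg, g1, g2, g3⟩ : ∃ g ∈ s.L, g * s.b * g⁻¹ = s.r ∧ g * s.c * g⁻¹ = s.d ∧ g * s.y * g⁻¹ = s.c := by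
    refine ⟨s.d * s.m * s.d * (s.x3 * s.w3 * s.x3) * (s.d * s.m * s.d) * (s.x3 * s.w3 * s.x3) * (s.d * s.m * s.d) *
      (s.r * s.n * s.r), ?_, s.hL.decide s.rep (by decide +kernel)⟩
    repeat' refine mul_mem ?_ ?_
    all_goals exact mem_clos (by simp)
  obtain ⟨d1, d2, d3, d4, d5⟩ : s.r * s.d * s.r⁻¹ * s.d⁻¹ = s.c ∧ s.d * s.r * s.d⁻¹ = s.r * s.c ∧
      s.r * s.d * s.r⁻¹ = s.d * s.c ∧ s.r * s.c = s.c * s.r ∧ s.d * s.c = s.c * s.d :=
    s.hL.decide s.rep (by decide +kernel)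
  have sr := hh.sq hB (.inr kr)
  refine bil (H := fun k l => yy h s.c (k * l)) (yy_add hh hB (.inr kr)) (yy_add hh hB (.inr kd))
    (fun k k' l => by simp only [add_mul, yy_add hh hB (.inr kc)])
    (fun k l l' => by simp only [mul_add, yy_add hh hB (.inr kc)])
    (fun m k l => comm3 hh (.inr kr) (.inr kc) d4 f3 _ _) (fun m k l => comm3 hh (.inr kd) (.inr kc) d5 f4 _ _)
    ?_ ?_ ?_ ?_ k l <;> simp only [one_mul, mul_one, yy_one, yy_om, yy_om2]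
  · exact d1
  · rw [commutatorElement_def, ← hh.eqv _ (kL _ (.inr kr)).1 _ (.inr kd), d3, f2, f4, mul_inv_cancel_right]
  · have e := hh.eqv _ (kL _ (.inr kd)).1 _ (.inr kr)
    rw [d2, f1] at e
    rw [commutatorElement_def, inv_eq_of_mul_eq_one_right sr]
    calc _ = h s.r * (s.d * h s.r * s.d⁻¹) := by group
      _ = _ := by rw [← e, ← mul_assoc, sr, one_mul]
  · have cm : Commute s.c (h s.c) := hh.cm (.inr kc) (kL _ (.inr kc)).1 rfl
    rw [(cm.pow_left _).eq, ← g1, ← g2]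
    conv_rhs => rw [← g3]
    rw [hh.eqv g hg _ (.inr kb), hh.eqv g hg _ (.inr kc), hh.eqv g hg _ (.inr ky), conj_pow]
    calc _ = g * ⁅h s.b, h s.c⁆ * g⁻¹ := by simp only [commutatorElement_def]; group
      _ = _ := by rw [hs.bc]; group

theorem yy_quad (hh : Ht s.toPre B h) (hB : s.Big s.V6 B) (hs : Std s.toPre h c.val) (k l : Lam c) :
    ⁅yy h s.r k, yy h s.x2 l⁆ = yy h s.y (k * l) * yy h s.x1 (k * k * l) := by
  obtain ⟨kr, -, -, ky, -, k1, k2, k12, v1, v2, v12, vy⟩ := ks s.toPre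
  obtain ⟨-, -, -, -, -, f1, -⟩ := hh.facts hB
  obtain ⟨d1, d2, d3⟩ : s.r * s.x2 * s.r⁻¹ * s.x2⁻¹ = s.y * s.x1 ∧ s.r * s.x2 * s.r⁻¹ = s.x12 ∧
      s.r * s.x1 = s.x1 * s.r := s.hL.decide s.rep (by decide +kernel)
  have my := yy_mem (c := c) hh hB (.inr ky) vy
  have m1 := yy_mem (c := c) hh hB (.inl k1) v1
  have m2 := yy_mem (c := c) hh hB (.inl k2) v2
  have cc : ∀ {a b : G}, a ∈ B → b ∈ B → Commute a b := fun ha hb => s.big_comm hB ha hb
  have b1 := (hh.memB hB (.inl k1) v1).1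
  have b2 := (hh.memB hB (.inl k2) v2).1
  have b12 := (hh.memB hB (.inl k12) v12).1
  have bY := (hh.memB hB (.inr ky) vy).1
  refine bil (H := fun k l => yy h s.y (k * l) * yy h s.x1 (k * k * l)) (yy_add hh hB (.inr kr))
    (yy_add hh hB (.inl k2)) (fun k k' l => ?_) (fun k l l' => ?_)
    (fun m k l => (yy_ort hh hs _ _).mul_right (comm3 hh (.inr kr) (.inl k1) d3 f1 _ _))
    (fun m k l => cc (m2 _) (mul_mem (my _) (m1 _))) ?_ ?_ ?_ ?_ k l
  · have e : (k + k') * (k + k') * l = k * k * l + k' * k' * l := by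
      calc _ = k * k * l + k' * k' * l + (k * k' * l + k * k' * l) := by ring
        _ = _ := by rw [Lam.add_self, add_zero]
    simp only [e]
    simp only [add_mul, yy_add hh hB (.inr ky), yy_add hh hB (.inl k1)]
    exact (cc (my _) (m1 _)).mul_mul_mul_comm _ _
  · simp only [mul_add, yy_add hh hB (.inr ky), yy_add hh hB (.inl k1)]
    exact (cc (my _) (m1 _)).mul_mul_mul_comm _ _
  · simpa only [one_mul, yy_one, commutatorElement_def] using d1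
  · simp only [one_mul, yy_one, yy_om]
    rw [commutatorElement_def, ← hh.eqv _ (kL _ (.inr kr)).1 _ (.inl k2), d2, hh.y_eq,
      inv_eq_of_mul_eq_one_right (hB.sq _ b2), (cc (mul_mem (mul_mem b1 b2) b12) b1).eq, ← mul_assoc, ← mul_assoc,
      hB.sq _ b1, one_mul, (cc b12 b2).eq]
  · simp only [mul_one, yy_one, yy_om, yy_om2]
    rw [hs.rx, mul_assoc, (cc b1 (pow_mem (hB.le v1) _)).eq]
  · rw [yy_om2, om_cube, yy_om, yy_om, hs.rX, (cc bY (pow_mem (hB.le vy) _)).eq, mul_assoc,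
      (cc (pow_mem b1 _) (pow_mem (hB.le v1) _)).eq, yy, pv_add (hB.sq _ b1), ZMod.val_one, ← pow_add]

end Cfsg.Agent.S33
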