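import Mathlib
import Cfsg.Agent.S33.VSt1

/-! The Steinberg relations. -/

set_option autoImplicit false
set_option linter.unusedSectionVars false
set_option maxRecDepth 100000
set_option synthInstance.maxSize 100000
set_option synthInstance.maxHeartbeats 1000000

namespace Cfsg.Agent.S33

open Cfsg Cfsg.Agent.Rec Cfsg.Agent.Spor Cfsg.Agent.Loc.Mss Cfsg.Agent.SF6 Cfsg.Agent.Ch Cfsg.Agent.Chev.CD Subgroup
open scoped commutatorElement Matrix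

variable {G : Type*} [Group G] [Finite G] {s : Cfg G} {B : Subgroup G} {h : G → G} {c : ZMod 2}

namespace VSt2

theorem third : ∀ a b : SI 3, a.1 ≠ b.1 → ∃ e : SI 3, b.1 ≠ e.1 ∧ a.1 ≠ e.1 := by decide +kernel

theorem other : ∀ a : SI 3, ∃ b : SI 3, a.1 ≠ b.1 := by decide +kernel

theorem eq_bar : ∀ a b : SI 3, a ≠ b → a.1 = b.1 → b = bar a := by decide +kernel

theorem signs : ∀ a b p q : SI 3, a ≠ b → p ≠ q → b ≠ p → b ≠ bar q → bar a ≠ p → a ≠ q →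
    ∃ s0 s1 s2 : Bool, sp (0, s0) (1, s1) (2, s2) (a.1, true) = a ∧ sp (0, s0) (1, s1) (2, s2) (b.1, false) = b ∧
      sp (0, s0) (1, s1) (2, s2) (p.1, true) = p ∧ sp (0, s0) (1, s1) (2, s2) (q.1, false) = q := by
  decide +kernel

theorem yy_one (h : G → G) (u : G) : yy h u (1 : Lam c) = u := by
  show u ^ 1 * h u ^ 0 = u
  rw [pow_one, pow_zero, mul_one]

theorem yy_om (h : G → G) (u : G) : yy h u (om c) = h u := by
  show u ^ 0 * h u ^ 1 = h u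
  rw [pow_one, pow_zero, one_mul]

theorem lets (s : Pre G) : s.x1 ∈ s.K1 ∧ s.x2 ∈ s.K1 ∧ s.y ∈ s.K2 ∧ s.r ∈ s.K2 ∧ s.c ∈ s.K2 ∧ s.d ∈ s.K2 ∧
    s.x1 ∈ s.V6 ∧ s.x2 ∈ s.V6 ∧ s.x3 ∈ s.V6 ∧ s.y ∈ s.V6 ∧ s.a ∈ s.V6 ∧ s.b ∈ s.V6 :=
  s.hL.decide s.rep (by decide +kernel)

theorem K_L (s : Pre G) {v : G} (hv : v ∈ s.K1 ∨ v ∈ s.K2) : v ∈ s.L := by
  obtain ⟨-, -, -, -, -, -, h1, -, -, h2, -⟩ := lets s
  rcases hv with ⟨g, hg, rfl⟩ | ⟨g, hg, rfl⟩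
  · exact mul_mem (mul_mem hg (s.V6_le h1)) (inv_mem hg)
  · exact mul_mem (mul_mem hg (s.V6_le h2)) (inv_mem hg)

variable {u : SI 3 → SI 3 → G}

/-- The standard position. -/
theorem pos {s : Pre G} (hu : Ru s u) {a b e : SI 3} (h1 : a.1 ≠ b.1) (h2 : b.1 ≠ e.1) (h3 : a.1 ≠ e.1) :
    ∃ l ∈ s.L, l * s.r * l⁻¹ = u a b ∧ l * s.x2 * l⁻¹ = u b (bar b) ∧ l * s.y * l⁻¹ = u a (bar b) ∧
      l * s.x1 * l⁻¹ = u a (bar a) ∧ l * s.d * l⁻¹ = u b e ∧ l * s.c * l⁻¹ = u a e ∧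
      l * s.y * l⁻¹ = u b (bar a) := by
  obtain ⟨l, hl, k⟩ := hu.mon a b e h1 h2 h3
  refine ⟨l, hl, ?_, ?_, ?_, ?_, ?_, ?_, ?_⟩
  · rw [← hu.r]; exact k _ _ (by decide)
  · rw [← hu.x2]; exact k _ _ (by decide)
  · rw [← hu.y]; exact k _ _ (by decide)
  · rw [← hu.x1]; exact k _ _ (by decide)
  · rw [← hu.d]; exact k _ _ (by decide)
  · rw [← hu.c]; exact k _ _ (by decide)
  · rw [← hu.y, ← hu.sym _ _ (by decide)]; exact k _ _ (by decide)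

theorem uK {s : Pre G} (hu : Ru s u) {a b : SI 3} (hab : a ≠ b) : u a b ∈ s.K1 ∨ u a b ∈ s.K2 := by
  by_cases h1 : a.1 = b.1
  · obtain rfl := eq_bar a b hab h1
    obtain ⟨b, hb⟩ := other a
    obtain ⟨e, h2, h3⟩ := third a b hb
    obtain ⟨l, hl, -, -, -, k, -⟩ := pos hu hb h2 h3
    exact Or.inl (k ▸ conj_mem_cls hl (lets s).1)
  · obtain ⟨e, h2, h3⟩ := third a b h1
    obtain ⟨l, hl, k, -⟩ := pos hu h1 h2 h3
    exact Or.inr (k ▸ conj_mem_cls hl (lets s).2.2.2.1)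

theorem uV {s : Pre G} (hu : Ru s u) (i j : Fin 3) : u (i, true) (j, false) ∈ s.V6 := by
  obtain ⟨-, -, -, -, -, -, h1, h2, h3, h4, h5, h6⟩ := lets s
  have e1 : u (1, true) (0, false) = s.y := hu.y ▸ hu.sym (0, true) (1, false) (by decide)
  have e2 : u (2, true) (0, false) = s.a := hu.a ▸ hu.sym (0, true) (2, false) (by decide)
  have e3 : u (2, true) (1, false) = s.b := hu.b ▸ hu.sym (1, true) (2, false) (by decide)
  fin_cases i <;> fin_cases j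
  exacts [hu.x1 ▸ h1, hu.y ▸ h4, hu.a ▸ h5, e1 ▸ h4, hu.x2 ▸ h2, hu.b ▸ h6, e2 ▸ h5, e3 ▸ h6, hu.x3 ▸ h3]

theorem ne_tf (i j : Fin 3) : ((i, true) : SI 3) ≠ (j, false) := fun e => by cases e

theorem yB (hh : Ht s.toPre B h) (hB : s.Big s.V6 B) (hu : Ru s.toPre u) (i j : Fin 3) (k : Lam c) :
    yy h (u (i, true) (j, false)) k ∈ B :=
  mul_mem (pow_mem (hB.le (uV hu i j)) _) (pow_mem (hh.memB hB (uK hu (ne_tf i j)) (uV hu i j)).1 _)

theorem comm_cj {x y : G} (l : G) (h : Commute x y) : Commute (l * x * l⁻¹) (l * y * l⁻¹) :=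
  h.map (MulAut.conj l)

theorem genB (hh : Ht s.toPre B h) (hB : s.Big s.V6 B) (hu : Ru s.toPre u) (K : Subgroup G)
    (hK : ∀ i j (k : Lam c), yy h (u (i, true) (j, false)) k ∈ K) : B ≤ K := by
  have h1 : ∀ i j, u (i, true) (j, false) ∈ K := fun i j => by simpa only [yy_one] using hK i j 1
  have hV : s.V6 ≤ K := by
    refine clos_le.2 ?_
    simp only [List.forall_mem_cons, List.not_mem_nil, false_imp_iff, implies_true, and_true]
    exact ⟨hu.x1 ▸ h1 0 0, hu.x2 ▸ h1 1 1, hu.x3 ▸ h1 2 2, hu.y ▸ h1 0 1, hu.a ▸ h1 0 2, hu.b ▸ h1 1 2⟩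
  let M : Subgroup G :=
    { carrier := {v | v ∈ s.V6 ∧ ∃ e ∈ K, e ∈ B ∧ e ∈ s.Φ v}
      one_mem' := ⟨one_mem _, 1, one_mem _, one_mem _, s.Φ_one.2 (one_mem _)⟩
      mul_mem' := fun ⟨a1, e, e1, e2, e3⟩ ⟨b1, f, f1, f2, f3⟩ =>
        ⟨mul_mem a1 b1, e * f, mul_mem e1 f1, mul_mem e2 f2, s.Φ_mul e3 f3 b1⟩
      inv_mem' := fun ⟨a1, e, e1, e2, e3⟩ =>
        ⟨inv_mem a1, e, e1, e2, by rwa [inv_eq_of_mul_eq_one_right (Phi.V_sq s a1)]⟩ }
  have h2 : ∀ i j, u (i, true) (j, false) ∈ M := fun i j =>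
    have k := hh.memB hB (uK hu (ne_tf i j)) (uV hu i j)
    ⟨uV hu i j, _, yy_om (c := c) h _ ▸ hK i j (om c), k.1, k.2⟩
  have hM : s.V6 ≤ M := by
    refine clos_le.2 ?_
    simp only [List.forall_mem_cons, List.not_mem_nil, false_imp_iff, implies_true, and_true]
    exact ⟨hu.x1 ▸ h2 0 0, hu.x2 ▸ h2 1 1, hu.x3 ▸ h2 2 2, hu.y ▸ h2 0 1, hu.a ▸ h2 0 2, hu.b ▸ h2 1 2⟩
  intro e he
  obtain ⟨v, hv, h3⟩ := hB.tau e he
  obtain ⟨-, f, f1, f2, f3⟩ := hM hv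
  have h4 := (s.Φ_mul h3 f3 hv).2
  rw [Phi.V_sq s hv, mul_one] at h4
  exact (mul_mem_cancel_right f1).1 (hV ((s.big_cent hB (mul_mem he f2)).1 (mul_inv_eq_iff_eq_mul.1 h4)))

end VSt2

open VSt2 in
theorem dbl_of (hh : Ht s.toPre B h) (hB : s.Big s.V6 B) (hs : Std s.toPre h c.val) {u : SI 3 → SI 3 → G}
    (hu : Ru s.toPre u) : Dbl s.toPre B fun a b (k : Lam c) => yy h (u a b) k := by
  obtain ⟨k1, k2, ky, kr, kc, kd, -⟩ := lets s.toPre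
  refine ⟨⟨fun a b hab => by rw [hu.sym a b hab], fun a b hab k l => yy_add hh hB (uK hu hab) k l,
    fun a b p q h1 h2 h3 h4 h5 h6 k l => ?_, fun a b hab k l => ?_, fun a b e h1 h2 h3 k l => ?_,
    fun a b hab k l => ?_⟩, fun a b hab k => yy_tac hh hB (uK hu hab) k,
    fun a b hab => (yy_one (c := c) h _).symm ▸ K_L _ (uK hu hab),
    fun K hK => hu.gen K fun a b hab => by simpa only [yy_one] using hK a b hab, genB hh hB hu⟩
  · obtain ⟨s0, s1, s2, e1, e2, e3, e4⟩ := signs a b p q h1 h2 h3 h4 h5 h6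
    obtain ⟨g, hg, m⟩ := hu.mon (0, s0) (1, s1) (2, s2) (by simp) (by simp) (by simp)
    have m1 := m _ _ (ne_tf a.1 b.1)
    have m2 := m _ _ (ne_tf p.1 q.1)
    rw [e1, e2] at m1
    rw [e3, e4] at m2
    show Commute (yy h (u a b) k) (yy h (u p q) l)
    rw [← m1, ← m2, ← yy_conj hh (uK hu (ne_tf _ _)) hg, ← yy_conj hh (uK hu (ne_tf _ _)) hg]
    exact comm_cj g (s.big_comm hB (yB hh hB hu _ _ k) (yB hh hB hu _ _ l))
  · obtain ⟨e, h2, h3⟩ := third a b hab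
    obtain ⟨g, hg, m1, -, -, -, -, -, m2⟩ := pos hu hab h2 h3
    show Commute (yy h (u a b) k) (yy h (u b (bar a)) l)
    rw [← m1, ← m2, ← yy_conj hh (.inr kr) hg, ← yy_conj hh (.inr ky) hg]
    exact comm_cj g (yy_ort hh hs k l)
  · obtain ⟨g, hg, m1, -, -, -, m2, m3, -⟩ := pos hu h1 h2 h3
    show ⁅yy h (u a b) k, yy h (u b e) l⁆ = yy h (u a e) (k * l)
    rw [← m1, ← m2, ← m3, ← yy_conj hh (.inr kr) hg, ← yy_conj hh (.inr kd) hg, ← yy_conj hh (.inr kc) hg,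
      ← conjugate_commutatorElement, yy_tri hh hB hs]
  · obtain ⟨e, h2, h3⟩ := third a b hab
    obtain ⟨g, hg, m1, m2, m3, m4, -⟩ := pos hu hab h2 h3
    show ⁅yy h (u a b) k, yy h (u b (bar b)) l⁆ = yy h (u a (bar b)) (k * l) * yy h (u a (bar a)) (k * k * l)
    rw [← m1, ← m2, ← m3, ← m4, ← yy_conj hh (.inr kr) hg, ← yy_conj hh (.inl k2) hg, ← yy_conj hh (.inr ky) hg,
      ← yy_conj hh (.inl k1) hg, ← conjugate_commutatorElement, yy_quad hh hB hs, conj_mul]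

open VSt2 in
theorem Dbl.mem_normal {s : Pre G} {Y : SI 3 → SI 3 → Lam c → G} (hd : Dbl s B Y) {K : Subgroup G} [K.Normal]
    (hL : s.L ≤ K) {a b : SI 3} (hab : a ≠ b) (k : Lam c) : Y a b k ∈ K := by
  have nK : K.Normal := inferInstance
  have key : ∀ a b : SI 3, a.1 ≠ b.1 → ∀ k, Y a b k ∈ K := fun a b h1 k => by
    obtain ⟨e, h2, h3⟩ := third a b h1
    have h4 := hL (hd.memL e b fun h => h2 (congrArg Prod.fst h).symm)
    rw [← mul_one k, ← hd.rel.tri a e b h3 h2.symm h1, commutatorElement_def]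
    exact mul_mem (nK.conj_mem _ h4 _) (inv_mem h4)
  by_cases h1 : a.1 = b.1
  · obtain rfl := eq_bar a b hab h1
    obtain ⟨b, hb⟩ := other a
    have h2 := hd.rel.quad a b hb 1 k
    have h3 := hL (hd.memL a b fun h => hb (congrArg Prod.fst h))
    have h4 : ⁅Y a b 1, Y b (bar b) k⁆ ∈ K := by
      have := mul_mem h3 (nK.conj_mem _ (inv_mem h3) (Y b (bar b) k))
      simpa only [commutatorElement_def, mul_assoc] using this
    rw [h2, one_mul, one_mul, one_mul] at h4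
    exact (mul_mem_cancel_left (key a (bar b) hb k)).1 h4
  · exact key a b h1 k

end Cfsg.Agent.S33
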