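import Mathlib
import Cfsg.Agent.S33.VDefs

/-! The wreathed case: basic facts. -/

set_option autoImplicit false
set_option linter.unusedSectionVars false
set_option maxRecDepth 100000
set_option synthInstance.maxSize 100000
set_option synthInstance.maxHeartbeats 1000000

namespace Cfsg.Agent.S33

open Cfsg Cfsg.Agent.Rec Cfsg.Agent.Spor Cfsg.Agent.Loc.Mss Cfsg.Agent.SF6 Cfsg.Agent.Ch Cfsg.Agent.Chev.CD Subgroup
open scoped commutatorElement Matrix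

variable {G : Type*} [Group G] [Finite G] {s : Co G} (w : Wd s)

namespace VWr1

theorem ti (s : Co G) : s.t⁻¹ = s.t := inv_eq_of_mul_eq_one_right s.tt

theorem p_one {k : s.L} (h : w.p k = 1) : k = 1 := by
  have h1 := w.pq k
  rw [← w.tp, h, mul_one, mul_inv_cancel, one_mul] at h1
  exact Subtype.ext h1.symm

theorem q_one {k : s.L} (h : w.q k = 1) : k = 1 := by
  have h1 := w.tp k
  rw [h, mul_inv_eq_one, mul_eq_left] at h1
  exact p_one w h1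

theorem mulpq (a b a' b' : s.L) : w.p a * w.q b * (w.p a' * w.q b') = w.p (a * a') * w.q (b * b') := by
  rw [map_mul, map_mul, mul_assoc, ← mul_assoc (w.q b), ← (w.cm a' b).eq]
  group

theorem zp (s : Co G) {g : G} (hg : g ∈ zpowers s.t) : g = 1 ∨ g = s.t := by
  obtain ⟨k, rfl⟩ := mem_zpowers_iff.1 hg
  have h2 : s.t ^ (2 : ℤ) = 1 := by rw [zpow_two, s.tt]
  rcases Int.even_or_odd' k with ⟨j, rfl | rfl⟩
  · left; rw [zpow_mul, h2, one_zpow]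
  · right; rw [zpow_add, zpow_mul, h2, one_zpow, one_mul, zpow_one]

theorem dec (s : Co G) : ∀ v ∈ s.V6, v * s.r = s.r * v → v * s.n = s.n * v → v * s.d = s.d * v →
    v * s.m = s.m * v → v = 1 :=
  s.hL.decide s.rep (by decide +kernel)

theorem gens (s : Co G) : s.r ∈ s.L ∧ s.n ∈ s.L ∧ s.d ∈ s.L ∧ s.m ∈ s.L := by
  have k : s.r ∈ s.L3 ∧ s.n ∈ s.L3 ∧ s.d ∈ s.L3 ∧ s.m ∈ s.L3 := s.hL.decide s.rep (by decide +kernel)
  exact ⟨s.L3_le k.1, s.L3_le k.2.1, s.L3_le k.2.2.1, s.L3_le k.2.2.2⟩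

theorem le_V6 (s : Co G) {E : Subgroup G} (hE : E ≤ s.U) (h2 : ∀ e ∈ E, e * e = 1) (hc : 64 ≤ Nat.card E) :
    E ≤ s.V6 := by
  have hL : E ≤ s.L := hE.trans s.U_le
  have hn : zpowers s.t ≤ 𝐍[E] :=
    norm_of_cent (zpowers_le_of_mem (mem_cent.2 fun a ha => s.t_comm (hL ha)))
  have hsq : ∀ g ∈ E ⊔ zpowers s.t, g * g = 1 := by
    intro g hg
    obtain ⟨e, he, x, hx, rfl⟩ := (mem_sup_norm hn).1 hg
    rcases zp s hx with rfl | rfl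
    · rw [mul_one]; exact h2 e he
    · rw [mul_assoc, ← mul_assoc s.t, ← s.t_comm (hL he), mul_assoc, s.tt, mul_one]; exact h2 e he
  have h1 := two_mul_card_le (A := E) le_sup_left hsq (mem_sup_right (mem_zpowers s.t)) fun h => s.tL (hL h)
  have hT : E ⊔ zpowers s.t ≤ s.T :=
    sup_le (hE.trans s.les.2.2.2.2.2.2.2.1) (zpowers_le_of_mem (s.les.2.2.2.2.2.2.1 s.tW))
  have hW := s.elemT hT hsq (by omega)
  intro e he
  have : e ∈ s.W := hW ▸ mem_sup_left he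
  exact (s.memW.1 this).resolve_right fun h => s.tL ((mul_mem_cancel_right (hL he)).1 (s.V6_le h))

end VWr1

open VWr1

theorem Wd.uniq {a b a' b' : s.L} (e : w.p a * w.q b = w.p a' * w.q b') : a = a' ∧ b = b' := by
  have h : w.p (a'⁻¹ * a) = w.q (b' * b⁻¹) := by
    rw [map_mul, map_mul, map_inv, map_inv, inv_mul_eq_iff_eq_mul, ← mul_assoc, ← e, mul_inv_cancel_right]
  have hc : ∀ l ∈ s.L, (a'⁻¹ * a : s.L).1 * l = l * (a'⁻¹ * a : s.L).1 := by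
    intro l hl
    have h1 : w.p ((a'⁻¹ * a) * ⟨l, hl⟩ * (⟨l, hl⟩ * (a'⁻¹ * a))⁻¹) = 1 := by
      rw [map_mul, map_inv, mul_inv_eq_one, map_mul w.p (a'⁻¹ * a), map_mul w.p _ (a'⁻¹ * a), h]
      exact (w.cm _ _).eq.symm
    exact congrArg Subtype.val (mul_inv_eq_one.1 (p_one w h1))
  have hV := s.cent_V6 (a'⁻¹ * a).2 fun u hu => hc u (s.V6_le hu)
  obtain ⟨g1, g2, g3, g4⟩ := gens s
  have h1 : a'⁻¹ * a = 1 := Subtype.ext (dec s _ hV (hc _ g1) (hc _ g2) (hc _ g3) (hc _ g4))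
  rw [h1, map_one] at h
  exact ⟨(inv_mul_eq_one.1 h1).symm, (mul_inv_eq_one.1 (q_one w h.symm)).symm⟩

theorem Wd.mem_sup {A : Subgroup G} {g : G} :
    g ∈ w.P A ⊔ w.Q A ↔ ∃ a b : s.L, a.1 ∈ A ∧ b.1 ∈ A ∧ g = w.p a * w.q b := by
  have hn : w.P A ≤ 𝐍[w.Q A] := by
    refine norm_of_cent ?_
    rintro _ ⟨a, -, rfl⟩
    refine mem_cent.2 ?_
    rintro _ ⟨b, -, rfl⟩
    exact (w.cm a b).eq.symm
  rw [mem_sup_norm' hn]
  constructor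
  · rintro ⟨_, ⟨a, ha, rfl⟩, _, ⟨b, hb, rfl⟩, rfl⟩
    exact ⟨a, b, ha, hb, rfl⟩
  · rintro ⟨a, b, ha, hb, rfl⟩
    exact ⟨_, ⟨a, ha, rfl⟩, _, ⟨b, hb, rfl⟩, rfl⟩

theorem Wd.tq (l : s.L) : s.t * w.q l * s.t⁻¹ = w.p l := by
  rw [← w.tp, ti s, ← mul_assoc, ← mul_assoc, s.tt, one_mul, mul_assoc, s.tt, mul_one]

theorem Wd.le_X (A : Subgroup G) : w.P A ⊔ w.Q A ≤ s.X := by
  refine sup_le ?_ ?_
  · rintro _ ⟨a, -, rfl⟩
    exact w.memX a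
  · rintro _ ⟨a, -, rfl⟩
    rw [← w.tp]
    exact s.conj_X.2 (w.memX a)

theorem VWr1.t_norm (A : Subgroup G) : zpowers s.t ≤ 𝐍[w.P A ⊔ w.Q A] := by
  refine zpowers_le_of_mem (mem_norm_of_cj_le (cj_le_iff.2 fun g hg => ?_))
  obtain ⟨a, b, ha, hb, rfl⟩ := w.mem_sup.1 hg
  refine w.mem_sup.2 ⟨b, a, hb, ha, ?_⟩
  rw [(w.cm b a).eq, ← w.tp a, ← w.tq b]
  group

theorem Wd.mem_S {A : Subgroup G} {g : G} :
    g ∈ w.P A ⊔ w.Q A ⊔ zpowers s.t ↔ g ∈ w.P A ⊔ w.Q A ∨ g * s.t ∈ w.P A ⊔ w.Q A := by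
  constructor
  · intro hg
    obtain ⟨e, he, x, hx, rfl⟩ := (mem_sup_norm (t_norm w A)).1 hg
    rcases zp s hx with rfl | rfl
    · left; rwa [mul_one]
    · right; rwa [mul_assoc, s.tt, mul_one]
  · rintro (h | h)
    · exact mem_sup_left h
    · exact (mul_mem_cancel_right (mem_sup_right (mem_zpowers s.t))).1 (mem_sup_left h)

theorem Wd.conj_t {A : Subgroup G} {g : G} (hg : g ∈ w.P A ⊔ w.Q A ⊔ zpowers s.t) (hX : g ∉ s.X) (h2 : g * g = 1) :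
    ∃ a ∈ w.P A, g = a * s.t * a⁻¹ := by
  obtain ⟨a, b, ha, -, e⟩ := w.mem_sup.1 ((w.mem_S.1 hg).resolve_left fun h => hX (w.le_X A h))
  have e' : g = w.p a * w.q b * s.t⁻¹ := eq_mul_inv_of_mul_eq e
  have h3 : w.p (a * b) * w.q (b * a) = w.p 1 * w.q 1 := by
    rw [← mulpq, map_one, map_one, mul_one, ← h2, (w.cm b a).eq, e', ← w.tp a, ← w.tq b, ti s]
    simp only [mul_assoc, Phi.tt' s.toCfg]
  have h4 : b = a⁻¹ := eq_inv_of_mul_eq_one_right (w.uniq h3).1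
  refine ⟨w.p a, ⟨a, ha, rfl⟩, ?_⟩
  rw [e', h4, ← w.tp, map_inv, ti s]
  simp only [mul_assoc, s.tt, mul_one]

theorem VWr1.diag {A : Subgroup G} (hA : A ≤ s.L) : A ≤ w.P A ⊔ w.Q A := fun u hu =>
  w.mem_sup.2 ⟨⟨u, hA hu⟩, ⟨u, hA hu⟩, hu, hu, (w.pq ⟨u, hA hu⟩).symm⟩

theorem Wd.syl : Syl 2 (w.P s.U ⊔ w.Q s.U ⊔ zpowers s.t) ⊤ := by
  have hU : IsPGroup 2 (s.U.subgroupOf s.L) := s.sylU.pg.comap_subtype
  have hPQ : IsPGroup 2 (w.P s.U ⊔ w.Q s.U : Subgroup G) := by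
    refine pg_sup (hU.map w.p) (hU.map w.q) (norm_of_cent ?_)
    rintro _ ⟨a, -, rfl⟩
    refine mem_cent.2 ?_
    rintro _ ⟨b, -, rfl⟩
    exact (w.cm a b).eq.symm
  have ht : IsPGroup 2 (zpowers s.t) := Phi.pg_of_sq fun e he => by
    rcases zp s he with rfl | rfl
    · exact mul_one 1
    · exact s.tt
  refine Syl.of_norm (pg_sup' hPQ ht (t_norm w _)) le_top fun R hR hSR _ hn g hg => ?_
  have tS : s.t ∈ w.P s.U ⊔ w.Q s.U ⊔ zpowers s.t := mem_sup_right (mem_zpowers s.t)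
  obtain ⟨a, ha, e⟩ := w.conj_t (conj_mem_of_norm (hn hg) tS) (fun h => s.tX (s.conj_X.1 h))
    (by rw [show g * s.t * g⁻¹ * (g * s.t * g⁻¹) = g * (s.t * s.t) * g⁻¹ by group, s.tt]; group)
  have aS : a ∈ w.P s.U ⊔ w.Q s.U ⊔ zpowers s.t := mem_sup_left (mem_sup_left ha)
  have hk : a⁻¹ * g * s.t = s.t * (a⁻¹ * g) := by
    rw [show a⁻¹ * g * s.t = a⁻¹ * (g * s.t * g⁻¹) * g by group, e]; group
  have hLR : s.L ⊓ R ≤ w.P s.U ⊔ w.Q s.U ⊔ zpowers s.t :=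
    (s.sylU.ge_of_le (hR.to_le inf_le_right)
      (le_inf s.U_le (((diag w s.U_le).trans le_sup_left).trans hSR)) inf_le_left).trans
      ((diag w s.U_le).trans le_sup_left)
  have kR : a⁻¹ * g ∈ R := mul_mem (inv_mem (hSR aS)) hg
  refine (mul_mem_cancel_left (inv_mem aS)).1 ?_
  rcases s.cent _ hk with h | h
  · exact hLR (mem_inf.2 ⟨h, kR⟩)
  · exact (mul_mem_cancel_left tS).1 (hLR (mem_inf.2 ⟨h, mul_mem (hSR tS) kR⟩))

theorem VWr1.p_Φ {v : s.L} (hv : v.1 ∈ s.V6) : w.p v ∈ s.Φ v.1 ∧ w.p v * w.p v = 1 := by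
  have hvv : v * v = 1 := Subtype.ext (Phi.V_sq s.toCfg hv)
  have h2 : w.p v * w.p v = 1 := by rw [← map_mul, hvv, map_one]
  refine ⟨⟨fun u hu => ?_, ?_⟩, h2⟩
  · have hc : v * ⟨u, s.V6_le hu⟩ = ⟨u, s.V6_le hu⟩ * v :=
      Subtype.ext (s.W_comm (Phi.V_W s.toCfg hv) (Phi.V_W s.toCfg hu))
    have e : u = w.p ⟨u, s.V6_le hu⟩ * w.q ⟨u, s.V6_le hu⟩ := (w.pq ⟨u, s.V6_le hu⟩).symm
    rw [e, ← mul_assoc, ← map_mul, hc, map_mul, mul_assoc, mul_assoc, (w.cm _ _).eq]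
  · rw [inv_eq_of_mul_eq_one_right h2, ← w.pq v, (w.cm v v).eq, ← w.tp v, ti s]
    simp only [mul_assoc, Phi.tt' s.toCfg]

theorem Wd.B_eq {B : Subgroup G} (hB : s.Big s.V6 B) : B = w.P s.V6 ⊔ w.Q s.V6 := by
  have hp : ∀ v : s.L, v.1 ∈ s.V6 → w.p v ∈ B := by
    intro v hv
    by_cases h : v.1 = 1
    · rw [show v = 1 from Subtype.ext h, map_one]; exact one_mem _
    · exact hB.max _ hv h _ (p_Φ w hv).1 (p_Φ w hv).2
  refine le_antisymm (fun e he => ?_) (sup_le ?_ ?_)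
  · obtain ⟨v, hv, hΦ⟩ := hB.tau e he
    have h1 := (p_Φ w (v := ⟨v, s.V6_le hv⟩) hv).1
    have h2 := hp ⟨v, s.V6_le hv⟩ hv
    have h3 : w.p ⟨v, s.V6_le hv⟩ ∈ w.P s.V6 ⊔ w.Q s.V6 := mem_sup_left ⟨_, hv, rfl⟩
    refine (mul_mem_cancel_left (inv_mem h3)).1 (diag w s.V6_le ((s.big_cent hB (mul_mem (inv_mem h2) he)).1 ?_))
    have h4 := h1.2.trans hΦ.2.symm
    generalize w.p ⟨v, s.V6_le hv⟩ = x at h4 ⊢
    rw [show x⁻¹ * e * s.t = x⁻¹ * (e * s.t * e⁻¹) * e by group, ← h4]; group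
  · rintro _ ⟨v, hv, rfl⟩
    exact hp v hv
  · rintro _ ⟨v, hv, rfl⟩
    refine (mul_mem_cancel_left (hp v hv)).1 ?_
    rw [w.pq]
    exact hB.le hv

theorem Wd.norm_B {B : Subgroup G} (hB : s.Big s.V6 B) : 𝐍[w.P s.U ⊔ w.Q s.U] ≤ 𝐍[B] := by
  intro g hg
  have hBU : B ≤ w.P s.U ⊔ w.Q s.U := by
    rw [w.B_eq hB]
    exact sup_le_sup (map_mono (comap_mono s.les.1)) (map_mono (comap_mono s.les.1))
  have hA : cj(g, B) ≤ w.P s.U ⊔ w.Q s.U := cj_le_of_norm hBU hg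
  have hsq := Cfg.cj_sq hB.sq g
  have hc : Nat.card cj(g, B) = 64 * 64 := by rw [card_cj, hB.card, s.gV6.2]
  refine mem_norm_of_cj_le ?_
  generalize cj(g, B) = A at hA hsq hc ⊢
  let φ : s.L × s.L →* G := w.p.noncommCoprod w.q w.cm
  have hφ : ∀ x : s.L × s.L, φ x = w.p x.1 * w.q x.2 := fun x => rfl
  have inj : Function.Injective φ := fun x y h => Prod.ext (w.uniq h).1 (w.uniq h).2
  have hr : A ≤ φ.range := fun a ha => by
    obtain ⟨x, y, -, -, rfl⟩ := w.mem_sup.1 (hA ha)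
    exact ⟨(x, y), rfl⟩
  have key : ∀ x ∈ A.comap φ, x.1.1 ∈ s.U ∧ x.2.1 ∈ s.U ∧ x.1 * x.1 = 1 ∧ x.2 * x.2 = 1 := by
    intro x hx
    obtain ⟨a, b, ha, hb, e⟩ := w.mem_sup.1 (hA hx)
    obtain ⟨e1, e2⟩ := w.uniq ((hφ x).symm.trans e)
    have h1 : x * x = 1 := inj (by rw [map_mul, map_one]; exact hsq _ hx)
    exact ⟨e1 ▸ ha, e2 ▸ hb, congrArg Prod.fst h1, congrArg Prod.snd h1⟩
  have c0 : Nat.card (A.comap φ) = 64 * 64 := by
    rw [← card_map_of_injective inj, map_comap_eq_self hr, hc]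
  have c1 : Nat.card (A.comap φ) ≤ Nat.card (((A.comap φ).map (MonoidHom.fst _ _)).map s.L.subtype) *
      Nat.card (((A.comap φ).map (MonoidHom.snd _ _)).map s.L.subtype) := by
    rw [card_map_of_injective s.L.subtype_injective, card_map_of_injective s.L.subtype_injective,
      ← Nat.card_prod, ← Nat.card_congr (prodEquiv _ _).toEquiv]
    exact card_le_of_le (le_prod_iff.2 ⟨le_rfl, le_rfl⟩)
  have k1 := le_V6 s (E := ((A.comap φ).map (MonoidHom.fst _ _)).map s.L.subtype)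
    (by rintro _ ⟨_, ⟨x, hx, rfl⟩, rfl⟩; exact (key x hx).1)
    (by rintro _ ⟨_, ⟨x, hx, rfl⟩, rfl⟩; exact congrArg Subtype.val (key x hx).2.2.1)
  have k2 := le_V6 s (E := ((A.comap φ).map (MonoidHom.snd _ _)).map s.L.subtype)
    (by rintro _ ⟨_, ⟨x, hx, rfl⟩, rfl⟩; exact (key x hx).2.1)
    (by rintro _ ⟨_, ⟨x, hx, rfl⟩, rfl⟩; exact congrArg Subtype.val (key x hx).2.2.2)
  have b1 := fun h => (card_le_of_le (k1 h)).trans_eq s.gV6.2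
  have b2 := fun h => (card_le_of_le (k2 h)).trans_eq s.gV6.2
  rw [c0] at c1
  generalize Nat.card (((A.comap φ).map (MonoidHom.fst _ _)).map s.L.subtype) = n1 at k1 b1 c1
  generalize Nat.card (((A.comap φ).map (MonoidHom.snd _ _)).map s.L.subtype) = n2 at k2 b2 c1
  have m1 : n1 ≤ 64 := (le_total n1 64).elim id b1
  have m2 : n2 ≤ 64 := (le_total n2 64).elim id b2
  have l1 := k1 (by nlinarith)
  have l2 := k2 (by nlinarith)
  intro a ha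
  obtain ⟨x, rfl⟩ := hr ha
  rw [w.B_eq hB]
  exact w.mem_sup.2 ⟨x.1, x.2, l1 ⟨_, ⟨x, ha, rfl⟩, rfl⟩, l2 ⟨_, ⟨x, ha, rfl⟩, rfl⟩, rfl⟩

end Cfsg.Agent.S33
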