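import Mathlib
import Cfsg.Agent.S33.XDefs
import Cfsg.Agent.S33.XP1D

/-! Facts on `C_L(x1)`. -/

set_option autoImplicit false
set_option linter.unusedSectionVars false
set_option maxRecDepth 100000
set_option synthInstance.maxSize 100000
set_option synthInstance.maxHeartbeats 1000000

namespace Cfsg.Agent.S33

open Cfsg Cfsg.Agent.Rec Cfsg.Agent.Spor Cfsg.Agent.Loc.Mss Cfsg.Agent.SF6 Subgroup Matrix

variable {G : Type*} [Group G] [Finite G] {s : Co G} {Q : Subgroup G} {n : ℕ}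

/-- The list of the elements of `S6`. -/
theorem Co.gS6 (s : Co G) : s.C.Lists xS6_t.dom s.S6 ∧ Nat.card s.S6 = 720 :=
  (s.rep.pick [2, 3, 6, 14, 15]).gen xS6_ok

theorem Co.S6_le (s : Co G) : s.S6 ≤ s.L := by
  have k : s.x2 ∈ s.U ∧ s.x3 ∈ s.U ∧ s.x23 ∈ s.U ∧ s.w2 = s.d * s.m * s.w3 * s.m * s.d :=
    s.hL.decide s.rep (by decide +kernel)
  have h1 : s.w3 ∈ s.L := mem_clos (by simp)
  have h2 : s.d ∈ s.L := mem_clos (by simp)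
  have h3 : s.m ∈ s.L := mem_clos (by simp)
  refine clos_le.2 ?_
  simp only [List.forall_mem_cons, List.not_mem_nil, false_imp_iff, implies_true, and_true]
  refine ⟨s.U_le k.1, s.U_le k.2.1, s.U_le k.2.2.1, ?_, h1⟩
  rw [k.2.2.2]
  exact mul_mem (mul_mem (mul_mem (mul_mem h2 h3) h1) h3) h2

theorem Co.S6_norm (s : Co G) : s.S6 ≤ 𝐍[s.V5] := by
  refine fun g hg => mem_norm_of_cj_le (cj_le_iff.2 (le_normalizer_clos ?_ hg))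
  simp only [List.forall_mem_cons, List.not_mem_nil, false_imp_iff, implies_true, and_true]
  exact s.hL.decide s.rep (by decide +kernel)

theorem Co.xV5_le (s : Co G) : s.V5 ≤ s.L := s.les.2.2.2.2.2.2.2.2.2.2.2.2.2.trans s.U_le

theorem Co.xV5_sq (s : Co G) : ∀ v ∈ s.V5, v * v = 1 := s.hL.decide s.rep (by decide +kernel)

theorem Co.mem_P1 (s : Co G) {g : G} : g ∈ s.P1 ↔ g ∈ s.L ∧ g * s.x1 = s.x1 * g :=
  and_congr_right fun _ => mem_centralizer_singleton_iff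

theorem Co.P1_sup (s : Co G) : s.P1 = s.V5 ⊔ s.S6 := by
  have k : (∀ v ∈ s.V5, v * s.x1 = s.x1 * v) ∧ (∀ v ∈ s.S6, v * s.x1 = s.x1 * v) ∧ ∀ v ∈ s.V5, v ∈ s.S6 → v = 1 :=
    (s.gS6.1.cons s.hL).decide s.rep (by decide +kernel)
  have h1 : s.V5 ⊔ s.S6 ≤ s.P1 := sup_le (fun v hv => s.mem_P1.2 ⟨s.xV5_le hv, k.1 v hv⟩)
    fun v hv => s.mem_P1.2 ⟨s.S6_le hv, k.2.1 v hv⟩
  have h2 := GT.PG.card_sup_mul_card_inf s.S6_norm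
  have h3 : s.S6 ⊓ s.V5 = ⊥ := eq_bot_iff.2 fun v hv => mem_bot.2 (k.2.2 v hv.2 hv.1)
  rw [h3, card_bot, s.gS6.2, s.gV5.2, sup_comm] at h2
  refine le_antisymm (fun g hg => ?_) h1
  exact cent_of_card (h1.trans inf_le_left) (fun v hv => (s.mem_P1.1 (h1 hv)).2) (S := s.K1) (fun _ h => h)
    (by rw [s.gK1.2, s.cardL]; omega) (s.mem_P1.1 hg).1 (s.mem_P1.1 hg).2

theorem Co.P1_eq (s : Co G) {g : G} : g ∈ s.P1 ↔ ∃ v ∈ s.V5, ∃ h ∈ s.S6, g = v * h := by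
  rw [s.P1_sup, mem_sup_norm s.S6_norm]
  exact ⟨fun ⟨v, hv, h, hh, e⟩ => ⟨v, hv, h, hh, e.symm⟩, fun ⟨v, hv, h, hh, e⟩ => ⟨v, hv, h, hh, e.symm⟩⟩

theorem Co.P1_les (s : Co G) : s.V5 ≤ s.P1 ∧ s.S6 ≤ s.P1 ∧ s.U ≤ s.P1 ∧ s.C2 ≤ s.P1 ∧ s.Sp ≤ s.P1 ∧ s.P12 ≤ s.P1 ∧ s.P1 ≤ 𝐍[s.V5] := by
  have k : s.U ≤ s.P12 ∧ s.C2 ≤ s.P12 ∧ s.P12 ≤ s.P2 ∧ (∀ v ∈ s.Sp, v * s.x1 = s.x1 * v) ∧
      ∀ v ∈ s.P12, v * s.x1 = s.x1 * v := s.hL.decide s.rep (by decide +kernel)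
  have h1 : s.P12 ≤ s.P1 := fun v hv => s.mem_P1.2 ⟨s.P2_le (k.2.2.1 hv), k.2.2.2.2 v hv⟩
  refine ⟨s.P1_sup ▸ le_sup_left, s.P1_sup ▸ le_sup_right, k.1.trans h1, k.2.1.trans h1,
    fun v hv => s.mem_P1.2 ⟨s.L3_le (s.les.2.2.2.2.2.2.2.2.2.1 hv), k.2.2.2.1 v hv⟩, h1, ?_⟩
  rw [s.P1_sup]
  exact sup_le le_normalizer s.S6_norm

theorem Co.P1_of (s : Co G) {K : Subgroup G} (h : K ≤ s.P1) (h1 : s.x1 ∈ K) (h2 : s.y ∈ K) (h3 : s.a ∈ K) (h4 : s.c ∈ K)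
    (h5 : s.r ∈ K) (h6 : s.x2 ∈ K) (h7 : s.x3 ∈ K) (h8 : s.x23 ∈ K) (h9 : s.w2 ∈ K) (h10 : s.w3 ∈ K) : s.P1 = K := by
  refine le_antisymm ?_ h
  rw [s.P1_sup]
  refine sup_le (clos_le.2 ?_) (clos_le.2 ?_) <;>
    simp only [List.forall_mem_cons, List.not_mem_nil, false_imp_iff, implies_true, and_true]
  exacts [⟨h1, h2, h3, h4, h5⟩, ⟨h6, h7, h8, h9, h10⟩]

theorem Co.P1_clos (s : Co G) : s.P1 = clos [s.x1, s.x2, s.x3, s.y, s.a, s.b, s.w2, s.w3] ∧ s.P1 = clos [s.x3, s.w3, s.r, s.d, s.m] ∧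
    s.P1 = clos [s.y, s.x2, s.x3, s.x23, s.w2, s.w3] := by
  have k : (s.x1 ∈ s.V5 ∧ s.y ∈ s.V5 ∧ s.a ∈ s.V5 ∧ s.r ∈ s.V5 ∧ s.x2 ∈ s.S6 ∧ s.x3 ∈ s.S6 ∧ s.x23 ∈ s.S6 ∧ s.b ∈ s.S6 ∧
      s.d ∈ s.S6 ∧ s.w2 ∈ s.S6 ∧ s.w3 ∈ s.S6 ∧ s.m ∈ s.S6) ∧
      (s.c = s.x1 * s.a * s.w3 * s.a * s.w3 ∧ s.r = s.x1 * s.y * s.w2 * s.y * s.w2 ∧ s.x23 = s.x2 * s.x3 * s.b) ∧
      (s.x2 = s.m * s.d * s.x3 * s.d * s.m ∧ s.x23 = s.d * s.x3 * s.d ∧ s.w2 = s.d * s.m * s.w3 * s.m * s.d ∧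
        s.c ∈ s.U ∧ s.x1 ∈ s.U ∧ s.y ∈ s.U ∧ s.a ∈ s.U) ∧
      s.x1 = s.y * s.x2 * s.w2 * s.y * s.x2 * s.w2 * s.y * s.x2 * s.w2 ∧ s.a = s.d * s.m * s.d * s.y * s.d * s.m * s.d ∧
      s.c = s.x1 * s.a * s.w3 * s.a * s.w3 ∧ s.r = s.x2 * s.w2 * s.y * s.w2 * s.x2 :=
    (s.gS6.1.cons s.hL).decide s.rep (by decide +kernel)
  obtain ⟨⟨a1, a2, a3, a4, a5, a6, a7, a8, a9, a10, a11, a12⟩, ⟨b1, b2, b3⟩, ⟨c1, c2, c3, c4, c5, c6, c7⟩, d1, d2, d3, d4⟩ := k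
  have V := s.P1_les.1
  have S := s.P1_les.2.1
  refine ⟨?_, ?_, ?_⟩
  · have h : ∀ g ∈ [s.x1, s.x2, s.x3, s.y, s.a, s.b, s.w2, s.w3], g ∈ clos [s.x1, s.x2, s.x3, s.y, s.a, s.b, s.w2, s.w3] :=
      fun g hg => mem_clos hg
    have h0 : clos [s.x1, s.x2, s.x3, s.y, s.a, s.b, s.w2, s.w3] ≤ s.P1 := clos_le.2 (by
      simp only [List.forall_mem_cons, List.not_mem_nil, false_imp_iff, implies_true, and_true]
      exact ⟨V a1, S a5, S a6, V a2, V a3, S a8, S a10, S a11⟩)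
    generalize clos [s.x1, s.x2, s.x3, s.y, s.a, s.b, s.w2, s.w3] = K at h h0
    simp only [List.forall_mem_cons, List.not_mem_nil, false_imp_iff, implies_true, and_true] at h
    obtain ⟨h1, h2, h3, h4, h5, h6, h7, h8⟩ := h
    refine s.P1_of h0 h1 h4 h5 ?_ ?_ h2 h3 ?_ h7 h8
    · rw [b1]; exact mul_mem (mul_mem (mul_mem (mul_mem h1 h5) h8) h5) h8
    · rw [b2]; exact mul_mem (mul_mem (mul_mem (mul_mem h1 h4) h7) h4) h7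
    · rw [b3]; exact mul_mem (mul_mem h2 h3) h6
  · have h : ∀ g ∈ [s.x3, s.w3, s.r, s.d, s.m], g ∈ clos [s.x3, s.w3, s.r, s.d, s.m] := fun g hg => mem_clos hg
    have h0 : clos [s.x3, s.w3, s.r, s.d, s.m] ≤ s.P1 := clos_le.2 (by
      simp only [List.forall_mem_cons, List.not_mem_nil, false_imp_iff, implies_true, and_true]
      exact ⟨S a6, S a11, V a4, S a9, S a12⟩)
    generalize clos [s.x3, s.w3, s.r, s.d, s.m] = K at h h0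
    simp only [List.forall_mem_cons, List.not_mem_nil, false_imp_iff, implies_true, and_true] at h
    obtain ⟨h1, h2, h3, h4, h5⟩ := h
    have h6 : s.x2 ∈ K := by rw [c1]; exact mul_mem (mul_mem (mul_mem (mul_mem h5 h4) h1) h4) h5
    have h7 : s.U ≤ K := clos_le.2 (by
      simp only [List.forall_mem_cons, List.not_mem_nil, false_imp_iff, implies_true, and_true]
      exact ⟨h1, h3, h4, h6⟩)
    refine s.P1_of h0 (h7 c5) (h7 c6) (h7 c7) (h7 c4) h3 h6 h1 ?_ ?_ h2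
    · rw [c2]; exact mul_mem (mul_mem h4 h1) h4
    · rw [c3]; exact mul_mem (mul_mem (mul_mem (mul_mem h4 h5) h2) h5) h4
  · have h : ∀ g ∈ [s.y, s.x2, s.x3, s.x23, s.w2, s.w3], g ∈ clos [s.y, s.x2, s.x3, s.x23, s.w2, s.w3] :=
      fun g hg => mem_clos hg
    have h0 : clos [s.y, s.x2, s.x3, s.x23, s.w2, s.w3] ≤ s.P1 := clos_le.2 (by
      simp only [List.forall_mem_cons, List.not_mem_nil, false_imp_iff, implies_true, and_true]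
      exact ⟨V a2, S a5, S a6, S a7, S a10, S a11⟩)
    generalize clos [s.y, s.x2, s.x3, s.x23, s.w2, s.w3] = K at h h0
    simp only [List.forall_mem_cons, List.not_mem_nil, false_imp_iff, implies_true, and_true] at h
    obtain ⟨h1, h2, h3, h4, h5, h6⟩ := h
    have h7 : s.S6 ≤ K := clos_le.2 (by
      simp only [List.forall_mem_cons, List.not_mem_nil, false_imp_iff, implies_true, and_true]
      exact ⟨h2, h3, h4, h5, h6⟩)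
    have h8 : s.x1 ∈ K := by
      rw [d1]
      exact mul_mem (mul_mem (mul_mem (mul_mem (mul_mem (mul_mem (mul_mem (mul_mem h1 h2) h5) h1) h2) h5) h1) h2) h5
    have h9 : s.a ∈ K := by
      rw [d2]
      exact mul_mem (mul_mem (mul_mem (mul_mem (mul_mem (mul_mem (h7 a9) (h7 a12)) (h7 a9)) h1) (h7 a9)) (h7 a12)) (h7 a9)
    refine s.P1_of h0 h8 h1 h9 ?_ ?_ h2 h3 h4 h5 h6
    · rw [d3]; exact mul_mem (mul_mem (mul_mem (mul_mem h8 h9) h6) h9) h6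
    · rw [d4]; exact mul_mem (mul_mem (mul_mem (mul_mem h2 h5) h1) h5) h2

theorem Co.P1_y (s : Co G) {g : G} (hg : g ∈ s.P1) (h : Eqv s.x1 (g * s.y * g⁻¹) s.y) : g ∈ clos [s.x1, s.x2, s.a, s.b, s.c, s.d, s.x3, s.w3, s.r] := by
  have k : s.x1 * s.y ∉ s.K2 ∧ ∀ k ∈ s.P2, k * s.x1 = s.x1 * k → k ∈ s.P12 := s.hL.decide s.rep (by decide +kernel)
  have h1 : g * s.y * g⁻¹ = s.y := h.resolve_right fun e => k.1 ⟨g, hg.1, e⟩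
  have h2 := k.2 g (s.cent_y hg.1 (mul_inv_eq_iff_eq_mul.1 h1)) (s.mem_P1.1 hg).2
  refine clos_le.2 (fun x hx => mem_clos ?_) h2
  simp only [List.mem_cons, List.not_mem_nil, or_false] at hx ⊢
  tauto

theorem Co.P1_tr (s : Co G) {v : G} (hv : v ∈ s.V5) : v = 1 ∨ v = s.x1 ∨ (v ∈ s.K2 ∧ ∃ g ∈ s.P1, g * s.y * g⁻¹ = v) ∨
    (s.x1 * v ∈ s.K2 ∧ v ∉ s.K2 ∧ ∃ g ∈ s.P1, g * s.y * g⁻¹ = s.x1 * v) := by
  have k : (∀ v ∈ s.V5, v ∈ s.K2 → ∃ g ∈ s.S6, g * s.y = v * g) ∧ (∀ v ∈ s.V5, s.x1 * v ∈ s.V5) ∧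
      ∀ v ∈ s.V5, v = 1 ∨ v = s.x1 ∨ v ∈ s.K2 ∨ s.x1 * v ∈ s.K2 :=
    (s.gS6.1.cons s.hL).decide s.rep (by decide +kernel)
  have h : ∀ v ∈ s.V5, v ∈ s.K2 → ∃ g ∈ s.P1, g * s.y * g⁻¹ = v := fun v hv h => by
    obtain ⟨g, hg, e⟩ := k.1 v hv h
    exact ⟨g, s.P1_les.2.1 hg, mul_inv_eq_iff_eq_mul.2 e⟩
  by_cases h2 : v ∈ s.K2
  · exact Or.inr (Or.inr (Or.inl ⟨h2, h v hv h2⟩))
  rcases k.2.2 v hv with e | e | e | e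
  · exact Or.inl e
  · exact Or.inr (Or.inl e)
  · exact (h2 e).elim
  · exact Or.inr (Or.inr (Or.inr ⟨e, h2, h _ (k.2.1 v hv) e⟩))

theorem Co.triv_V5 (s : Co G) {l : G} (hl : l ∈ s.L) (h : ∀ v ∈ s.V5, Eqv s.x1 (l * v * l⁻¹) v) : l ∈ s.V5 := by
  have k : (s.x1 ∈ s.V5 ∧ s.y ∈ s.V5 ∧ s.a ∈ s.V5 ∧ s.c ∈ s.V5 ∧ s.r ∈ s.V5 ∧ s.x1 * s.x1 = 1 ∧ s.x1 ≠ 1) ∧
      ∀ g ∈ s.S6, (g * s.y = s.y * g ∨ g * s.y = s.x1 * s.y * g) → (g * s.a = s.a * g ∨ g * s.a = s.x1 * s.a * g) →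
        (g * s.c = s.c * g ∨ g * s.c = s.x1 * s.c * g) → (g * s.r = s.r * g ∨ g * s.r = s.x1 * s.r * g) → g = 1 :=
    (s.gS6.1.cons s.hL).decide s.rep (by decide +kernel)
  obtain ⟨⟨a1, a2, a3, a4, a5, a6, a7⟩, k⟩ := k
  have h1 : l * s.x1 * l⁻¹ = s.x1 := (h _ a1).resolve_right fun e => a7 (conj_eq_one_iff.1 (e.trans a6))
  obtain ⟨v, hv, g, hg, rfl⟩ := s.P1_eq.1 (s.mem_P1.2 ⟨hl, mul_inv_eq_iff_eq_mul.1 h1⟩)
  have h2 : ∀ u ∈ s.V5, g * u = u * g ∨ g * u = s.x1 * u * g := fun u hu => by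
    have e : v * g * u * (v * g)⁻¹ = g * u * g⁻¹ := by
      calc _ = v * (g * u * g⁻¹) * v⁻¹ := by group
        _ = _ := by rw [comm_of_sq2 s.xV5_sq hv (conj_mem_of_norm (s.S6_norm hg) hu), mul_inv_cancel_right]
    have := h u hu
    rw [e] at this
    exact this.imp mul_inv_eq_iff_eq_mul.1 mul_inv_eq_iff_eq_mul.1
  rw [k g hg (h2 _ a2) (h2 _ a3) (h2 _ a4) (h2 _ a5), mul_one]
  exact hv

theorem Co.nsq (s : Co G) {l : G} (hl : l ∈ s.L) : l * l ≠ s.x1 := by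
  intro e
  have k : ∀ g ∈ s.S6, g * g ∈ s.V5 → ∀ v ∈ s.V5, v * g * (v * g) ≠ s.x1 :=
    (s.gS6.1.cons s.hL).decide s.rep (by decide +kernel)
  obtain ⟨v, hv, g, hg, rfl⟩ := s.P1_eq.1 (s.mem_P1.2 ⟨hl, by rw [← e, mul_assoc]⟩)
  refine k g hg ?_ v hv e
  have h1 : g * g = (g * v * g⁻¹)⁻¹ * (v⁻¹ * (v * g * (v * g))) := by group
  rw [h1, e]
  exact mul_mem (inv_mem (conj_mem_of_norm (s.S6_norm hg) hv)) (mul_mem (inv_mem hv) (mem_clos (by simp)))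

end Cfsg.Agent.S33
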