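import Mathlib
import Cfsg.Agent.S33.XP1
import Cfsg.Agent.SF6.PB

/-! First facts on `B`. -/

set_option autoImplicit false
set_option linter.unusedSectionVars false
set_option maxRecDepth 100000
set_option synthInstance.maxSize 100000
set_option synthInstance.maxHeartbeats 1000000

namespace Cfsg.Agent.S33

open Cfsg Cfsg.Agent.Rec Cfsg.Agent.Spor Cfsg.Agent.Loc.Mss Cfsg.Agent.SF6 Subgroup Matrix

variable {G : Type*} [Group G] [Finite G] {s : Co G} {B : Subgroup G} {f k k' k2 : G} {φ : G → G} {ε : ℕ}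

theorem XB1.same (hB : s.Big s.A3 B) {e e' v : G} (he : e ∈ B) (he' : e' ∈ B) (hv : v ∈ s.A3) (h : e ∈ s.Φ v)
    (h' : e' ∈ s.Φ v) : e * e' ∈ s.X := by
  have h1 := s.Φ_mul h h' (s.les.2.2.2.1 hv)
  rw [s.W_sq (s.les.2.2.2.2.2.1 (s.les.2.2.2.1 hv))] at h1
  exact s.L_le (s.V6_le ((s.big_cent hB (mul_mem he he')).1 (mul_inv_eq_iff_eq_mul.1 (h1.2.trans (mul_one _)))))

theorem Co.B_le (hB : s.Big s.A3 B) : B ≤ s.X := by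
  have k : s.y ∈ s.A3 ∧ s.a ∈ s.A3 ∧ s.a ≠ 1 ∧ s.y * s.a ≠ 1 := s.hL.decide s.rep (by decide +kernel)
  obtain ⟨k1, k2, k3, k4⟩ := k
  obtain ⟨f, hf, h⟩ := hB.onto _ k1
  have c : ∀ v ∈ s.A3, v ≠ 1 → ∃ e ∈ B, e ∈ s.Φ v ∧ (e ∈ s.X ↔ f ∈ s.X) := fun v hv h1 => by
    obtain ⟨l, hl, rfl⟩ := s.A3_eq hv h1
    exact ⟨_, conj_mem_of_norm (hB.norm (s.les.2.2.1 hl)) hf, s.Φ_conj h (s.les.2.2.1 hl), s.conj_X⟩
  obtain ⟨e1, a1, b1, c1⟩ := c _ k2 k3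
  obtain ⟨e2, a2, b2, c2⟩ := c _ (mul_mem k1 k2) k4
  have hX : f ∈ s.X := c2.1 ((s.mul_X.1 (XB1.same hB (mul_mem hf a1) a2 (mul_mem k1 k2)
    (s.Φ_mul h b1 (s.les.2.2.2.1 k2)) b2)).1 (s.mul_X.2 c1.symm))
  intro e he
  obtain ⟨v, hv, h2⟩ := hB.tau e he
  by_cases h1 : v = 1
  · subst h1
    exact s.L_le (s.V6_le ((s.big_cent hB he).1 (mul_inv_eq_iff_eq_mul.1 (h2.2.trans (mul_one _)))))
  · obtain ⟨e3, a3, b3, c3⟩ := c v hv h1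
    exact (s.mul_X.1 (XB1.same hB he a3 hv h2 b3)).2 (c3.2 hX)

theorem Co.hat_B (hB : s.Big s.A3 B) (hf : s.Hat f) : f ∈ B :=
  have k : s.y ∈ s.A3 ∧ s.y ≠ 1 := s.hL.decide s.rep (by decide +kernel)
  hB.max _ k.1 k.2 f hf.mem hf.sq

theorem Co.fs_B (hB : s.Big s.A3 B) (h : s.Fs φ) (hy : φ s.y ∈ B) : φ s.a ∈ B := by
  have k : s.y ∈ s.V5 ∧ s.x1 ∈ s.V6 ∧ ∃ l ∈ s.Sp, l * s.y * l⁻¹ = s.a := s.hL.decide s.rep (by decide +kernel)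
  obtain ⟨k1, k2, l, hl, e⟩ := k
  have h1 := conj_mem_of_norm (hB.norm (s.les.2.2.1 (s.les.2.2.2.2.2.2.2.2.2.1 hl))) hy
  rcases h.conj l (s.P1_les.2.2.2.2.1 hl) _ k1 with h2 | h2 <;> rw [← e, h2]
  exacts [h1, mul_mem (hB.le k2) h1]

theorem Co.DL (hB : s.Big s.A3 B) (hx : s.t * s.x1 ∉ s.D) {v : G} (hv : v ∈ s.L) (hd : s.t * v ∈ s.D) : v = 1 ∨ v ∈ s.K2 := by
  have k : s.x1 * s.y ∈ s.V6 ∧ s.x1 * s.y ∉ s.A3 ∧ s.x1 * s.x2 * s.x3 ∈ s.V6 ∧ s.x1 * s.x2 * s.x3 ∉ s.A3 :=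
    s.hL.decide s.rep (by decide +kernel)
  have h2 : v * v = 1 := by
    have := s.D_sq hd
    rwa [mul_assoc, ← mul_assoc v, s.t_comm hv, mul_assoc, s.tmul] at this
  have c : ∀ {z l : G}, l ∈ s.L → l * z * l⁻¹ = v → s.t * z ∈ s.D := fun {z l} hl e => by
    have := s.D_L (inv_mem hl) hd
    rwa [← e, show l⁻¹ * (l * z * l⁻¹) * l⁻¹⁻¹ = z by group] at this
  rcases s.invol hv h2 with h | ⟨l, hl, e⟩ | h | ⟨l, hl, e⟩ | ⟨l, hl, e⟩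
  · exact Or.inl h
  · exact (hx (c hl e)).elim
  · exact Or.inr h
  · exact (k.2.1 (s.B_D hB hx _ k.1 (c hl e))).elim
  · exact (k.2.2.2 (s.B_D hB hx _ k.2.2.1 (c hl e))).elim

theorem Co.rB (hB : s.Big s.A3 B) (hx : s.t * s.x1 ∉ s.D) (hf : s.Hat f) : f * s.r * f⁻¹ = s.r * s.x1 := by
  refine hf.r.resolve_left fun hr => ?_
  have k : s.r ∈ s.V5 ∧ s.y ∈ s.V5 ∧ s.r ≠ 1 ∧ s.r ≠ s.x1 ∧ s.r ∈ s.K2 ∧ s.r * s.y ≠ 1 ∧ s.r * s.y ∉ s.K2 ∧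
      s.x1 ∈ s.V6 ∧ s.y ∈ s.V6 ∧ s.a ∈ s.V6 ∧ s.c ∈ s.C2 := s.hL.decide s.rep (by decide +kernel)
  obtain ⟨k1, k2, k3, k4, k5, k6, k7, k8, k9, k10, k11⟩ := k
  have c : ∀ v ∈ s.V5, f * v = v * f := commute_clos (by
    simp only [List.forall_mem_cons, List.not_mem_nil, false_imp_iff, implies_true, and_true]
    exact ⟨hf.mem.1 _ k8, hf.mem.1 _ k9, hf.mem.1 _ k10, hf.c2 _ k11, mul_inv_eq_iff_eq_mul.1 hr⟩)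
  obtain ⟨g, hg, e⟩ := ((((s.P1_tr k1).resolve_left k3).resolve_left k4).resolve_right fun h => h.2.1 k5).2
  have h1 := c _ (conj_mem_of_norm' (s.P1_les.2.2.2.2.2.2 hg) k2)
  have h2 := s.t_comm hg.1
  have h3 : g⁻¹ * s.t * g = s.t := by rw [mul_assoc, ← h2, inv_mul_cancel_left]
  have h4 := s.D_conj (s.Φ_D hf.mem) (g * f * g⁻¹)
  rw [show g * f * g⁻¹ * (s.t * s.y) * (g * f * g⁻¹)⁻¹ =
      g * (f * (g⁻¹ * s.t * g) * f⁻¹) * (f * (g⁻¹ * s.y * g)) * f⁻¹ * g⁻¹ by group, h3, h1, hf.mem.2,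
    show g * (s.t * s.y) * (g⁻¹ * s.y * g * f) * f⁻¹ * g⁻¹ = g * s.t * g⁻¹ * (g * s.y * g⁻¹ * s.y) by group, e, h2,
    mul_inv_cancel_right] at h4
  exact (s.DL hB hx (s.U_le (s.les.2.2.2.2.2.2.2.2.2.2.2.2.2 (mul_mem k1 k2))) h4).elim k6 k7

end Cfsg.Agent.S33
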