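import Mathlib
import Cfsg.Agent.S33.XB1

/-! The group of order `2⁹`. -/

set_option autoImplicit false
set_option linter.unusedSectionVars false
set_option maxRecDepth 100000
set_option synthInstance.maxSize 100000
set_option synthInstance.maxHeartbeats 1000000

namespace Cfsg.Agent.S33

open Cfsg Cfsg.Agent.Rec Cfsg.Agent.Spor Cfsg.Agent.Loc.Mss Cfsg.Agent.SF6 Subgroup Matrix

variable {G : Type*} [Group G] [Finite G] {s : Co G} {B : Subgroup G} {f k k' k2 : G} {φ : G → G} {ε : ℕ}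

namespace XB2

theorem dec (s : Co G) : (s.x1 ≠ 1 ∧ ∀ u ∈ s.V5, u * u = 1 ∧ ∀ v ∈ s.V5, u * v = v * u) ∧
    (s.y ∈ s.K2 ∧ s.a ∈ s.K2 ∧ s.c ∈ s.K2 ∧ s.r ∈ s.K2) ∧
    (s.y * s.a ∈ s.K2 ∧ s.y * s.c ∈ s.K2 ∧ s.a * s.r ∈ s.K2 ∧ s.c * s.r ∈ s.K2 ∧
      s.a * s.y ∈ s.K2 ∧ s.c * s.y ∈ s.K2 ∧ s.r * s.a ∈ s.K2 ∧ s.r * s.c ∈ s.K2) ∧
    ¬ (s.y = s.r ∨ s.y * s.r ∈ s.K2) ∧ ¬ (s.a = s.c ∨ s.a * s.c ∈ s.K2) ∧
      ¬ (s.c = s.a ∨ s.c * s.a ∈ s.K2) ∧ ¬ (s.r = s.y ∨ s.r * s.y ∈ s.K2) :=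
  s.hL.decide s.rep (by decide +kernel)

theorem sq {u : G} (hu : u ∈ s.V5) : u * u = 1 := ((dec s).1.2 u hu).1

theorem cm {u v : G} (hu : u ∈ s.V5) (hv : v ∈ s.V5) : u * v = v * u := ((dec s).1.2 u hu).2 v hv

theorem zV : s.x1 ∈ s.V5 := mem_clos (by simp)
theorem yV : s.y ∈ s.V5 := mem_clos (by simp)
theorem aV : s.a ∈ s.V5 := mem_clos (by simp)
theorem cV : s.c ∈ s.V5 := mem_clos (by simp)
theorem rV : s.r ∈ s.V5 := mem_clos (by simp)

theorem zz : s.x1 * s.x1 = 1 := sq zV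

theorem VL : s.V5 ≤ s.L := s.P1_les.1.trans inf_le_left

theorem mem_of_eqv {H : Subgroup G} {z a b : G} (hz : z ∈ H) (e : Eqv z a b) (hb : b ∈ H) : a ∈ H := by
  rcases e with rfl | rfl
  exacts [hb, mul_mem hz hb]

theorem φ_inv (h : s.Fs φ) {v : G} (hv : v ∈ s.V5) : (φ v)⁻¹ = φ v :=
  inv_eq_of_mul_eq_one_right (h.sq v hv)

theorem φ_conj (h : s.Fs φ) {u v : G} (hu : u ∈ s.V5) (hv : v ∈ s.V5) : φ v * u * (φ v)⁻¹ ∈ s.V5 := by
  rcases h.act u hu v hv with e | e <;> rw [e]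
  · rwa [mul_inv_cancel_right]
  · rw [mul_assoc, mul_inv_cancel_right]; exact mul_mem zV hu

theorem φ_one (h : s.Fs φ) : φ 1 ∈ s.V5 := by
  have := h.add 1 (one_mem _) 1 (one_mem _)
  rw [h.sq 1 (one_mem _), mul_one] at this
  exact mem_of_eqv zV this (one_mem _)

/-- The products `u * φ v`. -/
def R (h : s.Fs φ) : Subgroup G where
  carrier := {a | ∃ u ∈ s.V5, ∃ v ∈ s.V5, a = u * φ v}
  one_mem' := ⟨1, one_mem _, s.x1, zV, by rw [h.z, mul_one]⟩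
  mul_mem' := by
    rintro _ _ ⟨u, hu, v, hv, rfl⟩ ⟨u', hu', v', hv', rfl⟩
    have e : u * φ v * (u' * φ v') = u * (φ v * u' * (φ v)⁻¹) * (φ v * φ v') := by group
    have k := mul_mem hu (φ_conj h hu' hv)
    rcases (h.add v hv v' hv').symm zz with e' | e'
    · exact ⟨_, k, _, mul_mem hv hv', by rw [e, e']⟩
    · exact ⟨_, mul_mem k zV, _, mul_mem hv hv', by rw [e, e', ← mul_assoc]⟩
  inv_mem' := by
    rintro _ ⟨u, hu, v, hv, rfl⟩
    refine ⟨_, φ_conj h (inv_mem hu) hv, v, hv, ?_⟩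
    rw [_root_.mul_inv_rev, inv_mul_cancel_right, φ_inv h hv]

theorem Q_le (h : s.Fs φ) : s.Q8 φ ≤ R h := by
  have h1 : ∀ u ∈ s.V5, u ∈ R h := fun u hu => ⟨u, hu, s.x1, zV, by rw [h.z, mul_one]⟩
  have h2 : ∀ v ∈ s.V5, φ v ∈ R h := fun v hv => ⟨1, one_mem _, v, hv, (one_mul _).symm⟩
  refine clos_le.2 ?_
  simp only [List.forall_mem_cons, List.not_mem_nil, false_imp_iff, implies_true, and_true]
  exact ⟨h1 _ zV, h1 _ yV, h1 _ aV, h1 _ cV, h1 _ rV, h2 _ yV, h2 _ aV, h2 _ cV, h2 _ rV⟩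

theorem V_le : s.V5 ≤ s.Q8 φ := clos_le.2 fun x hx => mem_clos (by
  simp only [List.mem_cons, List.not_mem_nil, or_false] at hx ⊢
  tauto)

theorem φ_mem (h : s.Fs φ) {v : G} (hv : v ∈ s.V5) : φ v ∈ s.Q8 φ := by
  induction hv using closure_induction with
  | mem x hx =>
    simp only [Set.mem_setOf_eq, List.mem_cons, List.not_mem_nil, or_false] at hx
    rcases hx with rfl | rfl | rfl | rfl | rfl
    · rw [h.z]; exact one_mem _
    all_goals exact mem_clos (by simp)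
  | one => exact V_le (φ_one h)
  | mul x y hx hy h1 h2 => exact mem_of_eqv (V_le zV) (h.add x hx y hy) (mul_mem h1 h2)
  | inv x hx h1 => rwa [inv_eq_of_mul_eq_one_right (sq (s := s) hx)]

/-- The basis. -/
def ba (s : Co G) (φ : G → G) : ℕ → G
  | 0 => s.x1 | 1 => s.y | 2 => s.a | 3 => s.c | 4 => s.r
  | 5 => φ s.y | 6 => φ s.a | 7 => φ s.c | _ => φ s.r

theorem ba_cases (i : ℕ) : ba s φ i ∈ s.V5 ∨ ∃ v ∈ s.V5, ba s φ i = φ v := by
  unfold ba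
  split
  exacts [.inl zV, .inl yV, .inl aV, .inl cV, .inl rV, .inr ⟨_, yV, rfl⟩, .inr ⟨_, aV, rfl⟩,
    .inr ⟨_, cV, rfl⟩, .inr ⟨_, rV, rfl⟩]

theorem flip {z a b : G} (zz : z * z = 1) (e : a = z * b) : b = z * a := by
  rw [e, ← mul_assoc, zz, one_mul]

theorem basis (h : s.Fs φ) : ESBasis (ba s φ) 8 fun j => (9 - j) % 9 := by
  obtain ⟨⟨z1, -⟩, ⟨k1, k2, k3, k4⟩, ⟨p1, p2, p3, p4, p5, p6, p7, p8⟩, n1, n2, n3, n4⟩ := dec s
  have hz := zV (s := s)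
  have hy := yV (s := s)
  have ha := aV (s := s)
  have hc := cV (s := s)
  have hr := rV (s := s)
  have an : ∀ {u v}, u ∈ s.V5 → v ∈ s.V5 → u ∈ s.K2 → v ∈ s.K2 → ¬ (u = v ∨ u * v ∈ s.K2) →
      φ v * u = s.x1 * (u * φ v) := fun hu hv ku kv hn =>
    (h.act _ hu _ hv).resolve_left fun e => hn ((h.pair _ hu _ hv ku kv).1 e)
  have co : ∀ {u v}, u ∈ s.V5 → v ∈ s.V5 → u ∈ s.K2 → v ∈ s.K2 → u * v ∈ s.K2 →
      φ v * u = u * φ v := fun hu hv ku kv hn => (h.pair _ hu _ hv ku kv).2 (.inr hn)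
  have cs : ∀ {u}, u ∈ s.V5 → u ∈ s.K2 → φ u * u = u * φ u := fun hu ku =>
    (h.pair _ hu _ hu ku ku).2 (.inl rfl)
  refine ⟨by norm_num, z1, zz, fun i _ => ?_, fun i _ => .inl ?_, fun i _ j _ => ?_,
    fun j _ => Nat.mod_lt _ (by norm_num), fun j hj j0 => ?_, fun j hj j0 i hi ne => ?_⟩
  · rcases ba_cases (s := s) (φ := φ) i with e | ⟨v, hv, e⟩
    · exact cm hz e
    · rw [e]; exact (h.zc v hv).symm
  · rcases ba_cases (s := s) (φ := φ) i with e | ⟨v, hv, e⟩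
    · exact sq e
    · rw [e]; exact h.sq v hv
  · rcases ba_cases (s := s) (φ := φ) i with e | ⟨v, hv, e⟩ <;>
      rcases ba_cases (s := s) (φ := φ) j with e' | ⟨v', hv', e'⟩
    · exact .inl (cm e e')
    · rw [e']; exact (h.act _ e _ hv').imp Eq.symm (flip zz)
    · rw [e]; exact h.act _ e' _ hv
    · rw [e, e']; exact .inl (h.cm _ hv _ hv')
  · interval_cases j
    exacts [absurd rfl j0, flip zz (an hy hr k1 k4 n1), flip zz (an ha hc k2 k3 n2),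
      flip zz (an hc ha k3 k2 n3), flip zz (an hr hy k4 k1 n4), an hr hy k4 k1 n4, an hc ha k3 k2 n3,
      an ha hc k2 k3 n2, an hy hr k1 k4 n1]
  · interval_cases j <;> interval_cases i <;>
      simp only [ba, Nat.reduceAdd, Nat.reduceSub, Nat.reduceMod] <;>
      first
      | exact absurd rfl j0
      | exact absurd rfl ne
      | exact cm (by assumption) (by assumption)
      | exact h.cm _ (by assumption) _ (by assumption)
      | exact (h.zc _ (by assumption)).symm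
      | exact cs (by assumption) (by assumption)
      | exact (cs (by assumption) (by assumption)).symm
      | exact co (by assumption) (by assumption) (by assumption) (by assumption) (by assumption)
      | exact (co (by assumption) (by assumption) (by assumption) (by assumption) (by assumption)).symm

theorem gen : genLt (ba s φ) (8 + 1) = s.Q8 φ := genLt_eq_clos _ _

theorem ct (h : s.Fs φ) {q : G} (hq : q ∈ s.Q8 φ) (e : q * s.t = s.t * q) : q ∈ s.V5 := by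
  obtain ⟨u, hu, v, hv, rfl⟩ := Q_le h hq
  refine mul_mem hu ?_
  have e1 : φ v * s.t * (φ v)⁻¹ = s.t := by
    rw [mul_assoc, ← mul_assoc s.t, ← s.t_comm (VL hu), mul_assoc, mul_right_inj] at e
    rw [e, mul_inv_cancel_right]
  have e2 := h.t' v hv
  rw [e1] at e2
  rcases e2 with e2 | e2
  · rw [left_eq_mul.1 e2]; exact φ_one h
  · rw [← mul_assoc, s.t_comm (VL zV), mul_assoc, left_eq_mul] at e2
    rw [← mul_right_inj s.x1 |>.1 (zz.trans e2.symm), h.z]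
    exact one_mem _

end XB2

open XB2

theorem Co.Fs.es8 (h : s.Fs φ) : ES2 (s.Q8 φ) s.x1 ∧ Nat.card (s.Q8 φ) = 2 ^ 9 ∧ s.Q8 φ ≤ s.X ∧ s.V5 ≤ s.Q8 φ ∧
    s.P1 ≤ 𝐍[s.Q8 φ] ∧ s.t ∈ 𝐍[s.Q8 φ] ∧ (∀ v ∈ s.V5, φ v ∈ s.Q8 φ) ∧ ∀ a ∈ s.Q8 φ, ∃ u ∈ s.V5, ∃ v ∈ s.V5, a = u * φ v := by
  refine ⟨gen (s := s) ▸ (basis h).es2, gen (s := s) ▸ (basis h).card, fun a ha => ?_, V_le,
    fun g hg => mem_norm_of_cj_le (cj_le_iff.2 fun a ha => ?_),
    mem_norm_of_cj_le (cj_le_iff.2 fun a ha => ?_), fun v hv => φ_mem h hv, fun a ha => Q_le h ha⟩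
  all_goals obtain ⟨u, hu, v, hv, rfl⟩ := Q_le h ha
  · exact mul_mem (s.L_le (VL hu)) (h.mem v hv)
  · have n := s.P1_les.2.2.2.2.2.2 hg
    rw [← conj_mul]
    exact mul_mem (V_le (conj_mem_of_norm n hu)) (mem_of_eqv (V_le zV) ((h.conj g hg v hv).symm zz)
      (φ_mem h (conj_mem_of_norm n hv)))
  · have ti : s.t⁻¹ = s.t := inv_eq_of_mul_eq_one_right s.tt
    have e : s.t * (u * φ v) * s.t⁻¹ = u * (s.t * (φ v * s.t * (φ v)⁻¹) * φ v) := by
      rw [← mul_assoc, ← s.t_comm (VL hu), ti]; group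
    rw [e]
    refine mul_mem (V_le hu) (mul_mem (V_le ?_) (φ_mem h hv))
    rcases h.t' v hv with e' | e' <;> rw [e']
    · rwa [s.tmul]
    · rw [← mul_assoc s.x1, s.t_comm (VL zV), mul_assoc, s.tmul]
      exact mul_mem zV hv

theorem Co.Fs.xs (h : s.Fs φ) (hB : s.Big s.A3 B) (hx : s.t * s.x1 ∉ s.D) : s.Xs (s.Q8 φ) 4 := by
  obtain ⟨h1, h2, h3, h4, h5, h6, h7, -⟩ := h.es8
  refine ⟨h3, h4, h1, h2, h5, h6, fun q hq e => ct h hq e, fun q hq hd => ?_, fun v hv hd => ?_,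
    .inr ⟨rfl, hx⟩⟩
  · have e : q * s.t * q⁻¹ = q * q * s.t := by
      have e1 := s.D_sq hd
      have e2 : q⁻¹ = s.t * q * s.t := inv_eq_of_mul_eq_one_left (by rw [← e1]; group)
      rw [e2, ← mul_assoc, ← mul_assoc, mul_assoc q, s.tt, mul_one]
    have hV : q ∈ s.V5 := by
      rcases h1.sq q hq with k | k
      · rw [k, one_mul] at e
        exact ct h hq (mul_inv_eq_iff_eq_mul.1 e)
      · rw [k, s.t_comm (VL zV)] at e
        exact (hx (e ▸ s.D_conj s.tD q)).elim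
    rcases Co.DL hB hx (VL hV) hd with rfl | k
    · exact ⟨1, one_mem _, by simp⟩
    · exact ⟨φ q, h7 q hV, h.t q hV k⟩
  · obtain ⟨e, -, he⟩ := hB.onto v (s.B_D hB hx v hv hd)
    exact ⟨e, he⟩

end Cfsg.Agent.S33
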