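import Mathlib
import Cfsg.Agent.S33.XDefs

/-! Coordinates on an extraspecial group. -/

set_option autoImplicit false
set_option linter.unusedSectionVars false

namespace Cfsg.Agent.S33

open Cfsg Cfsg.Agent.Rec Cfsg.Agent.Spor Cfsg.Agent.Loc.Mss Cfsg.Agent.SF6 Subgroup Matrix

variable {G : Type*} [Group G] [Finite G] {Q : Subgroup G} {z : G} {m : ℕ} {q : Vec m → ZMod 2}

namespace XCrd

theorem pow_val {V : Type*} [Group V] {v : V} (h : v * v = 1) (x y : ZMod 2) :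
    v ^ (x + y).val = v ^ x.val * v ^ y.val := by
  rw [ZMod.val_add, ← pow_add, ← pow_eq_pow_mod _ (by rwa [pow_two])]

/-- An elementary abelian group with `m` generators and of order `2 ^ m`. -/
theorem exists_equiv {V : Type*} [Group V] [Finite V] (hc : ∀ a b : V, a * b = b * a) (v : Fin m → V)
    (h2 : ∀ i, v i * v i = 1) (hg : closure (Set.range v) = ⊤) (hV : Nat.card V = 2 ^ m) :
    ∃ κ : V ≃* Multiplicative (Vec m), ∀ i, κ (v i) = Multiplicative.ofAdd (Pi.single i 1) := by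
  let _ : CommGroup V := { ‹Group V› with mul_comm := hc }
  let ψ : Multiplicative (Vec m) →* V := MonoidHom.mk' (fun x => ∏ i, v i ^ (x.toAdd i).val) fun x y => by
    rw [← Finset.prod_mul_distrib]
    exact Finset.prod_congr rfl fun i _ => pow_val (h2 i) _ _
  have h1 : ∀ i, ψ (Multiplicative.ofAdd (Pi.single i 1)) = v i := fun i => by
    show ∏ j, v j ^ ((Pi.single i 1 : Vec m) j).val = v i
    rw [Finset.prod_eq_single i (fun j _ hj => by rw [Pi.single_eq_of_ne hj, ZMod.val_zero, pow_zero])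
      (fun h => absurd (Finset.mem_univ i) h), Pi.single_eq_same]
    exact pow_one _
  have h3 : Function.Surjective ψ := by
    rw [← MonoidHom.range_eq_top, eq_top_iff, ← hg, closure_le]
    rintro _ ⟨i, rfl⟩
    exact ⟨_, h1 i⟩
  have h4 : Function.Bijective ψ := (Nat.bijective_iff_surjective_and_card ψ).2 ⟨h3, by
    rw [hV, Nat.card_congr Multiplicative.toAdd]; simp⟩
  exact ⟨(MulEquiv.ofBijective ψ h4).symm, fun i => (MulEquiv.symm_apply_eq _).2 (h1 i).symm⟩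

theorem exists_kappa (h : ES2 Q z) (e : Fin m → G) (he : ∀ i, e i ∈ Q) (hc : Nat.card Q = 2 ^ (m + 1))
    (hg : Q ≤ closure (insert z (Set.range e))) :
    ∃ κ : G → Vec m, (∀ a ∈ Q, ∀ b ∈ Q, κ (a * b) = κ a + κ b) ∧ (∀ a ∈ Q, κ a = 0 ↔ a = 1 ∨ a = z) ∧
      (∀ v, ∃ a ∈ Q, κ a = v) ∧ ∀ i, κ (e i) = Pi.single i 1 := by
  classical
  let π : Q →* Q ⧸ center Q := QuotientGroup.mk' _
  have k1 : ∀ a : Q, π a = 1 ↔ (a : G) = 1 ∨ (a : G) = z := fun a => (QuotientGroup.eq_one_iff a).trans h.mem_center_iff'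
  have hπ : Function.Surjective π := QuotientGroup.mk'_surjective _
  obtain ⟨κ, hκ⟩ := exists_equiv (V := Q ⧸ center Q) (fun a b => by
      obtain ⟨a, rfl⟩ := hπ a
      obtain ⟨b, rfl⟩ := hπ b
      rw [← commutatorElement_eq_one_iff_mul_comm, ← map_commutatorElement, k1, ← h.mem_commutator_iff]
      exact commutator_mem_commutator (mem_top a) (mem_top b))
    (fun i => π ⟨e i, he i⟩) (fun i => by rw [← map_mul, k1]; exact h.sq _ (he i)) (by
      rw [eq_top_iff]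
      rintro a -
      obtain ⟨⟨a, ha⟩, rfl⟩ := hπ a
      refine (((closure_le (((closure (Set.range fun i => π ⟨e i, he i⟩)).comap π).map Q.subtype)).2 ?_) (hg ha)).elim
        fun b hb => ?_
      · rintro _ (rfl | ⟨i, rfl⟩)
        · exact ⟨⟨_, h.z_mem⟩, by rw [SetLike.mem_coe, mem_comap, (k1 _).2 (Or.inr rfl)]; exact one_mem _, rfl⟩
        · exact ⟨⟨_, he i⟩, subset_closure ⟨i, rfl⟩, rfl⟩
      · obtain ⟨h1, rfl⟩ := hb
        exact h1) (by
      have := card_eq_card_quotient_mul_card_subgroup (center Q)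
      rw [hc, h.card_center, pow_succ] at this
      omega)
  refine ⟨fun a => if ha : a ∈ Q then (κ (π ⟨a, ha⟩)).toAdd else 0, fun a ha b hb => ?_, fun a ha => ?_,
    fun v => ?_, fun i => ?_⟩
  · simp only [dif_pos ha, dif_pos hb, dif_pos (mul_mem ha hb), ← toAdd_mul, ← map_mul]
    rfl
  · simp only [dif_pos ha]
    rw [toAdd_eq_zero, MulEquiv.map_eq_one_iff, k1]
  · obtain ⟨a, ha⟩ := hπ (κ.symm (Multiplicative.ofAdd v))
    exact ⟨a, a.2, by simp only [dif_pos a.2, Subtype.coe_eta, ha, MulEquiv.apply_symm_apply, toAdd_ofAdd]⟩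
  · simp only [dif_pos (he i), hκ, toAdd_ofAdd]

theorem ind (h : ES2 Q z) {e : Fin m → G} (he : ∀ i, e i ∈ Q) (hg : Q ≤ closure (insert z (Set.range e)))
    {P : G → Prop} (hz : P z) (h1 : ∀ i, P (e i)) (h2 : ∀ a ∈ Q, ∀ b ∈ Q, P a → P b → P (a * b)) : ∀ a ∈ Q, P a := by
  have hle : closure (insert z (Set.range e)) ≤ Q := (closure_le _).2 (by
    rintro _ (rfl | ⟨i, rfl⟩)
    exacts [h.z_mem, he i])
  intro a ha
  refine closure_induction (p := fun a _ => P a) ?_ (h.z_sq ▸ h2 _ h.z_mem _ h.z_mem hz hz)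
    (fun a b ha hb => h2 a (hle ha) b (hle hb)) (fun a ha k => ?_) (hg ha)
  · rintro _ (rfl | ⟨i, rfl⟩)
    exacts [hz, h1 i]
  · have a1 := hle ha
    rw [show a⁻¹ = a * a * a from inv_eq_of_mul_eq_one_right (by rw [← h.aes.pow_four a1]; noncomm_ring)]
    exact h2 _ (mul_mem a1 a1) _ a1 (h2 _ a1 _ a1 k k) k

theorem pol_comm (u v : Vec m) : pol q u v = pol q v u := by rw [pol, pol, add_comm u, add_right_comm]

theorem pol_zero (hq : IsQ q) (v : Vec m) : pol q 0 v = 0 := by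
  rw [pol, zero_add, hq.zero, add_zero, CharTwo.add_self_eq_zero]

theorem eq_of_iff {x y : ZMod 2} (h : x = 0 ↔ y = 0) : x = y := by revert x y; decide

theorem eq_zp (h : ES2 Q z) {a : G} {x : ZMod 2} (ha : a = 1 ∨ a = z) (k : a = 1 ↔ x = 0) : a = z ^ x.val := by
  rcases (by decide : ∀ x : ZMod 2, x = 0 ∨ x = 1) x with rfl | rfl
  · exact (k.2 rfl).trans (pow_zero z).symm
  · exact (ha.resolve_left fun e => absurd (k.1 e) (by decide)).trans (pow_one z).symm

theorem zp_eq_one (h : ES2 Q z) {x : ZMod 2} : z ^ x.val = 1 ↔ x = 0 := by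
  rcases (by decide : ∀ x : ZMod 2, x = 0 ∨ x = 1) x with rfl | rfl
  · exact iff_of_true (pow_zero z) rfl
  · exact iff_of_false (fun e => h.z_ne ((pow_one z).symm.trans e)) (by decide)

theorem sq_mul (h : ES2 Q z) {a b : G} (ha : a ∈ Q) (hb : b ∈ Q) {x y : ZMod 2} (k1 : a * a = 1 ↔ x = 0)
    (k2 : b * b = 1 ↔ y = 0) : a * b * (a * b) = 1 ↔ bf a b + x + y = 0 := by
  rw [← zp_eq_one h, pow_val h.z_sq, pow_val h.z_sq, ← eq_zp h (h.sq a ha) k1, ← eq_zp h (h.sq b hb) k2]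
  refine Eq.congr_left ?_
  by_cases c : a * b = b * a
  · rw [bf_eq_zero.2 c, ZMod.val_zero, pow_zero, one_mul]
    calc a * b * (a * b) = a * (b * a) * b := by group
      _ = _ := by rw [← c]; group
  · rw [bf_eq_one.2 c]
    calc a * b * (a * b) = a * (b * a) * b := by group
      _ = a * z * (a * b) * b := by rw [h.aes.eq_of_ne hb ha (Ne.symm c), ← mul_assoc a z]
      _ = z ^ 1 * (a * a) * (b * b) := by rw [← h.z_comm a ha]; noncomm_ring
      _ = _ := rfl

end XCrd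

open XCrd

theorem exists_crd (h : ES2 Q z) (hq : IsQ q) (e : Fin m → G) (he : ∀ i, e i ∈ Q) (hc : Nat.card Q = 2 ^ (m + 1))
    (hg : Q ≤ closure (insert z (Set.range e))) (h1 : ∀ i, e i * e i = 1 ↔ q (Pi.single i 1) = 0)
    (h2 : ∀ i j, e i * e j = e j * e i ↔ pol q (Pi.single i 1) (Pi.single j 1) = 0) :
    ∃ κ ρ, Crd Q z q κ ρ ∧ ∀ i, κ (e i) = Pi.single i 1 := by
  classical
  obtain ⟨κ, add, ker, onto, ke⟩ := exists_kappa h e he hc hg
  have kz : κ z = 0 := (ker z h.z_mem).2 (Or.inr rfl)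
  have step : ∀ b ∈ Q, (∀ i, bf (e i) b = pol q (κ (e i)) (κ b)) → ∀ a ∈ Q, bf a b = pol q (κ a) (κ b) :=
    fun b hb k => ind h he hg (by rw [kz, pol_zero hq, bf_eq_zero.2 (h.z_comm b hb)]) k fun a ha a' ha' k1 k2 => by
      rw [h.aes.bf_mul_left ha ha' hb, add a ha a' ha', hq.bil, k1, k2]
  have cm : ∀ a ∈ Q, ∀ b ∈ Q, bf a b = pol q (κ a) (κ b) := fun a ha b hb => step b hb (fun i => by
    rw [bf_comm, pol_comm]
    exact step _ (he i) (fun j => eq_of_iff (by rw [bf_eq_zero, ke, ke, h2])) b hb) a ha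
  let M : G → Mat m := fun g => Matrix.of fun i j => κ (g * e j * g⁻¹) i
  have act : ∀ g ∈ 𝐍[Q], ∀ a ∈ Q, κ (g * a * g⁻¹) = M g *ᵥ κ a := fun g hg' => ind h he hg
    (by rw [h.conj_z_of_norm hg', kz, mulVec_zero]) (fun i => by rw [ke, mulVec_single_one]; rfl)
    fun a ha b hb k1 k2 => by
      rw [← conj_mul, add _ (conj_mem_of_norm hg' ha) _ (conj_mem_of_norm hg' hb), add a ha b hb, mulVec_add, k1, k2]
  have mul : ∀ g ∈ 𝐍[Q], ∀ k ∈ 𝐍[Q], M (g * k) = M g * M k := fun g hg k hk => Matrix.ext fun i j => by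
    have := act g hg _ (conj_mem_of_norm hk (he j))
    rw [show g * (k * e j * k⁻¹) * g⁻¹ = g * k * e j * (g * k)⁻¹ by group] at this
    exact congrFun this i
  have one : M 1 = 1 := Matrix.ext fun i j => by
    show κ (1 * e j * 1⁻¹) i = _
    rw [one_mul, inv_one, mul_one, ke, one_apply, Pi.single_apply]
  let ρ : G → Gl m := fun g => if hg : g ∈ 𝐍[Q] then
    ⟨M g, M g⁻¹, by rw [← mul g hg _ (inv_mem hg), mul_inv_cancel, one],
      by rw [← mul _ (inv_mem hg) g hg, inv_mul_cancel, one]⟩ else 1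
  have hρ : ∀ g ∈ 𝐍[Q], (ρ g : Mat m) = M g := fun g hg => by simp only [ρ, dif_pos hg]
  refine ⟨κ, ρ, ⟨add, ker, onto, ind h he hg ?_ (fun i => by rw [ke, h1]) fun a ha b hb k1 k2 => ?_,
    fun a ha b hb => by rw [← cm a ha b hb, bf_eq_zero], fun g hg k hk => Units.ext ?_,
    fun g hg a ha => by rw [act g hg a ha, ap, hρ g hg]⟩, ke⟩
  · rw [kz]; exact iff_of_true h.z_sq hq.zero
  · rw [sq_mul h ha hb k1 k2, cm a ha b hb, add a ha b hb, pol]
    generalize q (κ a + κ b) = x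
    generalize q (κ a) = y
    generalize q (κ b) = w
    revert x y w
    decide
  · rw [Units.val_mul, hρ g hg, hρ k hk, hρ _ (mul_mem hg hk), mul g hg k hk]

theorem Crd.eqv {κ : G → Vec m} {ρ : G → Gl m} (c : Crd Q z q κ ρ) (h : ES2 Q z) {a b : G} (ha : a ∈ Q) (hb : b ∈ Q) :
    Eqv z a b ↔ κ a = κ b := by
  have h1 := c.add _ (mul_mem ha (inv_mem hb)) b hb
  rw [inv_mul_cancel_right] at h1
  rw [h1, add_eq_right, c.ker _ (mul_mem ha (inv_mem hb)), mul_inv_eq_one, mul_inv_eq_iff_eq_mul, Eqv]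

theorem rep8 {g : Gl 8} {a : ℕ} (ha : a < 2 ^ 64) (h : ∀ j i : Fin 8, ap g (Pi.single j 1) i = ((a / 2 ^ (8 * i + j : ℕ) % 2 : ℕ) : ZMod 2)) :
    B8.C.Rep a g :=
  B8.rep ((blt_iff _ _).2 ha) fun i j => by
    have := h j i
    rw [ap, mulVec_single_one] at this
    rw [NM.fld, one_mul, pow_one]
    exact this

theorem rep10 {g : Gl 10} {a : ℕ} (ha : a < 2 ^ 100)
    (h : ∀ j i : Fin 10, ap g (Pi.single j 1) i = ((a / 2 ^ (10 * i + j : ℕ) % 2 : ℕ) : ZMod 2)) : B10.C.Rep a g :=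
  B10.rep ((blt_iff _ _).2 ha) fun i j => by
    have := h j i
    rw [ap, mulVec_single_one] at this
    rw [NM.fld, one_mul, pow_one]
    exact this

end Cfsg.Agent.S33
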