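import Mathlib
import Cfsg.Agent.S33.XP1

/-! Elementary abelian and abelian normal subgroups of local subgroups of `L`. -/

set_option autoImplicit false
set_option linter.unusedSectionVars false
set_option maxRecDepth 100000
set_option synthInstance.maxSize 100000
set_option synthInstance.maxHeartbeats 1000000

namespace Cfsg.Agent.S33

open Cfsg Cfsg.Agent.Rec Cfsg.Agent.Spor Cfsg.Agent.Loc.Mss Cfsg.Agent.SF6 Subgroup Matrix

variable {G : Type*} [Group G] [Finite G] {s : Co G} {Q : Subgroup G} {n : ℕ}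

theorem XP2_ext {B : Subgroup G} {z : G} (h2 : ∀ a ∈ B, a * a = 1) (hz : z * z = 1) (hc : ∀ a ∈ B, a * z = z * a)
    (hn : z ∉ B) : Nat.card (B ⊔ zpowers z : Subgroup G) = 2 * Nat.card B ∧ ∀ g ∈ B ⊔ zpowers z, g * g = 1 := by
  have h1 : z ∈ 𝐍[B] := cent_le_norm B (mem_cent.2 hc)
  have h3 : z * z ∈ B := by rw [hz]; exact one_mem _
  refine ⟨FG.ZL.card_ext h1 h3 hn, fun g hg => ?_⟩
  rcases (FG.ZL.mem_ext h1 h3).1 hg with h | h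
  · exact h2 g h
  · have e2 := hc _ h
    have e3 : g * z = z * g := by rwa [mul_assoc, mul_right_inj] at e2
    calc g * g = z * z * (g * g) := by rw [hz, one_mul]
      _ = z * (z * g) * g := by group
      _ = z * (g * z) * g := by rw [e3]
      _ = z * g * (z * g) := by group
      _ = 1 := h2 _ h

theorem XP2_big (s : Pre G) {B : Subgroup G} (hB : B ≤ s.U) (h2 : ∀ a ∈ B, a * a = 1) (hc : 64 ≤ Nat.card B) :
    B = s.V6 := by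
  have hL : B ≤ s.L := hB.trans s.U_le
  obtain ⟨k1, k2⟩ := XP2_ext h2 s.tt (fun a ha => s.t_comm (hL ha)) fun h => s.tL (hL h)
  have hW : B ⊔ zpowers s.t = s.W := s.elemT (sup_le (hB.trans s.les.2.2.2.2.2.2.2.1)
    (zpowers_le.2 (s.les.2.2.2.2.2.2.1 s.tW))) k2 (by omega)
  refine eq_of_le_of_card_ge (fun g hg => ?_) (by rwa [s.gV6.2])
  have h3 : g ∈ s.W := by rw [← hW]; exact mem_sup_left hg
  exact (s.memW.1 h3).resolve_right fun k => s.tL ((mul_mem_cancel_right (hL hg)).1 (s.V6_le k))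

theorem XP2_d (s : Pre G) {B : Subgroup G} (hB : B ≤ s.U) (hC : B ≤ s.C2) (h2 : ∀ a ∈ B, a * a = 1)
    (hc : Nat.card B = 32) : ∃ l ∈ s.C2, 16 ≤ Nat.card (cj(l, B) ⊓ s.V6 : Subgroup G) := by
  have k0 : (∀ z ∈ s.Z3, ∀ g ∈ s.C2, g * z = z * g) ∧ s.w3 ∈ s.C2 ∧ s.w3 * s.x3 ∈ s.C2 ∧
      ∀ g ∈ s.U, g * g = 1 → g ∈ s.C2 → g ∈ s.V6 ∨ s.w3 * g * s.w3⁻¹ ∈ s.V6 ∨
        s.w3 * s.x3 * g * (s.w3 * s.x3)⁻¹ ∈ s.V6 := s.hL.decide s.rep (by decide +kernel)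
  obtain ⟨k1, k2, k3, k4⟩ := k0
  have ZV := s.les.2.2.2.2.1
  have Vs : ∀ g ∈ s.V6, g * g = 1 := fun g hg => s.W_sq (s.les.2.2.2.2.2.1 hg)
  by_cases hZ : s.Z3 ≤ B
  · have h3 : ¬ B ≤ s.Z3 := fun h => by
      have := card_le_of_le h
      rw [hc, s.gZ3.2] at this
      omega
    obtain ⟨a, ha, haZ⟩ := SetLike.not_le_iff_exists.1 h3
    have h4 : ∃ l ∈ s.C2, l * a * l⁻¹ ∈ s.V6 := by
      rcases k4 a (hB ha) (h2 a ha) (hC ha) with h | h | h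
      · exact ⟨1, one_mem _, by simpa using h⟩
      · exact ⟨_, k2, h⟩
      · exact ⟨_, k3, h⟩
    obtain ⟨l, hl, h5⟩ := h4
    refine ⟨l, hl, ?_⟩
    have h6 : s.Z3 ≤ cj(l, B) ⊓ s.V6 := fun z hz => mem_inf.2 ⟨by
      have e : l * z * l⁻¹ = z := by rw [k1 z hz l hl, mul_inv_cancel_right]
      rw [← e]; exact conj_mem_cj (hZ hz), ZV hz⟩
    have h7 := two_mul_card_le h6 (fun g hg => Vs g (mem_inf.1 hg).2) (mem_inf.2 ⟨conj_mem_cj ha, h5⟩) fun h => haZ (by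
      have e := k1 _ h l hl
      have e' : a = l * a * l⁻¹ := by
        calc a = l⁻¹ * (l * a * l⁻¹ * l) := by group
          _ = _ := by rw [← e]; group
      rw [e']; exact h)
    rw [s.gZ3.2] at h7
    omega
  · obtain ⟨z, hz, hzB⟩ := SetLike.not_le_iff_exists.1 hZ
    obtain ⟨j1, j2⟩ := XP2_ext h2 (Vs z (ZV hz)) (fun a ha => k1 z hz a (hC ha)) hzB
    have h3 := XP2_big s (sup_le hB (zpowers_le.2 (s.les.1 (ZV hz)))) j2 (by omega)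
    have h4 : B ≤ s.V6 := by rw [← h3]; exact le_sup_left
    refine ⟨1, one_mem _, ?_⟩
    rw [cj_one, inf_eq_left.2 h4, hc]
    omega

theorem XP2_r (s : Pre G) {B : Subgroup G} (hB : B ≤ s.U) (hC : ¬ B ≤ s.C2) (h2 : ∀ a ∈ B, a * a = 1)
    (hc : Nat.card B = 32) : B = s.V5 ∨ 16 ≤ Nat.card (B ⊓ s.V6 : Subgroup G) := by
  have k0 : ∀ g ∈ s.U, g ∉ s.C2 → g * g = 1 → ∀ h ∈ s.U, h ∉ s.V6 → h * h = 1 → g * h = h * g → g * h ∉ s.V6 →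
      g ∈ s.V5 ∧ h ∈ s.V5 := s.hL.decide s.rep (by decide +kernel)
  obtain ⟨a, ha, haC⟩ := SetLike.not_le_iff_exists.1 hC
  have VC := s.les.2.2.2.2.2.2.2.2.2.2.2.1
  have k1 : ∀ h ∈ B, h ∉ s.V6 → a * h ∉ s.V6 → a ∈ s.V5 ∧ h ∈ s.V5 := fun h hh j1 j2 =>
    k0 a (hB ha) haC (h2 a ha) h (hB hh) j1 (h2 h hh) (comm_of_sq2 h2 ha hh) j2
  by_cases h3 : ∀ g ∈ B, g ∈ s.V6 ∨ a * g ∈ s.V6
  · right
    obtain ⟨A', -, b2, b3⟩ := adjoin (A := B ⊓ s.V6) inf_le_left h2 ha fun k => haC (VC (mem_inf.1 k).2)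
    have b4 : B ≤ A' := fun x hx => (b3 x).2 ((h3 x hx).imp (fun k => mem_inf.2 ⟨hx, k⟩)
      fun k => mem_inf.2 ⟨mul_mem ha hx, k⟩)
    have b5 := card_le_of_le b4
    omega
  · left
    push Not at h3
    obtain ⟨b, hb, b1, b2⟩ := h3
    obtain ⟨a5, b5⟩ := k1 b hb b1 b2
    have k2 : ∀ g ∈ B, g ∈ s.V6 → g ∈ s.V5 := fun g hg h => by
      have := (k1 (b * g) (mul_mem hb hg) (fun k => b1 ((mul_mem_cancel_right h).1 k)) fun k => b2 (by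
        rw [← mul_assoc] at k; exact (mul_mem_cancel_right h).1 k)).2
      exact (mul_mem_cancel_left b5).1 this
    refine eq_of_le_of_card_ge (fun g hg => ?_) (by rw [hc, s.gV5.2])
    by_cases j1 : g ∈ s.V6
    · exact k2 g hg j1
    by_cases j2 : a * g ∈ s.V6
    · exact (mul_mem_cancel_left a5).1 (k2 _ (mul_mem ha hg) j2)
    · exact (k1 g hg j1 j2).2

theorem Co.elem_P1 (s : Co G) {A : Subgroup G} (hA : A ≤ s.P1) (h2 : ∀ a ∈ A, a * a = 1) (hc : 32 ≤ Nat.card A) :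
    A = s.V5 ∨ ∃ l ∈ s.P1, (Nat.card A = 32 ∧ 16 ≤ Nat.card (cj(l, A) ⊓ s.V6 : Subgroup G)) ∨ cj(l, A) = s.V6 := by
  obtain ⟨-, -, k1, k2, -, -, k3⟩ := s.P1_les
  obtain ⟨l, hl, hU⟩ := (s.sylU.mono k1 inf_le_left).conj_le (Cfg.pg_sq h2) hA
  have b2 := Cfg.cj_sq h2 l
  have bc := card_cj A l
  by_cases h64 : 64 ≤ Nat.card A
  · exact Or.inr ⟨l, hl, Or.inr (XP2_big s.toPre hU b2 (by omega))⟩
  have h32 : Nat.card A = 32 := by
    have h := card_dvd_of_le hU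
    rw [bc, s.gU.2, show 512 = 2 ^ 9 by norm_num, Nat.dvd_prime_pow Nat.prime_two] at h
    obtain ⟨k, hk, e⟩ := h
    rw [e] at hc h64 ⊢
    interval_cases k <;> omega
  by_cases hC : cj(l, A) ≤ s.C2
  · obtain ⟨m, hm, h⟩ := XP2_d s.toPre hU hC b2 (by omega)
    rw [cj_cj] at h
    exact Or.inr ⟨m * l, mul_mem (k2 hm) hl, Or.inl ⟨h32, h⟩⟩
  · rcases XP2_r s.toPre hU hC b2 (by omega) with h | h
    · exact Or.inl (cj_eq_cj.1 (h.trans (cj_of_norm (k3 hl)).symm))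
    · exact Or.inr ⟨l, hl, Or.inl ⟨h32, h⟩⟩

theorem XP2_card_le {A : Subgroup G} (l : List G) (h : ∀ a ∈ A, a ∈ l) : Nat.card A ≤ l.length := by
  classical
  have h1 : (A : Set G) ⊆ (l.toFinset : Set G) := fun a ha => by simpa using h a ha
  have h2 := Set.ncard_le_ncard h1
  rw [Set.ncard_coe_finset] at h2
  exact h2.trans (List.toFinset_card_le l)

theorem Co.fix_A0 (s : Co G) {l : G} (hl : l ∈ s.L) {A : Subgroup G} (hA : A ≤ s.V6) (hz : s.x1 ∈ A) (hc : 16 ≤ Nat.card A)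
    (h : ∀ u ∈ A, Eqv s.x1 (l * u * l⁻¹) u) : ∀ u ∈ A, l * u = u * l := by
  have k0 : (∀ x ∈ s.V6, x ≠ 1 → (x ∈ s.K1 → s.x1 * x ∈ s.K1) → (x ∈ s.K2 → s.x1 * x ∈ s.K2) →
      (x ∈ s.K3 → s.x1 * x ∈ s.K3) → (x ∈ s.K4 → s.x1 * x ∈ s.K4) → x ∈ s.K4 ∧ s.x1 * x ∈ s.K4) ∧ s.x1 ≠ 1 ∧
      ∀ u ∈ s.V6, u ∈ s.K4 → s.x1 * u ∈ s.K4 → ∀ v ∈ s.V6, v ≠ 1 → v ≠ s.x1 → u * v ∈ s.K4 → s.x1 * (u * v) ∈ s.K4 →
        ∀ w ∈ s.V6, u * w ∈ s.K4 → s.x1 * (u * w) ∈ s.K4 → u * (v * w) ∈ s.K4 → s.x1 * (u * (v * w)) ∈ s.K4 →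
          w = 1 ∨ w = s.x1 ∨ w = v ∨ w = s.x1 * v := s.hL.decide s.rep (by decide +kernel)
  obtain ⟨k1, k2, k3⟩ := k0
  have k4 : ∀ x ∈ A, l * x * l⁻¹ = s.x1 * x → x ∈ s.K4 ∧ s.x1 * x ∈ s.K4 := fun x hx e =>
    k1 x (hA hx) (fun e1 => k2 (by rw [e1] at e; simpa using e.symm))
      (fun j => by rw [← e]; exact conj_mem_cls hl j) (fun j => by rw [← e]; exact conj_mem_cls hl j)
      (fun j => by rw [← e]; exact conj_mem_cls hl j) fun j => by rw [← e]; exact conj_mem_cls hl j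
  intro u hu
  by_contra hne
  have hm : l * u * l⁻¹ = s.x1 * u := (h u hu).resolve_left fun e => hne (by rw [← e, inv_mul_cancel_right, e])
  have k5 : ∀ w ∈ A, l * w * l⁻¹ = w → u * w ∈ s.K4 ∧ s.x1 * (u * w) ∈ s.K4 := fun w hw e =>
    k4 _ (mul_mem hu hw) (by rw [← conj_mul, hm, e, mul_assoc])
  have k6 : ∃ v, ∀ w ∈ A, l * w * l⁻¹ = w → w = 1 ∨ w = s.x1 ∨ w = v ∨ w = s.x1 * v := by
    by_cases j : ∃ v ∈ A, l * v * l⁻¹ = v ∧ v ≠ 1 ∧ v ≠ s.x1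
    · obtain ⟨v, hv, e, j1, j2⟩ := j
      refine ⟨v, fun w hw e' => ?_⟩
      have e2 : l * (v * w) * l⁻¹ = v * w := by rw [← conj_mul, e, e']
      exact k3 u (hA hu) (k4 u hu hm).1 (k4 u hu hm).2 v (hA hv) j1 j2 (k5 v hv e).1 (k5 v hv e).2 w (hA hw)
        (k5 w hw e').1 (k5 w hw e').2 (k5 _ (mul_mem hv hw) e2).1 (k5 _ (mul_mem hv hw) e2).2
    · push Not at j
      refine ⟨1, fun w hw e => ?_⟩
      by_cases j1 : w = 1
      · exact Or.inl j1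
      · exact Or.inr (Or.inl (j w hw e j1))
  obtain ⟨v, k6⟩ := k6
  have k7 := XP2_card_le (A := A) [1, s.x1, v, s.x1 * v, u * 1, u * s.x1, u * v, u * (s.x1 * v)] fun w hw => by
    simp only [List.mem_cons, List.not_mem_nil, or_false]
    rcases h w hw with e | e
    · have := k6 w hw e
      tauto
    · have e1 : l * (u⁻¹ * w) * l⁻¹ = u⁻¹ * w := by
        rw [← conj_mul, ← conj_inv, hm, e]; group
      have e2 : w = u * (u⁻¹ * w) := by group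
      rcases k6 _ (mul_mem (inv_mem hu) hw) e1 with j | j | j | j <;> rw [j] at e2 <;> tauto
  simp only [List.length_cons, List.length_nil] at k7
  omega

theorem Co.ab_P2 (s : Co G) {u : G} (hu : u ∈ s.P2) (h : ∀ g ∈ s.P2, u * (g * u * g⁻¹) = g * u * g⁻¹ * u) : u ∈ s.Z3 := by
  have k0 : (s.x3 * s.w3 * s.n ∈ s.P2 ∧ s.x3 * s.r * s.d ∈ s.P2 ∧ s.w3 * s.r ∈ s.P2) ∧
      Let (s.x3 * s.w3 * s.n) fun g1 => Let g1⁻¹ fun h1 => Let (s.x3 * s.r * s.d) fun g2 => Let g2⁻¹ fun h2 =>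
      Let (s.w3 * s.r) fun g3 => Let g3⁻¹ fun h3 => ∀ u ∈ s.P2,
        (Let (g1 * u * h1) fun k => u * k = k * u) → (Let (g2 * u * h2) fun k => u * k = k * u) →
        (Let (g3 * u * h3) fun k => u * k = k * u) → u ∈ s.Z3 := s.hL.decide s.rep (by decide +kernel)
  obtain ⟨⟨k1, k2, k3⟩, k4⟩ := k0
  exact k4 u hu (h _ k1) (h _ k2) (h _ k3)

end Cfsg.Agent.S33
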