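import Mathlib
import Cfsg.Agent.S33.XP2

/-! Maximality of `Q` and the key lemma. -/

set_option autoImplicit false
set_option linter.unusedSectionVars false
set_option maxRecDepth 100000
set_option synthInstance.maxSize 100000
set_option synthInstance.maxHeartbeats 1000000

namespace Cfsg.Agent.S33

open Cfsg Cfsg.Agent.Rec Cfsg.Agent.Spor Cfsg.Agent.Loc.Mss Cfsg.Agent.SF6 Subgroup Matrix

variable {G : Type*} [Group G] [Finite G] {s : Co G} {Q : Subgroup G} {n : ℕ}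

namespace XKey

theorem memL {g e : G} (hg : g ∈ s.X) (he : e ∈ s.X) (h : e * s.t * e⁻¹ = g * s.t * g⁻¹) : e⁻¹ * g ∈ s.L :=
  s.cent_X (mul_mem (inv_mem he) hg) (by
    calc e⁻¹ * g * s.t = e⁻¹ * (g * s.t * g⁻¹) * g := by group
      _ = _ := by rw [← h]; group)

theorem card_eq {H : Type*} [Group H] {A B : Subgroup H} (h : A ≤ B) : Nat.card A * A.relIndex B = Nat.card B := by
  rw [← relIndex_bot_left, relIndex_mul_relIndex ⊥ A B bot_le h, relIndex_bot_left]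

end XKey

theorem Co.Xs.max (h : s.Xs Q n) {g : G} (hg : g ∈ s.X) (hv : ∀ v ∈ s.V5, Eqv s.x1 (g * v * g⁻¹) v)
    (ht : s.t * (g * s.t * g⁻¹) ∈ Q) : g ∈ Q := by
  obtain ⟨e, he, h1⟩ := h.inv _ ht (by rw [s.tmul]; exact s.D_conj s.tD g)
  rw [s.tmul] at h1
  have h2 := s.triv_V5 (XKey.memL hg (h.le he) h1) fun v hv' => by
    rw [show e⁻¹ * g * v * (e⁻¹ * g)⁻¹ = e⁻¹ * (g * v * g⁻¹) * e⁻¹⁻¹ by group]
    exact ((hv v hv').conj (h.es.z_comm _ (inv_mem he))).trans h.es.z_sq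
      (h.es.aes.eqv_conj (inv_mem he) (h.V5 hv'))
  exact (Subgroup.mul_mem_cancel_left _ (inv_mem he)).1 (h.V5 h2)

theorem Co.Xs.key (h : s.Xs Q n) {g : G} (hg : g ∈ s.X) (ht : s.t * (g * s.t * g⁻¹) ∈ s.V6) {A : Subgroup G} (hA : A ≤ s.V6)
    (hz : s.x1 ∈ A) (hc : 16 ≤ Nat.card A) (hu : ∀ u ∈ A, Eqv s.x1 (g * u * g⁻¹) u) : ∀ u ∈ A, g * u = u * g := by
  obtain ⟨e0, he0⟩ := h.phi _ ht (by rw [s.tmul]; exact s.D_conj s.tD g)
  obtain ⟨e, he, hX⟩ : ∃ e ∈ s.Φ (s.t * (g * s.t * g⁻¹)), e ∈ s.X :=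
    (s.memX' e0).elim (fun k => ⟨_, he0, k⟩) fun k => ⟨_, (s.Φ_W he0 ht s.tW).1, k⟩
  have h1 := he.2
  rw [s.tmul] at h1
  have h2 : ∀ u ∈ A, e⁻¹ * g * u * (e⁻¹ * g)⁻¹ = g * u * g⁻¹ := fun u hu' => by
    have k : g * u * g⁻¹ ∈ s.V6 := by
      rcases hu u hu' with k | k <;> rw [k]
      exacts [hA hu', hA (mul_mem hz hu')]
    rw [show e⁻¹ * g * u * (e⁻¹ * g)⁻¹ = e⁻¹ * (g * u * g⁻¹ * e) by group, ← he.1 _ k, inv_mul_cancel_left]
  intro u hu'
  have h3 := s.fix_A0 (XKey.memL hg hX h1) hA hz hc (fun u hu' => h2 u hu' ▸ hu u hu') u hu'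
  rw [← mul_inv_eq_iff_eq_mul, ← h2 u hu', h3, mul_inv_cancel_right]

theorem es_invol {R : Subgroup G} {z d : G} (h : ES2 R z) (hd : d ∈ 𝐍[R]) (d2 : d * d = 1) :
    ∃ A1 : Subgroup G, (∀ a, a ∈ A1 ↔ a ∈ R ∧ Eqv z (d * a * d⁻¹) a) ∧ 2 * Nat.card R ≤ Nat.card A1 ^ 2 ∧
      Nat.card A1 ≤ 2 * Nat.card (R ⊓ centralizer {d} : Subgroup G) ∧
      ∀ A0 ≤ A1, z ∈ A0 → ∃ R1 ≤ R, (∀ a ∈ R1, d * (a * d * a⁻¹) ∈ A0) ∧ Nat.card R * Nat.card A0 ≤ Nat.card R1 * Nat.card A1 := by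
  have dz : d * z * d⁻¹ = z := h.conj_z_of_norm hd
  have di : d⁻¹ = d := inv_eq_of_mul_eq_one_right d2
  let Z : Subgroup R := (zpowers z).subgroupOf R
  have mZ : ∀ x : R, x ∈ Z ↔ (x : G) = 1 ∨ x = z := fun x => mem_zpowers_iff_of_sq h.z_sq
  have cZ : Nat.card Z = 2 := (Nat.card_congr (subgroupOfEquivOfLe (zpowers_le.2 h.z_mem)).toEquiv).trans
    (card_zpowers_of_sq h.z_ne h.z_sq)
  have : Z.Normal := ⟨fun x hx g => (mZ _).2 (((mZ x).1 hx).imp (fun e => by simp [e]) fun e => by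
    simp only [coe_mul, coe_inv, e, ← h.z_comm g g.2, mul_inv_cancel_right])⟩
  let π := QuotientGroup.mk' Z
  have kπ : π.ker = Z := QuotientGroup.ker_mk' Z
  have eq : ∀ a b : R, π a = π b ↔ Eqv z a b := fun a b => by
    rw [← mul_inv_eq_one, ← map_inv, ← map_mul, ← MonoidHom.mem_ker, kπ, mZ, coe_mul, coe_inv, mul_inv_eq_one,
      mul_inv_eq_iff_eq_mul]
    rfl
  have hc : ∀ x y : R ⧸ Z, x * y = y * x := fun x y => by
    obtain ⟨x, rfl⟩ := QuotientGroup.mk'_surjective Z x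
    obtain ⟨y, rfl⟩ := QuotientGroup.mk'_surjective Z y
    rw [← map_mul, ← map_mul]
    exact (eq _ _).2 (h.aes.eqv_comm x.2 y.2)
  have hs : ∀ x : R ⧸ Z, x * x = 1 := fun x => by
    obtain ⟨x, rfl⟩ := QuotientGroup.mk'_surjective Z x
    rw [← map_mul, ← map_one π]
    exact (eq _ _).2 (h.aes.eqv_sq x.2)
  let δ : R →* R := (normalizerMonoidHom R ⟨d, hd⟩).toMonoidHom
  have hδ : ∀ a : R, (δ a : G) = d * a * d⁻¹ := fun _ => rfl
  have δ2 : ∀ a, δ (δ a) = a := fun a => Subtype.ext (by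
    rw [hδ, hδ, di, ← mul_assoc, ← mul_assoc, d2, one_mul, mul_assoc, d2, mul_one])
  let τ : R →* R ⧸ Z := MonoidHom.mk' (fun a => π (δ a) * (π a)⁻¹) fun a b => by
    rw [map_mul, map_mul, map_mul, _root_.mul_inv_rev, mul_assoc, ← mul_assoc (π (δ b)), hc (π (δ b) * _), ← mul_assoc]
  have hτ : ∀ a, τ a = π (δ a) * (π a)⁻¹ := fun _ => rfl
  have mK : ∀ a, a ∈ τ.ker ↔ Eqv z (d * a * d⁻¹) a := fun a => by
    rw [MonoidHom.mem_ker, hτ, mul_inv_eq_one, eq, hδ]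
  have ZK : Z ≤ τ.ker := fun x hx => (mK x).2 (by
    rcases (mZ x).1 hx with e | e <;> rw [e]
    exacts [.inl (by simp), .inl dz])
  have hI : τ.range ≤ τ.ker.map π := by
    rintro _ ⟨a, rfl⟩
    refine ⟨δ a * a⁻¹, ?_, by rw [map_mul, map_inv, hτ]⟩
    rw [SetLike.mem_coe, MonoidHom.mem_ker, map_mul, map_inv, hτ, hτ, δ2, _root_.mul_inv_rev, inv_inv, hs]
  have mA : ∀ a, a ∈ τ.ker.map R.subtype ↔ a ∈ R ∧ Eqv z (d * a * d⁻¹) a := fun a =>
    ⟨by rintro ⟨a, ha, rfl⟩; exact ⟨a.2, (mK a).1 ha⟩, fun k => ⟨⟨a, k.1⟩, (mK _).2 k.2, rfl⟩⟩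
  refine ⟨τ.ker.map R.subtype, mA, ?_, ?_, fun A0 h0 hz => ?_⟩
  · have h1 := XKey.card_eq (kπ.le.trans ZK)
    rw [relIndex_ker, kπ, cZ] at h1
    have h2 := card_le_of_le hI
    rw [card_subtype, ← τ.ker.card_mul_index, index_ker]
    nlinarith
  · let f : τ.ker →* R := MonoidHom.mk' (fun a => δ a * (a : R)⁻¹) fun a b => Subtype.ext (by
      have : Commute (d * ((b : R) : G) * d⁻¹ * ((b : R) : G)⁻¹) ((a : R) : G)⁻¹ := by
        rcases (mK b).1 b.2 with e | e <;> rw [e]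
        exacts [by simp, by simpa using (show Commute z _ from h.z_comm _ a.1.2)]
      simp only [coe_mul, coe_inv, map_mul, hδ, _root_.mul_inv_rev]
      rw [mul_assoc _ ((a : R) : G)⁻¹, ← this.eq]
      simp only [mul_assoc])
    have h1 : f.range ≤ Z := by
      rintro _ ⟨a, rfl⟩
      exact kπ.le ((map_mul π _ _).trans (by rw [map_inv]; exact a.2))
    have h2 : (f.ker.map τ.ker.subtype).map R.subtype ≤ R ⊓ centralizer {d} := by
      rintro _ ⟨_, ⟨a, ha, rfl⟩, rfl⟩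
      have e : d * ((a : R) : G) * d⁻¹ * ((a : R) : G)⁻¹ = 1 := congrArg Subtype.val ha
      rw [mul_inv_eq_one, mul_inv_eq_iff_eq_mul] at e
      exact ⟨a.1.2, Subgroup.mem_centralizer_singleton_iff.2 e.symm⟩
    have h3 := card_le_of_le h2
    have h4 := card_le_of_le h1
    rw [card_subtype, card_subtype] at h3
    rw [card_subtype, ← f.ker.card_mul_index, index_ker, mul_comm]
    exact Nat.mul_le_mul (cZ ▸ h4) h3
  · have hR : A0 ≤ R := h0.trans (map_subtype_le _)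
    have h1 : π.ker ≤ A0.subgroupOf R := kπ.le.trans (comap_mono (zpowers_le.2 hz))
    have h2 : A0.subgroupOf R ≤ τ.ker := fun a ha => (mK a).2 ((mA a).1 (h0 ha)).2
    refine ⟨(((A0.subgroupOf R).map π).comap τ).map R.subtype, map_subtype_le _, ?_, ?_⟩
    · rintro _ ⟨a, ha, rfl⟩
      have k : δ a * a⁻¹ ∈ ((A0.subgroupOf R).map π).comap π := by
        rw [mem_comap, map_mul, map_inv]
        exact ha
      rw [comap_map_eq_self h1, mem_subgroupOf, coe_mul, coe_inv, hδ, di, mul_assoc, mul_assoc,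
        ← mul_assoc (a : G)] at k
      exact k
    · have h3 : (((A0.subgroupOf R).map π).comap τ).index ≤ (A0.subgroupOf R).relIndex τ.ker := by
        rw [index_comap]
        conv_rhs => rw [← comap_map_eq_self h1, relIndex_comap]
        exact relIndex_le_of_le_right hI FiniteIndex.index_ne_zero
      rw [card_subtype, card_subtype, ← (((A0.subgroupOf R).map π).comap τ).card_mul_index, ← XKey.card_eq h2,
        Nat.card_congr (subgroupOfEquivOfLe hR).toEquiv, mul_assoc, mul_comm (Nat.card A0)]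
      gcongr

end Cfsg.Agent.S33
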