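import Mathlib
import Cfsg.Agent.S33.XKey

/-! `t` fixes a unique conjugate of `Q` under `C(x1)`. -/

set_option autoImplicit false
set_option linter.unusedSectionVars false
set_option maxRecDepth 100000
set_option synthInstance.maxSize 100000
set_option synthInstance.maxHeartbeats 1000000

namespace Cfsg.Agent.S33

open Cfsg Cfsg.Agent.Rec Cfsg.Agent.Spor Cfsg.Agent.Loc.Mss Cfsg.Agent.SF6 Subgroup Matrix

variable {G : Type*} [Group G] [Finite G] {s : Co G} {Q : Subgroup G} {n : ℕ}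

namespace XUf

/-- A second extraspecial group normalised by `t`. -/
structure Rv (s : Co G) (R : Subgroup G) (n : ℕ) : Prop where
  es : ES2 R s.x1
  le : R ≤ s.X
  nt : s.t ∈ 𝐍[R]
  card : Nat.card R = 2 ^ (2 * n + 1)

theorem Rv.conj {R : Subgroup G} {g : G} (e : ES2 R s.x1) (le : R ≤ s.X) (c : Nat.card R = 2 ^ (2 * n + 1))
    (hz : g * s.x1 = s.x1 * g) (ht : g⁻¹ * s.t * g ∈ 𝐍[R]) : Rv s cj(g, R) n :=
  ⟨by have := e.conj g; rwa [hz, mul_inv_cancel_right] at this, cj_le_iff.2 fun a ha => s.conj_X.2 (le ha),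
    by rw [← cj_norm]; exact mem_cj.2 ht, (card_cj R g).trans c⟩

theorem fix {R A1 : Subgroup G} (h1 : ∀ a, a ∈ A1 ↔ a ∈ R ∧ Eqv s.x1 (s.t * a * s.t⁻¹) a) :
    R ⊓ centralizer {s.t} ≤ A1 := fun a ha =>
  (h1 a).2 ⟨ha.1, .inl (by rw [← mem_centralizer_singleton_iff.1 ha.2, mul_inv_cancel_right])⟩

theorem big (h : s.Xs Q n) {R : Subgroup G} (r : Rv s R n) (hc : 16 ≤ Nat.card (R ⊓ centralizer {s.t} ⊓ s.V6 : Subgroup G)) :
    Nat.card (R ⊓ centralizer {s.t} ⊓ s.V6 : Subgroup G) ^ 2 ≤ 4 * Nat.card (R ⊓ centralizer {s.t} : Subgroup G) := by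
  obtain ⟨A1, h1, -, h3, h4⟩ := es_invol r.es r.nt s.tt
  have hz : s.x1 ∈ R ⊓ centralizer {s.t} ⊓ s.V6 := ⟨⟨r.es.z_mem, mem_centralizer_singleton_iff.2
    (s.t_comm (s.P1_les.1 (mem_clos (by simp))).1)⟩, mem_clos (by simp)⟩
  have hR : R ⊓ centralizer {s.t} ⊓ s.V6 ≤ R := inf_le_left.trans inf_le_left
  obtain ⟨R1, l1, k1, k2⟩ := h4 _ (inf_le_left.trans (fix h1)) hz
  have k3 := r.es.card_mul_card_centralizer hR hz
  have k4 := card_le_of_le (show R1 ≤ R ⊓ 𝐂[R ⊓ centralizer {s.t} ⊓ s.V6] from fun a ha => ⟨l1 ha, fun u hu =>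
    (h.key (r.le (l1 ha)) (k1 a ha).2 inf_le_right hz hc (fun u hu => r.es.aes.eqv_conj (l1 ha) (hR hu)) u hu).symm⟩)
  have k5 : 0 < Nat.card R := Nat.card_pos
  generalize Nat.card (R ⊓ centralizer {s.t} ⊓ s.V6 : Subgroup G) = a at *
  refine Nat.le_of_mul_le_mul_left (c := Nat.card R) ?_ k5
  calc Nat.card R * a ^ 2 = Nat.card R * a * a := by ring
    _ ≤ Nat.card R1 * Nat.card A1 * a := Nat.mul_le_mul_right _ k2
    _ = a * Nat.card R1 * Nat.card A1 := by ring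
    _ ≤ 2 * Nat.card R * (2 * Nat.card (R ⊓ centralizer {s.t} : Subgroup G)) :=
      Nat.mul_le_mul (k3 ▸ Nat.mul_le_mul_left _ k4) h3
    _ = _ := by ring

theorem eq (h : s.Xs Q n) {R : Subgroup G} (r : Rv s R n) : R = Q := by
  obtain ⟨A1, h1, h2, h3, -⟩ := es_invol r.es r.nt s.tt
  have AP : R ⊓ centralizer {s.t} ≤ s.P1 := fun a ha => ⟨s.cent_X (r.le ha.1) (mem_centralizer_singleton_iff.1 ha.2),
    mem_centralizer_singleton_iff.2 (r.es.z_comm a ha.1).symm⟩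
  have c : 32 ≤ Nat.card (R ⊓ centralizer {s.t} : Subgroup G) := by
    rw [r.card] at h2
    rcases h.nn with rfl | ⟨rfl, hD⟩
    · have : 64 ≤ Nat.card A1 := (Nat.pow_le_pow_iff_left two_ne_zero).1 h2
      omega
    · refine ((Nat.pow_le_pow_iff_left two_ne_zero).1 h2 : 32 ≤ _).trans (card_le_of_le fun a ha => ?_)
      obtain ⟨k, e⟩ := (h1 a).1 ha
      refine ⟨k, mem_centralizer_singleton_iff.2 (mul_inv_eq_iff_eq_mul.1 (e.resolve_right fun e => hD ?_)).symm⟩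
      refine isConj_iff.2 ⟨a⁻¹, ?_⟩
      rw [inv_inv, mul_assoc, mul_inv_eq_iff_eq_mul.1 e, r.es.z_comm a k, mul_assoc, inv_mul_cancel_left]
      exact s.t_comm (AP ⟨r.es.z_mem, mem_centralizer_singleton_iff.2 (s.t_comm (s.P1_les.1 (mem_clos (by simp))).1)⟩).1
  rcases s.elem_P1 AP (fun a ha => (r.es.sq a ha.1).resolve_right (s.nsq (AP ha).1)) c with e | ⟨l, hl, e⟩
  · have m : ∀ a ∈ R, s.t * (a * s.t * a⁻¹) ∈ Q → a ∈ Q := fun a ha =>
      h.max (r.le ha) fun v hv => r.es.aes.eqv_conj ha (e.ge hv).1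
    have ti := inv_eq_of_mul_eq_one_right s.tt
    have e1 : ∀ a, s.t * (a * s.t * a⁻¹) = s.t * a * s.t⁻¹ * a⁻¹ := fun a => by rw [ti]; group
    have l1 : A1 ≤ Q := fun a ha => m a ((h1 a).1 ha).1 (by
      rcases ((h1 a).1 ha).2 with k | k <;> rw [e1, k]
      · rw [mul_inv_cancel]; exact one_mem _
      · rw [mul_inv_cancel_right]; exact h.es.z_mem)
    refine eq_of_le_of_card_ge (fun a ha => m a ha (l1 ?_)) (h.card.trans r.card.symm).le
    have hb : s.t * (a * s.t * a⁻¹) ∈ R := e1 a ▸ mul_mem (conj_mem_of_norm r.nt ha) (inv_mem ha)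
    refine (h1 _).2 ⟨hb, ?_⟩
    rw [show s.t * (s.t * (a * s.t * a⁻¹)) * s.t⁻¹ = (s.t * (a * s.t * a⁻¹))⁻¹ by
      rw [← mul_assoc s.t, s.tt, _root_.mul_inv_rev, _root_.mul_inv_rev, _root_.mul_inv_rev, ti]; group]
    exact r.es.aes.eqv_inv hb
  · have lt := s.t_comm hl.1
    have r' : Rv s cj(l, R) n := Rv.conj r.es r.le r.card (mem_centralizer_singleton_iff.1 hl.2) (by
      rw [mul_assoc, ← lt, inv_mul_cancel_left]; exact r.nt)
    have e1 : cj(l, R ⊓ centralizer {s.t}) = cj(l, R) ⊓ centralizer {s.t} := by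
      rw [cj_inf, cj_of_mem (mem_centralizer_singleton_iff.2 lt)]
    have b := big h r'
    rw [← e1, card_cj] at b
    rcases e with ⟨e, k⟩ | e
    · have := (Nat.pow_le_pow_left k 2).trans (b k)
      omega
    · rw [← e, inf_idem, card_cj] at b
      have := b (by omega)
      nlinarith

end XUf

theorem Co.Xs.uf (h : s.Xs Q n) {g : G} (hz : g * s.x1 = s.x1 * g) (ht : g * s.t * g⁻¹ ∈ 𝐍[Q]) : g ∈ 𝐍[Q] :=
  inv_mem_iff.1 (cj_eq_iff.1 (XUf.eq h (XUf.Rv.conj h.es h.le h.card (Commute.inv_left hz) (by rwa [inv_inv]))))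

end Cfsg.Agent.S33
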