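import Mathlib
import Cfsg.Agent.S33.XB2
import Cfsg.Agent.S33.XUf
import Cfsg.Agent.S33.XCrd

/-! Matrices in the case of order `2⁹`. -/

set_option autoImplicit false
set_option linter.unusedSectionVars false
set_option maxRecDepth 100000
set_option synthInstance.maxSize 100000
set_option synthInstance.maxHeartbeats 1000000

namespace Cfsg.Agent.S33

open Cfsg Cfsg.Agent.Rec Cfsg.Agent.Spor Cfsg.Agent.Loc.Mss Cfsg.Agent.SF6 Subgroup Matrix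

variable {G : Type*} [Group G] [Finite G] {s : Co G} {B : Subgroup G} {f k k' k2 : G} {φ : G → G} {ε : ℕ}

namespace XB3

variable {κ : G → Vec 8} {ρ : G → Gl 8}

/-- The coordinates of `v` and of `φ v`. -/
structure Cv (s : Co G) (φ : G → G) (κ : G → Vec 8) (v : G) (p p' : Vec 8) : Prop where
  mem : v ∈ s.V5
  a : κ v = p
  b : κ (φ v) = p'

theorem Cv.mul {u v : G} {p p' r r' : Vec 8} (a : Cv s φ κ u p p') (h : s.Fs φ) (c : Crd (s.Q8 φ) s.x1 q8 κ ρ)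
    (b : Cv s φ κ v r r') : Cv s φ κ (u * v) (p + r) (p' + r') := by
  obtain ⟨es, -, -, hV, -, -, hφ, -⟩ := h.es8
  refine ⟨mul_mem a.mem b.mem, by rw [c.add _ (hV a.mem) _ (hV b.mem), a.a, b.a], ?_⟩
  rw [(c.eqv es (hφ _ (mul_mem a.mem b.mem)) (mul_mem (hφ _ a.mem) (hφ _ b.mem))).1 (h.add _ a.mem _ b.mem),
    c.add _ (hφ _ a.mem) _ (hφ _ b.mem), a.b, b.b]

theorem col (h : s.Fs φ) (c : Crd (s.Q8 φ) s.x1 q8 κ ρ) {g v : G} (hg : g ∈ s.P1) (hv : v ∈ s.V5) {p p' : Vec 8}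
    (a : Cv s φ κ (g * v * g⁻¹) p p') : ap (ρ g) (κ v) = p ∧ ap (ρ g) (κ (φ v)) = p' := by
  obtain ⟨es, -, -, hV, hP, -, hφ, -⟩ := h.es8
  refine ⟨by rw [← c.act g (hP hg) v (hV hv), a.a], ?_⟩
  rw [← c.act g (hP hg) _ (hφ v hv), ← a.b]
  exact ((c.eqv es (hφ _ a.mem) (conj_mem_of_norm (hP hg) (hφ v hv))).1 (h.conj g hg v hv)).symm

theorem rep_of (h : s.Fs φ) (c : Crd (s.Q8 φ) s.x1 q8 κ ρ)
    (b : ∀ i, κ (![s.y, s.a, s.c, s.r, φ s.y, φ s.a, φ s.c, φ s.r] i) = Pi.single i 1) {g : G} (hg : g ∈ s.P1)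
    {p0 p1 p2 p3 r0 r1 r2 r3 : Vec 8} (a0 : Cv s φ κ (g * s.y * g⁻¹) p0 r0) (a1 : Cv s φ κ (g * s.a * g⁻¹) p1 r1)
    (a2 : Cv s φ κ (g * s.c * g⁻¹) p2 r2) (a3 : Cv s φ κ (g * s.r * g⁻¹) p3 r3) {a : ℕ} (ha : a < 2 ^ 64)
    (e : ∀ j i : Fin 8, ![p0, p1, p2, p3, r0, r1, r2, r3] j i = ((a / 2 ^ (8 * i + j : ℕ) % 2 : ℕ) : ZMod 2)) :
    B8.C.Rep a (ρ g) := by
  have k0 := col h c hg (mem_clos (by simp)) a0
  have k1 := col h c hg (mem_clos (by simp)) a1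
  have k2 := col h c hg (mem_clos (by simp)) a2
  have k3 := col h c hg (mem_clos (by simp)) a3
  refine rep8 ha fun j i => ?_
  rw [← e, ← b j]
  refine congrFun ?_ i
  fin_cases j
  exacts [k0.1, k1.1, k2.1, k3.1, k0.2, k1.2, k2.2, k3.2]

theorem exists_crd8 (h : s.Fs φ) : ∃ κ ρ, Crd (s.Q8 φ) s.x1 q8 κ ρ ∧
    ∀ i, κ (![s.y, s.a, s.c, s.r, φ s.y, φ s.a, φ s.c, φ s.r] i) = Pi.single i 1 := by
  obtain ⟨es, cd, -⟩ := h.es8
  have my : s.y ∈ s.V5 := mem_clos (by simp)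
  have ma : s.a ∈ s.V5 := mem_clos (by simp)
  have mc : s.c ∈ s.V5 := mem_clos (by simp)
  have mr : s.r ∈ s.V5 := mem_clos (by simp)
  have cV : ∀ u ∈ s.V5, ∀ v ∈ s.V5, u * v = v * u := s.hL.decide s.rep (by decide +kernel)
  have k :
      s.y ∈ s.K2 ∧ s.a ∈ s.K2 ∧ s.c ∈ s.K2 ∧ s.r ∈ s.K2 ∧ s.y * s.a ∈ s.K2 ∧ s.y * s.c ∈ s.K2 ∧
      ¬ (s.y = s.r ∨ s.y * s.r ∈ s.K2) ∧ s.a * s.y ∈ s.K2 ∧ ¬ (s.a = s.c ∨ s.a * s.c ∈ s.K2) ∧ s.a * s.r ∈ s.K2 ∧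
      s.c * s.y ∈ s.K2 ∧ ¬ (s.c = s.a ∨ s.c * s.a ∈ s.K2) ∧ s.c * s.r ∈ s.K2 ∧ ¬ (s.r = s.y ∨ s.r * s.y ∈ s.K2) ∧
      s.r * s.a ∈ s.K2 ∧ s.r * s.c ∈ s.K2 ∧ s.y * s.y = 1 ∧ s.a * s.a = 1 ∧ s.c * s.c = 1 ∧ s.r * s.r = 1 :=
    s.hL.decide s.rep (by decide +kernel)
  obtain ⟨ky, ka, kc, kr, pya, pyc, nyr, pay, nac, par, pcy, nca, pcr, nry, pra, prc, qy, qa, qc, qr⟩ := k
  refine exists_crd es isQ8 _ (fun i => mem_clos (by fin_cases i <;> simp)) cd (clos_le.2 fun x hx => subset_closure ?_)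
    (fun i => ?_) fun i j => ?_
  · simp only [List.mem_cons, List.not_mem_nil, or_false] at hx
    rcases hx with rfl | rfl | rfl | rfl | rfl | rfl | rfl | rfl | rfl
    exacts [Or.inl rfl, Or.inr ⟨0, rfl⟩, Or.inr ⟨1, rfl⟩, Or.inr ⟨2, rfl⟩, Or.inr ⟨3, rfl⟩, Or.inr ⟨4, rfl⟩,
      Or.inr ⟨5, rfl⟩, Or.inr ⟨6, rfl⟩, Or.inr ⟨7, rfl⟩]
  · refine iff_of_true ?_ (by revert i; decide +kernel)
    fin_cases i
    exacts [qy, qa, qc, qr, h.sq _ my, h.sq _ ma, h.sq _ mc, h.sq _ mr]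
  · have hp : ∀ i j : Fin 8, pol q8 (Pi.single i 1) (Pi.single j 1) = 0 ↔ i.val + j.val ≠ 7 := by decide +kernel
    rw [hp]
    fin_cases i <;> fin_cases j
    exacts [
      iff_of_true (cV _ my _ my) (by decide), iff_of_true (cV _ my _ ma) (by decide),
      iff_of_true (cV _ my _ mc) (by decide), iff_of_true (cV _ my _ mr) (by decide),
      eq_comm.trans <| (h.pair _ my _ my ky ky).trans (iff_of_true (Or.inl rfl) (by decide)),
      eq_comm.trans <| (h.pair _ my _ ma ky ka).trans (iff_of_true (Or.inr pya) (by decide)),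
      eq_comm.trans <| (h.pair _ my _ mc ky kc).trans (iff_of_true (Or.inr pyc) (by decide)),
      eq_comm.trans <| (h.pair _ my _ mr ky kr).trans (iff_of_false nyr (by decide)),
      iff_of_true (cV _ ma _ my) (by decide), iff_of_true (cV _ ma _ ma) (by decide),
      iff_of_true (cV _ ma _ mc) (by decide), iff_of_true (cV _ ma _ mr) (by decide),
      eq_comm.trans <| (h.pair _ ma _ my ka ky).trans (iff_of_true (Or.inr pay) (by decide)),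
      eq_comm.trans <| (h.pair _ ma _ ma ka ka).trans (iff_of_true (Or.inl rfl) (by decide)),
      eq_comm.trans <| (h.pair _ ma _ mc ka kc).trans (iff_of_false nac (by decide)),
      eq_comm.trans <| (h.pair _ ma _ mr ka kr).trans (iff_of_true (Or.inr par) (by decide)),
      iff_of_true (cV _ mc _ my) (by decide), iff_of_true (cV _ mc _ ma) (by decide),
      iff_of_true (cV _ mc _ mc) (by decide), iff_of_true (cV _ mc _ mr) (by decide),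
      eq_comm.trans <| (h.pair _ mc _ my kc ky).trans (iff_of_true (Or.inr pcy) (by decide)),
      eq_comm.trans <| (h.pair _ mc _ ma kc ka).trans (iff_of_false nca (by decide)),
      eq_comm.trans <| (h.pair _ mc _ mc kc kc).trans (iff_of_true (Or.inl rfl) (by decide)),
      eq_comm.trans <| (h.pair _ mc _ mr kc kr).trans (iff_of_true (Or.inr pcr) (by decide)),
      iff_of_true (cV _ mr _ my) (by decide), iff_of_true (cV _ mr _ ma) (by decide),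
      iff_of_true (cV _ mr _ mc) (by decide), iff_of_true (cV _ mr _ mr) (by decide),
      eq_comm.trans <| (h.pair _ mr _ my kr ky).trans (iff_of_false nry (by decide)),
      eq_comm.trans <| (h.pair _ mr _ ma kr ka).trans (iff_of_true (Or.inr pra) (by decide)),
      eq_comm.trans <| (h.pair _ mr _ mc kr kc).trans (iff_of_true (Or.inr prc) (by decide)),
      eq_comm.trans <| (h.pair _ mr _ mr kr kr).trans (iff_of_true (Or.inl rfl) (by decide)),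
      (h.pair _ my _ my ky ky).trans (iff_of_true (Or.inl rfl) (by decide)),
      (h.pair _ ma _ my ka ky).trans (iff_of_true (Or.inr pay) (by decide)),
      (h.pair _ mc _ my kc ky).trans (iff_of_true (Or.inr pcy) (by decide)),
      (h.pair _ mr _ my kr ky).trans (iff_of_false nry (by decide)), iff_of_true (h.cm _ my _ my) (by decide),
      iff_of_true (h.cm _ my _ ma) (by decide), iff_of_true (h.cm _ my _ mc) (by decide),
      iff_of_true (h.cm _ my _ mr) (by decide),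
      (h.pair _ my _ ma ky ka).trans (iff_of_true (Or.inr pya) (by decide)),
      (h.pair _ ma _ ma ka ka).trans (iff_of_true (Or.inl rfl) (by decide)),
      (h.pair _ mc _ ma kc ka).trans (iff_of_false nca (by decide)),
      (h.pair _ mr _ ma kr ka).trans (iff_of_true (Or.inr pra) (by decide)),
      iff_of_true (h.cm _ ma _ my) (by decide), iff_of_true (h.cm _ ma _ ma) (by decide),
      iff_of_true (h.cm _ ma _ mc) (by decide), iff_of_true (h.cm _ ma _ mr) (by decide),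
      (h.pair _ my _ mc ky kc).trans (iff_of_true (Or.inr pyc) (by decide)),
      (h.pair _ ma _ mc ka kc).trans (iff_of_false nac (by decide)),
      (h.pair _ mc _ mc kc kc).trans (iff_of_true (Or.inl rfl) (by decide)),
      (h.pair _ mr _ mc kr kc).trans (iff_of_true (Or.inr prc) (by decide)),
      iff_of_true (h.cm _ mc _ my) (by decide), iff_of_true (h.cm _ mc _ ma) (by decide),
      iff_of_true (h.cm _ mc _ mc) (by decide), iff_of_true (h.cm _ mc _ mr) (by decide),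
      (h.pair _ my _ mr ky kr).trans (iff_of_false nyr (by decide)),
      (h.pair _ ma _ mr ka kr).trans (iff_of_true (Or.inr par) (by decide)),
      (h.pair _ mc _ mr kc kr).trans (iff_of_true (Or.inr pcr) (by decide)),
      (h.pair _ mr _ mr kr kr).trans (iff_of_true (Or.inl rfl) (by decide)),
      iff_of_true (h.cm _ mr _ my) (by decide), iff_of_true (h.cm _ mr _ ma) (by decide),
      iff_of_true (h.cm _ mr _ mc) (by decide), iff_of_true (h.cm _ mr _ mr) (by decide)]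

end XB3

open XB3 in
theorem Co.Fs.crd (h : s.Fs φ) (hB : s.Big s.A3 B) (hy : φ s.y ∈ B) (x : s.Xs (s.Q8 φ) 4) :
    ∃ κ ρ, Crd (s.Q8 φ) s.x1 q8 κ ρ ∧ κ s.y = Pi.single 0 1 ∧
      B8.C.RepL c8 [ρ s.t, ρ s.x2, ρ s.x3, ρ s.x23, ρ s.w2, ρ s.w3] ∧ ∃ g ∈ s.X ⊓ 𝐍[s.Q8 φ],
        (∀ i ∈ ([0, 1, 4, 5] : List (Fin 8)), ap (ρ g) (Pi.single i 1) = Pi.single i 1) ∧
        ρ g * ρ s.t * (ρ g)⁻¹ = ρ s.t * (ρ s.x2 * ρ s.x3 * ρ s.x23) := by
  obtain ⟨κ, ρ, c, b⟩ := exists_crd8 h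
  obtain ⟨es, -, -, hV, hP, ht, hφ, -⟩ := h.es8
  obtain ⟨VP, S6P, -⟩ := s.P1_les
  have cy : Cv s φ κ s.y (Pi.single 0 1) (Pi.single 4 1) := ⟨mem_clos (by simp), b 0, b 4⟩
  have ca : Cv s φ κ s.a (Pi.single 1 1) (Pi.single 5 1) := ⟨mem_clos (by simp), b 1, b 5⟩
  have cc : Cv s φ κ s.c (Pi.single 2 1) (Pi.single 6 1) := ⟨mem_clos (by simp), b 2, b 6⟩
  have cr : Cv s φ κ s.r (Pi.single 3 1) (Pi.single 7 1) := ⟨mem_clos (by simp), b 3, b 7⟩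
  have cx1 : Cv s φ κ s.x1 0 0 := ⟨mem_clos (by simp), (c.ker _ es.z_mem).2 (Or.inr rfl),
    h.z ▸ (c.ker _ (one_mem _)).2 (Or.inl rfl)⟩
  have k :
      s.x2 * s.y * s.x2⁻¹ = s.y ∧ s.x2 * s.a * s.x2⁻¹ = s.a ∧ s.x2 * s.c * s.x2⁻¹ = s.c ∧
      s.x2 * s.r * s.x2⁻¹ = s.y * s.r * s.x1 ∧ s.x3 * s.y * s.x3⁻¹ = s.y ∧ s.x3 * s.a * s.x3⁻¹ = s.a ∧
      s.x3 * s.c * s.x3⁻¹ = s.a * s.c * s.x1 ∧ s.x3 * s.r * s.x3⁻¹ = s.r ∧ s.x23 * s.y * s.x23⁻¹ = s.y ∧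
      s.x23 * s.a * s.x23⁻¹ = s.a ∧ s.x23 * s.c * s.x23⁻¹ = s.y * s.a * s.c * s.x1 ∧
      s.x23 * s.r * s.x23⁻¹ = s.y * s.a * s.r * s.x1 ∧ s.w2 * s.y * s.w2⁻¹ = s.y * s.r * s.x1 ∧
      s.w2 * s.a * s.w2⁻¹ = s.a ∧ s.w2 * s.c * s.w2⁻¹ = s.c ∧ s.w2 * s.r * s.w2⁻¹ = s.r ∧
      s.w3 * s.y * s.w3⁻¹ = s.y ∧ s.w3 * s.a * s.w3⁻¹ = s.a * s.c * s.x1 ∧ s.w3 * s.c * s.w3⁻¹ = s.c ∧
      s.w3 * s.r * s.w3⁻¹ = s.r :=
    s.hL.decide s.rep (by decide +kernel)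
  obtain ⟨ex2y, ex2a, ex2c, ex2r, ex3y, ex3a, ex3c, ex3r, ex23y, ex23a, ex23c, ex23r, ew2y, ew2a, ew2c, ew2r, ew3y, ew3a, ew3c, ew3r⟩ := k
  have rx2 : B8.C.Rep 9241422238346117641 (ρ s.x2) := rep_of h c b (S6P (mem_clos (by simp)))
    (ex2y.symm ▸ cy)
    (ex2a.symm ▸ ca)
    (ex2c.symm ▸ cc)
    (ex2r.symm ▸ ((cy.mul h c cr).mul h c cx1)) (by norm_num) (by decide +kernel)
  have rx3 : B8.C.Rep 9241492057334482433 (ρ s.x3) := rep_of h c b (S6P (mem_clos (by simp)))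
    (ex3y.symm ▸ cy)
    (ex3a.symm ▸ ca)
    (ex3c.symm ▸ ((ca.mul h c cc).mul h c cx1))
    (ex3r.symm ▸ cr) (by norm_num) (by decide +kernel)
  have rx23 : B8.C.Rep 9241633619456560653 (ρ s.x23) := rep_of h c b (S6P (mem_clos (by simp)))
    (ex23y.symm ▸ cy)
    (ex23a.symm ▸ ca)
    (ex23c.symm ▸ (((cy.mul h c ca).mul h c cc).mul h c cx1))
    (ex23r.symm ▸ (((cy.mul h c ca).mul h c cr).mul h c cx1)) (by norm_num) (by decide +kernel)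
  have rw2 : B8.C.Rep 10394343193213927937 (ρ s.w2) := rep_of h c b (S6P (mem_clos (by simp)))
    (ew2y.symm ▸ ((cy.mul h c cr).mul h c cx1))
    (ew2a.symm ▸ ca)
    (ew2c.symm ▸ cc)
    (ew2r.symm ▸ cr) (by norm_num) (by decide +kernel)
  have rw3 : B8.C.Rep 9250428887845175809 (ρ s.w3) := rep_of h c b (S6P (mem_clos (by simp)))
    (ew3y.symm ▸ cy)
    (ew3a.symm ▸ ((ca.mul h c cc).mul h c cx1))
    (ew3c.symm ▸ cc)
    (ew3r.symm ▸ cr) (by norm_num) (by decide +kernel)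
  have k' : (∀ v ∈ s.V5, s.t * v * s.t⁻¹ = v) ∧ s.t * s.t = 1 ∧ s.b = s.x2 * s.x3 * s.x23 :=
    s.hL.decide s.rep (by decide +kernel)
  obtain ⟨tV, tt, eb⟩ := k'
  have tc : ∀ {v : G} {p p' : Vec 8}, Cv s φ κ v p p' → ap (ρ s.t) p = p ∧ ap (ρ s.t) p' = p + p' := by
    rintro v _ _ ⟨hv, rfl, rfl⟩
    refine ⟨by rw [← c.act _ ht v (hV hv), tV v hv], ?_⟩
    rw [← c.act _ ht _ (hφ v hv), ← c.add _ (hV hv) _ (hφ v hv)]
    refine (c.eqv es (conj_mem_of_norm ht (hφ v hv)) (mul_mem (hV hv) (hφ v hv))).1 ?_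
    have e := ((h.t' v hv).mul_left (w := s.t) (mul_inv_eq_iff_eq_mul.1 (tV _ cx1.mem)).symm).mul_right (φ v)
    rw [← mul_assoc s.t s.t, tt, one_mul] at e
    convert e using 1
    rw [inv_eq_of_mul_eq_one_right tt]
    group
  have rt : B8.C.Rep 9241421690741989905 (ρ s.t) := by
    have e : ∀ j i : Fin 8, (![Pi.single 0 1, Pi.single 1 1, Pi.single 2 1, Pi.single 3 1, Pi.single 0 1 + Pi.single 4 1,
        Pi.single 1 1 + Pi.single 5 1, Pi.single 2 1 + Pi.single 6 1, Pi.single 3 1 + Pi.single 7 1] : Fin 8 → Vec 8) j i =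
        ((9241421690741989905 / 2 ^ (8 * i + j : ℕ) % 2 : ℕ) : ZMod 2) := by decide +kernel
    refine rep8 (by norm_num) fun j i => ?_
    rw [← e]
    refine congrFun ?_ i
    fin_cases j
    exacts [(tc cy).1, (tc ca).1, (tc cc).1, (tc cr).1, (tc cy).2, (tc ca).2, (tc cc).2, (tc cr).2]
  refine ⟨κ, ρ, c, b 0, rt.cons <| rx2.cons <| rx3.cons <| rx23.cons <| rw2.cons <| rw3.cons Cod.repL_nil, ?_⟩
  obtain ⟨g, gB, gV, gt⟩ := hB.onto s.b (mem_clos (by simp))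
  have n2 : s.x2 ∈ 𝐍[s.Q8 φ] := hP (S6P (mem_clos (by simp)))
  have n3 : s.x3 ∈ 𝐍[s.Q8 φ] := hP (S6P (mem_clos (by simp)))
  have n23 : s.x23 ∈ 𝐍[s.Q8 φ] := hP (S6P (mem_clos (by simp)))
  have nb : s.b ∈ 𝐍[s.Q8 φ] := eb ▸ mul_mem (mul_mem n2 n3) n23
  have gN : g ∈ 𝐍[s.Q8 φ] := x.uf (gV _ (mem_clos (by simp))) (gt ▸ mul_mem ht nb)
  have fx : ∀ u ∈ B, u ∈ s.Q8 φ → ap (ρ g) (κ u) = κ u := fun u hu hQ => by
    have : g * u * g⁻¹ = u := by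
      rw [inv_eq_of_mul_eq_one_right (hB.sq g gB)]
      have := hB.sq _ (mul_mem gB hu)
      rw [← mul_assoc] at this
      exact (eq_inv_of_mul_eq_one_left this).trans (inv_eq_of_mul_eq_one_right (hB.sq u hu))
    rw [← c.act g gN u hQ, this]
  refine ⟨g, ⟨Co.B_le hB gB, gN⟩, fun i hi => ?_, ?_⟩
  · simp only [List.mem_cons, List.not_mem_nil, or_false] at hi
    rcases hi with rfl | rfl | rfl | rfl
    · exact cy.a ▸ fx _ (hB.le (mem_clos (by simp))) (hV cy.mem)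
    · exact ca.a ▸ fx _ (hB.le (mem_clos (by simp))) (hV ca.mem)
    · exact cy.b ▸ fx _ hy (hφ _ cy.mem)
    · exact ca.b ▸ fx _ (Co.fs_B hB h hy) (hφ _ ca.mem)
  · rw [mul_inv_eq_iff_eq_mul, ← c.mul _ gN _ ht, ← c.mul _ n2 _ n3, ← c.mul _ (mul_mem n2 n3) _ n23, ← eb,
      ← c.mul _ ht _ nb, ← c.mul _ (mul_mem ht nb) _ gN, ← gt, inv_mul_cancel_right]

end Cfsg.Agent.S33
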