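import Mathlib
import Cfsg.Agent.S33.XP1

/-! The frame of involutions. -/

set_option autoImplicit false
set_option linter.unusedSectionVars false
set_option maxRecDepth 100000
set_option synthInstance.maxSize 100000
set_option synthInstance.maxHeartbeats 1000000

namespace Cfsg.Agent.S33

open Cfsg Cfsg.Agent.Rec Cfsg.Agent.Spor Cfsg.Agent.Loc.Mss Cfsg.Agent.SF6 Subgroup Matrix

variable {G : Type*} [Group G] [Finite G] {s : Co G} {B : Subgroup G} {f k k' k2 : G} {φ : G → G} {ε : ℕ}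

namespace XFr

/-- The hypotheses. -/
structure Hy (s : Co G) (f : G) : Prop where
  hat : s.Hat f
  hX : f ∈ s.X
  hr : f * s.r * f⁻¹ = s.r * s.x1

theorem m1 (s : Co G) : s.x1 * s.x1 = 1 ∧ s.x1 ≠ 1 ∧ s.x1 ∉ s.K2 ∧ (1 : G) ∉ s.K2 ∧ s.r * s.r = 1 ∧
    s.x1 ∈ s.V5 ∧ s.y ∈ s.V5 ∧ s.a ∈ s.V5 ∧ s.r ∈ s.V5 := s.hL.decide s.rep (by decide +kernel)

theorem m2 (s : Co G) : ∀ u ∈ s.V5, u * u = 1 ∧ s.x1 * u = u * s.x1 ∧ (u ∈ s.C2 ∨ u * s.r ∈ s.C2) ∧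
    (u ∈ s.K2 → s.x1 * u ∉ s.K2 ∧ (u ∈ s.C2 ↔ u = s.y ∨ u * s.y ∈ s.K2)) := s.hL.decide s.rep (by decide +kernel)

theorem m3 (s : Co G) : ∀ v ∈ s.V5, (v = 1 ∨ v = s.x1 * 1) ∨ (s.y = v ∨ s.y = s.x1 * v) ∨
    ∃ h ∈ s.P12, Let h⁻¹ fun i => h * s.y * i = s.y ∧ Let (h * s.a * i) fun a => Let (h * s.r * i) fun r =>
      (a = v ∨ a = s.x1 * v) ∨ (r = v ∨ r = s.x1 * v) := s.hL.decide s.rep (by decide +kernel)

theorem zz (s : Co G) : s.x1 * s.x1 = 1 := (m1 s).1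

theorem P_L {g : G} (hg : g ∈ s.P1) : g ∈ s.L := (mem_inf.1 hg).1

theorem P_z {g : G} (hg : g ∈ s.P1) : s.x1 * g = g * s.x1 := (mem_centralizer_singleton_iff.1 (mem_inf.1 hg).2).symm

theorem P_V {g v : G} (hg : g ∈ s.P1) (hv : v ∈ s.V5) : g * v * g⁻¹ ∈ s.V5 :=
  (mem_normalizer_iff.1 (s.P1_les.2.2.2.2.2.2 hg) v).1 hv

theorem P_K {g v : G} (hg : g ∈ s.P1) : g * v * g⁻¹ ∈ s.K2 ↔ v ∈ s.K2 :=
  ⟨fun h => by
    have h1 : g⁻¹ * (g * v * g⁻¹) * g⁻¹⁻¹ ∈ s.K2 := conj_mem_cls (inv_mem (P_L hg)) h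
    simpa [mul_assoc] using h1, conj_mem_cls (P_L hg)⟩

theorem cinj {g a b : G} : g * a * g⁻¹ = g * b * g⁻¹ ↔ a = b := by simp

theorem zt (s : Co G) : s.x1 * s.t = s.t * s.x1 := s.t_comm (P_L (s.P1_les.1 (m1 s).2.2.2.2.2.1))

theorem K_eq {u v : G} (hv : v ∈ s.V5) (ku : u ∈ s.K2) (kv : v ∈ s.K2) (h : Eqv s.x1 u v) : u = v :=
  h.resolve_right fun e => ((m2 s v hv).2.2.2 kv).1 (e ▸ ku)

theorem K_ne {u : G} (ku : u ∈ s.K2) : ¬ Eqv s.x1 u 1 := by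
  rintro (rfl | rfl)
  · exact (m1 s).2.2.2.1 ku
  · exact (m1 s).2.2.1 (by simpa using ku)

theorem Hy.z (h : Hy s f) : s.x1 * f = f * s.x1 := (h.hat.c2 _ (mem_clos (by simp))).symm

theorem Hy.act (h : Hy s f) {u : G} (hu : u ∈ s.V5) (hn : u ∉ s.C2) : f * u = s.x1 * (u * f) := by
  have h1 := h.hat.c2 _ ((m2 s u hu).2.2.1.resolve_left hn)
  have h2 : f * s.r = s.r * s.x1 * f := by rw [← h.hr]; group
  calc f * u = f * (u * s.r) * s.r := by rw [mul_assoc, mul_assoc, (m1 s).2.2.2.2.1, mul_one]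
    _ = u * (s.r * s.r) * s.x1 * f := by rw [h1, mul_assoc, h2]; group
    _ = _ := by rw [(m1 s).2.2.2.2.1, mul_one, ← (m2 s u hu).2.1, mul_assoc]

/-- The elements fixing `f` modulo `z`. -/
def St (z f : G) (hz : z * z = 1) : Subgroup G where
  carrier := {g | z * g = g * z ∧ Eqv z (g * f * g⁻¹) f}
  one_mem' := ⟨by simp, Or.inl (by simp)⟩
  mul_mem' := fun {a b} ha hb => ⟨by rw [← mul_assoc, ha.1, mul_assoc, hb.1, mul_assoc], by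
    have := (hb.2.conj ha.1).trans hz ha.2
    simpa only [mul_assoc, _root_.mul_inv_rev] using this⟩
  inv_mem' := fun {a} ha => by
    have h1 : z * a⁻¹ = a⁻¹ * z := (Commute.inv_right ha.1).eq
    exact ⟨h1, by simpa [mul_assoc] using (ha.2.conj h1).symm hz⟩

theorem Hy.st (h : Hy s f) {g : G} (hg : g ∈ s.P1) (e : Eqv s.x1 (g * s.y * g⁻¹) s.y) :
    Eqv s.x1 (g * f * g⁻¹) f := by
  have h1 : s.C2 ≤ St s.x1 f (zz s) := fun c hc =>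
    ⟨P_z (s.P1_les.2.2.2.1 hc), Or.inl (by rw [← h.hat.c2 c hc]; group)⟩
  have h2 : s.r ∈ St s.x1 f (zz s) := by
    refine ⟨(m2 s _ (m1 s).2.2.2.2.2.2.2.2).2.1, Or.inr ?_⟩
    have h2 : f * s.r = s.r * s.x1 * f := by rw [← h.hr]; group
    rw [inv_eq_of_mul_eq_one_right (m1 s).2.2.2.2.1, mul_assoc, h2, ← mul_assoc, ← mul_assoc, (m1 s).2.2.2.2.1, one_mul]
  refine ((clos_le (K := St s.x1 f (zz s))).2 ?_ (s.P1_y hg e)).2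
  simp only [List.forall_mem_cons, List.not_mem_nil, false_imp_iff, implies_true, and_true]
  refine ⟨?_, ?_, ?_, ?_, ?_, ?_, ?_, ?_, h2⟩ <;> exact h1 (mem_clos (by simp))

/-- `e` is a conjugate of `f` belonging to `v`. -/
def Sq (s : Co G) (f v e : G) : Prop := ∃ g ∈ s.P1, g * s.y * g⁻¹ = v ∧ g * f * g⁻¹ = e

variable {u v w e e' e1 e2 e3 g : G}

theorem Sq.V (h : Sq s f v e) : v ∈ s.V5 := let ⟨_, hg, h1, _⟩ := h; h1 ▸ P_V hg (m1 s).2.2.2.2.2.2.1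

theorem Sq.K (h : Sq s f v e) : v ∈ s.K2 := let ⟨_, hg, h1, _⟩ := h; h1 ▸ (P_K hg).2 (self_mem_cls _ _)

theorem Sq.conj (h : Sq s f v e) (hg : g ∈ s.P1) : Sq s f (g * v * g⁻¹) (g * e * g⁻¹) := by
  obtain ⟨a, ha, rfl, rfl⟩ := h
  exact ⟨g * a, mul_mem hg ha, by group, by group⟩

theorem Sq.uniq (H : Hy s f) (h : Sq s f v e) (h' : Sq s f u e') (hv : Eqv s.x1 v u) : Eqv s.x1 e e' := by
  obtain ⟨a, ha, rfl, rfl⟩ := h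
  obtain ⟨b, hb, rfl, rfl⟩ := h'
  have h1 := (H.st (mul_mem (inv_mem hb) ha) (by simpa [mul_assoc] using hv.conj (P_z (inv_mem hb)))).conj (P_z hb)
  simpa [mul_assoc] using h1

theorem Sq.X (H : Hy s f) (h : Sq s f v e) : e ∈ s.X := let ⟨_, _, _, h1⟩ := h; h1 ▸ s.conj_X.2 H.hX

theorem Sq.sq (H : Hy s f) (h : Sq s f v e) : e * e = 1 := by
  obtain ⟨a, -, -, rfl⟩ := h
  rw [conj_mul, H.hat.sq, mul_one, mul_inv_cancel]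

theorem Sq.z (H : Hy s f) (h : Sq s f v e) : s.x1 * e = e * s.x1 := by
  obtain ⟨a, ha, -, rfl⟩ := h
  exact ((Commute.mul_right (P_z ha) H.z).mul_right (Commute.inv_right (P_z ha))).eq

theorem Sq.t (H : Hy s f) (h : Sq s f v e) : e * s.t * e⁻¹ = s.t * v := by
  obtain ⟨a, ha, rfl, rfl⟩ := h
  have h1 := s.t_comm (inv_mem (P_L ha))
  calc _ = a * f * (a⁻¹ * s.t) * a * f⁻¹ * a⁻¹ := by group
    _ = a * (f * s.t * f⁻¹) * a⁻¹ := by rw [h1]; group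
    _ = _ := by rw [H.hat.mem.2, ← mul_assoc, s.t_comm (P_L ha)]; group

theorem Sq.act' (H : Hy s f) (h : Sq s f v e) (hu : u ∈ s.V5) : (e * u = u * e ∨ e * u = s.x1 * (u * e)) ∧
    (u ∈ s.K2 → (e * u = u * e ↔ u = v ∨ u * v ∈ s.K2)) := by
  obtain ⟨a, ha, rfl, rfl⟩ := h
  obtain ⟨u, rfl⟩ : ∃ u', u = a * u' * a⁻¹ := ⟨a⁻¹ * u * a, by group⟩
  have h1 : u ∈ s.V5 := by simpa [mul_assoc] using P_V (inv_mem ha) hu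
  rw [conj_mul, conj_mul, conj_mul, P_K ha, P_K ha, cinj, cinj]
  by_cases hc : u ∈ s.C2
  · exact ⟨Or.inl (H.hat.c2 u hc), fun k => iff_of_true (H.hat.c2 u hc) (((m2 s u h1).2.2.2 k).2.1 hc)⟩
  · refine ⟨Or.inr (by rw [H.act h1 hc, ← mul_assoc a, ← P_z ha]; group), fun k => iff_of_false (fun e => ?_)
      fun e => hc (((m2 s u h1).2.2.2 k).2.2 e)⟩
    rw [H.act h1 hc] at e
    exact (m1 s).2.1 (by simpa using e)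

theorem Sq.act (H : Hy s f) (h : Sq s f v e) (hu : u ∈ s.V5) : Eqv s.x1 (e * u) (u * e) := (h.act' H hu).1

theorem Sq.triv (H : Hy s f) (h : Sq s f v e) (hu : u ∈ s.V5) : Eqv s.x1 (e * u * e⁻¹) u := by
  simpa using (h.act H hu).mul_right e⁻¹

theorem Sq.cj0 (H : Hy s f) (h : Sq s f v e) (hu : u ∈ s.V5) (k : u ∈ s.K2) (k' : u * v ∈ s.K2) : e * u * e⁻¹ = u := by
  rw [((h.act' H hu).2 k).2 (Or.inr k'), mul_inv_cancel_right]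

theorem Sq.cj1 (H : Hy s f) (h : Sq s f v e) (hu : u ∈ s.V5) (k : u ∈ s.K2) (n : u ≠ v) (k' : u * v ∉ s.K2) :
    e * u * e⁻¹ = s.x1 * u := by
  rw [(h.act' H hu).1.resolve_left fun e => (((h.act' H hu).2 k).1 e).elim n k']
  group

/-- Three conjugates whose product centralises `t`. -/
structure Tr (s : Co G) (f u v w e1 e2 e3 : G) : Prop where
  H : Hy s f
  h1 : Sq s f u e1
  h2 : Sq s f v e2
  h3 : Sq s f w e3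
  ht : s.t * u * (e1 * v * e1⁻¹) * (e1 * (e2 * w * e2⁻¹) * e1⁻¹) = s.t

namespace Tr

variable (T : Tr s f u v w e1 e2 e3)
include T

theorem mem : e1 * e2 * e3 ∈ s.V5 := by
  have h1 : e1 * e2 * e3 * s.t * (e1 * e2 * e3)⁻¹ = s.t := by
    calc _ = e1 * (e2 * (e3 * s.t * e3⁻¹) * e2⁻¹) * e1⁻¹ := by group
      _ = e1 * ((e2 * s.t * e2⁻¹) * (e2 * w * e2⁻¹)) * e1⁻¹ := by rw [T.h3.t T.H]; group
      _ = (e1 * s.t * e1⁻¹) * (e1 * v * e1⁻¹) * (e1 * (e2 * w * e2⁻¹) * e1⁻¹) := by rw [T.h2.t T.H]; group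
      _ = _ := by rw [T.h1.t T.H, T.ht]
  refine s.triv_V5 (s.cent_X (mul_mem (mul_mem (T.h1.X T.H) (T.h2.X T.H)) (T.h3.X T.H))
    (mul_inv_eq_iff_eq_mul.1 h1)) fun x hx => ?_
  have h2 := ((((T.h3.triv T.H hx).conj (T.h2.z T.H)).trans (zz s) (T.h2.triv T.H hx)).conj (T.h1.z T.H)).trans (zz s)
    (T.h1.triv T.H hx)
  simpa only [mul_assoc, _root_.mul_inv_rev] using h2

theorem rev : e3 * e2 * e1 = e1 * e2 * e3 := by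
  rw [← inv_eq_of_mul_eq_one_right (m2 s _ T.mem).1, _root_.mul_inv_rev, _root_.mul_inv_rev,
    inv_eq_of_mul_eq_one_right (T.h1.sq T.H), inv_eq_of_mul_eq_one_right (T.h2.sq T.H),
    inv_eq_of_mul_eq_one_right (T.h3.sq T.H), mul_assoc]

theorem gen {a b c : G} (hg : g ∈ s.P1) {x y z : G} (k1 : Sq s f x a) (k2 : Sq s f y b) (k3 : Sq s f z c)
    (g1 : g * u * g⁻¹ = x) (g2 : g * v * g⁻¹ = y) (g3 : g * w * g⁻¹ = z) :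
    Eqv s.x1 (g * (e1 * e2 * e3) * g⁻¹) (a * b * c) := by
  have a1 := T.h1.conj hg
  have a2 := T.h2.conj hg
  have a3 := T.h3.conj hg
  rw [← conj_mul, ← conj_mul]
  exact ((a1.uniq T.H k1 (Or.inl g1)).mul (zz s) (a2.uniq T.H k2 (Or.inl g2)) (a1.z T.H)).mul (zz s)
    (a3.uniq T.H k3 (Or.inl g3)) (Commute.mul_right (a1.z T.H) (a2.z T.H))

theorem fix (hg : g ∈ s.P1) (g1 : g * u * g⁻¹ = u) (g2 : g * v * g⁻¹ = v) (g3 : g * w * g⁻¹ = w) :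
    Eqv s.x1 (g * (e1 * e2 * e3) * g⁻¹) (e1 * e2 * e3) := T.gen hg T.h1 T.h2 T.h3 g1 g2 g3

theorem fix13 (hg : g ∈ s.P1) (g1 : g * u * g⁻¹ = w) (g2 : g * v * g⁻¹ = v) (g3 : g * w * g⁻¹ = u) :
    Eqv s.x1 (g * (e1 * e2 * e3) * g⁻¹) (e1 * e2 * e3) := T.rev ▸ T.gen hg T.h3 T.h2 T.h1 g1 g2 g3

theorem fix23 (hg : g ∈ s.P1) (g1 : g * u * g⁻¹ = u) (g2 : g * v * g⁻¹ = w) (g3 : g * w * g⁻¹ = v) :
    Eqv s.x1 (g * (e1 * e2 * e3) * g⁻¹) (e1 * e2 * e3) := by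
  refine (T.gen hg T.h1 T.h3 T.h2 g1 g2 g3).trans (zz s) ?_
  have h1 := ((T.h1.act T.H T.mem).symm (zz s)).mul_left (T.h1.z T.H)
  have h2 : e1 * (e1 * e2 * e3 * e1) = e1 * e3 * e2 := by
    rw [← T.rev, mul_assoc (e3 * e2), T.h1.sq T.H, mul_one, mul_assoc]
  have h3 : e1 * (e1 * (e1 * e2 * e3)) = e1 * e2 * e3 := by rw [← mul_assoc, T.h1.sq T.H, one_mul]
  rwa [h2, h3] at h1

theorem fin (h : e1 * e2 * e3 = 1 ∨ e1 * e2 * e3 = s.x1) : e1 * e2 = e2 * e1 ∧ Eqv s.x1 e3 (e1 * e2) := by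
  have h1 : e1 * e2 = e1 * e2 * e3 * e3 := by rw [mul_assoc (e1 * e2), T.h3.sq T.H, mul_one]
  have h2 : e2 * e1 = e3 * (e1 * e2 * e3) := by rw [← T.rev, ← mul_assoc, ← mul_assoc, T.h3.sq T.H, one_mul]
  rcases h with h | h
  · rw [h, one_mul] at h1
    rw [h, mul_one] at h2
    exact ⟨h1.trans h2.symm, Or.inl h1.symm⟩
  · rw [h] at h1 h2
    exact ⟨by rw [h2, h1, T.h3.z T.H], Eqv.symm (zz s) (Or.inr h1)⟩

end Tr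

theorem ma (s : Co G) : (s.a * s.y ∈ s.K2 ∧ s.y * s.a * s.a ∈ s.K2 ∧ s.y * s.a * s.y ∈ s.K2 ∧
    s.t * s.y * s.a * (s.y * s.a) = s.t) ∧
    (s.d * s.y * s.d⁻¹ = s.y ∧ s.d * s.a * s.d⁻¹ = s.y * s.a ∧ s.d * (s.y * s.a) * s.d⁻¹ = s.a) ∧
    (s.m * s.y * s.m⁻¹ = s.y * s.a ∧ s.m * s.a * s.m⁻¹ = s.a ∧ s.m * (s.y * s.a) * s.m⁻¹ = s.y) ∧
    ∀ μ ∈ s.V5, (s.d * μ * s.d⁻¹ = μ ∨ s.d * μ * s.d⁻¹ = s.x1 * μ) → (s.m * μ * s.m⁻¹ = μ ∨ s.m * μ * s.m⁻¹ = s.x1 * μ) →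
      μ = 1 ∨ μ = s.x1 := s.hL.decide s.rep (by decide +kernel)

theorem core_a (H : Hy s f) (h1 : Sq s f s.y e1) (h2 : Sq s f s.a e2) (h3 : Sq s f (s.y * s.a) e3) :
    e1 * e2 = e2 * e1 ∧ Eqv s.x1 e3 (e1 * e2) := by
  obtain ⟨⟨k1, k2, k3, k4⟩, ⟨d1, d2, d3⟩, ⟨n1, n2, n3⟩, hm⟩ := ma s
  have T : Tr s f _ _ _ _ _ _ := ⟨H, h1, h2, h3, by
    rw [h1.cj0 H h2.V h2.K k1, h2.cj0 H h3.V h3.K k2, h1.cj0 H h3.V h3.K k3, k4]⟩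
  have hP : ∀ x ∈ [s.x3, s.w3, s.r, s.d, s.m], x ∈ s.P1 := fun x hx => s.P1_clos.2.1 ▸ mem_clos hx
  exact T.fin (hm _ T.mem (T.fix23 (hP _ (by simp)) d1 d2 d3) (T.fix13 (hP _ (by simp)) n1 n2 n3))

theorem mr (s : Co G) : Let (s.x1 * (s.y * s.r)) fun w => (s.r ≠ s.y ∧ s.r * s.y ∉ s.K2 ∧ w ≠ s.r ∧ w * s.r ∉ s.K2 ∧
    w ≠ s.y ∧ w * s.y ∉ s.K2 ∧ s.t * s.y * (s.x1 * s.r) * w = s.t) ∧
    (s.x2 * s.y * s.x2⁻¹ = s.y ∧ s.x2 * s.r * s.x2⁻¹ = w ∧ s.x2 * w * s.x2⁻¹ = s.r) ∧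
    (s.w2 * s.y * s.w2⁻¹ = w ∧ s.w2 * s.r * s.w2⁻¹ = s.r ∧ s.w2 * w * s.w2⁻¹ = s.y) ∧
    (s.x3 * s.y * s.x3⁻¹ = s.y ∧ s.x3 * s.r * s.x3⁻¹ = s.r ∧ s.x3 * w * s.x3⁻¹ = w) ∧
    (s.w3 * s.y * s.w3⁻¹ = s.y ∧ s.w3 * s.r * s.w3⁻¹ = s.r ∧ s.w3 * w * s.w3⁻¹ = w) ∧
    ∀ μ ∈ s.V5, (s.x2 * μ * s.x2⁻¹ = μ ∨ s.x2 * μ * s.x2⁻¹ = s.x1 * μ) →
      (s.w2 * μ * s.w2⁻¹ = μ ∨ s.w2 * μ * s.w2⁻¹ = s.x1 * μ) → (s.x3 * μ * s.x3⁻¹ = μ ∨ s.x3 * μ * s.x3⁻¹ = s.x1 * μ) →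
      (s.w3 * μ * s.w3⁻¹ = μ ∨ s.w3 * μ * s.w3⁻¹ = s.x1 * μ) → μ = 1 ∨ μ = s.x1 :=
  s.hL.decide s.rep (by decide +kernel)

theorem core_r (H : Hy s f) (h1 : Sq s f s.y e1) (h2 : Sq s f s.r e2) (h3 : Sq s f (s.x1 * (s.y * s.r)) e3) :
    e1 * e2 = e2 * e1 ∧ Eqv s.x1 e3 (e1 * e2) := by
  obtain ⟨⟨k1, k2, k3, k4, k5, k6, k7⟩, ⟨a1, a2, a3⟩, ⟨b1, b2, b3⟩, ⟨c1, c2, c3⟩, ⟨d1, d2, d3⟩, hm⟩ := mr s
  have T : Tr s f _ _ _ _ _ _ := ⟨H, h1, h2, h3, by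
    rw [h1.cj1 H h2.V h2.K k1 k2, h2.cj1 H h3.V h3.K k3 k4, ← mul_assoc e1 s.x1, ← h1.z H, mul_assoc s.x1 e1,
      mul_assoc s.x1 (e1 * _), h1.cj1 H h3.V h3.K k5 k6, ← mul_assoc s.x1 s.x1, zz, one_mul, k7]⟩
  have hP : ∀ x ∈ [s.x1, s.x2, s.x3, s.y, s.a, s.b, s.w2, s.w3], x ∈ s.P1 := fun x hx => s.P1_clos.1 ▸ mem_clos hx
  exact T.fin (hm _ T.mem (T.fix23 (hP _ (by simp)) a1 a2 a3) (T.fix13 (hP _ (by simp)) b1 b2 b3)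
    (T.fix (hP _ (by simp)) c1 c2 c3) (T.fix (hP _ (by simp)) d1 d2 d3))

theorem core0 (H : Hy s f) (h1 : Sq s f s.y e1) (h2 : Sq s f v e2) (h3 : Sq s f w e3) (n : ¬ Eqv s.x1 s.y v)
    (hw : Eqv s.x1 w (s.y * v)) : e1 * e2 = e2 * e1 ∧ Eqv s.x1 e3 (e1 * e2) := by
  obtain ⟨g, hg, g1, g2⟩ := ((m3 s v h2.V).resolve_left (K_ne h2.K)).resolve_left n
  have hg := s.P1_les.2.2.2.2.2.1 hg
  have hi := inv_mem hg
  have key : ∀ {x y e : G}, Sq s f x e → y ∈ s.V5 → y ∈ s.K2 → Eqv s.x1 (g * y * g⁻¹) x → Sq s f y (g⁻¹ * e * g⁻¹⁻¹) :=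
    fun {x y e} h hy ky he => by
      have h1 := h.conj hi
      rwa [K_eq hy h1.K ky (by simpa [mul_assoc] using (he.conj (P_z hi)).symm (zz s))] at h1
  have k1 := key h1 h1.V h1.K (Or.inl g1)
  have kw : ∀ {x : G}, Eqv s.x1 (g * x * g⁻¹) v → Eqv s.x1 (g * (s.y * x) * g⁻¹) w := fun {x} hx => by
    rw [← conj_mul, g1]
    exact (hx.mul_left (m2 s _ h1.V).2.1).trans (zz s) (hw.symm (zz s))
  have res : g⁻¹ * e1 * g⁻¹⁻¹ * (g⁻¹ * e2 * g⁻¹⁻¹) = g⁻¹ * e2 * g⁻¹⁻¹ * (g⁻¹ * e1 * g⁻¹⁻¹) ∧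
      Eqv s.x1 (g⁻¹ * e3 * g⁻¹⁻¹) (g⁻¹ * e1 * g⁻¹⁻¹ * (g⁻¹ * e2 * g⁻¹⁻¹)) := by
    obtain ⟨-, -, -, -, -, v1, v2, v3, v4⟩ := m1 s
    have kk : s.a ∈ s.K2 ∧ s.y * s.a ∈ s.K2 ∧ s.r ∈ s.K2 ∧ s.x1 * (s.y * s.r) ∈ s.K2 :=
      s.hL.decide s.rep (by decide +kernel)
    rcases g2 with g2 | g2
    · exact core_a H k1 (key h2 v3 kk.1 g2) (key h3 (mul_mem v2 v3) kk.2.1 (kw g2))
    · refine core_r H k1 (key h2 v4 kk.2.2.1 g2) (key h3 (mul_mem v1 (mul_mem v2 v4)) kk.2.2.2 ?_)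
      exact ((show Eqv s.x1 _ (s.y * s.r) from Or.inr rfl).conj (P_z hg)).trans (zz s) (kw g2)
  rw [conj_mul, conj_mul, cinj] at res
  exact ⟨res.1, by simpa [mul_assoc] using res.2.conj (P_z hg)⟩

theorem core (H : Hy s f) (h1 : Sq s f u e1) (h2 : Sq s f v e2) (h3 : Sq s f w e3) (n : ¬ Eqv s.x1 u v)
    (hw : Eqv s.x1 w (u * v)) : e1 * e2 = e2 * e1 ∧ Eqv s.x1 e3 (e1 * e2) := by
  obtain ⟨g, hg, rfl, rfl⟩ := h1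
  have hi := inv_mem hg
  have res := core0 H (e1 := f) ⟨1, one_mem _, by simp, by simp⟩ (h2.conj hi) (h3.conj hi)
    (fun e => n (by simpa [mul_assoc] using e.conj (P_z hg))) (by simpa [mul_assoc] using hw.conj (P_z hi))
  refine ⟨?_, by simpa [mul_assoc] using res.2.conj (P_z hg)⟩
  simpa [mul_assoc] using congrArg (fun x => g * x * g⁻¹) res.1

/-- The specification of `φ v`. -/
def Sp (s : Co G) (f v e : G) : Prop := (∃ u, Eqv s.x1 u v ∧ Sq s f u e) ∨ (Eqv s.x1 v 1 ∧ e = 1)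

theorem Sp.ex (s : Co G) (f : G) (hv : v ∈ s.V5) : ∃ e, Sp s f v e := by
  rcases s.P1_tr hv with h | h | ⟨-, g, hg, h⟩ | ⟨-, -, g, hg, h⟩
  · exact ⟨1, Or.inr ⟨Or.inl h, rfl⟩⟩
  · exact ⟨1, Or.inr ⟨Or.inr (by simpa using h), rfl⟩⟩
  · exact ⟨_, Or.inl ⟨_, Or.inl rfl, g, hg, h, rfl⟩⟩
  · exact ⟨_, Or.inl ⟨_, Or.inr rfl, g, hg, h, rfl⟩⟩

theorem Sp.uniq (H : Hy s f) (h : Sp s f v e) (h' : Sp s f u e') (hv : Eqv s.x1 v u) : Eqv s.x1 e e' := by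
  rcases h with ⟨a, a1, a2⟩ | ⟨a1, rfl⟩ <;> rcases h' with ⟨b, b1, b2⟩ | ⟨b1, rfl⟩
  · exact a2.uniq H b2 ((a1.trans (zz s) hv).trans (zz s) (b1.symm (zz s)))
  · exact (K_ne a2.K ((a1.trans (zz s) hv).trans (zz s) b1)).elim
  · exact (K_ne b2.K ((b1.trans (zz s) (hv.symm (zz s))).trans (zz s) a1)).elim
  · exact Or.inl rfl

theorem Sp.conj (h : Sp s f v e) (hg : g ∈ s.P1) : Sp s f (g * v * g⁻¹) (g * e * g⁻¹) := by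
  rcases h with ⟨a, a1, a2⟩ | ⟨a1, rfl⟩
  · exact Or.inl ⟨_, a1.conj (P_z hg), a2.conj hg⟩
  · exact Or.inr ⟨by simpa using a1.conj (P_z hg), by simp⟩

theorem Sp.add (H : Hy s f) (hu : u ∈ s.V5) (hv : v ∈ s.V5) (h1 : Sp s f u e1) (h2 : Sp s f v e2)
    (h3 : Sp s f (u * v) e3) : e1 * e2 = e2 * e1 ∧ Eqv s.x1 e3 (e1 * e2) := by
  have z2 := zz s
  rcases id h1 with ⟨a, a1, a2⟩ | ⟨a1, rfl⟩
  swap
  · exact ⟨by simp, by simpa using h3.uniq H h2 (by simpa using a1.mul_right v)⟩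
  rcases id h2 with ⟨b, b1, b2⟩ | ⟨b1, rfl⟩
  swap
  · exact ⟨by simp, by simpa using h3.uniq H h1 (by simpa using b1.mul_left (m2 s u hu).2.1)⟩
  have ab : Eqv s.x1 (a * b) (u * v) := a1.mul z2 b1 (m2 s a a2.V).2.1
  by_cases n : Eqv s.x1 a b
  · have h4 : Eqv s.x1 (u * v) 1 := (ab.symm z2).trans z2 ((m2 s b b2.V).1 ▸ n.mul_right b)
    have h5 := h3.uniq H (Or.inr ⟨Or.inl rfl, rfl⟩) h4
    have h6 := a2.uniq H b2 n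
    refine ⟨?_, h5.trans z2 (Eqv.symm z2 (b2.sq H ▸ h6.mul_right e2))⟩
    rcases h6 with rfl | rfl
    · rfl
    · rw [← mul_assoc, b2.z H]
  rcases h3 with ⟨c, c1, c2⟩ | ⟨c1, -⟩
  · exact core H a2 b2 c2 n (c1.trans z2 (ab.symm z2))
  · refine (n ?_).elim
    have h4 := (ab.trans z2 c1).mul_right b
    rwa [mul_assoc, (m2 s b b2.V).1, mul_one, one_mul] at h4

end XFr

open XFr

theorem Co.exists_fs (hf : s.Hat f) (hX : f ∈ s.X) (hr : f * s.r * f⁻¹ = s.r * s.x1) : ∃ φ, s.Fs φ ∧ φ s.y = f := by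
  have H : Hy s f := ⟨hf, hX, hr⟩
  have h0 : ∀ v, ∃ e, (v ∈ s.V5 → Sp s f v e) ∧ (v = s.y → e = f) := fun v => by
    by_cases h1 : v = s.y
    · exact ⟨f, fun _ => Or.inl ⟨_, Or.inl h1.symm, 1, one_mem _, by simp, by simp⟩, fun _ => rfl⟩
    by_cases h2 : v ∈ s.V5
    · obtain ⟨e, he⟩ := Sp.ex s f h2
      exact ⟨e, fun _ => he, fun h => (h1 h).elim⟩
    · exact ⟨1, fun h => (h2 h).elim, fun h => (h1 h).elim⟩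
  choose φ h1 h2 using h0
  have hK : ∀ v ∈ s.V5, v ∈ s.K2 → Sq s f v (φ v) := fun v hv k => by
    rcases h1 v hv with ⟨a, a1, a2⟩ | ⟨a1, -⟩
    · exact K_eq hv a2.K k a1 ▸ a2
    · exact (K_ne k a1).elim
  refine ⟨φ, ⟨fun v hv => ?_, fun v hv => ?_, fun u hu v hv => ?_, ?_, fun u hu v hv => ?_, fun g hg v hv => ?_,
    fun v hv k => (hK v hv k).t H, fun v hv => ?_, fun u hu v hv => ?_, fun v hv => ?_,
    fun u hu v hv ku kv => ((hK v hv kv).act' H hu).2 ku⟩, h2 _ rfl⟩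
  · rcases h1 v hv with ⟨a, -, a2⟩ | ⟨-, e⟩
    exacts [a2.X H, e ▸ one_mem _]
  · rcases h1 v hv with ⟨a, -, a2⟩ | ⟨-, e⟩
    exacts [a2.sq H, by rw [e, mul_one]]
  · exact (Sp.add H hu hv (h1 u hu) (h1 v hv) (h1 _ (mul_mem hu hv))).1
  · rcases h1 _ (m1 s).2.2.2.2.2.1 with ⟨a, a1, a2⟩ | ⟨-, e⟩
    exacts [(K_ne a2.K (a1.trans (zz s) (Or.inr (mul_one _).symm))).elim, e]
  · exact (Sp.add H hu hv (h1 u hu) (h1 v hv) (h1 _ (mul_mem hu hv))).2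
  · exact (h1 _ (P_V hg hv)).uniq H ((h1 v hv).conj hg) (Or.inl rfl)
  · rcases h1 v hv with ⟨a, a1, a2⟩ | ⟨a1, e⟩
    · rw [a2.t H]
      exact a1.mul_left (zt s)
    · simpa [e] using (a1.mul_left (zt s)).symm (zz s)
  · rcases h1 v hv with ⟨a, -, a2⟩ | ⟨-, e⟩
    exacts [a2.act H hu, Or.inl (by simp [e])]
  · rcases h1 v hv with ⟨a, -, a2⟩ | ⟨-, e⟩
    exacts [(a2.z H).symm, by simp [e]]

end Cfsg.Agent.S33
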