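import Mathlib
import Cfsg.Agent.S33.XKey

/-! `y` is not conjugate to `x1`. -/

set_option autoImplicit false
set_option linter.unusedSectionVars false
set_option maxRecDepth 100000
set_option synthInstance.maxSize 100000
set_option synthInstance.maxHeartbeats 1000000

namespace Cfsg.Agent.S33

open Cfsg Cfsg.Agent.Rec Cfsg.Agent.Spor Cfsg.Agent.Loc.Mss Cfsg.Agent.SF6 Subgroup Matrix

variable {G : Type*} [Group G] [Finite G] {s : Co G} {Q : Subgroup G} {n : ℕ}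

theorem XNy_comm (h : s.Xs Q n) {ω : G → G} (o : s.Om Q ω) {d : G} (hd : d ∈ 𝐍[Q]) (dX : d ∉ s.X) (d2 : d * d = 1)
    {a b : G} (ha : a ∈ Q) (hb : b ∈ Q) (ea : Eqv s.x1 (d * a * d⁻¹) a) (eb : Eqv s.x1 (d * b * d⁻¹) b) :
    a * b = b * a := by
  have e := h.es.aes
  have z2 := e.z_sq
  have zc := e.z_comm
  have hx : d * s.t⁻¹ ∈ s.X ⊓ 𝐍[Q] :=
    mem_inf.2 ⟨s.mul_X.2 (iff_of_false dX fun k => s.tX (inv_mem_iff.1 k)), mul_mem hd (inv_mem h.nt)⟩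
  have zx : s.x1 * (d * s.t⁻¹) = d * s.t⁻¹ * s.x1 :=
    (mul_inv_eq_iff_eq_mul.1 (h.es.conj_z_of_norm (mem_inf.1 hx).2)).symm
  have key : ∀ a ∈ Q, Eqv s.x1 (d * a * d⁻¹) a → Eqv s.x1 a (ω a * (d * ω a * d⁻¹)) := fun a ha ea => by
    have ta := conj_mem_of_norm h.nt ha
    have da := conj_mem_of_norm hd ha
    have k1 := (o.nt a ha).conj zx
    have k2 := (o.nX _ hx _ ta).symm z2
    rw [show d * s.t⁻¹ * (s.t * a * s.t⁻¹) * (d * s.t⁻¹)⁻¹ = d * a * d⁻¹ by group] at k2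
    rw [show d * s.t⁻¹ * (s.t * ω a * s.t⁻¹) * (d * s.t⁻¹)⁻¹ = d * ω a * d⁻¹ by group,
      show d * s.t⁻¹ * (ω (s.t * a * s.t⁻¹) * (s.t * a * s.t⁻¹)) * (d * s.t⁻¹)⁻¹ =
        d * s.t⁻¹ * ω (s.t * a * s.t⁻¹) * (d * s.t⁻¹)⁻¹ * (d * a * d⁻¹) by group] at k1
    have k3 : Eqv s.x1 (d * ω a * d⁻¹) (ω a * a) := k1.trans z2
      ((k2.trans z2 (o.wd _ da _ ha ea)).mul z2 ea (zc _ (conj_mem_of_norm (mem_inf.1 hx).2 (o.mem _ ta))))
    have k4 := k3.mul_left (zc _ (o.mem a ha))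
    rw [← mul_assoc (ω a) (ω a)] at k4
    have k5 := (e.eqv_sq (o.mem a ha)).mul_right a
    rw [one_mul] at k5
    exact (k4.trans z2 k5).symm z2
  have ua := o.mem a ha
  have ub := o.mem b hb
  have va := conj_mem_of_norm hd ua
  have vb := conj_mem_of_norm hd ub
  have di : d⁻¹ = d := inv_eq_of_mul_eq_one_right d2
  rw [← bf_eq_zero, e.bf_eqv_left hb (key a ha ea), e.bf_eqv_right (mul_mem ua va) (key b hb eb),
    e.bf_mul_left ua va (mul_mem ub vb), e.bf_mul_right ub vb ua, e.bf_mul_right ub vb va, bf_conj, bf_conj,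
    show d⁻¹ * (d * ω b * d⁻¹) * d = ω b by group, show d⁻¹ * ω b * d = d * ω b * d⁻¹ by rw [di],
    add_comm (bf (ω a) (d * ω b * d⁻¹))]
  exact CharTwo.add_self_eq_zero _

theorem Co.Xs.ny (h : s.Xs Q n) (hC : ∀ g, g * s.x1 = s.x1 * g → g ∈ 𝐍[Q]) {ω : G → G} (o : s.Om Q ω) : ¬ IsConj s.x1 s.y := by
  intro hc
  obtain ⟨g, hg⟩ := isConj_iff.1 hc
  have k : s.y ∈ s.V6 ∧ ∀ p ∈ s.P2, p * s.y = s.y * p := s.hL.decide s.rep (by decide +kernel)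
  have cz : ∀ p, p * s.y = s.y * p → g⁻¹ * p * g * s.x1 = s.x1 * (g⁻¹ * p * g) := fun p hp => by
    calc g⁻¹ * p * g * s.x1 = g⁻¹ * (p * (g * s.x1 * g⁻¹)) * g := by group
      _ = g⁻¹ * (g * s.x1 * g⁻¹ * p) * g := by rw [hg, hp]
      _ = _ := by group
  obtain ⟨d, hd⟩ : ∃ d, d = g⁻¹ * s.t * g := ⟨_, rfl⟩
  have dD : d ∈ s.D := by simpa [hd] using s.D_conj s.tD g⁻¹
  have dN : d ∈ 𝐍[Q] := hC _ (hd ▸ cz _ (s.t_comm (s.V6_le k.1)).symm)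
  obtain ⟨A1, m1, c1, c2, -⟩ := es_invol h.es dN (s.D_sq dD)
  have mA : ∀ a ∈ Q ⊓ centralizer {d}, a ∈ Q ∧ d * a = a * d := fun a ha =>
    ⟨(mem_inf.1 ha).1, mem_centralizer_singleton.1 (mem_inf.1 ha).2⟩
  have cm : ∀ a ∈ Q ⊓ centralizer {d}, ∀ b ∈ Q ⊓ centralizer {d}, a * b = b * a := fun a ha b hb =>
    XNy_comm h o dN (s.D_nX dD) (s.D_sq dD) (mA a ha).1 (mA b hb).1
      (Or.inl (mul_inv_eq_iff_eq_mul.2 (mA a ha).2)) (Or.inl (mul_inv_eq_iff_eq_mul.2 (mA b hb).2))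
  have hle : cj(g, Q ⊓ centralizer {d}) ≤ s.Z3 := cj_le_iff.2 fun a ha => by
    obtain ⟨h1, h2⟩ := mA a ha
    have hL : g * a * g⁻¹ ∈ s.L := s.cent_X (s.conj_X.2 (h.le h1)) (by
      calc g * a * g⁻¹ * s.t = g * (a * d) * g⁻¹ := by rw [hd]; group
        _ = _ := by rw [← h2, hd]; group)
    refine s.ab_P2 (s.cent_y hL (by rw [← hg, conj_mul, conj_mul, h.es.z_comm a h1])) fun p hp => ?_
    have pd : d * (g⁻¹ * p * g) = g⁻¹ * p * g * d := by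
      calc d * (g⁻¹ * p * g) = g⁻¹ * (s.t * p) * g := by rw [hd]; group
        _ = _ := by rw [← s.t_comm (s.P2_le hp), hd]; group
    have hb : g⁻¹ * p * g * a * (g⁻¹ * p * g)⁻¹ ∈ Q ⊓ centralizer {d} :=
      mem_inf.2 ⟨conj_mem_of_norm (hC _ (cz p (k.2 p hp))) h1, mem_centralizer_singleton.2
        ((((show Commute d _ from pd).mul_right h2).mul_right (show Commute d _ from pd).inv_right).eq)⟩
    have := cm a ha _ hb
    calc _ = g * (a * (g⁻¹ * p * g * a * (g⁻¹ * p * g)⁻¹)) * g⁻¹ := by group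
      _ = _ := by rw [this]; group
  have c3 := card_le_of_le hle
  rw [card_cj, s.gZ3.2] at c3
  have c4 : Nat.card A1 ^ 2 ≤ 16 ^ 2 := Nat.pow_le_pow_left (by omega) 2
  have c5 : 2 ^ 9 ≤ Nat.card Q := by
    rw [h.card]
    exact Nat.pow_le_pow_right (by norm_num) (by have := h.nn; omega)
  omega

end Cfsg.Agent.S33
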