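import Mathlib
import Cfsg.Agent.S33.XB2

/-! The element `k'`. -/

set_option autoImplicit false
set_option linter.unusedSectionVars false
set_option maxRecDepth 100000
set_option synthInstance.maxSize 100000
set_option synthInstance.maxHeartbeats 1000000

namespace Cfsg.Agent.S33

open Cfsg Cfsg.Agent.Rec Cfsg.Agent.Spor Cfsg.Agent.Loc.Mss Cfsg.Agent.SF6 Subgroup Matrix

variable {G : Type*} [Group G] [Finite G] {s : Co G} {B : Subgroup G} {f k k' k2 : G} {φ : G → G} {ε : ℕ}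

namespace XS3

theorem lets (s : Pre G) : (∀ v ∈ s.V5, v * v = 1) ∧ (∀ u ∈ s.V5, ∀ v ∈ s.V5, u * v = v * u) ∧
    (s.x1 ∈ s.V5 ∧ s.y ∈ s.V5 ∧ s.a ∈ s.V5 ∧ s.c ∈ s.V5 ∧ s.r ∈ s.V5) ∧
    (s.y ∈ s.K2 ∧ s.a ∈ s.K2 ∧ s.c ∈ s.K2 ∧ s.r ∈ s.K2) ∧
    (s.a * s.y ∈ s.K2 ∧ s.c * s.y ∈ s.K2 ∧ s.a * s.r ∈ s.K2 ∧ s.c * s.r ∈ s.K2 ∧ s.y * s.a ∈ s.K2 ∧ s.y * s.c ∈ s.K2) ∧
    (¬ (s.r = s.y ∨ s.r * s.y ∈ s.K2) ∧ ¬ (s.y = s.r ∨ s.y * s.r ∈ s.K2)) ∧
    s.x2 * s.r * s.x2⁻¹ = s.x1 * (s.y * s.r) ∧ s.x3 * s.w3 * s.x3 * s.a * (s.x3 * s.w3 * s.x3)⁻¹ = s.c ∧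
    (s.x3 * s.w3 * s.x3 ∈ s.C2 ∧ s.x1 ∈ s.C2 ∧ s.x2 ∈ s.C2 ∧ s.y ∈ s.C2 ∧ s.a ∈ s.C2 ∧ s.c ∈ s.C2) ∧
    s.r ≠ 1 ∧ s.r ≠ s.x1 ∧ s.x2 ∈ s.V6 ∧ s.y * (s.x1 * s.r) * (s.x1 * s.y * (s.x1 * s.r)) = s.x1 ∧
    ∀ u ∈ s.V5, u ∈ s.K2 → ∃ v ∈ s.V5, v ∈ s.K2 ∧ ¬ (u = v ∨ u * v ∈ s.K2) :=
  s.hL.decide s.rep (by decide +kernel)

theorem cm (g a b : G) : g * (a * b) * g⁻¹ = g * a * g⁻¹ * (g * b * g⁻¹) := conj_mul.symm

theorem ce {w z x y : G} (hz : Commute w z) (e : Eqv z x y) (h : Commute w y) : Commute w x := by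
  rcases e with rfl | rfl
  exacts [h, hz.mul_right h]

theorem sq_aux {q k Y ζ : G} (qq : q * q = 1) (YY : Y * Y = 1) (h1 : Commute q k) (h2 : Commute k Y)
    (h3 : q * Y = ζ * (Y * q)) (h : q * k * Y * (q * k * Y) = 1) : k * k * ζ = 1 := by
  have e : q * Y * (q * Y) = ζ := by
    conv_lhs => lhs; rw [h3]
    rw [mul_assoc, mul_assoc, ← mul_assoc q, qq, one_mul, YY, mul_one]
  rw [← e, ← pow_two, ← pow_two, ← (h1.symm.mul_right h2).mul_pow, pow_two, ← mul_assoc k, ← h1.eq, h]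

theorem φeq (hφ : s.Fs φ) {u v : G} (hv : v ∈ s.V5) (e : Eqv s.x1 u v) : Eqv s.x1 (φ u) (φ v) := by
  rcases e with rfl | rfl
  · exact Or.inl rfl
  · simpa only [hφ.z, one_mul] using hφ.add _ (lets s.toPre).2.2.1.1 _ hv

theorem gen (hφ : s.Fs φ) {w : G} (hz : Commute w s.x1) (h1 : Commute w (φ s.y)) (h2 : Commute w (φ s.a))
    (h3 : Commute w (φ s.c)) (h4 : Commute w (φ s.r)) : ∀ v ∈ s.V5, Commute w (φ v) := fun v hv => by
  induction hv using closure_induction with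
  | mem x hx =>
    simp only [List.mem_cons, List.not_mem_nil, or_false, Set.mem_ofPred_eq] at hx
    rcases hx with rfl | rfl | rfl | rfl | rfl
    exacts [hφ.z ▸ Commute.one_right w, h1, h2, h3, h4]
  | one =>
    have := hφ.add 1 (one_mem _) 1 (one_mem _)
    rw [hφ.sq 1 (one_mem _), mul_one] at this
    exact ce hz this (Commute.one_right w)
  | mul x y hx hy a b => exact ce hz (hφ.add x hx y hy) (a.mul_right b)
  | inv x hx a => rwa [inv_eq_of_mul_eq_one_right ((lets s.toPre).1 x hx)]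

theorem cjφ (hφ : s.Fs φ) {w g v : G} (hg : g ∈ s.P1) (hv : v ∈ s.V5) (hz : Commute w s.x1) (h1 : Commute w g)
    (h2 : Commute w (φ v)) : Commute w (φ (g * v * g⁻¹)) :=
  ce hz (hφ.conj g hg v hv) ((h1.mul_right h2).mul_right h1.inv_right)

theorem shift (h : s.Kk B k) {w g : G} (hw : w ∈ s.X) (hV : ∀ v ∈ s.V5, Commute w v)
    (ht : Eqv s.x1 (w * s.t * w⁻¹) (s.t * k)) (hg : g ∈ s.P1) : ∃ u ∈ s.V5, g * w * g⁻¹ = w * u := by
  have gt : Commute g s.t := s.t_comm hg.1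
  have c := ce (mem_centralizer_singleton_iff.1 hg.2) ht (gt.mul_right (h.cP g hg))
  refine ⟨w⁻¹ * (g * w * g⁻¹), s.triv_V5 (s.cent_X (mul_mem (inv_mem hw) (s.conj_X.2 hw)) ?_) fun v hv => Or.inl ?_,
    by group⟩
  · calc _ = w⁻¹ * (g * w) * (g⁻¹ * s.t) := by group
      _ = w⁻¹ * (g * (w * s.t * w⁻¹)) * w * g⁻¹ := by rw [gt.inv_left.eq]; group
      _ = _ := by rw [c.eq]; group
  · have := (hV _ ((mem_normalizer_iff''.1 (s.P1_les.2.2.2.2.2.2 hg) v).1 hv)).conj g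
    rw [show g * (g⁻¹ * v * g) * g⁻¹ = v by group] at this
    exact ((hV v hv).inv_left.mul_left this).mul_inv_cancel

theorem triv (hφ : s.Fs φ) {u : G} (hu : u ∈ s.V5) (h : ∀ v ∈ s.V5, Commute u (φ v)) : u = 1 ∨ u = s.x1 := by
  obtain ⟨-, -, ⟨m1, -⟩, -, -, -, -, -, -, -, -, -, -, ex⟩ := lets s.toPre
  rcases s.P1_tr hu with e | e | ⟨e, -⟩ | ⟨e, -⟩
  · exact Or.inl e
  · exact Or.inr e
  · obtain ⟨v, hv, k, n⟩ := ex u hu e
    exact absurd ((hφ.pair u hu v hv e k).1 (h v hv).symm) n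
  · obtain ⟨v, hv, k, n⟩ := ex _ (mul_mem m1 hu) e
    exact absurd ((hφ.pair _ (mul_mem m1 hu) v hv e k).1 (Commute.mul_right (hφ.zc v hv) (h v hv).symm)) n

end XS3

open XS3 in
theorem Co.exists_ks (hB : s.Big s.A3 B) (h : s.Kk B k) (hφ : s.Fs φ) (hy : φ s.y ∈ B) (h1 : k2 ∈ s.X) (h2 : k2 ∈ s.Φ s.x2)
    (h3 : k2 ∈ 𝐂[B]) (h4 : k2 * k2 = s.x2) (h5 : ∀ g ∈ s.C2, g * k2 = k2 * g) (h6 : k2 * k * k2⁻¹ = k * s.y)
    (h7 : Eqv s.x1 (k2 * s.r * k2⁻¹) (s.r * φ s.y * k)) : ∃ k' ε, s.Ks φ k k' k2 ε := by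
  obtain ⟨sq5, cm5, ⟨m1, my, ma, mc, mr⟩, ⟨ky, ka, kc, kr⟩, ⟨ay, cy, ar, cr, ya, yc⟩, ⟨ry, yr⟩, xr, ga,
    ⟨gC, zC, xC, yC, aC, cC⟩, r1, rz, x6, w3, -⟩ := lets s.toPre
  obtain ⟨VP, -, -, CP, -, -, nV⟩ := s.P1_les
  have zz := sq5 _ m1
  obtain ⟨g, gP, gy⟩ : ∃ g ∈ s.P1, g * s.y * g⁻¹ = s.r := by
    rcases s.P1_tr mr with e | e | ⟨-, e⟩ | ⟨-, e, -⟩
    exacts [absurd e r1, absurd e rz, e, absurd kr e]
  have aB := Co.fs_B hB hφ hy
  have zP : ∀ p ∈ s.P1, s.x1 * p = p * s.x1 := fun p hp => (mem_centralizer_singleton_iff.1 hp.2).symm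
  have Vt : ∀ v ∈ s.V5, Commute v s.t := fun v hv => s.t_comm (VP hv).1
  have kP : ∀ p ∈ s.P1, Commute k p := fun p hp => (h.cP p hp).symm
  have kz := kP _ (VP m1)
  have kf : Commute k (φ s.y) := (mem_cent.1 h.cB _ hy).symm
  have ka' : Commute k (φ s.a) := (mem_cent.1 h.cB _ aB).symm
  have kφ := gen hφ kz kf ka' (ga ▸ cjφ hφ (CP gC) ma kz (kP _ (CP gC)) ka') (gy ▸ cjφ hφ gP my kz (kP _ gP) kf)
  have nC : ∀ p ∈ s.C2, Commute k2 p := fun p hp => (h5 p hp).symm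
  have nf : Commute k2 (φ s.y) := (mem_cent.1 h3 _ hy).symm
  have na : Commute k2 (φ s.a) := (mem_cent.1 h3 _ aB).symm
  have nc : Commute k2 (φ s.c) := ga ▸ cjφ hφ (CP gC) ma (nC _ zC) (nC _ gC) na
  have pr : ∀ {u v}, u ∈ s.V5 → v ∈ s.V5 → u ∈ s.K2 → v ∈ s.K2 → u = v ∨ u * v ∈ s.K2 → Commute (φ v) u :=
    fun hu hv a b c => (hφ.pair _ hu _ hv a b).2 c
  have np : ∀ {u v}, u ∈ s.V5 → v ∈ s.V5 → u ∈ s.K2 → v ∈ s.K2 → ¬ (u = v ∨ u * v ∈ s.K2) →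
      φ v * u * (φ v)⁻¹ = s.x1 * u := fun hu hv a b c => by
    rw [(hφ.act _ hu _ hv).resolve_left fun q => c ((hφ.pair _ hu _ hv a b).1 q)]; group
  have A2 : Eqv s.x1 (s.x2 * φ s.r * s.x2⁻¹) (φ s.y * φ s.r) :=
    (((hφ.conj _ (CP xC) _ mr).symm zz).trans zz (φeq hφ (mul_mem my mr) (Or.inr xr))).trans zz (hφ.add _ my _ mr)
  have fx : Commute (φ s.y) s.x2 := s.big_comm hB hy (hB.le x6)
  have eg := hφ.conj g gP _ my
  rw [gy] at eg
  have fy := pr my my ky ky (Or.inl rfl)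
  have fa := pr ma my ka ky (Or.inr ay)
  have fc := pr mc my kc ky (Or.inr cy)
  have fr := np mr my kr ky ry
  have ey := np my mr ky kr yr
  have ea := pr ma mr ka kr (Or.inr ar)
  have ec := pr mc mr kc kr (Or.inr cr)
  have er := pr mr mr kr kr (Or.inl rfl)
  have fφ : ∀ v ∈ s.V5, Commute (φ s.y) (φ v) := hφ.cm _ my
  have eφ : ∀ v ∈ s.V5, Commute (φ s.r) (φ v) := hφ.cm _ mr
  have fz : Commute (φ s.y) s.x1 := hφ.zc _ my
  have ez : Commute (φ s.r) s.x1 := hφ.zc _ mr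
  have ft := hφ.t _ my ky
  have et := hφ.t _ mr kr
  have fV : ∀ u ∈ s.V5, Eqv s.x1 (φ s.y * u) (u * φ s.y) := fun u hu => hφ.act u hu _ my
  have eV : ∀ u ∈ s.V5, Eqv s.x1 (φ s.r * u) (u * φ s.r) := fun u hu => hφ.act u hu _ mr
  have ff := hφ.sq _ my
  have ee := hφ.sq _ mr
  -- the conjugate `f'` of `φ r`
  obtain ⟨f', hf⟩ : ∃ f', f' = k2 * φ s.r * k2⁻¹ := ⟨_, rfl⟩
  have cf : ∀ {u}, Commute k2 u → Commute (φ s.r) u → Commute f' u := fun a b => by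
    have := b.conj k2
    rwa [a.mul_inv_cancel, ← hf] at this
  have cj : ∀ u, f' * (k2 * u * k2⁻¹) * f'⁻¹ = k2 * (φ s.r * u * (φ s.r)⁻¹) * k2⁻¹ := fun u => by rw [hf]; group
  have gz := cf (nC _ zC) ez
  have gf := cf nf (eφ _ my)
  have g2 : f' * f' = 1 := by rw [hf, conj_mul, ee, mul_one, mul_inv_cancel]
  have gy' : f' * s.y * f'⁻¹ = s.x1 * s.y := by
    have := cj s.y
    rwa [ey, (nC _ yC).mul_inv_cancel, ((nC _ zC).mul_right (nC _ yC)).mul_inv_cancel] at this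
  have gk : f' * k * f'⁻¹ = s.x1 * k := by
    have := cj k
    rw [(kφ _ mr).symm.mul_inv_cancel, h6, cm, gy', ← mul_assoc, mul_left_inj] at this
    rw [← kz.eq, ← mul_left_inj s.x1, this, mul_assoc, zz, mul_one]
  have gr : f' * s.r * f'⁻¹ = s.x1 * s.r := by
    have := (ce gz (h7.symm zz) (hf ▸ er.conj k2)).mul_inv_cancel
    rw [cm, cm, gf.mul_inv_cancel, gk, ← mul_assoc, mul_left_inj, mul_assoc, fz.eq, ← mul_assoc, mul_left_inj] at this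
    rw [cm5 _ m1 _ mr, ← mul_left_inj s.x1, this, mul_assoc, zz, mul_one]
  have zt := Vt _ m1
  have gt : Eqv s.x1 (f' * s.t * f'⁻¹) (s.t * (s.y * s.r) * k) := by
    have b1 := ((A2.mul_right (φ s.r)⁻¹).mul_left (Commute.inv_right (zP _ (CP xC))).eq).conj (nC _ zC).symm.eq
    rw [show s.x2⁻¹ * (s.x2 * φ s.r * s.x2⁻¹ * (φ s.r)⁻¹) = φ s.r * s.x2⁻¹ * (φ s.r)⁻¹ by group, ← cj,
      (nC _ xC).inv_right.mul_inv_cancel, mul_inv_cancel_right,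
      ((nC _ xC).inv_right.mul_right nf).mul_inv_cancel] at b1
    have b2 := cj s.t
    rw [et, cm k2, h2.2] at b2
    have zx : Commute s.x1 (s.t * s.x2) := zt.mul_right (zP _ (CP xC))
    have b3 := (h7.mul_left zx.eq).mul zz b1 (zx.mul_right (((nC _ zC).symm.mul_right (cm5 _ m1 _ mr)).mul_right
      (nC _ zC).symm.inv_right)).eq
    rw [← b2, show f' * (s.t * s.x2) * f'⁻¹ * (f' * s.x2⁻¹ * f'⁻¹) = f' * s.t * f'⁻¹ by group,
      show s.t * s.x2 * (s.r * φ s.y * k) * (s.x2⁻¹ * φ s.y) =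
        s.t * (s.x2 * s.r * s.x2⁻¹) * (s.x2 * (φ s.y * k) * s.x2⁻¹ * φ s.y) by group,
      (fx.mul_left (kP _ (CP xC))).symm.mul_inv_cancel, ← kf.eq, mul_assoc k, ff, mul_one, xr] at b3
    exact b3.trans zz (Or.inr (by rw [← mul_assoc s.t, ← zt.eq]; simp only [mul_assoc]))
  -- the element `w = φ y φ r f'`
  have py : φ s.y * φ s.r * s.y * (φ s.y * φ s.r)⁻¹ = s.x1 * s.y := by
    rw [← (fz.mul_right fy).mul_inv_cancel, ← ey]; group
  have pr' : φ s.y * φ s.r * s.r * (φ s.y * φ s.r)⁻¹ = s.x1 * s.r := by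
    rw [← fr, mul_assoc (φ s.y), er.eq]; group
  have pz := fz.mul_left ez
  have pk := (kf.mul_right (kφ _ mr)).symm
  obtain ⟨w, hw⟩ : ∃ w, w = φ s.y * φ s.r * f' := ⟨_, rfl⟩
  have cw : ∀ u, w * u * w⁻¹ = φ s.y * φ s.r * (f' * u * f'⁻¹) * (φ s.y * φ s.r)⁻¹ := fun u => by rw [hw]; group
  have wX : w ∈ s.X := hw ▸ mul_mem (mul_mem (hφ.mem _ my) (hφ.mem _ mr)) (hf ▸ s.conj_X.2 (hφ.mem _ mr))
  have wz : Commute w s.x1 := hw ▸ pz.mul_left gz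
  have wV : ∀ v ∈ s.V5, Commute w v := fun v hv => by
    refine (mem_centralizer_singleton_iff.1 ((clos_le (K := centralizer {w})).2 ?_ hv)).symm
    simp only [List.forall_mem_cons, List.not_mem_nil, false_imp_iff, implies_true, and_true,
      mem_centralizer_singleton_iff]
    refine ⟨wz.symm, (mul_inv_eq_iff_eq_mul.1 ?_).symm, (hw ▸ (fa.mul_left ea).mul_left (cf (nC _ aC) ea)).symm,
      (hw ▸ (fc.mul_left ec).mul_left (cf (nC _ cC) ec)).symm, (mul_inv_eq_iff_eq_mul.1 ?_).symm⟩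
    · rw [cw, gy', cm, pz.mul_inv_cancel, py, ← mul_assoc, zz, one_mul]
    · rw [cw, gr, cm, pz.mul_inv_cancel, pr', ← mul_assoc, zz, one_mul]
  have wφ : ∀ v ∈ s.V5, Commute k2 (φ v) → Commute w (φ v) := fun v hv q =>
    hw ▸ ((fφ v hv).mul_left (eφ v hv)).mul_left (cf q (eφ v hv))
  have wk : w * k * w⁻¹ = s.x1 * k := by rw [cw, gk, (pz.mul_right pk).mul_inv_cancel]
  have wt : Eqv s.x1 (w * s.t * w⁻¹) (s.t * k) := by
    have := gt.conj pz.symm.eq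
    rw [← cw, cm, cm, cm, py, pr', pk.mul_inv_cancel, show φ s.y * φ s.r * s.t * (φ s.y * φ s.r)⁻¹ =
      φ s.y * (φ s.r * s.t * (φ s.r)⁻¹) * (φ s.y)⁻¹ by group, et, cm, ft, fr, mul_assoc s.t, mul_assoc s.t, w3,
      ← zt.eq] at this
    exact this.trans zz (Or.inr (mul_assoc _ _ _))
  have we : Eqv s.x1 (φ s.r * w) (w * φ s.r) := by
    obtain ⟨u, hu, q⟩ := shift h wX wV wt (inv_mem gP)
    have b : Eqv s.x1 (g * φ s.y * g⁻¹ * w) (w * (g * φ s.y * g⁻¹)) := by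
      have := ((fV u hu).mul_left wz.symm.eq).conj (zP _ gP)
      rw [← mul_assoc w, (wφ _ my nf).eq, mul_assoc (φ s.y), ← mul_assoc w, ← q] at this
      convert this using 1 <;> group
    exact ((eg.mul_right w).trans zz b).trans zz ((eg.symm zz).mul_left wz.symm.eq)
  obtain ⟨j, hj, ej, ek⟩ : ∃ j < 2, φ s.r * s.y ^ j = s.x1 ^ j * (s.y ^ j * φ s.r) ∧ Commute (w * s.y ^ j) (φ s.r) := by
    have q := mul_inv_eq_iff_eq_mul.1 ey
    rcases we with e | e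
    · exact ⟨0, by norm_num, by simp, by simpa using Commute.symm e⟩
    · refine ⟨1, by norm_num, by simpa only [pow_one, mul_assoc] using q, Commute.symm ?_⟩
      rw [pow_one, commute_iff_eq, ← mul_assoc, e, mul_assoc, mul_assoc, q, ← mul_assoc w, ← mul_assoc w, wz.eq,
        mul_assoc, mul_assoc, ← mul_assoc, zz, one_mul, mul_assoc]
  have mY := pow_mem my j
  have YY := sq5 _ mY
  have lz : Commute (w * s.y ^ j) s.x1 := wz.mul_left (cm5 _ mY _ m1)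
  have lφ := gen hφ lz ((wφ _ my nf).mul_left (fy.symm.pow_left j))
    ((wφ _ ma na).mul_left ((pr my ma ky ka (Or.inr ya)).symm.pow_left j))
    ((wφ _ mc nc).mul_left ((pr my mc ky kc (Or.inr yc)).symm.pow_left j)) ek
  have lV : ∀ v ∈ s.V5, Commute (w * s.y ^ j) v := fun v hv => (wV v hv).mul_left (cm5 _ mY _ hv)
  have lt : Eqv s.x1 (w * s.y ^ j * s.t * (w * s.y ^ j)⁻¹) (s.t * k) := by
    rwa [mul_assoc w, (Vt _ mY).eq, show w * (s.t * s.y ^ j) * (w * s.y ^ j)⁻¹ = w * s.t * w⁻¹ by group]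
  have lX := mul_mem wX (s.L_le (VP mY).1)
  have lk : w * s.y ^ j * k = s.x1 * (k * (w * s.y ^ j)) := by
    rw [mul_assoc, ← (kP _ (VP mY)).eq, ← mul_assoc, mul_inv_eq_iff_eq_mul.1 wk]; simp only [mul_assoc]
  have hl : w * s.y ^ j = φ s.y * φ s.r * f' * s.y ^ j := by rw [hw]
  have fe : f' = φ s.r * φ s.y * (w * s.y ^ j) * s.y ^ j := by
    rw [mul_assoc, mul_assoc w, YY, mul_one, hw, mul_assoc, mul_assoc, ← mul_assoc (φ s.y), ff, one_mul, ← mul_assoc,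
      ee, one_mul]
  generalize w * s.y ^ j = l at *
  have fY := fy.pow_right j
  refine ⟨l, j, hj, ⟨h.mem, lX, h1⟩, h.cP, kφ, h.sq, h.phi.2, lV, lφ, fun p hp => ?_, lk, ?_, lt, nC _ zC, h2.2, ?_, h7,
    Or.inl h6, Or.inl (hf ▸ fe), ?_⟩
  · obtain ⟨u, hu, q⟩ := shift h lX lV lt hp
    have : ∀ v ∈ s.V5, Commute u (φ v) := fun v hv => by
      have hv' := (mem_normalizer_iff''.1 (nV hp) v).1 hv
      have b := hφ.conj p hp _ hv'
      rw [show p * (p⁻¹ * v * p) * p⁻¹ = v by group] at b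
      have b2 := ce (q ▸ lz.mul_left (cm5 _ hu _ m1)) b ((lφ _ hv').conj p)
      rw [q] at b2
      simpa only [inv_mul_cancel_left] using (lφ v hv).inv_left.mul_left b2
    rw [q]
    rcases triv hφ hu this with rfl | rfl
    exacts [Or.inl (mul_one _), Or.inr lz]
  · have := sq_aux (q := φ s.r * φ s.y) (ζ := s.x1 ^ j)
      (by rw [← pow_two, (eφ _ my).mul_pow, pow_two, pow_two, ee, ff, mul_one]) YY
      (ek.mul_right (lφ _ my)).symm (lV _ mY) (by rw [mul_assoc, fY.eq, ← mul_assoc, ej]; simp only [mul_assoc])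
      (fe ▸ g2)
    exact (eq_inv_of_mul_eq_one_left this).trans (inv_eq_of_mul_eq_one_right (sq5 _ (pow_mem m1 j)))
  · simp only [List.forall_mem_cons, List.not_mem_nil, false_imp_iff, implies_true, and_true]
    exact ⟨nC _ yC, nC _ aC, nC _ cC, nf, na, nc⟩
  · have b1 : Eqv s.x1 (φ s.r * f') (f' * φ s.r) := by
      have c := ((Commute.refl _).mul_right (eφ _ my)).mul_right ek.symm
      have := (eV _ mY).mul_left ((ez.mul_left fz).mul_left lz).symm.eq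
      rwa [← mul_assoc, ← c.eq, mul_assoc, ← mul_assoc _ (s.y ^ j), ← fe] at this
    have b2 := (A2.mul_left (fz.mul_left gz).symm.eq).mul_right (s.y ^ j)
    have e1 : k2 * l * k2⁻¹ = φ s.y * f' * (s.x2 * φ s.r * s.x2⁻¹) * s.y ^ j := by
      rw [hl, cm, cm, cm, nf.mul_inv_cancel, ((nC _ yC).pow_right j).mul_inv_cancel, ← hf, ← h4]
      conv_lhs => lhs; rhs; rw [hf]
      group
    have e2 : φ s.y * f' * (φ s.y * φ s.r) = f' * φ s.r := by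
      rw [← gf.eq, mul_assoc, ← mul_assoc (φ s.y), ff, one_mul]
    have e3 : l * φ s.y = φ s.r * f' * s.y ^ j := by
      rw [(lφ _ my).eq, hl, mul_assoc, mul_assoc, ← mul_assoc, ff, one_mul, mul_assoc]
    rw [← e1, e2] at b2
    exact e3 ▸ b2.trans zz ((b1.symm zz).mul_right _)

end Cfsg.Agent.S33
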