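import Mathlib
import Cfsg.Agent.S33.XB2

/-! The group of order `2¹¹`. -/

set_option autoImplicit false
set_option linter.unusedSectionVars false
set_option maxRecDepth 100000
set_option synthInstance.maxSize 100000
set_option synthInstance.maxHeartbeats 1000000

namespace Cfsg.Agent.S33

open Cfsg Cfsg.Agent.Rec Cfsg.Agent.Spor Cfsg.Agent.Loc.Mss Cfsg.Agent.SF6 Subgroup Matrix

variable {G : Type*} [Group G] [Finite G] {s : Co G} {B : Subgroup G} {f k k' k2 : G} {φ : G → G} {ε : ℕ}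

theorem XS4_sup {A B : Subgroup G} {z : G} (hA : ES2 A z) (hB : ES2 B z) (h : ∀ x ∈ A, ∀ y ∈ B, x * y = y * x) :
    ES2 (A ⊔ B) z ∧ Nat.card (A ⊔ B : Subgroup G) * 2 = Nat.card A * Nat.card B ∧
      ∀ g, g ∈ A ⊔ B ↔ ∃ x ∈ A, ∃ y ∈ B, x * y = g := by
  have h0 : B ≤ 𝐍[A] := fun y hy => cent_le_norm _ (mem_cent.2 fun x hx => h x hx y hy)
  have h1 : ∀ g, g ∈ A ⊔ B ↔ ∃ x ∈ A, ∃ y ∈ B, x * y = g := fun _ => mem_sup_norm h0
  have h2 : ∀ x ∈ A, x ∈ B → x = 1 ∨ x = z := fun x hx hx' => hA.center x hx fun q hq => (h q hq x hx').symm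
  have h3 : ∀ x ∈ A, ∀ y ∈ B, ∀ x' ∈ A, ∀ y' ∈ B, x * y * (x' * y') = x * x' * (y * y') := fun x _ y hy x' hx' y' _ => by
    rw [mul_assoc, ← mul_assoc y, ← h x' hx' y hy]; group
  refine ⟨⟨mem_sup_left hA.z_mem, hA.z_ne, hA.z_sq, fun q hq => ?_, fun g hg g' hg' => ?_, fun g hg hc => ?_, ?_⟩,
    ?_, h1⟩
  · obtain ⟨x, hx, y, hy, rfl⟩ := (h1 q).1 hq
    exact Commute.mul_right (hA.z_comm x hx) (hB.z_comm y hy)
  · obtain ⟨x, hx, y, hy, rfl⟩ := (h1 g).1 hg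
    obtain ⟨x', hx', y', hy', rfl⟩ := (h1 g').1 hg'
    have h4 : ∀ w, x' * x * (z * w) = z * (x' * x * w) := fun w => by
      rw [← mul_assoc, ← hA.z_comm _ (mul_mem hx' hx), mul_assoc]
    rw [h3 x hx y hy x' hx' y' hy', h3 x' hx' y' hy' x hx y hy]
    rcases hA.comm x hx x' hx' with e | e <;> rcases hB.comm y hy y' hy' with e' | e' <;> rw [e, e']
    · exact .inl rfl
    · exact .inr (h4 _)
    · exact .inr (mul_assoc _ _ _)
    · exact .inl (by rw [mul_assoc, h4, hA.z_mul_z_mul])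
  · obtain ⟨x, hx, y, hy, rfl⟩ := (h1 g).1 hg
    have h4 := hA.center x hx fun q hq => mul_right_cancel (b := y) (by
      rw [mul_assoc, h q hq y hy, ← mul_assoc, hc q (mem_sup_left hq), mul_assoc])
    have h5 := hB.center y hy fun q hq => mul_left_cancel (a := x) (by
      rw [← mul_assoc, hc q (mem_sup_right hq), ← mul_assoc, ← mul_assoc, h x hx q hq])
    rcases h4 with rfl | rfl <;> rcases h5 with h5 | h5 <;> simp [h5, hA.z_sq]
  · obtain ⟨x, hx, y, hy, e⟩ := hA.nonab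
    exact ⟨x, mem_sup_left hx, y, mem_sup_left hy, e⟩
  · rw [mul_comm (Nat.card A), ← GT.PG.card_sup_mul_card_inf h0, ← card_zpowers_of_sq hA.z_ne hA.z_sq, sup_comm,
      inf_comm]
    congr 3
    exact le_antisymm (zpowers_le.2 ⟨hA.z_mem, hB.z_mem⟩) fun x hx =>
      (mem_zpowers_iff_of_sq hA.z_sq).2 (h2 x hx.1 hx.2)

theorem XS4_pair {z k k' : G} (z1 : z ≠ 1) (z2 : z * z = 1) (kk : k * k = z) (ll : k' * k' = 1 ∨ k' * k' = z)
    (lk : k' * k = z * (k * k')) (zl : z * k' = k' * z) :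
    ES2 (clos [z, k, k']) z ∧ Nat.card (clos [z, k, k']) = 8 ∧
      ∀ ρ ∈ clos [z, k, k'], ∃ ρ0, (Eqv z ρ0 1 ∨ Eqv z ρ0 k) ∧ (ρ = ρ0 ∨ ρ = k' * ρ0) := by
  have zk : z * k = k * z := by rw [← kk, mul_assoc]
  have kl : k * k' = z * (k' * k) := by rw [lk, ← mul_assoc, z2, one_mul]
  let a : ℕ → G := fun i => [z, k, k'].getD i 1
  have h : ESBasis a 2 fun j => if j = 1 then 2 else 1 := by
    refine ⟨two_pos, z1, z2, fun i hi => ?_, fun i hi => ?_, fun i hi j hj => ?_, fun j _ => by split_ifs <;> omega,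
      fun j hj j0 => ?_, fun j hj j0 i hi ij => ?_⟩
    · interval_cases i
      exacts [rfl, zk, zl]
    · interval_cases i
      exacts [Or.inl z2, Or.inr kk, ll]
    · interval_cases i <;> interval_cases j
      exacts [Or.inl rfl, Or.inl zk, Or.inl zl, Or.inl zk.symm, Or.inl rfl, Or.inr kl, Or.inl zl.symm, Or.inr lk,
        Or.inl rfl]
    · interval_cases j
      exacts [absurd rfl j0, kl, lk]
    · interval_cases j <;> interval_cases i
      exacts [absurd rfl j0, absurd rfl j0, absurd rfl j0, zl, absurd rfl ij, rfl, zk, rfl, absurd rfl ij]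
  have e : genLt a (2 + 1) = clos [z, k, k'] := genLt_eq_clos a 3
  have h1 : ∀ x ∈ genLt a 2, Eqv z x 1 ∨ Eqv z x k := fun x hx => by
    have := h.mem_succ (k := 1) one_pos (by omega) hx
    rw [ESBasis.genLt_one, mem_zpowers_iff_of_sq h.sq0, mem_zpowers_iff_of_sq h.sq0] at this
    rcases this with (e | e) | e | e
    · exact Or.inr (Or.inl (inv_mul_eq_one.1 e).symm)
    · exact Or.inr (Or.inr ((eq_mul_of_inv_mul_eq e).trans zk.symm))
    · exact Or.inl (Or.inl e)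
    · exact Or.inl (Or.inr (e.trans (mul_one _).symm))
  refine ⟨e ▸ h.es2, e ▸ h.card, fun ρ hρ => ?_⟩
  rcases h.mem_succ (k := 2) two_pos (by omega) (e ▸ hρ) with l | l
  · exact ⟨_, h1 _ l, Or.inr (mul_inv_cancel_left _ _).symm⟩
  · exact ⟨_, h1 _ l, Or.inl rfl⟩

theorem Co.XS4_dec (s : Co G) : s.x1 ≠ 1 ∧ s.x1 * s.x1 = 1 ∧ s.x1 ∈ s.V5 ∧ (∀ u ∈ s.V5, u * u = 1) ∧
    ∀ u ∈ s.V5, ∀ v ∈ s.V5, u * v = v * u := s.hL.decide s.rep (by decide +kernel)

theorem Co.Ks.xs (h : s.Ks φ k k' k2 ε) (hφ : s.Fs φ) (hB : s.Sev B) : s.Xs (s.Q10 φ k k') 5 := by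
  obtain ⟨z1, z2, zV, Vsq, Vcm⟩ := s.XS4_dec
  obtain ⟨e8, c8, X8, V8, P8, t8, φ8, nf8⟩ := hφ.es8
  have hVP := s.P1_les.1
  have Vt : ∀ u ∈ s.V5, u * s.t = s.t * u := fun u hu => s.t_comm (hVP hu).1
  have zt := Vt _ zV
  obtain ⟨e3, c3, nf3⟩ := XS4_pair z1 z2 h.kk (k' := k') (by
    have := h.lt
    have e := h.ll
    interval_cases ε
    exacts [Or.inl (e.trans (pow_zero _)), Or.inr (e.trans (pow_one _))]) h.lk (h.lV _ zV).symm
  have ck : ∀ a ∈ s.Q8 φ, a * k = k * a := fun a ha => by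
    obtain ⟨u, hu, v, hv, rfl⟩ := nf8 a ha
    exact Commute.mul_left (h.kP u (hVP hu)) (h.kφ v hv).symm
  have cl : ∀ a ∈ s.Q8 φ, a * k' = k' * a := fun a ha => by
    obtain ⟨u, hu, v, hv, rfl⟩ := nf8 a ha
    exact Commute.mul_left (h.lV u hu).symm (h.lφ v hv).symm
  obtain ⟨es, cd, nf⟩ := XS4_sup e8 e3 fun a ha => commute_clos (by
    simp only [List.forall_mem_cons, List.not_mem_nil, false_imp_iff, implies_true, and_true]
    exact ⟨(e8.z_comm a ha).symm, ck a ha, cl a ha⟩)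
  have eQ : s.Q8 φ ⊔ clos [s.x1, k, k'] = s.Q10 φ k k' := by
    refine le_antisymm (sup_le (clos_le.2 fun a ha => mem_clos ?_) (clos_le.2 fun a ha => mem_clos ?_))
      (clos_le.2 fun a ha => ?_)
    · exact List.mem_append_left [k, k'] ha
    · simp only [List.mem_cons] at ha ⊢; tauto
    · rcases List.mem_append.1 (show a ∈ [_, _, _, _, _, _, _, _, _] ++ [k, k'] from ha) with l | l
      · exact mem_sup_left (mem_clos l)
      · exact mem_sup_right (mem_clos (List.mem_cons_of_mem _ l))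
  rw [eQ] at es cd nf
  have h8 : s.Q8 φ ≤ s.Q10 φ k k' := eQ ▸ le_sup_left
  have hk : k ∈ s.Q10 φ k k' := mem_clos (by simp)
  have hl : k' ∈ s.Q10 φ k k' := mem_clos (by simp)
  have hz := es.z_mem
  have zq := es.z_comm
  have mem : ∀ {a b}, Eqv s.x1 a b → b ∈ s.Q10 φ k k' → a ∈ s.Q10 φ k k' := by
    rintro a b (rfl | rfl) hb
    exacts [hb, mul_mem hz hb]
  have memV : ∀ {a b}, Eqv s.x1 a b → b ∈ s.V5 → a ∈ s.V5 := by
    rintro a b (rfl | rfl) hb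
    exacts [hb, mul_mem zV hb]
  have nrm : ∀ g, g ∈ 𝐍[s.Q8 φ] → g * k * g⁻¹ ∈ s.Q10 φ k k' → g * k' * g⁻¹ ∈ s.Q10 φ k k' →
      g ∈ 𝐍[s.Q10 φ k k'] := fun g h1 h2 h3 => by
    refine mem_norm_of_cj_le ?_
    conv_lhs => rw [← eQ]
    rw [Subgroup.map_sup, cj_of_norm h1, clos, MonoidHom.map_closure]
    refine sup_le h8 ((closure_le _).2 ?_)
    rintro _ ⟨a, ha, rfl⟩
    simp only [Set.mem_ofPred_eq, List.mem_cons, List.not_mem_nil, or_false] at ha
    rcases ha with rfl | rfl | rfl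
    exacts [h8 (conj_mem_of_norm h1 e8.z_mem), h2, h3]
  have tq : ∀ q ∈ s.Q10 φ k k', ∀ w ∈ s.Q10 φ k k', Eqv s.x1 (q * s.t * q⁻¹) (s.t * w) →
      s.t * q * s.t⁻¹ ∈ s.Q10 φ k k' := fun q hq w hw e => by
    have e1 := e.mul_left zt
    rw [s.tmul] at e1
    have := mul_mem (mem e1 hw) hq
    rwa [inv_eq_of_mul_eq_one_right s.tt, ← mul_assoc, ← mul_assoc, inv_mul_cancel_right] at *
  have kt : Eqv s.x1 (k * s.t * k⁻¹) s.t := Or.inr (h.kt.trans zt.symm)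
  -- the action on `t`
  have A0 : ∀ ρ, (Eqv s.x1 ρ 1 ∨ Eqv s.x1 ρ k) → Eqv s.x1 (ρ * s.t * ρ⁻¹) s.t := by
    have z0 : s.x1 * s.t * s.x1⁻¹ = s.t := by rw [zt, mul_inv_cancel_right]
    rintro ρ ((rfl | rfl) | rfl | rfl)
    · exact Or.inl (by simp)
    · exact Or.inl (by rw [mul_one, z0])
    · exact kt
    · have := kt.conj (w := s.x1) rfl
      rw [z0] at this
      convert this using 1; group
  have A1 : ∀ v ∈ s.V5, Eqv s.x1 (φ v * k' * s.t * (φ v * k')⁻¹) (s.t * (v * k)) := fun v hv => by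
    have e1 := h.lt'.conj (hφ.zc v hv).symm
    have e2 := (hφ.t' v hv).mul_right k
    refine Eqv.trans z2 (by convert e1 using 1; group) (by
      convert e2 using 1
      · rw [← mul_assoc, mul_assoc _ k, mul_assoc _ _ k, (show Commute k (φ v) from h.kφ v hv).inv_right.eq]
      · group)
  have A : ∀ q ∈ s.Q10 φ k k', Eqv s.x1 (q * s.t * q⁻¹) s.t → ∃ u ∈ s.V5, q = u ∨ q = u * k := fun q hq e => by
    obtain ⟨a, ha, ρ, hρ, rfl⟩ := (nf q).1 hq
    obtain ⟨u, hu, v, hv, rfl⟩ := nf8 a ha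
    obtain ⟨ρ, h0, l⟩ := nf3 ρ hρ
    have cu : ∀ w, Eqv s.x1 (u * w * u⁻¹) s.t → Eqv s.x1 w s.t := fun w e => by
      have := e.conj (w := u⁻¹) (Vcm _ zV _ (inv_mem hu))
      rwa [Vt _ (inv_mem hu), mul_inv_cancel_right, show u⁻¹ * (u * w * u⁻¹) * u⁻¹⁻¹ = w by group] at this
    have ct : ∀ w, Eqv s.x1 (s.t * w) s.t → Eqv s.x1 w 1 := fun w e => by
      have := e.mul_left zt
      rwa [s.tmul, s.tt] at this
    rcases l with rfl | rfl
    · have e1 := cu (φ v * (ρ * s.t * ρ⁻¹) * (φ v)⁻¹) (by convert e using 1; group)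
      have e2 := ct v ((((A0 ρ h0).conj (hφ.zc v hv).symm).trans z2 (hφ.t' v hv)).symm z2 |>.trans z2 e1)
      have e3 : φ v ∈ s.V5 := by
        rcases e2 with rfl | rfl
        · have := hφ.add 1 hv 1 hv
          rw [mul_one, hφ.sq 1 hv] at this
          exact memV this (one_mem _)
        · rw [mul_one, hφ.z]; exact one_mem _
      rcases h0 with h0 | h0 | h0
      · exact ⟨_, mul_mem (mul_mem hu e3) (memV h0 (one_mem _)), Or.inl rfl⟩
      · exact ⟨_, mul_mem hu e3, Or.inr (by rw [h0])⟩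
      · exact ⟨_, mul_mem (mul_mem hu e3) zV, Or.inr (by rw [h0, mul_assoc _ s.x1])⟩
    · have e1 := cu (φ v * k' * (ρ * s.t * ρ⁻¹) * (φ v * k')⁻¹) (by convert e using 1; group)
      have e2 := ct _ ((((A0 ρ h0).conj (zq _ (mul_mem (h8 (φ8 v hv)) hl))).trans z2 (A1 v hv)).symm z2 |>.trans z2 e1)
      have e3 : k ∈ s.V5 := (mul_mem_cancel_left hv).1 (memV e2 (one_mem _))
      exact absurd (h.kk.symm.trans (Vsq k e3)) z1
  refine ⟨?_, V8.trans h8, es, by rw [c8, c3] at cd; omega, fun g hg => ?_, ?_, fun q hq e => ?_, fun q hq hd => ?_,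
    fun v hv _ => (hB.onto v hv).imp fun _ => And.left, Or.inl rfl⟩
  · rw [← eQ]
    refine sup_le X8 (clos_le.2 ?_)
    simp only [List.forall_mem_cons, List.not_mem_nil, false_imp_iff, implies_true, and_true]
    exact ⟨X8 e8.z_mem, h.mem.1, h.mem.2.1⟩
  · exact nrm g (P8 hg) (by rwa [h.kP g hg, mul_inv_cancel_right]) (mem (h.lP g hg) hl)
  · exact nrm _ t8 (tq k hk 1 (one_mem _) (by rwa [mul_one])) (tq k' hl k hk h.lt')
  · obtain ⟨u, hu, rfl | rfl⟩ := A q hq (Or.inl (by rw [e, mul_inv_cancel_right]))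
    · exact hu
    · have e1 : k * s.t = s.t * k := mul_left_cancel (a := u) (by rw [← mul_assoc, e, ← mul_assoc, ← mul_assoc, Vt u hu])
      have := h.kt
      rw [e1, mul_inv_cancel_right] at this
      exact absurd (left_eq_mul.1 this) z1
  · have e1 : q * s.t * q⁻¹ = s.t * (q * q)⁻¹ := by
      calc _ = s.t * (s.t * q * (s.t * q)) * (q * q)⁻¹ := by rw [mul_assoc s.t q, s.tmul]; group
        _ = _ := by rw [s.D_sq hd, mul_one]
    obtain ⟨e, he, e2⟩ : ∃ e ∈ s.Q10 φ k k', Eqv s.x1 (e * s.t * e⁻¹) (s.t * q) := by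
      obtain ⟨u, hu, rfl | rfl⟩ := A q hq (by
        rw [e1]
        rcases es.sq q hq with l | l <;> rw [l]
        · exact Or.inl (by simp)
        · exact Or.inr (by rw [es.z_inv, zt]))
      exacts [⟨_, h8 (φ8 _ hu), hφ.t' _ hu⟩, ⟨_, mul_mem (h8 (φ8 _ hu)) hl, A1 u hu⟩]
    rcases e2 with e2 | e2
    · exact ⟨e, he, e2⟩
    · refine ⟨e * k, mul_mem he hk, ?_⟩
      calc _ = e * (k * s.t * k⁻¹) * e⁻¹ := by group
        _ = s.x1 * (e * s.t * e⁻¹) := by rw [h.kt, ← zt, ← mul_assoc, ← zq e he]; group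
        _ = _ := by rw [e2, es.z_mul_z_mul]

end Cfsg.Agent.S33
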