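import Mathlib
import Cfsg.Agent.S33.XB2
import Cfsg.Agent.S33.XUf
import Cfsg.Agent.S33.XCrd

/-! Matrices in the case of order `2¹¹`. -/

set_option autoImplicit false
set_option linter.unusedSectionVars false
set_option maxRecDepth 100000
set_option synthInstance.maxSize 100000
set_option synthInstance.maxHeartbeats 1000000

namespace Cfsg.Agent.S33

open Cfsg Cfsg.Agent.Rec Cfsg.Agent.Spor Cfsg.Agent.Loc.Mss Cfsg.Agent.SF6 Subgroup Matrix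

variable {G : Type*} [Group G] [Finite G] {s : Co G} {B : Subgroup G} {f k k' k2 : G} {φ : G → G} {ε : ℕ}

namespace XS5

/-- The element of `V5` with the bits of `n` as exponents. -/
def wd (s : Co G) (n : ℕ) : G :=
  s.y ^ (n % 2) * s.a ^ (n / 2 % 2) * s.c ^ (n / 4 % 2) * s.r ^ (n / 8 % 2) * s.x1 ^ (n / 16 % 2)

/-- The unit vectors. -/
abbrev u (i : Fin 10) : Vec 10 := Pi.single i 1

/-- The coordinates of `wd n`. -/
def lo (n : ℕ) : Vec 10 := (n % 2) • u 0 + (n / 2 % 2) • u 1 + (n / 4 % 2) • u 2 + (n / 8 % 2) • u 3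
/-- The coordinates of `φ (wd n)`. -/
def hi (n : ℕ) : Vec 10 := (n % 2) • u 4 + (n / 2 % 2) • u 5 + (n / 4 % 2) • u 6 + (n / 8 % 2) • u 7

theorem mV (s : Co G) : s.x1 ∈ s.V5 ∧ s.y ∈ s.V5 ∧ s.a ∈ s.V5 ∧ s.c ∈ s.V5 ∧ s.r ∈ s.V5 :=
  ⟨mem_clos (by simp), mem_clos (by simp), mem_clos (by simp), mem_clos (by simp), mem_clos (by simp)⟩

theorem add_pow {V : Subgroup G} {L : G → Vec 10} (hL : ∀ a ∈ V, ∀ b ∈ V, L (a * b) = L a + L b)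
    {a : G} (ha : a ∈ V) (n : ℕ) : L (a ^ n) = n • L a := by
  induction n with
  | zero =>
    have := hL 1 (one_mem _) 1 (one_mem _)
    rw [one_mul] at this
    simpa using this
  | succ n ih => rw [pow_succ, hL _ (pow_mem ha n) _ ha, ih, succ_nsmul]

theorem add_wd {L : G → Vec 10} (hL : ∀ a ∈ s.V5, ∀ b ∈ s.V5, L (a * b) = L a + L b) (hz : L s.x1 = 0) (n : ℕ) :
    L (wd s n) = (n % 2) • L s.y + (n / 2 % 2) • L s.a + (n / 4 % 2) • L s.c + (n / 8 % 2) • L s.r := by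
  obtain ⟨m0, m1, m2, m3, m4⟩ := mV s
  have p1 := pow_mem m1 (n % 2)
  have p2 := mul_mem p1 (pow_mem m2 (n / 2 % 2))
  have p3 := mul_mem p2 (pow_mem m3 (n / 4 % 2))
  have p4 := mul_mem p3 (pow_mem m4 (n / 8 % 2))
  rw [wd, hL _ p4 _ (pow_mem m0 _), hL _ p3 _ (pow_mem m4 _), hL _ p2 _ (pow_mem m3 _), hL _ p1 _ (pow_mem m2 _),
    add_pow hL m0, add_pow hL m1, add_pow hL m2, add_pow hL m3, add_pow hL m4, hz, smul_zero, add_zero]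

theorem κ_eqv {Q : Subgroup G} {z : G} {q : Vec 10 → ZMod 2} {κ : G → Vec 10} {ρ : G → Gl 10}
    (c : Crd Q z q κ ρ) (hz : z ∈ Q) {a b : G} (e : Eqv z a b) (hb : b ∈ Q) : κ a = κ b := by
  rcases e with rfl | rfl
  · rfl
  · rw [c.add _ hz _ hb, (c.ker z hz).2 (Or.inr rfl), zero_add]

theorem eqv_t {z t p v : G} (ht : t * t = 1) (hz : t * z = z * t) (e : Eqv z (p * t * p⁻¹) (t * v)) :
    Eqv z (t * p * t⁻¹) (v * p) := by
  have h1 : t * p * t⁻¹ = t * (p * t * p⁻¹) * p := by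
    rw [inv_eq_of_mul_eq_one_right ht]
    group
  rw [h1]
  rcases e with e | e <;> rw [e]
  · left
    rw [← mul_assoc, ht, one_mul]
  · right
    rw [← mul_assoc, ← mul_assoc, hz, mul_assoc z, ht, mul_one, mul_assoc]

theorem pol_u (hε : ε < 2) : (∀ i : Fin 10, q10 ε (u i) = 0 ↔ ¬ ((i : ℕ) = 8 ∨ ((i : ℕ) = 9 ∧ ε = 1))) ∧
    ∀ i j : Fin 10, pol (q10 ε) (u i) (u j) = 0 ↔ ¬ ((i : ℕ) + j = 7 ∨ (i : ℕ) + j = 17) := by
  interval_cases ε <;> decide +kernel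

theorem fact (s : Co G) : (∀ a ∈ s.V5, ∀ b ∈ s.V5, a * b = b * a) ∧ (∀ a ∈ s.V5, a * a = 1) ∧
    (∀ a ∈ s.V5, s.t * a * s.t⁻¹ = a) ∧ s.t * s.t = 1 ∧ s.t * s.x1 = s.x1 * s.t ∧
    (s.y ∈ s.K2 ∧ s.a ∈ s.K2 ∧ s.c ∈ s.K2 ∧ s.r ∈ s.K2) ∧
    (s.y * s.a ∈ s.K2 ∧ s.y * s.c ∈ s.K2 ∧ ¬ (s.y = s.r ∨ s.y * s.r ∈ s.K2)) ∧
    (s.a * s.y ∈ s.K2 ∧ s.a * s.r ∈ s.K2 ∧ ¬ (s.a = s.c ∨ s.a * s.c ∈ s.K2)) ∧
    (s.c * s.y ∈ s.K2 ∧ s.c * s.r ∈ s.K2 ∧ ¬ (s.c = s.a ∨ s.c * s.a ∈ s.K2)) ∧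
    (s.r * s.a ∈ s.K2 ∧ s.r * s.c ∈ s.K2 ∧ ¬ (s.r = s.y ∨ s.r * s.y ∈ s.K2)) :=
  s.hL.decide s.rep (by decide +kernel)

/-- The conjugates of the basis of `V5`. -/
def Cj (s : Co G) (g : G) (n0 n1 n2 n3 : ℕ) : Prop :=
  g * s.y * g⁻¹ = wd s n0 ∧ g * s.a * g⁻¹ = wd s n1 ∧ g * s.c * g⁻¹ = wd s n2 ∧ g * s.r * g⁻¹ = wd s n3

theorem cjs (s : Co G) : Cj s s.x2 1 2 4 25 ∧ Cj s s.x3 1 2 22 8 ∧ Cj s s.x23 1 2 23 27 ∧ Cj s s.w2 25 2 4 8 ∧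
    Cj s s.w3 1 22 4 8 := by
  unfold Cj wd
  exact s.hL.decide s.rep (by decide +kernel)

theorem pair (hφ : s.Fs φ) (i j : Fin 4) :
    φ (![s.y, s.a, s.c, s.r] j) * ![s.y, s.a, s.c, s.r] i = ![s.y, s.a, s.c, s.r] i * φ (![s.y, s.a, s.c, s.r] j) ↔
      (i : ℕ) + j ≠ 3 := by
  obtain ⟨-, m1, m2, m3, m4⟩ := mV s
  obtain ⟨-, -, -, -, -, ⟨k1, k2, k3, k4⟩, ⟨a1, a2, a3⟩, ⟨b1, b2, b3⟩, ⟨c1, c2, c3⟩, d1, d2, d3⟩ := fact s
  have hV : ∀ i : Fin 4, ![s.y, s.a, s.c, s.r] i ∈ s.V5 ∧ ![s.y, s.a, s.c, s.r] i ∈ s.K2 := by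
    intro i
    fin_cases i
    exacts [⟨m1, k1⟩, ⟨m2, k2⟩, ⟨m3, k3⟩, ⟨m4, k4⟩]
  rw [hφ.pair _ (hV i).1 _ (hV j).1 (hV i).2 (hV j).2]
  fin_cases i <;> fin_cases j
  exacts [iff_of_true (Or.inl rfl) (by decide), iff_of_true (Or.inr a1) (by decide),
    iff_of_true (Or.inr a2) (by decide), iff_of_false a3 (by decide),
    iff_of_true (Or.inr b1) (by decide), iff_of_true (Or.inl rfl) (by decide),
    iff_of_false b3 (by decide), iff_of_true (Or.inr b2) (by decide),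
    iff_of_true (Or.inr c1) (by decide), iff_of_false c3 (by decide),
    iff_of_true (Or.inl rfl) (by decide), iff_of_true (Or.inr c2) (by decide),
    iff_of_false d3 (by decide), iff_of_true (Or.inr d1) (by decide),
    iff_of_true (Or.inr d2) (by decide), iff_of_true (Or.inl rfl) (by decide)]

theorem table {v w : Fin 4 → G} {z : G} (hz : z ≠ 1) (h1 : ∀ i j, v i * v j = v j * v i)
    (h2 : ∀ i j, w i * w j = w j * w i) (h3 : ∀ i j : Fin 4, w j * v i = v i * w j ↔ (i : ℕ) + j ≠ 3)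
    (h4 : ∀ i, v i * k = k * v i) (h5 : ∀ i, k * w i = w i * k) (h6 : ∀ i, k' * v i = v i * k')
    (h7 : ∀ i, k' * w i = w i * k') (h8 : k' * k = z * (k * k')) (i j : Fin 10) :
    ![v 0, v 1, v 2, v 3, w 0, w 1, w 2, w 3, k, k'] i * ![v 0, v 1, v 2, v 3, w 0, w 1, w 2, w 3, k, k'] j =
      ![v 0, v 1, v 2, v 3, w 0, w 1, w 2, w 3, k, k'] j * ![v 0, v 1, v 2, v 3, w 0, w 1, w 2, w 3, k, k'] i ↔
        ¬ ((i : ℕ) + j = 7 ∨ (i : ℕ) + j = 17) := by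
  have h9 : k' * k ≠ k * k' := fun e => hz (by rw [e] at h8; exact (mul_eq_right.1 h8.symm))
  fin_cases i <;> fin_cases j <;> simp only [Fin.reduceFinMk, Fin.zero_eta, Fin.mk_one, Matrix.cons_val] <;>
    first
    | exact iff_of_true (h1 _ _) (by decide)
    | exact iff_of_true (h2 _ _) (by decide)
    | exact (h3 _ _).trans (by decide)
    | exact (eq_comm.trans (h3 _ _)).trans (by decide)
    | exact iff_of_true (h4 _) (by decide)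
    | exact iff_of_true (h4 _).symm (by decide)
    | exact iff_of_true (h5 _) (by decide)
    | exact iff_of_true (h5 _).symm (by decide)
    | exact iff_of_true (h6 _) (by decide)
    | exact iff_of_true (h6 _).symm (by decide)
    | exact iff_of_true (h7 _) (by decide)
    | exact iff_of_true (h7 _).symm (by decide)
    | exact iff_of_false h9 (by decide)
    | exact iff_of_false h9.symm (by decide)
    | exact iff_of_true trivial (by decide)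

/-- The basis. -/
abbrev bs (s : Co G) (φ : G → G) (k k' : G) : Fin 10 → G :=
  ![s.y, s.a, s.c, s.r, φ s.y, φ s.a, φ s.c, φ s.r, k, k']

theorem bs_mem (i : Fin 10) : bs s φ k k' i ∈ s.Q10 φ k k' := by
  fin_cases i <;> exact mem_clos (by simp)

theorem ex (h : s.Ks φ k k' k2 ε) (hφ : s.Fs φ) (x : s.Xs (s.Q10 φ k k') 5) :
    ∃ κ ρ, Crd (s.Q10 φ k k') s.x1 (q10 ε) κ ρ ∧ ∀ i, κ (bs s φ k k' i) = u i := by
  obtain ⟨m0, m1, m2, m3, m4⟩ := mV s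
  obtain ⟨f1, f2, -⟩ := fact s
  have hV : ∀ i : Fin 4, ![s.y, s.a, s.c, s.r] i ∈ s.V5 := by
    intro i
    fin_cases i
    exacts [m1, m2, m3, m4]
  have hz := x.es.z_ne
  refine exists_crd x.es (isQ10 ε) (bs s φ k k') bs_mem x.card ?_ (fun i => ?_) fun i j => ?_
  · refine clos_le.2 fun g hg => subset_closure ?_
    simp only [List.mem_cons, List.not_mem_nil, or_false] at hg
    rcases hg with rfl | rfl | rfl | rfl | rfl | rfl | rfl | rfl | rfl | rfl | rfl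
    exacts [Or.inl rfl, Or.inr ⟨0, rfl⟩, Or.inr ⟨1, rfl⟩, Or.inr ⟨2, rfl⟩, Or.inr ⟨3, rfl⟩, Or.inr ⟨4, rfl⟩,
      Or.inr ⟨5, rfl⟩, Or.inr ⟨6, rfl⟩, Or.inr ⟨7, rfl⟩, Or.inr ⟨8, rfl⟩, Or.inr ⟨9, rfl⟩]
  · rw [(pol_u h.lt).1]
    have hl : k' * k' = 1 ↔ ¬ ε = 1 := by
      have := h.lt
      rw [h.ll]
      interval_cases ε
      · simp
      · simpa using hz
    fin_cases i
    exacts [iff_of_true (f2 _ m1) (by simp), iff_of_true (f2 _ m2) (by simp), iff_of_true (f2 _ m3) (by simp),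
      iff_of_true (f2 _ m4) (by simp), iff_of_true (hφ.sq _ m1) (by simp), iff_of_true (hφ.sq _ m2) (by simp),
      iff_of_true (hφ.sq _ m3) (by simp), iff_of_true (hφ.sq _ m4) (by simp),
      iff_of_false (fun e => hz (h.kk.symm.trans e)) (by simp), hl.trans (by simp)]
  · rw [(pol_u h.lt).2]
    exact table (v := ![s.y, s.a, s.c, s.r]) (w := fun i => φ (![s.y, s.a, s.c, s.r] i)) hz
      (fun i j => f1 _ (hV i) _ (hV j)) (fun i j => hφ.cm _ (hV i) _ (hV j)) (pair hφ)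
      (fun i => h.kP _ (s.P1_les.1 (hV i))) (fun i => h.kφ _ (hV i)) (fun i => h.lV _ (hV i))
      (fun i => h.lφ _ (hV i)) h.lk i j

theorem rep {κ : G → Vec 10} {ρ : G → Gl 10} (c : Crd (s.Q10 φ k k') s.x1 (q10 ε) κ ρ)
    (hκ : ∀ i, κ (bs s φ k k' i) = u i) {g : G} (hg : g ∈ 𝐍[s.Q10 φ k k']) (M : Fin 10 → Vec 10)
    (hM : ∀ j, κ (g * bs s φ k k' j * g⁻¹) = M j) {a : ℕ}
    (ha : a < 2 ^ 100 ∧ ∀ j i : Fin 10, M j i = ((a / 2 ^ (10 * i + j : ℕ) % 2 : ℕ) : ZMod 2)) :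
    B10.C.Rep a (ρ g) :=
  rep10 ha.1 fun j i => by
    have := c.act g hg _ (bs_mem j)
    rw [hκ, hM] at this
    rw [← ha.2, this]

theorem φ_mem (hφ : s.Fs φ) {v : G} (hv : v ∈ s.V5) : φ v ∈ s.Q10 φ k k' := by
  have : s.Q8 φ ≤ s.Q10 φ k k' := clos_le.2 fun g hg => mem_clos (by
    simp only [List.mem_cons, List.not_mem_nil, or_false] at hg ⊢
    tauto)
  exact this (hφ.es8.2.2.2.2.2.2.1 v hv)

theorem repP (h : s.Ks φ k k' k2 ε) (hφ : s.Fs φ) (x : s.Xs (s.Q10 φ k k') 5) {κ : G → Vec 10} {ρ : G → Gl 10}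
    (c : Crd (s.Q10 φ k k') s.x1 (q10 ε) κ ρ) (hκ : ∀ i, κ (bs s φ k k' i) = u i) {g : G} (hg : g ∈ s.P1)
    {n0 n1 n2 n3 : ℕ} (hc : Cj s g n0 n1 n2 n3) {a : ℕ}
    (ha : a < 2 ^ 100 ∧ ∀ j i : Fin 10, ![lo n0, lo n1, lo n2, lo n3, hi n0, hi n1, hi n2, hi n3, u 8, u 9] j i =
      ((a / 2 ^ (10 * i + j : ℕ) % 2 : ℕ) : ZMod 2)) : B10.C.Rep a (ρ g) := by
  obtain ⟨m0, m1, m2, m3, m4⟩ := mV s
  have hz := x.es.z_mem
  have k1 : κ 1 = 0 := (c.ker 1 (one_mem _)).2 (Or.inl rfl)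
  have e1 : ∀ n, κ (wd s n) = lo n := fun n => by
    rw [add_wd (fun a ha b hb => c.add a (x.V5 ha) b (x.V5 hb)) ((c.ker _ hz).2 (Or.inr rfl)), lo,
      ← hκ 0, ← hκ 1, ← hκ 2, ← hκ 3]
    rfl
  have e2 : ∀ n, κ (φ (wd s n)) = hi n := fun n => by
    rw [add_wd (L := fun v => κ (φ v)) (fun a ha b hb => by
      rw [κ_eqv c hz (hφ.add a ha b hb) (mul_mem (φ_mem hφ ha) (φ_mem hφ hb)),
        c.add _ (φ_mem hφ ha) _ (φ_mem hφ hb)]) (by rw [hφ.z, k1]), hi, ← hκ 4, ← hκ 5, ← hκ 6, ← hκ 7]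
    rfl
  have e3 : ∀ v ∈ s.V5, κ (g * φ v * g⁻¹) = κ (φ (g * v * g⁻¹)) := fun v hv =>
    (κ_eqv c hz (hφ.conj g hg v hv) ((mem_normalizer_iff.1 (x.nP hg) _).1 (φ_mem hφ hv))).symm
  obtain ⟨c0, c1, c2, c3⟩ := hc
  refine rep c hκ (x.nP hg) _ (fun j => ?_) ha
  fin_cases j
  · exact (congrArg κ c0).trans (e1 _)
  · exact (congrArg κ c1).trans (e1 _)
  · exact (congrArg κ c2).trans (e1 _)
  · exact (congrArg κ c3).trans (e1 _)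
  · exact (e3 _ m1).trans (c0 ▸ e2 _)
  · exact (e3 _ m2).trans (c1 ▸ e2 _)
  · exact (e3 _ m3).trans (c2 ▸ e2 _)
  · exact (e3 _ m4).trans (c3 ▸ e2 _)
  · exact (congrArg κ (mul_inv_eq_iff_eq_mul.2 (h.kP g hg))).trans (hκ 8)
  · exact (κ_eqv c hz (h.lP g hg) (bs_mem 9)).trans (hκ 9)

end XS5

open XS5 in
theorem Co.Ks.crd (h : s.Ks φ k k' k2 ε) (hφ : s.Fs φ) (x : s.Xs (s.Q10 φ k k') 5) :
    ∃ κ ρ, Crd (s.Q10 φ k k') s.x1 (q10 ε) κ ρ ∧ κ s.y = Pi.single 0 1 ∧ k2 ∈ 𝐍[s.Q10 φ k k'] ∧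
      B10.C.RepL (z10 ε :: c10) [ρ k2, ρ s.t, ρ s.x2, ρ s.x3, ρ s.x23, ρ s.w2, ρ s.w3] := by
  obtain ⟨κ, ρ, c, hκ⟩ := ex h hφ x
  obtain ⟨m0, m1, m2, m3, m4⟩ := mV s
  obtain ⟨-, -, f3, f4, f5, -⟩ := fact s
  obtain ⟨j1, j2, j3, j4, j5⟩ := cjs s
  have hS : ∀ g ∈ [s.x2, s.x3, s.x23, s.w2, s.w3], g ∈ s.P1 := fun g hg => s.P1_les.2.1 (mem_clos hg)
  have hk2 : k2 ∈ 𝐍[s.Q10 φ k k'] := x.uf h.z2 (h.t2 ▸ mul_mem x.nt (x.nP (hS _ (by simp))))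
  have hz := x.es.z_mem
  have ad : ∀ i j, κ (bs s φ k k' i * bs s φ k k' j) = u i + u j := fun i j => by
    rw [c.add _ (bs_mem i) _ (bs_mem j), hκ, hκ]
  have mm : ∀ i j, bs s φ k k' i * bs s φ k k' j ∈ s.Q10 φ k k' := fun i j => mul_mem (bs_mem i) (bs_mem j)
  have ad3 : ∀ i j l, κ (bs s φ k k' i * bs s φ k k' j * bs s φ k k' l) = u i + u j + u l := fun i j l => by
    rw [c.add _ (mm i j) _ (bs_mem l), ad, hκ]
  refine ⟨κ, ρ, c, hκ 0, hk2, .cons ?_ (.cons ?_ (.cons (repP h hφ x c hκ (hS _ (by simp)) j1 (by decide +kernel))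
    (.cons (repP h hφ x c hκ (hS _ (by simp)) j2 (by decide +kernel))
    (.cons (repP h hφ x c hκ (hS _ (by simp)) j3 (by decide +kernel))
    (.cons (repP h hφ x c hκ (hS _ (by simp)) j4 (by decide +kernel))
    (.cons (repP h hφ x c hκ (hS _ (by simp)) j5 (by decide +kernel)) .nil))))))⟩
  · have fx : ∀ i, bs s φ k k' i ∈ [s.y, s.a, s.c, φ s.y, φ s.a, φ s.c] → κ (k2 * bs s φ k k' i * k2⁻¹) = u i :=
      fun i hi => (congrArg κ (mul_inv_eq_iff_eq_mul.2 (h.fix2 _ hi))).trans (hκ i)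
    refine rep c hκ hk2 ![u 0, u 1, u 2, u 3 + u 4 + u 8, u 4, u 5, u 6, u 7 + u 4 + u 9 + ε • u 0, u 8 + u 0, u 9 + u 4]
      (fun j => ?_) (by have := h.lt; interval_cases ε <;> decide +kernel)
    fin_cases j
    · exact fx 0 (by simp)
    · exact fx 1 (by simp)
    · exact fx 2 (by simp)
    · exact (κ_eqv c hz h.r2 (mul_mem (mm 3 4) (bs_mem 8))).trans (ad3 3 4 8)
    · exact fx 4 (by simp)
    · exact fx 5 (by simp)
    · exact fx 6 (by simp)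
    · have p1 := mul_mem (mm 7 4) (bs_mem (s := s) (φ := φ) (k := k) (k' := k') 9)
      have p2 := pow_mem (bs_mem (s := s) (φ := φ) (k := k) (k' := k') 0) ε
      refine (κ_eqv c hz h.φ2 (mul_mem p1 p2)).trans ((c.add _ p1 _ p2).trans ?_)
      rw [ad3, add_pow c.add (bs_mem 0), hκ]
      rfl
    · exact (κ_eqv c hz h.k2k (mm 8 0)).trans (ad 8 0)
    · exact (κ_eqv c hz h.l2 (mm 9 4)).trans (ad 9 4)
  · refine rep c hκ x.nt ![u 0, u 1, u 2, u 3, u 0 + u 4, u 1 + u 5, u 2 + u 6, u 3 + u 7, u 8, u 8 + u 9]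
      (fun j => ?_) (by decide +kernel)
    fin_cases j
    · exact (congrArg κ (f3 _ m1)).trans (hκ 0)
    · exact (congrArg κ (f3 _ m2)).trans (hκ 1)
    · exact (congrArg κ (f3 _ m3)).trans (hκ 2)
    · exact (congrArg κ (f3 _ m4)).trans (hκ 3)
    · exact (κ_eqv c hz (eqv_t f4 f5 (hφ.t' _ m1)) (mm 0 4)).trans (ad 0 4)
    · exact (κ_eqv c hz (eqv_t f4 f5 (hφ.t' _ m2)) (mm 1 5)).trans (ad 1 5)
    · exact (κ_eqv c hz (eqv_t f4 f5 (hφ.t' _ m3)) (mm 2 6)).trans (ad 2 6)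
    · exact (κ_eqv c hz (eqv_t f4 f5 (hφ.t' _ m4)) (mm 3 7)).trans (ad 3 7)
    · refine (κ_eqv c hz (eqv_t f4 f5 (Or.inl h.kt)) (mul_mem hz (bs_mem 8))).trans ?_
      exact (κ_eqv c hz (Or.inr rfl) (bs_mem 8)).trans (hκ 8)
    · exact (κ_eqv c hz (eqv_t f4 f5 h.lt') (mm 8 9)).trans (ad 8 9)

end Cfsg.Agent.S33
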